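import Mathlib
import Cfsg.Agent.H2.Perm8
import Cfsg.Agent.S0547

/-! Small lemmas on affine maps. -/

namespace Cfsg.Agent.H2.Pm

open MulAction

section
variable {K V : Type*} [Field K] [AddCommGroup V] [Module K V]

theorem exists_lin_equiv {ι : Type*} [Finite ι] {v w : ι → V} (hv : LinearIndependent K v)
    (hw : LinearIndependent K w) : ∃ A : V ≃ₗ[K] V, ∀ i, A (v i) = w i := by
  have : FiniteDimensional K (Submodule.span K (Set.range v)) :=
    FiniteDimensional.span_of_finite K (Set.finite_range _)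
  obtain ⟨g, hg⟩ := Submodule.exists_linearEquiv_restrict_eq
    (hv.linearCombinationEquiv.symm ≪≫ₗ hw.linearCombinationEquiv)
  refine ⟨g, fun i => ?_⟩
  have h1 : (hv.linearCombinationEquiv (Finsupp.single i 1) : V) = v i := by simp
  rw [← h1, ← hg]
  simp

theorem exists_lin_one {u u' : V} (h : u = 0 ↔ u' = 0) : ∃ A : V ≃ₗ[K] V, A u = u' := by
  by_cases hu : u = 0
  · exact ⟨1, by simp [hu, h.1 hu]⟩
  · obtain ⟨A, hA⟩ := exists_lin_equiv (K := K) (v := fun _ : Unit => u) (w := fun _ => u')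
      (linearIndependent_unique_iff.2 hu) (linearIndependent_unique_iff.2 (mt h.2 hu))
    exact ⟨A, hA ()⟩

theorem exists_lin_pair_two {V : Type*} [AddCommGroup V] [Module (ZMod 2) V] (u w u' w' : V)
    (h1 : u = 0 ↔ u' = 0) (h2 : w = 0 ↔ w' = 0) (h3 : u = w ↔ u' = w') :
    ∃ A : V ≃ₗ[ZMod 2] V, A u = u' ∧ A w = w' := by
  by_cases hu : u = 0
  · obtain ⟨A, hA⟩ := exists_lin_one (K := ZMod 2) h2
    exact ⟨A, by simp [hu, h1.1 hu], hA⟩
  obtain ⟨A, hA⟩ := exists_lin_one (K := ZMod 2) h1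
  by_cases hw : w = 0
  · exact ⟨A, hA, by simp [hw, h2.1 hw]⟩
  by_cases huw : u = w
  · exact ⟨A, hA, by rw [← huw, ← h3.1 huw, hA]⟩
  have key : ∀ u w : V, u ≠ 0 → w ≠ 0 → u ≠ w → LinearIndependent (ZMod 2) ![u, w] := by
    intro u w hu hw huw
    rw [LinearIndependent.pair_iff' hu]
    intro a
    have : a = 0 ∨ a = 1 := by revert a; decide
    rcases this with rfl | rfl
    · simpa using hw.symm
    · simpa using huw
  obtain ⟨B, hB⟩ := exists_lin_equiv (key u w hu hw huw)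
    (key u' w' (mt h1.2 hu) (mt h2.2 hw) (mt h3.2 huw))
  exact ⟨B, hB 0, hB 1⟩

theorem affine_of_triples (h2 : (2 : K) ≠ 0) (σ : Equiv.Perm V)
    (h : ∀ t : Fin 3 → V, ∃ (A : V ≃ₗ[K] V) (b : V), ∀ i, σ (t i) = A (t i) + b) :
    ∃ (A : V ≃ₗ[K] V) (b : V), ∀ x, σ x = A x + b := by
  have key : ∀ (c : K) (x y : V), σ ((1 - c) • x + c • y) = (1 - c) • σ x + c • σ y := by
    intro c x y
    obtain ⟨A, b, h⟩ := h ![x, y, (1 - c) • x + c • y]
    have h0 := h 0
    have h1 := h 1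
    have h2 := h 2
    simp only [Matrix.cons_val] at h0 h1 h2
    rw [h0, h1, h2, map_add, map_smul, map_smul]
    module
  have hs : ∀ (c : K) (y : V), σ (c • y) - σ 0 = c • (σ y - σ 0) := fun c y => by
    have := key c 0 y
    rw [smul_zero, zero_add] at this
    rw [this]; module
  let f : V →ₗ[K] V :=
    { toFun := fun x => σ x - σ 0
      map_smul' := hs
      map_add' := fun x y => by
        have h1 := key 2⁻¹ x y
        have h3 : (1 : K) - 2⁻¹ = 2⁻¹ := by field_simp; ring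
        rw [h3, ← smul_add] at h1
        have h4 := hs 2⁻¹ (x + y)
        rw [h1] at h4
        have h5 := congrArg ((2 : K) • ·) h4
        simp only [smul_smul, mul_inv_cancel₀ h2, one_smul, smul_sub, smul_add] at h5
        rw [← h5]; module }
  refine ⟨LinearEquiv.ofBijective f ⟨fun x y h => σ.injective (sub_left_injective h), fun y => ?_⟩,
    σ 0, fun x => (sub_add_cancel _ _).symm⟩
  exact ⟨σ.symm (y + σ 0), by simp [f]⟩

theorem exists_det_one [FiniteDimensional K V] (A : V ≃ₗ[K] V) (u w : V)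
    (hd : 3 ≤ Module.finrank K V) :
    ∃ B : V ≃ₗ[K] V, LinearMap.det (B : V →ₗ[K] V) = 1 ∧ B u = A u ∧ B w = A w := by
  classical
  have hlt : Submodule.span K ({u, w} : Set V) < ⊤ := by
    rw [lt_top_iff_ne_top]
    intro h
    have := finrank_span_finset_le_card (R := K) ({u, w} : Finset V)
    rw [Set.finrank, Finset.coe_pair, h, finrank_top] at this
    have := Finset.card_le_two (a := u) (b := w)
    omega
  obtain ⟨f, hf0, hf⟩ := Submodule.exists_dual_map_eq_bot_of_lt_top hlt inferInstance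
  have hfu : ∀ x ∈ ({u, w} : Set V), f x = 0 := fun x hx =>
    (Submodule.mem_bot K).1 (hf ▸ Submodule.mem_map_of_mem (Submodule.subset_span hx))
  obtain ⟨e, he⟩ := LinearMap.surjective_iff_ne_zero.2 hf0
    ((LinearMap.det (A : V →ₗ[K] V))⁻¹ - 1)
  have hA : LinearMap.det (A : V →ₗ[K] V) ≠ 0 := (LinearEquiv.isUnit_det' A).ne_zero
  have hu : IsUnit (1 + f e) := by rw [he]; simpa using hA
  refine ⟨LinearEquiv.dilatransvection hu ≪≫ₗ A, ?_, ?_, ?_⟩
  · rw [LinearEquiv.coe_trans, LinearMap.det_comp, LinearEquiv.dilatransvection.coe_toLinearMap,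
      LinearMap.transvection.det, he]
    simp [hA]
  · simp [LinearEquiv.dilatransvection.apply, hfu u]
  · simp [LinearEquiv.dilatransvection.apply, hfu w]

end

theorem affine_of_not_two_trans {p : ℕ} [Fact p.Prime] (C : Subgroup (Equiv.Perm (ZMod p)))
    {s : Equiv.Perm (ZMod p)} (hs : s ∈ C) (hs1 : ∀ x, s x = x + 1)
    (h2 : ¬ IsMultiplyPretransitive C (ZMod p) 2) :
    ∀ σ ∈ C, σ ∈ Cfsg.affineGroup (ZMod p) := by
  have hp : p.Prime := Fact.out
  have hs1' : ∀ x : ZMod p, Equiv.refl _ ((⟨s, hs⟩ : C) • x) = Equiv.refl _ x + 1 := hs1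
  have hpow := coord_pow _ _ hs1'
  have : IsPretransitive C (ZMod p) := ⟨fun a b => ⟨⟨s, hs⟩ ^ (b - a).val, by
    simpa using hpow (b - a).val a⟩⟩
  have hc : Nat.card (ZMod p) = p := Nat.card_zmod p
  have hsol : Group.IsSolvable C := by
    by_contra h; exact h2 (two_trans_of_prime hc h)
  have hne : (⟨s, hs⟩ : C) ≠ 1 := fun h => by
    have := hs1' 0
    rw [h] at this
    simp at this
  have : Nontrivial C := ⟨⟨_, _, hne⟩⟩
  have ho : orderOf (⟨s, hs⟩ : C) = p :=
    orderOf_eq_prime (eq_of_smul_eq_smul (α := ZMod p) fun x => by simpa using hpow p x) hne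
  obtain ⟨M, hM⟩ := exists_isMinNormal (G := C)
  have := hM.normal
  obtain ⟨-, -, q, d, -, -, h1, h3⟩ := S0547.result
    (IsPreprimitive.of_prime_card (G := C) (hc.symm ▸ hp)) M hM.ne_bot hM.min
  rw [← h1, hc] at h3
  obtain ⟨P, hP⟩ := exists_sylow_eq_of_not_dvd (U := M) (p := p) (IsPGroup.of_card (n := 1) (by simpa))
    (h3.symm ▸ not_sq_dvd_card hp hc)
  have hz : IsPGroup p (Subgroup.zpowers (⟨s, hs⟩ : C)) :=
    IsPGroup.of_card (n := 1) (by simpa using ho)
  have : (P : Subgroup C).Normal := hP ▸ this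
  have hle : Subgroup.zpowers (⟨s, hs⟩ : C) ≤ P := by
    obtain ⟨Q, hQ⟩ := hz.exists_le_sylow
    have := Sylow.unique_of_normal P this
    exact Subsingleton.elim Q P ▸ hQ
  have heq : Subgroup.zpowers (⟨s, hs⟩ : C) = P :=
    Subgroup.eq_of_le_of_card_ge hle (by rw [hP, h3, Nat.card_zpowers, ho])
  intro σ hσ
  obtain ⟨k, c, h⟩ := exists_affine_of_mem_normalizer _ ⟨σ, hσ⟩ _ hs1' ho
    (heq ▸ this.conj_mem _ (hle (Subgroup.mem_zpowers _)) _)
  have hk : k ≠ 0 := by
    rintro rfl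
    have := (h 0).trans (by simp : _ = 0 * (Equiv.refl _ 1) + c) |>.trans (h 1).symm
    exact zero_ne_one (σ.injective this)
  exact ⟨Units.mk0 k hk, c, h⟩

end Cfsg.Agent.H2.Pm
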