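import Cfsg.Agent.H4.Char3
import Cfsg.Agent.H1.Frobenius

/-! Characters multiplicative on elements of coprime prime power orders. -/

namespace Cfsg.Agent.H2.CMul
open Subgroup Cfsg.Agent.H4
open scoped Pointwise commutatorElement ComplexConjugate

variable {G : Type*} [Group G] [Finite G]

theorem fpf_surj {D : Subgroup G} [hD : D.Normal] {g : G} (h : ∀ d ∈ D, g * d = d * g → d = 1) {e : G} (he : e ∈ D) :
    ∃ d ∈ D, e = d * g * d⁻¹ * g⁻¹ := by
  let f : D → D := fun d => ⟨d * g * (d : G)⁻¹ * g⁻¹, by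
    have := D.mul_mem d.2 (hD.conj_mem _ (D.inv_mem d.2) g)
    simpa [mul_assoc] using this⟩
  have hf : Function.Injective f := by
    intro a b hab
    have h1 : (a : G) * g * (a : G)⁻¹ * g⁻¹ = b * g * (b : G)⁻¹ * g⁻¹ := congrArg Subtype.val hab
    have h2 := h ((b : G)⁻¹ * a) (D.mul_mem (D.inv_mem b.2) a.2) (by
      have : (a : G) * g * (a : G)⁻¹ = b * g * (b : G)⁻¹ := mul_right_cancel h1
      calc g * ((b : G)⁻¹ * a) = (b : G)⁻¹ * (b * g * (b : G)⁻¹) * a := by group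
        _ = (b : G)⁻¹ * a * g := by rw [← this]; group)
    exact Subtype.ext (inv_mul_eq_one.mp h2).symm
  obtain ⟨d, hd⟩ := (Finite.injective_iff_surjective.mp hf) ⟨e, he⟩
  exact ⟨d, d.2, (congrArg Subtype.val hd).symm⟩

theorem vanish {χ : G → ℂ} (hχ : IsIrrCharacter G χ) {D : Subgroup G} [hD : D.Normal] (hk : ¬ D ≤ charKer χ) {g : G}
    (h : ∀ d ∈ D, g * d = d * g → d = 1) {e : G} (he : e ∈ D) : χ (e * g) = 0 := by
  classical
  have := Fintype.ofFinite D
  have h1 : ∀ e ∈ D, χ (e * g) = χ g := by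
    intro e he
    obtain ⟨d, -, rfl⟩ := fpf_surj h he
    rw [inv_mul_cancel_right]; exact hχ.isClassFunction g d
  have h2 := hχ.sum_normal_mul_eq_zero D hk g
  rw [Finset.sum_congr rfl (fun (n : D) _ => h1 n n.2), Finset.sum_const, nsmul_eq_mul] at h2
  rw [h1 e he]
  exact (mul_eq_zero.mp h2).resolve_left (by simp)

theorem pow_eq {p q a b : ℕ} (hp : p.Prime) (hq : q.Prime) {x : G} (hx : x ≠ 1) (h1 : orderOf x = p ^ a)
    (h2 : orderOf x = q ^ b) : p = q := by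
  have ha : a ≠ 0 := by rintro rfl; exact hx (orderOf_eq_one_iff.mp (by simpa using h1))
  exact (Nat.prime_dvd_prime_iff_eq hp hq).mp (hp.dvd_of_dvd_pow (h2 ▸ h1 ▸ dvd_pow_self p ha))

theorem back {p : ℕ} [Fact p.Prime] (P : Sylow p G) (A : Subgroup G) [hP : (P : Subgroup G).Normal] (hA : IsCyclic A)
    (hcop : (Nat.card A).Coprime p) (htop : A ⊔ (P : Subgroup G) = ⊤)
    (hC : IsMulCommutative ↥((P : Subgroup G) ⊓ centralizer (A : Set G))) [hD : (⁅A, (P : Subgroup G)⁆).Normal]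
    (hCD : ((P : Subgroup G) ⊓ centralizer (A : Set G)) ⊔ ⁅A, (P : Subgroup G)⁆ = (P : Subgroup G))
    (hf : ∀ a ∈ A, a ≠ 1 → ∀ d ∈ ⁅A, (P : Subgroup G)⁆, a * d = d * a → d = 1)
    (x y : G) (χ : IrrCharacter G) (hx : x ≠ 1) (hy : y ≠ 1) {r q a b : ℕ} (hr : r.Prime) (hq : q.Prime) (hrq : r ≠ q)
    (ox : orderOf x = r ^ a) (oy : orderOf y = q ^ b) : (χ : G → ℂ) (x * y) = (χ : G → ℂ) x * (χ : G → ℂ) y := by
  set C := (P : Subgroup G) ⊓ centralizer (A : Set G) with hCdef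
  set D := ⁅A, (P : Subgroup G)⁆ with hDdef
  have hAc : ∀ a ∈ A, ∀ b ∈ A, a * b = b * a := fun a ha b hb =>
    congrArg Subtype.val (hA.isMulCommutative.is_comm.comm (⟨a, ha⟩ : A) ⟨b, hb⟩)
  have hCc : ∀ a ∈ C, ∀ b ∈ C, a * b = b * a := fun a ha b hb =>
    congrArg Subtype.val (hC.is_comm.comm (⟨a, ha⟩ : C) ⟨b, hb⟩)
  have hAC : ∀ a ∈ A, ∀ c ∈ C, a * c = c * a := fun a ha c hc => hc.2 a ha
  have hdec : ∀ g : G, ∃ d ∈ D, ∃ a ∈ A, ∃ c ∈ C, g = d * (a * c) := by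
    intro g
    have h1 : g ∈ A ⊔ (P : Subgroup G) := by rw [htop]; trivial
    obtain ⟨a, ha, u, hu, rfl⟩ := mem_sup_of_normal_right.mp h1
    rw [← hCD] at hu
    obtain ⟨c, hc, d, hd, rfl⟩ := mem_sup_of_normal_right.mp hu
    exact ⟨(a * c) * d * (a * c)⁻¹, hD.conj_mem d hd _, a, ha, c, hc, by group⟩
  have hDP : D ≤ P := hCD ▸ le_sup_right
  by_cases hk : D ≤ charKer (χ : G → ℂ)
  · refine χ.2.isCharacter.map_mul_of_apply_one (χ.2.commutator_le_charKer_iff.mp (le_trans ?_ hk)) x y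
    rw [commutator_def, commutator_le]
    intro g _ h _
    obtain ⟨d, hd, a, ha, c, hc, rfl⟩ := hdec g
    obtain ⟨d', hd', a', ha', c', hc', rfl⟩ := hdec h
    have e : (a * c) * (a' * c') = (a' * c') * (a * c) := by
      calc (a * c) * (a' * c') = a * (c * a') * c' := by group
        _ = (a * a') * (c * c') := by rw [← hAC a' ha' c hc]; group
        _ = (a' * a) * (c' * c) := by rw [hAc a ha a' ha', hCc c hc c' hc']
        _ = a' * (a * c') * c := by group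
        _ = (a' * c') * (a * c) := by rw [hAC a ha c' hc']; group
    rw [← QuotientGroup.eq_one_iff, ← QuotientGroup.mk'_apply, map_commutatorElement, commutatorElement_eq_one_iff_mul_comm]
    have e1 : QuotientGroup.mk' D d = 1 := (QuotientGroup.eq_one_iff _).mpr hd
    have e2 : QuotientGroup.mk' D d' = 1 := (QuotientGroup.eq_one_iff _).mpr hd'
    rw [map_mul _ d, map_mul _ d', e1, e2, one_mul, one_mul, ← map_mul, ← map_mul, e]
  have van : ∀ g, g ∉ (P : Subgroup G) → (χ : G → ℂ) g = 0 := by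
    intro g hg
    obtain ⟨d, hd, a, ha, c, hc, rfl⟩ := hdec g
    have ha1 : a ≠ 1 := by
      rintro rfl; exact hg (mul_mem (hDP hd) (mul_mem (one_mem _) hc.1))
    refine vanish χ.2 hk (fun e he h => ?_) hd
    obtain ⟨k, hk⟩ := P.isPGroup' ⟨c, hc.1⟩
    have hk' : c ^ p ^ k = 1 := congrArg Subtype.val hk
    have h1 : (a * c) ^ p ^ k = a ^ p ^ k := by rw [(show Commute a c from hAC a ha c hc).mul_pow, hk', mul_one]
    refine hf (a ^ p ^ k) (pow_mem ha _) (fun h0 => ha1 ?_) e he ?_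
    · have h2 : orderOf a ∣ Nat.card A := A.orderOf_dvd_natCard ha
      exact orderOf_eq_one_iff.mp (Nat.eq_one_of_dvd_coprimes (hcop.pow_right k) h2 (orderOf_dvd_of_pow_eq_one h0))
    · rw [← h1]; exact (show Commute (a * c) e from h).pow_left _
  have inP : ∀ {z : G} {s k : ℕ}, z ≠ 1 → s.Prime → orderOf z = s ^ k → z ∈ (P : Subgroup G) → s = p := by
    intro z s k hz hs oz hzP
    obtain ⟨j, hj⟩ := IsPGroup.iff_orderOf.mp P.isPGroup' ⟨z, hzP⟩
    rw [orderOf_mk] at hj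
    exact pow_eq hs Fact.out hz oz hj
  have hxy : x * y ∉ (P : Subgroup G) := by
    intro h
    have h1 : (QuotientGroup.mk' (P : Subgroup G)) x = ((QuotientGroup.mk' (P : Subgroup G)) y)⁻¹ := by
      rw [eq_inv_iff_mul_eq_one, ← map_mul]; exact (QuotientGroup.eq_one_iff _).mpr h
    have h2 := orderOf_map_dvd (QuotientGroup.mk' (P : Subgroup G)) x
    have h3 := orderOf_map_dvd (QuotientGroup.mk' (P : Subgroup G)) y
    rw [← orderOf_inv, ← h1, oy] at h3
    rw [ox] at h2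
    have h4 := orderOf_eq_one_iff.mp
      (Nat.eq_one_of_dvd_coprimes (Nat.coprime_pow_primes a b hr hq hrq) h2 h3)
    have hxP : x ∈ (P : Subgroup G) := (QuotientGroup.eq_one_iff _).mp h4
    have hyP : y ∈ (P : Subgroup G) := by simpa using mul_mem (inv_mem hxP) h
    exact hrq ((inP hx hr ox hxP).trans (inP hy hq oy hyP).symm)
  rw [van _ hxy]
  by_cases hxP : x ∈ (P : Subgroup G)
  · rw [van y (fun hyP => hxy (mul_mem hxP hyP)), mul_zero]
  · rw [van x hxP, zero_mul]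

/-- `χ` vanishes on nontrivial `q`-elements -/
def Van (χ : G → ℂ) (q : ℕ) : Prop := ∀ y : G, y ≠ 1 → (∃ b, orderOf y = q ^ b) → χ y = 0

theorem Van.dvd {χ : G → ℂ} (hχ : IsCharacter G χ) {q : ℕ} (hq : q.Prime) (h : Van χ q) {d : ℕ} (hd : χ 1 = d) :
    q ^ (Nat.card G).factorization q ∣ d := by
  classical
  have := Fact.mk hq
  obtain ⟨Q⟩ := (inferInstance : Nonempty (Sylow q G))
  have := Fintype.ofFinite (Q : Subgroup G)
  obtain ⟨n, hn⟩ := (hχ.restrict (Q : Subgroup G)).classInner_nat isCharacter_one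
  rw [classInner_one_right, Finset.sum_eq_single 1] at hn
  · rw [← Q.card_eq_multiplicity]
    refine ⟨n, ?_⟩
    have h0 : (Nat.card (Q : Subgroup G) : ℂ) ≠ 0 := natCard_ne_zero'
    rw [OneMemClass.coe_one, hd] at hn
    have : (d : ℂ) = Nat.card (Q : Subgroup G) * n := by rw [← hn]; field_simp
    exact_mod_cast this
  · intro y _ hy
    refine h y (fun e => hy (Subtype.ext e)) ?_
    obtain ⟨j, hj⟩ := IsPGroup.iff_orderOf.mp Q.isPGroup' y
    exact ⟨j, by rw [← hj, orderOf_coe]⟩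
  · simp

theorem exists_prime (hna : ¬ IsMulCommutative G)
    (h : ∀ (x y : G) (χ : IrrCharacter G), x ≠ 1 → y ≠ 1 →
      (∃ p q a b : ℕ, p.Prime ∧ q.Prime ∧ p ≠ q ∧ orderOf x = p ^ a ∧ orderOf y = q ^ b) →
      (χ : G → ℂ) (x * y) = (χ : G → ℂ) x * (χ : G → ℂ) y) :
    ∃ p : ℕ, p.Prime ∧ ∀ χ : IrrCharacter G, (χ : G → ℂ) 1 ≠ 1 → ∀ q : ℕ, q.Prime → q ≠ p → Van (χ : G → ℂ) q := by
  classical
  have := Fintype.ofFinite G
  have hn0 : Nat.card G ≠ 0 := Nat.card_pos.ne'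
  have two : ∀ χ : IrrCharacter G, (χ : G → ℂ) 1 ≠ 1 → ∀ p q : ℕ, p.Prime → q.Prime → p ≠ q →
      ¬ Van (χ : G → ℂ) p → Van (χ : G → ℂ) q := by
    intro χ h1 p q hp hq hpq hv y hy ⟨b, hb⟩
    simp only [Van] at hv
    push Not at hv
    obtain ⟨x, hx, ⟨a, ha⟩, hx0⟩ := hv
    have e := χ.2.sum_conj_mul x y
    have e2 : ∀ g : G, (χ : G → ℂ) (g * x * g⁻¹ * y) = (χ : G → ℂ) x * (χ : G → ℂ) y := by
      intro g
      rw [h (g * x * g⁻¹) y χ (by simpa using hx) hy ⟨p, q, a, b, hp, hq, hpq, by rw [← ha]; exact (MulAut.conj g).orderOf_eq x, hb⟩,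
        χ.2.isClassFunction x g]
    rw [Finset.sum_congr rfl (fun g _ => e2 g), Finset.sum_const, nsmul_eq_mul, Finset.card_univ,
      ← Nat.card_eq_fintype_card] at e
    have h0 : (Nat.card G : ℂ) ≠ 0 := natCard_ne_zero'
    have h2 := χ.2.apply_one_ne_zero
    field_simp at e
    have : (χ : G → ℂ) y * ((χ : G → ℂ) 1 - 1) = 0 := by linear_combination e
    exact (mul_eq_zero.mp this).resolve_right (sub_ne_zero.mpr h1)
  have sq : ∀ χ : IrrCharacter G, ∃ d : ℕ, d ≠ 0 ∧ (χ : G → ℂ) 1 = d ∧ d ^ 2 ≤ Nat.card G := by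
    intro χ
    obtain ⟨d, hd0, hd⟩ := χ.2.exists_degree
    exact ⟨d, hd0.ne', hd, (χ.2.degree_sq_le_index_charCenter hd).trans
      (Nat.le_of_dvd Nat.card_pos (index_dvd_card _))⟩
  have one : ∀ χ : IrrCharacter G, (χ : G → ℂ) 1 ≠ 1 → ∃ p : ℕ, p.Prime ∧ ¬ Van (χ : G → ℂ) p := by
    intro χ h1
    by_contra hc
    push Not at hc
    obtain ⟨d, hd0, hd, hsq⟩ := sq χ
    have h2 : Nat.card G ∣ d := (Nat.factorization_prime_le_iff_dvd hn0 hd0).mp fun q hq =>
      (hq.pow_dvd_iff_le_factorization hd0).mp ((hc q hq).dvd χ.2.isCharacter hq hd)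
    have h3 := Nat.le_of_dvd (Nat.pos_of_ne_zero hd0) h2
    have : d = 1 := by nlinarith [Nat.pos_of_ne_zero hd0]
    exact h1 (by rw [hd, this]; simp)
  have big : ∀ χ : IrrCharacter G, (χ : G → ℂ) 1 ≠ 1 → ∀ p : ℕ, p.Prime → ¬ Van (χ : G → ℂ) p →
      ∀ q : ℕ, q.Prime → q ≠ p → q ^ (Nat.card G).factorization q ≤ p ^ (Nat.card G).factorization p := by
    intro χ h1 p hp hv q hq hqp
    obtain ⟨d, hd0, hd, hsq⟩ := sq χ
    have hm0 : Nat.card G / p ^ (Nat.card G).factorization p ≠ 0 := (Nat.ordCompl_pos p hn0).ne'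
    have hfac : ∀ r : ℕ, r ≠ p → (Nat.card G / p ^ (Nat.card G).factorization p).factorization r =
        (Nat.card G).factorization r := fun r hr => by
      rw [Nat.factorization_ordCompl, Finsupp.erase_ne hr]
    have h2 : Nat.card G / p ^ (Nat.card G).factorization p ∣ d :=
      (Nat.factorization_prime_le_iff_dvd hm0 hd0).mp fun r hr => by
        by_cases hrp : r = p
        · rw [hrp, Nat.factorization_ordCompl, Finsupp.erase_same]; exact Nat.zero_le _
        · rw [hfac r hrp]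
          exact (hr.pow_dvd_iff_le_factorization hd0).mp
            ((two χ h1 p r hp hr (Ne.symm hrp) hv).dvd χ.2.isCharacter hr hd)
    have h3 := Nat.le_of_dvd (Nat.pos_of_ne_zero hd0) h2
    have h4 := Nat.ordProj_mul_ordCompl_eq_self (Nat.card G) p
    have h5 : q ^ (Nat.card G).factorization q ∣ Nat.card G / p ^ (Nat.card G).factorization p :=
      (hq.pow_dvd_iff_le_factorization hm0).mpr (hfac q hqp).ge
    have h6 := Nat.le_of_dvd (Nat.pos_of_ne_zero hm0) h5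
    refine h6.trans ?_
    set m := Nat.card G / p ^ (Nat.card G).factorization p
    set u := p ^ (Nat.card G).factorization p
    have hm : 0 < m := Nat.pos_of_ne_zero hm0
    nlinarith
  obtain ⟨χ0, h0⟩ : ∃ χ : IrrCharacter G, (χ : G → ℂ) 1 ≠ 1 := by
    by_contra hc
    push Not at hc
    exact hna ⟨⟨comm_iff_forall_irr_degree_one.mpr hc⟩⟩
  obtain ⟨p, hp, hv⟩ := one χ0 h0
  refine ⟨p, hp, fun χ h1 q hq hqp => ?_⟩
  by_contra hv'
  have e := le_antisymm (big χ0 h0 p hp hv q hq hqp) (big χ h1 q hq hv' p hp hqp.symm)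
  simp only [Van] at hv
  push Not at hv
  obtain ⟨x, hx, ⟨a, ha⟩, -⟩ := hv
  have ha0 : a ≠ 0 := by rintro rfl; exact hx (orderOf_eq_one_iff.mp (by simpa using ha))
  have h2 : p ∣ Nat.card G := (ha ▸ dvd_pow_self p ha0).trans (orderOf_dvd_natCard x)
  have h3 : p ∣ q ^ (Nat.card G).factorization q := by
    rw [e]; exact dvd_pow_self p (hp.factorization_pos_of_dvd hn0 h2).ne'
  exact hqp ((Nat.prime_dvd_prime_iff_eq hp hq).mp (hp.dvd_of_dvd_pow h3)).symm

theorem conj_of_van {y d : G} (hd : d ∈ commutator G)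
    (h : ∀ χ : IrrCharacter G, (χ : G → ℂ) 1 ≠ 1 → (χ : G → ℂ) y = 0) : IsConj y (d * y) := by
  by_contra hc
  have h1 := column_orthogonality_of_not_isConj hc
  have h2 := column_orthogonality_of_isConj (IsConj.refl y)
  rw [Finset.sum_congr rfl (g := fun χ : IrrCharacter G => (χ : G → ℂ) y * conj ((χ : G → ℂ) y)) (fun χ _ => by
    by_cases h1 : (χ : G → ℂ) 1 = 1
    · rw [apply_mul_of_mem_charKer (χ.2.commutator_le_charKer_iff.mpr h1 hd)]
    · rw [h χ h1]; simp), h2] at h1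
  exact natCard_ne_zero' h1

theorem forth (hna : ¬ IsMulCommutative G) (hnp : ¬ ∃ p : ℕ, p.Prime ∧ IsPGroup p G)
    (h : ∀ (x y : G) (χ : IrrCharacter G), x ≠ 1 → y ≠ 1 →
      (∃ p q a b : ℕ, p.Prime ∧ q.Prime ∧ p ≠ q ∧ orderOf x = p ^ a ∧ orderOf y = q ^ b) →
      (χ : G → ℂ) (x * y) = (χ : G → ℂ) x * (χ : G → ℂ) y) :
    ∃ (p : ℕ) (_ : Fact p.Prime) (P : Sylow p G) (A : Subgroup G), (P : Subgroup G).Normal ∧ IsCyclic ↥A ∧ A ≠ ⊥ ∧ (Nat.card ↥A).Coprime p ∧ A ⊔ (P : Subgroup G) = ⊤ ∧ IsMulCommutative ↥((P : Subgroup G) ⊓ Subgroup.centralizer (A : Set G)) ∧ (⁅A, (P : Subgroup G)⁆).Normal ∧ ((P : Subgroup G) ⊓ Subgroup.centralizer (A : Set G)) ⊔ ⁅A, (P : Subgroup G)⁆ = (P : Subgroup G) ∧ ((P : Subgroup G) ⊓ Subgroup.centralizer (A : Set G)) ⊓ ⁅A, (P : Subgroup G)⁆ = ⊥ ∧ ∀ a ∈ A, a ≠ 1 → ∀ d ∈ ⁅A, (P : Subgroup G)⁆, a * d = d * a → d = 1 := by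
  obtain ⟨p, hp, hv⟩ := exists_prime hna h
  have := Fact.mk hp
  have hcj : ∀ y : G, (orderOf y).Prime → orderOf y ≠ p → ∀ d ∈ commutator G, IsConj y (d * y) := by
    intro y hy hyp d hd
    refine conj_of_van hd fun χ h1 => hv χ h1 _ hy hyp y (fun e => ?_) ⟨1, (pow_one _).symm⟩
    rw [e, orderOf_one] at hy; exact Nat.not_prime_one hy
  have hD : IsPGroup p (commutator G) := by
    rw [IsPGroup.iff_card]
    refine ⟨_, Nat.eq_prime_pow_of_unique_prime_dvd Nat.card_pos.ne' fun {q} hq hqd => ?_⟩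
    by_contra hqp
    have := Fact.mk hq
    obtain ⟨y, hy⟩ := exists_prime_orderOf_dvd_card' q hqd
    rw [← orderOf_coe] at hy
    have := hcj y (hy ▸ hq) (hy ▸ hqp) _ (inv_mem y.2)
    rw [inv_mul_cancel, isConj_one_left] at this
    rw [this, orderOf_one] at hy
    exact hq.ne_one hy.symm
  obtain ⟨P, hP⟩ := hD.exists_le_sylow
  have hPn : (P : Subgroup G).Normal := Normal.of_commutator_le G hP
  obtain ⟨A, hA⟩ := exists_right_complement'_of_coprime (N := (P : Subgroup G)) P.card_coprime_index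
  have hAcard : Nat.card A = (P : Subgroup G).index := hA.symm.index_eq_card.symm
  have hcop : (Nat.card A).Coprime p := by
    rw [hAcard]; exact ((Nat.Prime.coprime_iff_not_dvd hp).mpr P.not_dvd_index).symm
  have hdis : ∀ g ∈ A, g ∈ (P : Subgroup G) → g = 1 := fun g h1 h2 => disjoint_def.mp hA.disjoint h2 h1
  have hAc : IsMulCommutative A := ⟨⟨fun a b => Subtype.ext (commutatorElement_eq_one_iff_mul_comm.mp
    (hdis _ (by rw [commutatorElement_def]; exact mul_mem (mul_mem (mul_mem a.2 b.2) (inv_mem a.2)) (inv_mem b.2))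
      (hP (commutator_mem_commutator (mem_top _) (mem_top _)))))⟩⟩
  have hf : ∀ a ∈ A, a ≠ 1 → ∀ d ∈ commutator G, a * d = d * a → d = 1 := by
    intro a ha ha1 d hd had
    obtain ⟨q, hq, hqd⟩ := Nat.exists_prime_and_dvd (fun e => ha1 (orderOf_eq_one_iff.mp e))
    have o1 : orderOf (a ^ (orderOf a / q)) = q := orderOf_pow_orderOf_div (orderOf_pos a).ne' hqd
    have hqp : q ≠ p := by
      rintro rfl
      exact hp.ne_one (Nat.eq_one_of_dvd_coprimes hcop (hqd.trans (A.orderOf_dvd_natCard ha)) dvd_rfl)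
    set y := a ^ (orderOf a / q) with hy
    have c1 : Commute d y := (show Commute d a from had.symm).pow_right _
    obtain ⟨g, hg⟩ := isConj_iff.mp (hcj y (o1 ▸ hq) (o1 ▸ hqp) d hd)
    have h2 : (d * y) ^ q = 1 := by rw [← hg, conj_pow, ← o1, pow_orderOf_eq_one]; simp
    rw [c1.mul_pow, ← o1, pow_orderOf_eq_one, mul_one, o1] at h2
    obtain ⟨k, hk⟩ := hD ⟨d, hd⟩
    have hk' : d ^ p ^ k = 1 := congrArg Subtype.val hk
    exact orderOf_eq_one_iff.mp (Nat.eq_one_of_dvd_coprimes (((Nat.coprime_primes hq hp).mpr hqp).pow_right k)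
      (orderOf_dvd_of_pow_eq_one h2) (orderOf_dvd_of_pow_eq_one hk'))
  have hA1 : A ≠ ⊥ := by
    rintro rfl
    refine hnp ⟨p, hp, ?_⟩
    have : (P : Subgroup G) = ⊤ := by simpa using hA.sup_eq_top
    exact P.isPGroup'.of_equiv ((MulEquiv.subgroupCongr this).trans topEquiv)
  have hD1 : commutator G ≠ ⊥ := fun e => hna ⟨⟨fun a b => commutatorElement_eq_one_iff_mul_comm.mp
    (mem_bot.mp (e ▸ commutator_mem_commutator (mem_top a) (mem_top b)))⟩⟩
  have hcyc : IsCyclic A := H1.isCyclic_of_fpf hD1 (by rw [normalizer_eq_top]; exact le_top) fun a ha ha1 =>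
    eq_bot_iff.mpr fun d hd => hf a ha ha1 d hd.1 (hd.2 a rfl)
  obtain ⟨⟨a, ha⟩, hgen⟩ := hcyc.exists_generator
  have ha1 : a ≠ 1 := by
    rintro rfl
    refine hA1 (eq_bot_iff.mpr fun x hx => ?_)
    obtain ⟨k, hk⟩ := hgen ⟨x, hx⟩
    have := congrArg Subtype.val hk
    simpa using this.symm
  have hE : ⁅A, (P : Subgroup G)⁆ = commutator G := by
    refine le_antisymm (commutator_mono le_top le_top) fun e he => ?_
    obtain ⟨d, hd, rfl⟩ := fpf_surj (hf a ha ha1) he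
    rw [commutator_comm]
    exact commutator_mem_commutator (hP hd) ha
  rw [← hE] at hf
  have hbot : ((P : Subgroup G) ⊓ centralizer (A : Set G)) ⊓ ⁅A, (P : Subgroup G)⁆ = ⊥ :=
    eq_bot_iff.mpr fun d hd => hf a ha ha1 d hd.2 (hd.1.2 a ha)
  refine ⟨p, inferInstance, P, A, hPn, hcyc, hA1, hcop, by rw [sup_comm]; exact hA.sup_eq_top, ⟨⟨fun x y => ?_⟩⟩,
    hE ▸ inferInstance, le_antisymm (sup_le inf_le_left (hE ▸ hP)) fun x hx => ?_, hbot, hf⟩
  · refine Subtype.ext (commutatorElement_eq_one_iff_mul_comm.mp (mem_bot.mp (hbot ▸ mem_inf.mpr ⟨?_, ?_⟩)))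
    · rw [commutatorElement_def]; exact mul_mem (mul_mem (mul_mem x.2 y.2) (inv_mem x.2)) (inv_mem y.2)
    · rw [hE]; exact commutator_mem_commutator (mem_top _) (mem_top _)
  · have : (⁅A, (P : Subgroup G)⁆).Normal := hE ▸ inferInstance
    obtain ⟨d, hd, e⟩ := fpf_surj (hf a ha ha1) (e := x * a * x⁻¹ * a⁻¹)
      (hE ▸ commutator_mem_commutator (mem_top x) (mem_top a))
    have h1 : Commute (d⁻¹ * x) a := by
      have : x * a * x⁻¹ = d * a * d⁻¹ := mul_right_cancel e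
      calc d⁻¹ * x * a = d⁻¹ * (x * a * x⁻¹) * x := by group
        _ = a * (d⁻¹ * x) := by rw [this]; group
    have h2 : d⁻¹ * x ∈ (P : Subgroup G) ⊓ centralizer (A : Set G) := by
      refine mem_inf.mpr ⟨mul_mem (inv_mem (hP (hE ▸ hd))) hx, fun b hb => ?_⟩
      obtain ⟨k, hk⟩ := hgen ⟨b, hb⟩
      have hk' : a ^ k = b := congrArg Subtype.val hk
      rw [← hk']; exact (h1.zpow_right k).symm
    have : x = d * (d⁻¹ * x) := by group
    rw [this]
    exact mul_mem (mem_sup_right hd) (mem_sup_left h2)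

end Cfsg.Agent.H2.CMul
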