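import Cfsg.Agent.H5.Clifford1
import Cfsg.Agent.H4.Integral
import Cfsg.Agent.H2.Basic
import Cfsg.Agent.H6.MGrp

/-! Solvable groups embed in central quotients of groups of central type. -/

namespace Cfsg.Agent.H2.CType
open Cfsg Cfsg.Agent.H4 Cfsg.Agent.H5 Finset UniqueFactorizationMonoid
open scoped ComplexConjugate

universe u

/-- a wreath product twisted with a Heisenberg group -/
@[ext] structure W (p : ℕ) (K : Type u) where
  k : ZMod p → K
  b : ZMod p
  a : ZMod p
  q : ZMod p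

namespace W
variable {p : ℕ} {K L : Type u} [Group K] [Group L]

instance : Mul (W p K) := ⟨fun x y => ⟨fun t => x.k t * y.k (t - x.q), x.b + y.b, x.a + y.a + x.q * y.b, x.q + y.q⟩⟩
instance : One (W p K) := ⟨⟨1, 0, 0, 0⟩⟩
instance : Inv (W p K) := ⟨fun x => ⟨fun t => (x.k (t + x.q))⁻¹, -x.b, -x.a + x.q * x.b, -x.q⟩⟩
@[simp] theorem mul_k (x y : W p K) (t) : (x * y).k t = x.k t * y.k (t - x.q) := rfl
@[simp] theorem mul_b (x y : W p K) : (x * y).b = x.b + y.b := rfl
@[simp] theorem mul_a (x y : W p K) : (x * y).a = x.a + y.a + x.q * y.b := rfl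
@[simp] theorem mul_q (x y : W p K) : (x * y).q = x.q + y.q := rfl
@[simp] theorem one_k (t) : (1 : W p K).k t = 1 := rfl
@[simp] theorem one_b : (1 : W p K).b = 0 := rfl
@[simp] theorem one_a : (1 : W p K).a = 0 := rfl
@[simp] theorem one_q : (1 : W p K).q = 0 := rfl
@[simp] theorem inv_k (x : W p K) (t) : (x⁻¹).k t = (x.k (t + x.q))⁻¹ := rfl
@[simp] theorem inv_b (x : W p K) : (x⁻¹).b = -x.b := rfl
@[simp] theorem inv_a (x : W p K) : (x⁻¹).a = -x.a + x.q * x.b := rfl
@[simp] theorem inv_q (x : W p K) : (x⁻¹).q = -x.q := rfl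

instance : Group (W p K) := Group.ofLeftAxioms
  (fun x y z => by ext <;> simp [mul_assoc, add_assoc, sub_sub]; ring) (fun x => by ext <;> simp)
  (fun x => by ext <;> simp)

/-- coordinates -/
def equiv (p : ℕ) (K : Type u) : W p K ≃ (ZMod p → K) × ZMod p × ZMod p × ZMod p :=
  ⟨fun x => (x.k, x.b, x.a, x.q), fun x => ⟨x.1, x.2.1, x.2.2.1, x.2.2.2⟩, fun _ => rfl, fun _ => rfl⟩

/-- functoriality -/
def map (i : L →* K) : W p L →* W p K where
  toFun x := ⟨fun t => i (x.k t), x.b, x.a, x.q⟩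
  map_one' := by ext <;> simp
  map_mul' x y := by ext <;> simp

/-- the base group -/
def emb (p : ℕ) (K : Type u) [Group K] :
    NEmb ((ZMod p → K) × Multiplicative (ZMod p) × Multiplicative (ZMod p)) (W p K) where
  f := { toFun := fun x => ⟨x.1, x.2.1.toAdd, x.2.2.toAdd, 0⟩
         map_one' := rfl
         map_mul' := fun x y => by ext <;> simp }
  inj x y e := Prod.ext (congrArg W.k e) (Prod.ext (congrArg W.b e) (congrArg W.a e))
  act g n := (fun t => g.k t * n.1 (t - g.q) * (g.k t)⁻¹, n.2.1, .ofAdd (n.2.2.toAdd + g.q * n.2.1.toAdd))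
  f_act g n := by ext <;> simp; ring

variable [hp : Fact p.Prime] [Fintype K]

noncomputable instance : Fintype (W p K) := Fintype.ofEquiv _ (equiv p K).symm

omit [Group K] in
theorem card : Nat.card (W p K) = Nat.card K ^ p * p ^ 3 := by
  rw [Nat.card_congr (equiv p K)]
  simp only [Nat.card_prod, Nat.card_fun, Nat.card_zmod]; ring

theorem isChar {θ : K → ℂ} (hθ : IsCharacter K θ) : IsCharacter (W p K) fun x =>
    if x.q = 0 ∧ x.b = 0 then p * (∏ t, θ (x.k t)) * ZMod.stdAddChar x.a else 0 := by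
  classical
  have h1 : ∀ s : Finset (ZMod p), IsCharacter (ZMod p → K) fun k => ∏ t ∈ s, θ (k t) := fun s => by
    induction s using Finset.induction_on with
    | empty => simpa using isCharacter_one
    | insert a s ha ih =>
      simp only [prod_insert ha]
      exact (hθ.comp (Pi.evalMonoidHom (fun _ => K) a)).mul ih
  have h2 := isCharacter_indHom (emb p K).f ((h1 univ).prod ((isCharacter_one (G := Multiplicative (ZMod p))).prod
    (isCharacter_linear (ZMod.stdAddChar (N := p)).toMonoidHom.toHomUnits)))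
  convert h2 using 1
  funext x
  by_cases hq : x.q = 0
  swap
  · rw [(emb p K).indHom_eq_zero _ (by rintro ⟨y, rfl⟩; exact hq rfl), if_neg (by simp [hq])]
  obtain ⟨k, b, a, q⟩ := x
  obtain rfl : q = 0 := hq
  refine Eq.trans ?_ ((emb p K).indHom_apply_f _ (k, .ofAdd b, .ofAdd a)).symm
  have h3 : ∀ g : W p K, ∏ t, θ (g.k t * k (t - g.q) * (g.k t)⁻¹) = ∏ t, θ (k t) := fun g => by
    simp only [hθ.isClassFunction _ _]
    exact Fintype.prod_equiv (Equiv.subRight g.q) _ _ fun _ => rfl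
  simp only [emb, h3, one_mul, MonoidHom.coe_toHomUnits, ← mul_sum]
  have h4 : ∑ g : W p K, ZMod.stdAddChar (a + g.q * b) =
      Nat.card K ^ p * p * p * (ZMod.stdAddChar a * ∑ q : ZMod p, ZMod.stdAddChar (q * b)) := by
    rw [Fintype.sum_equiv (equiv p K) (fun g : W p K => ZMod.stdAddChar (a + g.q * b))
      (fun g => ZMod.stdAddChar (a + g.2.2.2 * b)) fun _ => rfl]
    simp [Fintype.sum_prod_type, AddChar.map_add_eq_mul, ← mul_sum, mul_assoc, mul_left_comm]
  erw [h4]
  rw [AddChar.sum_mulShift _ (ZMod.isPrimitive_stdAddChar p)]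
  have : (p : ℂ) ≠ 0 := Nat.cast_ne_zero.2 hp.out.ne_zero
  have : (Fintype.card K : ℂ) ≠ 0 := Nat.cast_ne_zero.2 Fintype.card_ne_zero
  split_ifs with e1 e2 e2
  · simp; field_simp
  · exact absurd e1.2 e2
  · exact absurd ⟨trivial, e2⟩ e1
  · simp

end W

/-- `K` has a character `θ` vanishing off its centre and `G` is a section over that centre. -/
structure CT (G K : Type u) [Group G] [Group K] (θ : K → ℂ) : Prop where
  irr : IsIrrCharacter K θ
  root : ∀ g, θ g = 0 ∨ (θ g / θ 1) ^ radical (Nat.card G) = 1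
  dvd : ∀ r : ℕ, r.Prime → r ∣ Nat.card K → r ∣ Nat.card G
  ex : ∀ r : ℕ, r.Prime → r ∣ Nat.card G → ∃ g, θ g ≠ θ 1 ∧ (θ g / θ 1) ^ r = 1
  span : ∃ (L : Type u) (_ : Group L) (f : L →* G) (i : L →* K), Function.Surjective f ∧ ∀ l, θ (i l) ≠ 0 ↔ f l = 1

theorem rad_ne (n : ℕ) : radical n ≠ 0 := radical_ne_zero

theorem step {G K : Type u} [Group G] [Finite G] [Group K] [Fintype K] {p : ℕ} [hp : Fact p.Prime]
    (π : G →* Multiplicative (ZMod p)) (hπ : Function.Surjective π) {θ : K → ℂ} (h : CT π.ker K θ) :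
    ∃ χ, CT G (W p K) χ := by
  classical
  have hc : Nat.card π.ker * p = Nat.card G := by
    rw [← π.ker.card_mul_index, Subgroup.index_ker, MonoidHom.range_eq_top.2 hπ]; simp
  have h0 := h.irr.apply_one_ne_zero
  have hp0 : (p : ℂ) ≠ 0 := Nat.cast_ne_zero.2 hp.out.ne_zero
  have he : ∀ a : ZMod p, ZMod.stdAddChar a ^ p = 1 := fun a => by rw [← AddChar.map_nsmul_eq_pow]; simp
  have he0 : ∀ a : ZMod p, ZMod.stdAddChar a ≠ 0 := fun a e => by simpa [e, hp.out.ne_zero] using he a
  have hr : ∀ x : W p K, p * (∏ t, θ (x.k t)) * ZMod.stdAddChar x.a / (p * θ 1 ^ p) =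
      (∏ t, θ (x.k t) / θ 1) * ZMod.stdAddChar x.a := fun x => by
    rw [prod_div_distrib]; simp; field_simp
  have hχ := W.isChar (p := p) h.irr.isCharacter
  refine ⟨_, hχ.isIrr_of_classInner_self ?_, fun x => ?_, fun r hr e => ?_, fun r hr' e => ?_, ?_⟩
  · refine mul_left_cancel₀ (natCard_ne_zero' (G := W p K)) ?_
    rw [card_mul_classInner, W.card]
    refine (Fintype.sum_equiv (W.equiv p K) _ (fun x => if x.2.2.2 = 0 ∧ x.2.1 = 0 then
      (p : ℂ) ^ 2 * ∏ t, θ (x.1 t) * conj (θ (x.1 t)) else 0) fun x => ?_).trans ?_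
    · change _ = ite (x.q = 0 ∧ x.b = 0) _ _
      split_ifs
      · have := Complex.mul_conj (ZMod.stdAddChar x.a)
        rw [← Complex.sq_norm, norm_eq_one_of_pow_eq_one hp.out.ne_zero (he _), one_pow, Complex.ofReal_one] at this
        simp only [map_mul, map_prod, Complex.conj_natCast, prod_mul_distrib, W.equiv, Equiv.coe_fn_mk]
        linear_combination (p ^ 2 * (∏ t, θ (x.k t)) * ∏ t, conj (θ (x.k t))) * this
      · simp
    · have h1 := card_mul_classInner θ θ
      rw [h.irr.classInner_self, mul_one] at h1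
      have h2 := Finset.prod_univ_sum (fun _ : ZMod p => (univ : Finset K)) fun _ k => θ k * conj (θ k)
      rw [← h1, Fintype.piFinset_univ] at h2
      simp only [Fintype.sum_prod_type, ite_and, sum_ite_eq', mem_univ, if_true]
      rw [sum_congr rfl (g := fun x => (p : ℂ) ^ 3 * ∏ t, θ (x t) * conj (θ (x t))) fun x _ => by
          change (∑ b : ZMod p, ∑ _ : ZMod p, if b = 0 then (p : ℂ) ^ 2 * ∏ t, θ (x t) * conj (θ (x t)) else 0) = _
          simp; ring,
        ← mul_sum, ← h2]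
      simp; ring
  · simp only [W.one_q, W.one_b, and_self, if_true, W.one_k, W.one_a, AddChar.map_zero_eq_one, mul_one, prod_const,
      card_univ, ZMod.card]
    split_ifs
    swap
    · exact Or.inl rfl
    by_cases e : ∃ t, θ (x.k t) = 0
    · obtain ⟨t, ht⟩ := e
      exact Or.inl (by rw [prod_eq_zero (mem_univ t) ht]; simp)
    push Not at e
    obtain ⟨m, hm⟩ := radical_dvd_radical (Dvd.intro _ hc) Nat.card_pos.ne'
    obtain ⟨m', hm'⟩ := (dvd_radical_iff_of_irreducible hp.out Nat.card_pos.ne').2 (Dvd.intro_left _ hc)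
    right
    rw [hr, mul_pow, ← prod_pow, prod_eq_one fun t _ => by rw [hm, pow_mul, (h.root _).resolve_left (e t), one_pow],
      hm', pow_mul, he, one_pow, one_mul]
  · rw [W.card] at e
    rw [← hc]
    rcases (Nat.Prime.dvd_mul hr).1 e with e | e
    · exact (h.dvd r hr (hr.dvd_of_dvd_pow e)).mul_right _
    · exact (hr.dvd_of_dvd_pow e).mul_left _
  · simp only [W.one_q, W.one_b, and_self, if_true, W.one_k, W.one_a, AddChar.map_zero_eq_one, mul_one, prod_const,
      card_univ, ZMod.card]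
    have k : ∀ {x y : ℂ}, x / (p * θ 1 ^ p) = y → y ≠ 1 → x ≠ p * θ 1 ^ p := fun e1 e2 e3 =>
      e2 (by rw [← e1, e3, div_self (mul_ne_zero hp0 (pow_ne_zero _ h0))])
    rcases (Nat.Prime.dvd_mul hr').1 (hc ▸ e) with e | e
    · obtain ⟨g, g1, g2⟩ := h.ex r hr' e
      have : ∏ t, θ (Pi.mulSingle (M := fun _ : ZMod p => K) 0 g t) / θ 1 = θ g / θ 1 := by
        rw [prod_eq_single 0 (fun t _ ht => by rw [Pi.mulSingle_eq_of_ne ht, div_self h0]) (by simp)]; simp
      refine ⟨⟨Pi.mulSingle 0 g, 0, 0, 0⟩, ?_, ?_⟩ <;> rw [if_pos ⟨rfl, rfl⟩]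
      · exact k (hr _) (by simpa [this, div_eq_one_iff_eq h0] using g1)
      · rw [hr]; simpa [this] using g2
    · obtain rfl := (Nat.prime_dvd_prime_iff_eq hr' hp.out).1 e
      refine ⟨⟨1, 0, 1, 0⟩, ?_, ?_⟩ <;> rw [if_pos ⟨rfl, rfl⟩]
      · refine k (hr _) ?_
        simp only [Pi.one_apply, div_self h0, prod_const_one, one_mul]
        exact fun e => one_ne_zero (ZMod.injective_stdAddChar (e.trans (AddChar.map_zero_eq_one _).symm))
      · rw [hr]; simpa [div_self h0] using he 1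
  · obtain ⟨L, _, f, i, hf, hi⟩ := h.span
    choose s hs using fun t : ZMod p => hπ (.ofAdd t)
    let φ : G →* W p π.ker :=
      { toFun := fun g => ⟨fun t => ⟨(s t)⁻¹ * g * s (t - (π g).toAdd), by
          simp [MonoidHom.mem_ker, hs, ofAdd_sub]⟩, 0, 0, (π g).toAdd⟩
        map_one' := by ext <;> simp
        map_mul' := fun x y => by ext <;> simp [mul_assoc, sub_sub] }
    let L' := (φ.comp (MonoidHom.fst G (W p L))).eqLocus ((W.map f).comp (MonoidHom.snd _ _))
    refine ⟨L', inferInstance, (MonoidHom.fst _ _).comp L'.subtype,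
      ((W.map i).comp (MonoidHom.snd _ _)).comp L'.subtype, fun g => ?_, fun ⟨⟨g, w⟩, e⟩ => ?_⟩
    · choose k hk using fun t => hf ((φ g).k t)
      exact ⟨⟨(g, ⟨k, 0, 0, (π g).toAdd⟩), W.ext (funext fun t => (hk t).symm) rfl rfl rfl⟩, rfl⟩
    change φ g = W.map f w at e
    have e1 : (π g).toAdd = w.q := congrArg W.q e
    have e2 : 0 = w.b := congrArg W.b e
    have e3 : ∀ t, (s t)⁻¹ * g * s (t - (π g).toAdd) = f (w.k t) := fun t =>
      congrArg Subtype.val (congrFun (congrArg W.k e) t)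
    change ite (w.q = 0 ∧ w.b = 0) (p * (∏ t, θ (i (w.k t))) * ZMod.stdAddChar w.a) 0 ≠ 0 ↔ g = 1
    refine ⟨fun e4 => ?_, fun e4 => ?_⟩
    · split_ifs at e4 with e5
      · have := e3 0
        rw [(hi _).1 fun e6 => e4 (by rw [prod_eq_zero (mem_univ 0) e6]; simp), e1, e5.1] at this
        simpa [mul_assoc, inv_mul_eq_one] using this
      · exact absurd rfl e4
    · subst e4
      rw [if_pos ⟨by simp [← e1], e2.symm⟩]
      exact mul_ne_zero (mul_ne_zero hp0 (prod_ne_zero_iff.2 fun t _ => (hi _).2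
        (Subtype.ext (by simpa using (e3 t).symm)))) (he0 _)

theorem exists_ct (G : Type u) [Group G] [Finite G] :
    Group.IsSolvable G → ∃ (K : Type u) (_ : Group K) (_ : Finite K) (θ : K → ℂ), CT G K θ := by
  refine card_induction (P := fun G _ _ =>
    Group.IsSolvable G → ∃ (K : Type u) (_ : Group K) (_ : Finite K) (θ : K → ℂ), CT G K θ) (fun G _ _ ih hs => ?_) G
  rcases subsingleton_or_nontrivial G with _ | _
  · exact ⟨G, inferInstance, inferInstance, _, isIrrCharacter_one, by simp, fun _ _ => id,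
      fun r hr e => absurd (Nat.card_of_subsingleton (1 : G) ▸ e) hr.not_dvd_one,
      G, inferInstance, .id G, .id G, Function.surjective_id, fun l => by simpa using Subsingleton.elim _ _⟩
  obtain ⟨N, _, hN⟩ := H6.exists_normal_index_prime hs
  have := Fact.mk hN
  let e : G ⧸ N ≃* Multiplicative (ZMod N.index) := mulEquivOfPrimeCardEq (p := N.index) rfl (by simp)
  let π := e.toMonoidHom.comp (QuotientGroup.mk' N)
  have hπ : Function.Surjective π := e.surjective.comp (QuotientGroup.mk'_surjective N)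
  obtain ⟨K, _, _, θ, h⟩ := ih π.ker (by
    have := π.ker.card_mul_index
    rw [Subgroup.index_ker, MonoidHom.range_eq_top.2 hπ, Subgroup.card_top, Nat.card_congr e.symm.toEquiv] at this
    have h1 := hN.two_le
    have h2 : 0 < Nat.card π.ker := Nat.card_pos
    change _ * N.index = _ at this
    nlinarith) inferInstance
  have := Fintype.ofFinite K
  exact ⟨_, inferInstance, inferInstance, step π hπ h⟩

theorem CT.quot {G K : Type u} [Group G] [Group K] [Finite K] {θ : K → ℂ} (h : CT G K θ) [(charKer θ).Normal] :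
    CT G (K ⧸ charKer θ) (deflate (charKer θ) θ) := by
  have h1 : deflate (charKer θ) θ 1 = θ 1 := deflate_mk le_rfl 1
  refine ⟨h.irr.deflate le_rfl, fun g => ?_, fun r hr e => h.dvd r hr (e.trans (Subgroup.card_quotient_dvd_card _)),
    fun r hr e => ?_, ?_⟩
  · obtain ⟨g, rfl⟩ := QuotientGroup.mk_surjective g
    rw [h1, deflate_mk le_rfl]; exact h.root g
  · obtain ⟨g, hg⟩ := h.ex r hr e
    exact ⟨g, by rwa [h1, deflate_mk le_rfl]⟩
  · obtain ⟨L, _, f, i, hf, hi⟩ := h.span
    exact ⟨L, _, f, (QuotientGroup.mk' _).comp i, hf, fun l => by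
      rw [← hi, ← deflate_mk (N := charKer θ) le_rfl]; rfl⟩

theorem CT.main {G K : Type u} [Group G] [Finite G] [Group K] [Finite K] {θ : K → ℂ} (h : CT G K θ)
    (hk : charKer θ = ⊥) : charDegree θ ^ 2 = (Subgroup.center K).index ∧
      (∃ f : G →* K ⧸ Subgroup.center K, Function.Injective f) ∧
      (∀ p : ℕ, p.Prime → ((p ∣ Nat.card K ↔ p ∣ Nat.card G) ∧
        (p ∣ Nat.card (Subgroup.center K) ↔ p ∣ Nat.card G))) ∧ Squarefree (Nat.card (Subgroup.center K)) := by
  classical
  have := Fintype.ofFinite K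
  have h0 := h.irr.apply_one_ne_zero
  have hZ := h.irr.charCenter_eq_center hk
  have h1 : ∀ g, g ∈ Subgroup.center K ↔ θ g ≠ 0 := fun g => by
    rw [← hZ, h.irr.isCharacter.mem_charCenter]
    refine ⟨fun e e' => h0 (by simpa [e'] using e.symm), fun e => ?_⟩
    have := norm_eq_one_of_pow_eq_one (rad_ne _) ((h.root g).resolve_left e)
    rwa [norm_div, div_eq_one_iff_eq (by simpa using h0)] at this
  obtain ⟨lam, l1, l2⟩ := exists_linear_charCenter h0
  have l3 : ∀ z (n : ℕ), (θ z.1 / θ 1) ^ n = 1 ↔ (z : charCenter θ) ^ n = 1 := fun z n => by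
    have := l1 z 1
    rw [mul_one] at this
    rw [this, mul_div_cancel_right₀ _ h0, ← Units.val_pow_eq_pow_val, Units.val_eq_one, ← map_pow, l2, hk,
      Subgroup.mem_bot, OneMemClass.coe_eq_one]
  have h2 : ∀ p : ℕ, p.Prime → p ∣ Nat.card G → p ∣ Nat.card (Subgroup.center K) := fun p hp e => by
    obtain ⟨g, g1, g2⟩ := h.ex p hp e
    have := Fact.mk hp
    have g3 : g ∈ charCenter θ := hZ ▸ (h1 g).2 fun e => by simp [e, hp.ne_zero] at g2
    rw [← hZ, ← orderOf_eq_prime ((l3 ⟨g, g3⟩ p).1 g2) fun e => g1 (by rw [show g = 1 from congrArg Subtype.val e])]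
    exact orderOf_dvd_natCard _
  have h3 := Subgroup.card_subgroup_dvd_card (Subgroup.center K)
  refine ⟨?_, ?_, fun p hp => ⟨⟨h.dvd p hp, fun e => (h2 p hp e).trans h3⟩, fun e => h.dvd p hp (e.trans h3), h2 p hp⟩, ?_⟩
  · have e1 := card_mul_classInner θ θ
    have e2 : ∀ g, θ g * conj (θ g) = if g ∈ Subgroup.center K then θ 1 ^ 2 else 0 := fun g => by
      split_ifs with e
      · rw [Complex.mul_conj, ← Complex.sq_norm, h.irr.isCharacter.mem_charCenter.1 (hZ ▸ e), Complex.sq_norm,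
          ← Complex.mul_conj, h.irr.isCharacter.conj_apply_one, sq]
      · rw [not_not.1 (mt (h1 g).2 e), zero_mul]
    have e3 := natCard_subtype_eq_sum (R := ℂ) (· ∈ Subgroup.center K)
    simp only [e2, h.irr.classInner_self, mul_one, ← boole_mul _ (θ 1 ^ 2), ← sum_mul, ← e3] at e1
    rw [← (Subgroup.center K).card_mul_index, ← h.irr.isCharacter.charDegree_cast] at e1
    exact (Nat.eq_of_mul_eq_mul_left Nat.card_pos (by exact_mod_cast e1)).symm
  · obtain ⟨L, _, f, i, hf, hi⟩ := h.span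
    have e : ∀ l, QuotientGroup.mk' (Subgroup.center K) (i l) = 1 ↔ f l = 1 := fun l =>
      ((QuotientGroup.eq_one_iff _).trans (h1 _)).trans (hi l)
    refine ⟨f.liftOfSurjective hf ⟨(QuotientGroup.mk' _).comp i, fun l hl => (e l).2 hl⟩,
      (injective_iff_map_eq_one _).2 fun g hg => ?_⟩
    obtain ⟨l, rfl⟩ := hf g
    rw [MonoidHom.liftOfRightInverse_comp_apply] at hg
    exact (e l).1 hg
  · have := h.irr.isCyclic_center hk
    refine squarefree_radical.squarefree_of_dvd (y := radical (Nat.card G)) ?_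
    rw [← IsCyclic.exponent_eq_card, ← hZ]
    exact Monoid.exponent_dvd_of_forall_pow_eq_one fun z => (l3 z _).1 ((h.root _).resolve_left ((h1 _).1 (hZ ▸ z.2)))

end Cfsg.Agent.H2.CType
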