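import Cfsg.Agent.BG.Rank
import Cfsg.Agent.H26.ES4
import Cfsg.Agent.H3.PGroup1

/-! Signed permutation groups of degree four normalized by a three-cycle. -/

set_option autoImplicit false

namespace Cfsg.Agent.H2.Cub
open Subgroup Equiv
open scoped commutatorElement

/-- the four-group or the extraspecial group of order `32` of plus type -/
def Concl {G : Type*} [Group G] (R : Subgroup G) : Prop :=
  (IsElementaryAbelian 2 R ∧ Nat.card R = 4) ∨ (IsExtraspecial 2 R ∧ Nat.card R = 32 ∧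
    ∃ A : Subgroup G, A ≤ R ∧ IsElementaryAbelian 2 A ∧ Nat.card A = 8)

theorem concl_map {G G' : Type*} [Group G] [Group G'] [Finite G] {f : G →* G'}
    (hf : Function.Injective f) {R : Subgroup G} : Concl (R.map f) ↔ Concl R := by
  have : Fact (Nat.Prime 2) := ⟨Nat.prime_two⟩
  have e := R.equivMapOfInjective f hf
  have := Finite.of_equiv _ e.toEquiv
  unfold Concl
  rw [BG.elem_map_iff hf, card_map_of_injective hf]
  refine or_congr_right (and_congr ⟨fun h => H26.isExtraspecial_congr h e.symm,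
    fun h => H26.isExtraspecial_congr h e⟩ (and_congr_right fun _ => ⟨?_, ?_⟩))
  · rintro ⟨A, h1, h2, h3⟩
    have h4 : (A.comap f).map f = A := map_comap_eq_self (h1.trans (map_le_range _ _))
    rw [← h4] at h1 h2 h3
    exact ⟨_, (map_le_map_iff_of_injective hf).1 h1, (BG.elem_map_iff hf).1 h2,
      by rwa [card_map_of_injective hf] at h3⟩
  · rintro ⟨A, h1, h2, h3⟩
    exact ⟨_, map_mono h1, BG.elem_map h2 f, by rwa [card_map_of_injective hf]⟩

theorem esp_of {E : Type*} [Group E] [Finite E] (hE : IsPGroup 2 E) {z : E} (hz : z ≠ 1)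
    (hc : ∀ x, x ∈ center E ↔ x = 1 ∨ x = z) (hsq : ∀ x : E, x ^ 2 ∈ center E)
    (hna : ∃ x y : E, x * y ≠ y * x) : IsExtraspecial 2 E := by
  have : Fact (Nat.Prime 2) := ⟨Nat.prime_two⟩
  have h1 : commutator E ≤ center E := commutator_le.2 fun a _ b _ => by
    have : ⁅a, b⁆ = a ^ 2 * (a⁻¹ * b) ^ 2 * b⁻¹ ^ 2 := by
      simp only [commutatorElement_def, pow_two]; group
    rw [this]
    exact mul_mem (mul_mem (hsq _) (hsq _)) (hsq _)
  have h2 : center E ≤ commutator E := fun x hx => by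
    obtain ⟨a, b, h⟩ := hna
    have h3 : ⁅a, b⁆ ∈ commutator E := commutator_mem_commutator (mem_top a) (mem_top b)
    rcases (hc x).1 hx with rfl | rfl
    · exact one_mem _
    · exact ((hc _).1 (h1 h3)).resolve_left (fun h4 => h (commutatorElement_eq_one_iff_mul_comm.1 h4)) ▸ h3
  refine ⟨⟨hE, le_antisymm (H1.frattini_le_of_elementary_quotient Nat.prime_two h1 hsq)
    (h2.trans (H3.commutator_le_frattini hE)), le_antisymm h1 h2⟩, ?_⟩
  refine Nat.card_eq_two_iff.2 ⟨1, ⟨z, (hc z).2 (Or.inr rfl)⟩, fun h => hz (congrArg Subtype.val h).symm,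
    Set.eq_univ_of_forall fun x => ?_⟩
  rcases (hc x).1 x.2 with h | h
  · exact Or.inl (Subtype.ext h)
  · exact Or.inr (Subtype.ext h)

theorem mem_zp {G : Type*} [Group G] [Finite G] {b x : G} (hb : b ^ 3 = 1) (hx : x ∈ zpowers b) :
    x = 1 ∨ x = b ∨ x = b * b := by
  obtain ⟨n, rfl⟩ := mem_powers_iff_mem_zpowers.2 hx
  show b ^ n = 1 ∨ b ^ n = b ∨ b ^ n = b * b
  rw [← Nat.div_add_mod n 3, pow_add, pow_mul, hb, one_pow, one_mul]
  have : n % 3 < 3 := Nat.mod_lt _ (by norm_num)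
  generalize n % 3 = k at *
  interval_cases k <;> simp [pow_two]

theorem no3 {G Ω : Type*} [Group G] [Finite G] [MulAction G Ω] {R : Subgroup G}
    (h : (Nat.card R).Coprime 3) {y : G} (hy : y ∈ R) {u : Ω} (h3 : y • y • y • u = u) : y • u = u := by
  obtain ⟨m, hm⟩ := exists_pow_eq_self_of_coprime (x := y) (n := 3)
    (h.coprime_dvd_left (R.orderOf_dvd_natCard hy)).symm
  have : y ^ 3 ∈ MulAction.stabilizer G u := by
    rw [MulAction.mem_stabilizer_iff, pow_three, mul_smul, mul_smul, h3]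
  exact hm ▸ pow_mem this m

/-- signed permutations of four points -/
@[ext] structure W where
  σ : Perm (Fin 4)
  s : Fin 4 → ℤˣ
  deriving Fintype

instance : DecidableEq W := fun a b =>
  decidable_of_iff ((∀ i, a.σ i = b.σ i) ∧ ∀ i, a.s i = b.s i)
    ⟨fun h => W.ext (Equiv.ext h.1) (funext h.2), fun h => h ▸ ⟨fun _ => rfl, fun _ => rfl⟩⟩

instance : Mul W := ⟨fun a b => ⟨a.σ * b.σ, fun i => a.s (b.σ i) * b.s i⟩⟩
instance : One W := ⟨⟨1, fun _ => 1⟩⟩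
instance : Inv W := ⟨fun a => ⟨a.σ⁻¹, fun i => (a.s (a.σ⁻¹ i))⁻¹⟩⟩
@[simp] theorem mul_σ (a b : W) : (a * b).σ = a.σ * b.σ := rfl
@[simp] theorem mul_s (a b : W) (i) : (a * b).s i = a.s (b.σ i) * b.s i := rfl
@[simp] theorem one_σ : (1 : W).σ = 1 := rfl
@[simp] theorem one_s (i) : (1 : W).s i = 1 := rfl
@[simp] theorem inv_σ (a : W) : a⁻¹.σ = a.σ⁻¹ := rfl
@[simp] theorem inv_s (a : W) (i) : a⁻¹.s i = (a.s (a.σ⁻¹ i))⁻¹ := rfl

instance : Group W := Group.ofLeftAxioms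
  (fun a b c => W.ext (mul_assoc _ _ _) (funext fun i => by simp [mul_assoc]))
  (fun a => W.ext (one_mul _) (funext fun i => by simp))
  (fun a => W.ext (inv_mul_cancel _) (funext fun i => by simp))

def pi : W →* Perm (Fin 4) := MonoidHom.mk' W.σ fun _ _ => rfl

def del : W →* ℤˣ := MonoidHom.mk' (fun w => ∏ i, w.s i) fun a b => by
  simp only [mul_s, Finset.prod_mul_distrib]
  rw [Equiv.prod_comp b.σ a.s]

def cc : Perm (Fin 4) := ⟨![1, 2, 0, 3], ![2, 0, 1, 3], by decide, by decide⟩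
def v1 : Perm (Fin 4) := ⟨![1, 0, 3, 2], ![1, 0, 3, 2], by decide, by decide⟩
def v2 : Perm (Fin 4) := ⟨![3, 2, 1, 0], ![3, 2, 1, 0], by decide, by decide⟩
def v3 : Perm (Fin 4) := ⟨![2, 3, 0, 1], ![2, 3, 0, 1], by decide, by decide⟩
def bW : W := ⟨cc, fun _ => 1⟩
def qW : W := ⟨1, ![1, -1, -1, 1]⟩
def zW : W := ⟨1, fun _ => -1⟩
abbrev V4 (σ : Perm (Fin 4)) : Prop := σ = 1 ∨ σ = v1 ∨ σ = v2 ∨ σ = v3
abbrev P32 (w : W) : Prop := V4 w.σ ∧ ∏ i, w.s i = 1
abbrev P8 (w : W) : Prop := w.σ = 1 ∧ ∏ i, w.s i = 1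
abbrev P4 (w : W) : Prop := P8 w ∧ w.s 3 = 1

theorem f1 : ∀ σ : Perm (Fin 4), (∀ i, σ (σ (σ i)) = i → σ i = i) →
    (∀ i, (σ * cc * σ⁻¹ * cc⁻¹) ((σ * cc * σ⁻¹ * cc⁻¹) ((σ * cc * σ⁻¹ * cc⁻¹) i)) = i →
      (σ * cc * σ⁻¹ * cc⁻¹) i = i) → V4 σ := by decide +kernel
theorem f2 : ∀ w, P4 w → w = 1 ∨ w = qW ∨ w = bW * qW * bW⁻¹ ∨ w = qW * (bW * qW * bW⁻¹) := by
  decide +kernel
theorem f3 : ∀ w, P8 w → P4 w ∨ P4 (w * zW) := by decide +kernel
theorem f4 : ∀ w : W, V4 w.σ → w.σ ≠ 1 →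
    w.σ = v1 ∨ (bW * w * bW⁻¹).σ = v1 ∨ (bW * (bW * w * bW⁻¹) * bW⁻¹).σ = v1 := by decide +kernel
theorem f5 : ∀ w : W, w.σ = v1 → qW * (w * qW * w⁻¹) = zW := by decide +kernel
theorem f6 : cc * v1 * cc⁻¹ = v2 ∧ v1 * v2 = v3 := by decide +kernel
theorem f7 : ∀ w, P32 w → w ^ 2 = 1 ∨ w ^ 2 = zW := by
  simp only [pow_two]; decide +kernel
theorem f8 : ∀ w, P32 w → w * qW = qW * w → w * (bW * qW * bW⁻¹) = bW * qW * bW⁻¹ * w →
    w * ⟨v1, fun _ => 1⟩ = ⟨v1, fun _ => 1⟩ * w → w * ⟨v2, fun _ => 1⟩ = ⟨v2, fun _ => 1⟩ * w →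
    w = 1 ∨ w = zW := by decide +kernel
theorem f9 : ∀ w, zW * w = w * zW := by decide +kernel
theorem c32 : Fintype.card {w // P32 w} = 32 := by decide +kernel
theorem c8 : Fintype.card {w // P8 w} = 8 := by decide +kernel
theorem c4 : Fintype.card {w // P4 w} = 4 := by decide +kernel

/-- the diagonal elements of determinant one -/
def D8 : Subgroup W := pi.ker ⊓ del.ker

theorem elem_D8 : IsElementaryAbelian 2 D8 :=
  ⟨⟨⟨fun a b => Subtype.ext (W.ext (by simp [show a.1.σ = 1 from a.2.1, show b.1.σ = 1 from b.2.1])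
    (funext fun i => by simp [show a.1.σ = 1 from a.2.1, show b.1.σ = 1 from b.2.1, mul_comm]))⟩⟩,
    fun a ha => W.ext (by simp [pow_two, show a.σ = 1 from ha.1])
      (funext fun i => by simp [pow_two, show a.σ = 1 from ha.1])⟩

theorem mono {R : Subgroup W} (h3 : (Nat.card R).Coprime 3) (hn : ∀ r ∈ R, bW * r * bW⁻¹ ∈ R)
    (hR : ⁅R, zpowers bW⁆ = R) (hq : qW ∈ R) : Concl R := by
  have : Fact (Nat.Prime 2) := ⟨Nat.prime_two⟩
  have hb : bW ^ 3 = 1 := by decide +kernel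
  have hd : ∀ r ∈ R, ∏ i, r.s i = 1 := fun r hr => by
    have : ⁅R, zpowers bW⁆ ≤ del.ker := commutator_le.2 fun a _ b _ => by
      rw [MonoidHom.mem_ker, map_commutatorElement, commutatorElement_eq_one_iff_mul_comm, mul_comm]
    exact this (hR.symm ▸ hr)
  letI : MulAction W (Fin 4) := MulAction.compHom _ pi
  have hv : ∀ r ∈ R, V4 r.σ := fun r hr => f1 _ (fun i h => no3 h3 hr h) fun i h => by
    have : r * bW * r⁻¹ * bW⁻¹ ∈ R := by
      have := R.mul_mem hr (hn _ (R.inv_mem hr))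
      rwa [← mul_assoc, ← mul_assoc] at this
    exact no3 h3 this h
  have h4 : ∀ w, P4 w → w ∈ R := fun w hw => by
    rcases f2 w hw with rfl | rfl | rfl | rfl
    exacts [R.one_mem, hq, hn _ hq, R.mul_mem hq (hn _ hq)]
  by_cases h : ∀ r ∈ R, r.σ = 1
  · refine Or.inl ⟨BG.elem_of_le elem_D8 fun r hr => ⟨h r hr, hd r hr⟩, ?_⟩
    rw [← c4, ← Nat.card_eq_fintype_card]
    refine Nat.card_congr (Equiv.subtypeEquivRight fun w => ⟨fun hw => ⟨⟨h w hw, hd w hw⟩, ?_⟩, h4 w⟩)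
    let K : Subgroup W :=
      { carrier := {w | w.σ = 1 ∧ w.s 3 = 1}
        mul_mem' := fun {a b} ha hb => ⟨by simp [ha.1, hb.1], by simp [hb.1, ha.2, hb.2]⟩
        one_mem' := ⟨rfl, rfl⟩
        inv_mem' := fun {a} ha => ⟨by simp [ha.1], by simp [ha.1, ha.2]⟩ }
    have : ⁅R, zpowers bW⁆ ≤ K := commutator_le.2 fun a ha b hb' => by
      have h5 : b.σ 3 = 3 := by rcases mem_zp hb hb' with rfl | rfl | rfl <;> rfl
      have h6 : b.σ⁻¹ 3 = 3 := by rw [Perm.inv_eq_iff_eq, h5]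
      refine ⟨by simp [commutatorElement_def, h a ha], ?_⟩
      simp only [commutatorElement_def, mul_s, inv_s, mul_σ, inv_σ, h a ha, inv_one, Perm.one_apply,
        h5, h6]
      rw [mul_comm (a.s 3)]
      group
    exact (this (hR.symm ▸ hw)).2
  push Not at h
  obtain ⟨r, hr, h1⟩ := h
  obtain ⟨r, hr, h1⟩ : ∃ r ∈ R, r.σ = v1 := by
    rcases f4 r (hv r hr) h1 with h | h | h
    exacts [⟨_, hr, h⟩, ⟨_, hn _ hr, h⟩, ⟨_, hn _ (hn _ hr), h⟩]
  have hz : zW ∈ R := f5 r h1 ▸ R.mul_mem hq (R.mul_mem (R.mul_mem hr hq) (R.inv_mem hr))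
  have h8 : ∀ w, P8 w → w ∈ R := fun w hw => by
    rcases f3 w hw with h | h
    exacts [h4 w h, (R.mul_mem_cancel_right hz).1 (h4 _ h)]
  have h32 : ∀ w, P32 w → w ∈ R := fun w hw => by
    have key : ∀ r ∈ R, r.σ = w.σ → w ∈ R := fun r hr h => (R.mul_mem_cancel_right (R.inv_mem hr)).1
      (h8 _ ⟨by simp [h], (map_mul del w r⁻¹).trans (by
        rw [show del w = 1 from hw.2, show del r⁻¹ = 1 from hd _ (R.inv_mem hr), mul_one])⟩)
    have h2 : (bW * r * bW⁻¹).σ = v2 := by rw [← f6.1, ← h1]; rfl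
    rcases hw.1 with h | h | h | h
    · exact h8 w ⟨h, hw.2⟩
    · exact key r hr (h1.trans h.symm)
    · exact key _ (hn _ hr) (h2.trans h.symm)
    · exact key _ (R.mul_mem hr (hn _ hr)) (by rw [mul_σ, h1, h2, f6.2, h])
  have hc : Nat.card R = 32 := by
    rw [← c32, ← Nat.card_eq_fintype_card]
    exact Nat.card_congr (Equiv.subtypeEquivRight fun w => ⟨fun hw => ⟨hv w hw, hd w hw⟩, h32 w⟩)
  have hcen : ∀ x : R, x ∈ center R ↔ x = 1 ∨ x = ⟨zW, hz⟩ := fun x => by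
    refine ⟨fun hx => ?_, ?_⟩
    · have e : ∀ w ∈ R, x.1 * w = w * x.1 := fun w hw =>
        congrArg Subtype.val (mem_center_iff.1 hx ⟨w, hw⟩).symm
      rcases f8 x.1 ⟨hv _ x.2, hd _ x.2⟩ (e _ hq) (e _ (hn _ hq)) (e _ (h32 _ (by decide +kernel)))
        (e _ (h32 _ (by decide +kernel))) with h | h
      exacts [Or.inl (Subtype.ext h), Or.inr (Subtype.ext h)]
    · rintro (rfl | rfl)
      exacts [one_mem _, mem_center_iff.2 fun g => Subtype.ext (f9 g).symm]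
  refine Or.inr ⟨esp_of (IsPGroup.of_card (n := 5) hc) (z := ⟨zW, hz⟩)
    (fun h => absurd (show zW = 1 from congrArg Subtype.val h) (by decide +kernel)) hcen (fun x => (hcen _).2 ?_) ?_,
    hc, D8, fun w hw => h8 w hw, elem_D8, ?_⟩
  · rcases f7 x.1 ⟨hv _ x.2, hd _ x.2⟩ with h | h
    exacts [Or.inl (Subtype.ext h), Or.inr (Subtype.ext h)]
  · exact ⟨⟨qW, hq⟩, ⟨⟨v1, fun _ => 1⟩, h32 _ (by decide +kernel)⟩, fun h =>
      absurd (show qW * ⟨v1, fun _ => 1⟩ = ⟨v1, fun _ => 1⟩ * qW from congrArg Subtype.val h)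
        (by decide +kernel)⟩
  · rw [← c8, ← Nat.card_eq_fintype_card]
    rfl

end Cfsg.Agent.H2.Cub
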