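import Cfsg.Agent.H2.Cub1

/-! Monomial actions generated by three-cycles. -/

set_option autoImplicit false

namespace Cfsg.Agent.H2.Cub
open Subgroup Equiv
open scoped commutatorElement

variable {G : Type*} [Group G]

theorem mono' [Finite G] {φ : G →* W} (hφ : Function.Injective φ) {R : Subgroup G} [hn : R.Normal]
    (h3 : (Nat.card R).Coprime 3) {b q : G} (hR : ⁅R, zpowers b⁆ = R) (hb : φ b = bW) (hq : q ∈ R)
    (hq' : φ q = qW) : Concl R := by
  refine (concl_map hφ).1 (mono (by rwa [card_map_of_injective hφ]) ?_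
    (by rw [← hb, ← MonoidHom.map_zpowers, ← map_commutator, hR]) ⟨q, hq, hq'⟩)
  rintro _ ⟨r, hr, rfl⟩
  exact ⟨_, hn.conj_mem r hr b, by simp [hb]⟩

theorem exists_phi {X : Type*} [MulAction G X] [MulAction ℤˣ X] [SMulCommClass G ℤˣ X]
    (f : Fin 4 → X) (hinj : ∀ (ε : ℤˣ) i j, f i = ε • f j → ε = 1 ∧ i = j)
    (hcl : ∀ (g : G) i, ∃ (ε : ℤˣ) (j : Fin 4), g • f i = ε • f j) :
    ∃ φ : G →* W, ∀ g w, φ g = w ↔ ∀ i, g • f i = w.s i • f (w.σ i) := by
  choose s t h using hcl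
  have u : ∀ (ε ε' : ℤˣ) i j, ε • f i = ε' • f j → ε = ε' ∧ i = j := fun ε ε' i j e => by
    obtain ⟨h1, h2⟩ := hinj (ε⁻¹ * ε') i j (by rw [mul_smul, ← e, inv_smul_smul])
    exact ⟨inv_mul_eq_one.1 h1, h2⟩
  have ht : ∀ g, Function.Bijective (t g) := fun g => Finite.injective_iff_bijective.1 fun i j e =>
    (u (s g j) (s g i) i j (smul_left_cancel g (by
      rw [smul_comm, smul_comm g, h, h, e, smul_smul, smul_smul, mul_comm]))).2
  have key : ∀ g (w : W), (⟨Equiv.ofBijective _ (ht g), s g⟩ : W) = w ↔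
      ∀ i, g • f i = w.s i • f (w.σ i) := fun g w =>
    ⟨fun e i => e ▸ h g i, fun e => W.ext (Equiv.ext fun i => (u _ _ _ _ ((h g i).symm.trans (e i))).2)
      (funext fun i => (u _ _ _ _ ((h g i).symm.trans (e i))).1)⟩
  refine ⟨MonoidHom.mk' (fun g => ⟨Equiv.ofBijective _ (ht g), s g⟩) fun a b => (key _ _).2 fun i => ?_,
    key⟩
  rw [mul_smul, h, smul_comm, h, smul_smul, mul_comm]
  rfl

theorem perm3 [Finite G] {Ω : Type*} [MulAction G Ω] {R : Subgroup G} (h3 : (Nat.card R).Coprime 3)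
    (hc : ∀ g h : G, ⁅g, h⁆ ∈ R) {b : G} (hb : b ^ 3 = 1) {x : Ω} (hx : b • x ≠ x)
    (hfix : ∀ g : G, g • x = x ∨ g • x = b • x ∨ g • x = b • b • x ∨ b • g • x = g • x) :
    ∃ y, ∀ g : G, g • x = x ∨ g • x = b • x ∨ g • x = b • b • x ∨ g • x = y := by
  let c : G → G := fun g => g * b * g⁻¹
  have c3 : ∀ g (p : Ω), c g • c g • c g • p = p := fun g p => by
    rw [smul_smul, smul_smul, ← pow_three', conj_pow, hb]; simp
  have b3 : ∀ p : Ω, b • b • b • p = p := fun p => by simpa [c] using c3 1 p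
  let Mv : G → Ω → Prop := fun g p => (∃ k : G, p = k • x) ∧ c g • p ≠ p
  have tr : ∀ k g p, Mv g p → Mv (k * g) (k • p) := fun k g p ⟨⟨l, h1⟩, h2⟩ =>
    ⟨⟨k * l, by rw [h1, mul_smul]⟩, fun h => h2 (smul_left_cancel k (by
      rw [← h]; simp [c, mul_smul]))⟩
  have F1 : ∀ g p q, Mv g p → Mv g q → q = p ∨ q = c g • p ∨ q = c g • c g • p := fun g p q hp hq => by
    have k : ∀ p, Mv g p → p = g • x ∨ p = g • b • x ∨ p = g • b • b • x := by
      rintro _ ⟨⟨l, rfl⟩, h⟩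
      rcases hfix (g⁻¹ * l) with e | e | e | e
      · exact Or.inl (by rwa [mul_smul, inv_smul_eq_iff] at e)
      · exact Or.inr (Or.inl (by rwa [mul_smul, inv_smul_eq_iff] at e))
      · exact Or.inr (Or.inr (by rwa [mul_smul, inv_smul_eq_iff] at e))
      · exact absurd (by simp only [c, mul_smul] at e ⊢; rw [e, smul_inv_smul]) h
    rcases k p hp with rfl | rfl | rfl <;> rcases k q hq with rfl | rfl | rfl <;> simp [c, mul_smul, b3]
  have F2 : ∀ g p, Mv g p → Mv g (c g • p) := fun g p ⟨⟨l, h1⟩, h2⟩ =>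
    ⟨⟨c g * l, by rw [mul_smul (c g) l, ← h1]⟩, fun h => h2 (smul_left_cancel _ h)⟩
  have F3 : ∀ g, Mv g (g • x) := fun g => ⟨⟨g, rfl⟩, fun h => hx (smul_left_cancel g (by
    rw [← h]; simp [c, mul_smul]))⟩
  have F4 : ∀ g p, Mv g p → c g • c g • p ≠ p := fun g p hp h =>
    hp.2 (by have := c3 g p; rwa [h] at this)
  have fx : ∀ g h p, Mv g p → ¬ Mv h p → c h • p = p ∧ (c h)⁻¹ • p = p := fun g h p hp hn => by
    have : c h • p = p := by_contra fun e => hn ⟨hp.1, e⟩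
    exact ⟨this, inv_smul_eq_iff.2 this.symm⟩
  have K1 : ∀ g h, ∃ p, Mv g p ∧ Mv h p := fun g h => by
    by_contra hn
    push Not at hn
    have e : ∀ p, Mv g p → ⁅g * h⁻¹, c h⁆ • p = c g • p := fun p hp => by
      rw [show ⁅g * h⁻¹, c h⁆ = c g * (c h)⁻¹ by simp only [c, commutatorElement_def]; group,
        mul_smul, (fx g h p hp (hn p hp)).2]
    have := no3 h3 (hc (g * h⁻¹) (c h)) (u := g • x) (by
      rw [e _ (F3 g), e _ (F2 _ _ (F3 g)), e _ (F2 _ _ (F2 _ _ (F3 g))), c3])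
    rw [e _ (F3 g)] at this
    exact (F3 g).2 this
  have K2 : ∀ g h p, Mv g p → Mv h p → ∃ q, q ≠ p ∧ Mv g q ∧ Mv h q := fun g h p h1 h2 => by
    by_contra hn
    push Not at hn
    have a1 := fx g h _ (F2 _ _ h1) (hn _ h1.2 (F2 _ _ h1))
    have a2 := fx g h _ (F2 _ _ (F2 _ _ h1)) (hn _ (F4 _ _ h1) (F2 _ _ (F2 _ _ h1)))
    have a3 := fx h g _ (F2 _ _ h2) fun e => hn _ h2.2 e (F2 _ _ h2)
    have a4 := fx h g _ (F2 _ _ (F2 _ _ h2)) fun e => hn _ (F4 _ _ h2) e (F2 _ _ (F2 _ _ h2))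
    have i1 : ∀ g (p : Ω), (c g)⁻¹ • p = c g • c g • p := fun g p => inv_smul_eq_iff.2 (c3 g p).symm
    have e1 : ⁅c g, c h⁆ • p = c g • p := by
      rw [commutatorElement_def, mul_smul, mul_smul, mul_smul, i1 h, a4.2, c3]
    have e2 : ⁅c g, c h⁆ • c g • p = c h • p := by
      rw [commutatorElement_def, mul_smul, mul_smul, mul_smul, a1.2, inv_smul_smul, a3.1]
    have e3 : ⁅c g, c h⁆ • c h • p = p := by
      rw [commutatorElement_def, mul_smul, mul_smul, mul_smul, inv_smul_smul, i1 g, a2.1, c3]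
    have := no3 h3 (hc (c g) (c h)) (u := p) (by rw [e1, e2, e3])
    exact h1.2 (e1.symm.trans this)
  have L : ∀ g h p, Mv g p → ¬ Mv h p → Mv h (c g • p) ∧ Mv h (c g • c g • p) := fun g h p hp hn => by
    obtain ⟨q, q1, q2⟩ := K1 g h
    obtain ⟨r, r0, r1, r2⟩ := K2 g h q q1 q2
    rcases F1 g p q hp q1 with rfl | rfl | rfl
    · exact absurd q2 hn
    · rcases F1 g p r hp r1 with rfl | rfl | rfl
      exacts [absurd r2 hn, absurd rfl r0, ⟨q2, r2⟩]
    · rcases F1 g p r hp r1 with rfl | rfl | rfl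
      exacts [absurd r2 hn, ⟨r2, q2⟩, absurd rfl r0]
  by_contra hn
  push Not at hn
  have out : ∀ y, ∃ g : G, b • g • x = g • x ∧ g • x ≠ y := fun y => by
    obtain ⟨g, a1, a2, a3, a4⟩ := hn y
    exact ⟨g, (((hfix g).resolve_left a1).resolve_left a2).resolve_left a3, a4⟩
  obtain ⟨g, hg, -⟩ := out x
  obtain ⟨h, hh, hne⟩ := out (g • x)
  have n1 : ∀ p : Ω, b • p = p → ¬ Mv 1 p := fun p e h => h.2 (by simpa [c] using e)
  have M : ∀ k, Mv k (h • x) → Mv k (c g • g • x) := fun k hk =>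
    (L g k _ (F3 g) fun e => by
      obtain ⟨a1, a2⟩ := L k 1 _ hk (n1 _ hh)
      rcases F1 k _ _ hk e with e | e | e
      exacts [hne e.symm, n1 _ hg (e ▸ a1), n1 _ hg (e ▸ a2)]).1
  have a0 := (L g 1 _ (F3 g) (n1 _ hg)).1
  set α := c g • g • x
  have hi : b⁻¹ • h • x = h • x := inv_smul_eq_iff.2 hh.symm
  have m0 := M h (F3 h)
  have m1 : Mv h (b • α) := by
    have := tr b _ _ (M (b⁻¹ * h) (hi ▸ tr b⁻¹ _ _ (F3 h)))
    rwa [mul_inv_cancel_left] at this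
  have m2 : Mv h (b • b • α) := by
    have := tr b _ _ (tr b _ _ (M (b⁻¹ * (b⁻¹ * h)) (hi ▸ tr b⁻¹ _ _ (hi ▸ tr b⁻¹ _ _ (F3 h)))))
    rwa [mul_inv_cancel_left, mul_inv_cancel_left] at this
  have d0 : b • α ≠ α := by simpa [c] using a0.2
  have d1 : b • b • α ≠ α := by simpa [c] using F4 _ _ a0
  have d2 : b • b • α ≠ b • α := fun e => d0 (smul_left_cancel _ e)
  have x0 : h • x ≠ α := fun e => d0 (e ▸ hh)
  have x1 : h • x ≠ b • α := fun e => d2 (e ▸ hh)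
  have x2 : h • x ≠ b • b • α := fun e => d1 (by rw [← e, ← hh, e, b3])
  rcases F1 h _ _ (F3 h) m0 with e0 | e0 | e0 <;> rcases F1 h _ _ (F3 h) m1 with e1 | e1 | e1 <;>
    rcases F1 h _ _ (F3 h) m2 with e2 | e2 | e2 <;>
    first
    | exact x0 e0.symm | exact x1 e1.symm | exact x2 e2.symm | exact d0 (e1.trans e0.symm)
    | exact d1 (e2.trans e0.symm) | exact d2 (e2.trans e1.symm)

end Cfsg.Agent.H2.Cub
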