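import Cfsg.Agent.H2.Cub2

/-! An element of order three with a cubic Jordan block acting on a four-group: the frame. -/

set_option autoImplicit false

namespace Cfsg.Agent.H2.Cub
open Subgroup
open scoped commutatorElement Pointwise

variable {G V : Type*} [Group G] [AddCommGroup V] [Module (ZMod 3) V] [DistribMulAction G V]
  [SMulCommClass G (ZMod 3) V] {b q : G} {e : V}

theorem h3 (v : V) : v + v + v = 0 := by
  have : (3 : ZMod 3) • v = 0 := by rw [show (3 : ZMod 3) = 0 from rfl, zero_smul]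
  linear_combination (norm := module) this

theorem zm : ∀ c : ZMod 3, c = 0 ∨ c = 1 ∨ c = -1 := by decide

theorem eq_zero_of_neg {v : V} (h : v = -v) : v = 0 := by
  linear_combination (norm := abel) h3 v - h + h + h - h3 v - h3 v + h3 v - h - h + h3 v

/-- `q` and its `b`-conjugates are the involutions of a four-group -/
structure Four (b q : G) : Prop where
  b3 : b * b * b = 1
  ne : q ≠ 1
  sq : q * q = 1
  pr : b * (b * q * b⁻¹) * b⁻¹ = q * (b * q * b⁻¹)

theorem Four.r3 (h : Four b q) : b * (b * (b * q * b⁻¹) * b⁻¹) * b⁻¹ = q := by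
  calc _ = (b * b * b) * q * (b * b * b)⁻¹ := by group
    _ = q := by rw [h.b3]; simp

theorem Four.sq1 (h : Four b q) : b * q * b⁻¹ * (b * q * b⁻¹) = 1 := by
  calc _ = b * (q * q) * b⁻¹ := by group
    _ = 1 := by rw [h.sq]; simp

theorem Four.comm (h : Four b q) : q * (b * q * b⁻¹) = b * q * b⁻¹ * q := by
  have h1 : q * (b * q * b⁻¹) * (q * (b * q * b⁻¹)) = 1 := by
    rw [← h.pr]
    calc _ = b * (b * q * b⁻¹ * (b * q * b⁻¹)) * b⁻¹ := by group
      _ = 1 := by rw [h.sq1]; simp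
  rw [eq_inv_of_mul_eq_one_left h1, mul_inv_rev, inv_eq_of_mul_eq_one_left h.sq,
    inv_eq_of_mul_eq_one_left h.sq1]

theorem Four.rot (h : Four b q) : Four b (b * q * b⁻¹) :=
  ⟨h.b3, fun e => h.ne (by simpa using e), h.sq1, by
    rw [h.r3, h.pr, h.comm, ← mul_assoc, h.sq1, one_mul]⟩

theorem Four.of_prod (hb : b * b * b = 1) (h1 : q ≠ 1) (h2 : q * q = 1)
    (h : b * (b * q * b⁻¹) * b⁻¹ * (b * q * b⁻¹) * q = 1) : Four b q := by
  refine ⟨hb, h1, h2, ?_⟩
  rw [mul_assoc, mul_eq_one_iff_eq_inv] at h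
  rw [h, mul_inv_rev, inv_eq_of_mul_eq_one_left h2]
  congr 1
  simp [mul_assoc, inv_eq_of_mul_eq_one_left h2]

/-- the commutator space `[V, b]` -/
def Im (V : Type*) [AddCommGroup V] [DistribMulAction G V] (b : G) : AddSubgroup V where
  carrier := {w | ∃ v, w = b • v - v}
  add_mem' := by rintro _ _ ⟨u, rfl⟩ ⟨v, rfl⟩; exact ⟨u + v, by rw [smul_add]; abel⟩
  zero_mem' := ⟨0, by simp⟩
  neg_mem' := by rintro _ ⟨u, rfl⟩; exact ⟨-u, by rw [smul_neg]; abel⟩

omit [SMulCommClass G (ZMod 3) V] in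
theorem rel [Finite V] (h : Nat.card (Im V b) ≤ 9) (u v w : V) : ∃ a c d : ZMod 3,
    ¬ (a = 0 ∧ c = 0 ∧ d = 0) ∧ a • (b • u - u) + c • (b • v - v) + d • (b • w - w) = 0 := by
  have m : ∀ (a : ZMod 3) (u : V), a • (b • u - u) ∈ Im V b := fun a u => by
    rcases zm a with rfl | rfl | rfl
    exacts [by simp, by simpa using ⟨u, rfl⟩, by rw [neg_smul, one_smul]; exact neg_mem ⟨u, rfl⟩]
  let f : ZMod 3 × ZMod 3 × ZMod 3 → Im V b := fun x =>
    ⟨_, add_mem (add_mem (m x.1 u) (m x.2.1 v)) (m x.2.2 w)⟩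
  have : ¬ Function.Injective f := fun hf => by
    have := (Nat.card_le_card_of_injective f hf).trans h
    simp at this
  simp only [Function.Injective, not_forall] at this
  obtain ⟨x, y, h1, h2⟩ := this
  refine ⟨x.1 - y.1, x.2.1 - y.2.1, x.2.2 - y.2.2, fun h => h2 (Prod.ext (sub_eq_zero.1 h.1)
    (Prod.ext (sub_eq_zero.1 h.2.1) (sub_eq_zero.1 h.2.2))), ?_⟩
  have := congrArg Subtype.val h1
  simp only [f] at this
  generalize b • u - u = u', b • v - v = v', b • w - w = w' at this ⊢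
  linear_combination (norm := module) this

/-- the frame attached to a four-group -/
structure Fr (b q : G) (e : V) : Prop extends Four b q where
  e0 : e ≠ 0
  qe : q • e = e
  pe : (b * q * b⁻¹) • e = -e
  uniq : ∀ v : V, q • v = v → (b * q * b⁻¹) • v = -v → ∃ a : ZMod 3, v = a • e
  fix : ∀ v : V, q • v = v → (b * q * b⁻¹) • v = v → b • v = v

omit [Module (ZMod 3) V] [SMulCommClass G (ZMod 3) V] in
theorem Four.q_b (h : Four b q) (v : V) : q • b • v = b • q • (b * q * b⁻¹) • v := by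
  rw [smul_smul, smul_smul, smul_smul, mul_assoc b, ← h.pr]
  conv_lhs => rw [← h.r3]
  congr 1; group

omit [Module (ZMod 3) V] [SMulCommClass G (ZMod 3) V] in
theorem p_b (b q : G) (v : V) : (b * q * b⁻¹) • b • v = b • q • v := by simp [mul_smul]

omit [Module (ZMod 3) V] [SMulCommClass G (ZMod 3) V] in
theorem Four.qq (h : Four b q) (v : V) : q • q • v = v := by rw [smul_smul, h.sq, one_smul]

omit [Module (ZMod 3) V] [SMulCommClass G (ZMod 3) V] in
theorem Four.bbb (h : Four b q) (v : V) : b • b • b • v = v := by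
  rw [smul_smul, smul_smul, h.b3, one_smul]

omit [Module (ZMod 3) V] [SMulCommClass G (ZMod 3) V] in
theorem Four.pq (h : Four b q) (v : V) : (b * q * b⁻¹) • q • v = q • (b * q * b⁻¹) • v := by
  rw [smul_smul, smul_smul, h.comm]

theorem exists_fr [Finite V] (h : Four b q) (hJ : Nat.card (Im V b) ≤ 9) (hq : ∃ v : V, q • v ≠ v) :
    ∃ e : V, Fr b q e := by
  obtain ⟨e, e0, e1, e2⟩ : ∃ e : V, e ≠ 0 ∧ q • e = e ∧ (b * q * b⁻¹) • e = -e := by
    obtain ⟨v, hv⟩ := hq
    have w1 : q • (q • v - v) = -(q • v - v) := by rw [smul_sub, h.qq, neg_sub]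
    generalize hw : q • v - v = w at w1
    by_cases h1 : (b * q * b⁻¹) • w = -w
    · refine ⟨b • w, fun h2 => hv (sub_eq_zero.1 (hw.trans (smul_eq_zero_iff_eq b |>.1 h2))), ?_, ?_⟩
      · rw [h.q_b, h1, smul_neg, w1, neg_neg]
      · rw [p_b, w1, smul_neg]
    · have x1 : q • ((b * q * b⁻¹) • w + w) = -((b * q * b⁻¹) • w + w) := by
        rw [smul_add, ← h.pq, w1, smul_neg, neg_add]
      have x2 : (b * q * b⁻¹) • ((b * q * b⁻¹) • w + w) = (b * q * b⁻¹) • w + w := by
        rw [smul_add, h.rot.qq, add_comm]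
      refine ⟨b • b • ((b * q * b⁻¹) • w + w), fun h2 => h1 (eq_neg_of_add_eq_zero_left
        (smul_eq_zero_iff_eq b |>.1 (smul_eq_zero_iff_eq b |>.1 h2))), ?_, ?_⟩
      · rw [h.q_b, p_b, x1, smul_neg, smul_neg, h.q_b, x2, x1]
        simp only [smul_neg, neg_neg]
      · rw [p_b, h.q_b, x2, x1, smul_neg, smul_neg]
  have k : ∀ v : V, q • v = v → (b * q * b⁻¹) • v = -v →
      q • b • v = -(b • v) ∧ (b * q * b⁻¹) • b • v = b • v := fun v h1 h2 =>
    ⟨by rw [h.q_b, h2, smul_neg, h1, smul_neg], by rw [p_b, h1]⟩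
  obtain ⟨e3, e4⟩ := k e e1 e2
  have e5 : q • b • b • e = -(b • b • e) := by rw [h.q_b, e4, e3, smul_neg]
  have e6 : (b * q * b⁻¹) • b • b • e = -(b • b • e) := by rw [p_b, e3, smul_neg]
  have z : ∀ (a : ZMod 3) (v : V), v ≠ 0 → a • v = 0 → a = 0 := fun a v hv h =>
    (smul_eq_zero.1 h).resolve_right hv
  have e7 : b • b • e ≠ 0 := fun h2 => e0 (smul_eq_zero_iff_eq b |>.1 (smul_eq_zero_iff_eq b |>.1 h2))
  refine ⟨e, h, e0, e1, e2, fun v v1 v2 => ?_, fun v v1 v2 => ?_⟩
  · obtain ⟨v3, v4⟩ := k v v1 v2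
    obtain ⟨a, c, d, n, r0⟩ := rel hJ e (b • e) v
    have r1 := congrArg (q • ·) r0
    have r2 := congrArg ((b * q * b⁻¹) • ·) r0
    simp only [smul_add, smul_sub, smul_comm q, smul_comm (b * q * b⁻¹), e1, e2, e3, e4, e5, e6, v1, v2,
      v3, v4, smul_zero] at r1 r2
    generalize b • b • e = f2 at r0 r1 r2 e7
    generalize b • e = f1, b • v = w at r0 r1 r2
    have s1 : a • e + d • v = 0 := by
      linear_combination (norm := module) r0 + r1 + h3 (a • e + d • v)
    have s2 : c = 0 := z _ _ e7 (by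
      linear_combination (norm := module) r1 + r2 + h3 (c • f2))
    rcases zm d with rfl | rfl | rfl
    · exact absurd ⟨z _ _ e0 (by simpa using s1), s2, rfl⟩ n
    · exact ⟨-a, by linear_combination (norm := module) s1⟩
    · exact ⟨a, by linear_combination (norm := module) -s1⟩
  · have v3 : q • b • v = b • v := by rw [h.q_b, v2, v1]
    have v4 : (b * q * b⁻¹) • b • v = b • v := by rw [p_b, v1]
    obtain ⟨a, c, d, n, r0⟩ := rel hJ e (b • e) v
    have r1 := congrArg (q • ·) r0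
    have r2 := congrArg ((b * q * b⁻¹) • ·) r0
    have r3 := congrArg (q • ·) r2
    simp only [smul_add, smul_sub, smul_neg, smul_comm q, smul_comm (b * q * b⁻¹), e1, e2, e3, e4, e5,
      e6, v1, v2, v3, v4, smul_zero] at r1 r2 r3
    generalize b • b • e = f2 at r0 r1 r2 r3 e7
    generalize b • e = f1, b • v = w at r0 r1 r2 r3 ⊢
    by_contra hv
    obtain rfl : d = 0 := z _ _ (sub_ne_zero.2 hv) (by
      linear_combination (norm := module) r0 + r1 + r2 + r3 - h3 (d • (w - v)))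
    exact n ⟨z _ _ e0 (by linear_combination (norm := module) r0 + r1 + h3 (a • e)),
      z _ _ e7 (by linear_combination (norm := module) r1 + r2 + h3 (c • f2)), rfl⟩

namespace Fr
variable (h : Fr b q e)
include h

omit [SMulCommClass G (ZMod 3) V] in
theorem q1 : q • b • e = -(b • e) := by rw [h.q_b, h.pe, smul_neg, h.qe, smul_neg]
omit [SMulCommClass G (ZMod 3) V] in
theorem p1 : (b * q * b⁻¹) • b • e = b • e := by rw [p_b, h.qe]
omit [SMulCommClass G (ZMod 3) V] in
theorem q2 : q • b • b • e = -(b • b • e) := by rw [h.q_b, h.p1, h.q1, smul_neg]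
omit [SMulCommClass G (ZMod 3) V] in
theorem p2 : (b * q * b⁻¹) • b • b • e = -(b • b • e) := by rw [p_b, h.q1, smul_neg]

theorem uniq2 (v : V) (h1 : q • v = -v) (h2 : (b * q * b⁻¹) • v = -v) :
    ∃ a : ZMod 3, v = a • b • b • e := by
  obtain ⟨a, ha⟩ := h.uniq (b • v) (by rw [h.q_b, h2, smul_neg, h1, neg_neg]) (by rw [p_b, h1, smul_neg])
  exact ⟨a, by rw [← smul_comm b a, ← smul_comm b a, ← ha, h.bbb]⟩

theorem uniq1 (v : V) (h1 : q • v = -v) (h2 : (b * q * b⁻¹) • v = v) :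
    ∃ a : ZMod 3, v = a • b • e := by
  obtain ⟨a, ha⟩ := h.uniq2 (b • v) (by rw [h.q_b, h2, h1, smul_neg]) (by rw [p_b, h1, smul_neg])
  exact ⟨a, smul_left_cancel b (by rw [ha, smul_comm b a])⟩

theorem decomp (v : V) : ∃ (w : V) (a c d : ZMod 3), q • w = w ∧ (b * q * b⁻¹) • w = w ∧
    v = w + a • e + c • b • e + d • b • b • e := by
  set p := b * q * b⁻¹ with hp
  have pp : ∀ v : V, p • p • v = v := h.rot.qq
  have pq : ∀ v : V, p • q • v = q • p • v := h.pq
  obtain ⟨a, ha⟩ := h.uniq (v + q • v - p • v - q • p • v)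
    (by simp only [smul_add, smul_sub, h.qq]; abel) (by simp only [← hp, smul_add, smul_sub, pq, pp]; abel)
  obtain ⟨c, hc⟩ := h.uniq1 (v - q • v + p • v - q • p • v)
    (by simp only [smul_add, smul_sub, h.qq]; abel) (by simp only [← hp, smul_add, smul_sub, pq, pp]; abel)
  obtain ⟨d, hd⟩ := h.uniq2 (v - q • v - p • v + q • p • v)
    (by simp only [smul_add, smul_sub, h.qq]; abel) (by simp only [← hp, smul_add, smul_sub, pq, pp]; abel)
  exact ⟨v + q • v + p • v + q • p • v, a, c, d, by simp only [smul_add, h.qq]; abel,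
    by simp only [smul_add, pq, pp]; abel, by linear_combination (norm := abel) ha + hc + hd - h3 v⟩

omit [SMulCommClass G (ZMod 3) V] h in
theorem pm {v w : V} (hv : v ≠ 0) (h : ∃ a : ZMod 3, v = a • w) : v = w ∨ v = -w := by
  obtain ⟨a, rfl⟩ := h
  rcases zm a with rfl | rfl | rfl <;> simp_all

omit [SMulCommClass G (ZMod 3) V] in
theorem sgn {a : G} (h1 : Commute a q) (h2 : Commute a (b * q * b⁻¹)) : a • e = e ∨ a • e = -e :=
  pm (fun h3 => h.e0 ((smul_eq_zero_iff_eq a).1 h3)) (h.uniq _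
    (by rw [smul_smul, ← h1.eq, mul_smul, h.qe]) (by rw [smul_smul, ← h2.eq, mul_smul, h.pe, smul_neg]))

end Fr

end Cfsg.Agent.H2.Cub
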