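import Cfsg.Agent.H2.Cub3

/-! The monomial case. -/

set_option autoImplicit false

namespace Cfsg.Agent.H2.Cub
open Subgroup
open scoped commutatorElement Pointwise

variable {G V : Type*} [Group G] [AddCommGroup V] [Module (ZMod 3) V] [DistribMulAction G V]
  [SMulCommClass G (ZMod 3) V] {b q : G} {e : V} {R : Subgroup G}

/-- the standing hypotheses: `G = R⟨b⟩` acts faithfully and irreducibly -/
structure Ctx (V : Type*) [AddCommGroup V] [DistribMulAction G V] (R : Subgroup G) (b : G) : Prop where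
  norm : R.Normal
  cop : (Nat.card R).Coprime 3
  b3 : b * b * b = 1
  sup : R ⊔ zpowers b = ⊤
  comm : ⁅R, zpowers b⁆ = R
  J : Nat.card (Im V b) ≤ 9
  irr : ∀ N : AddSubgroup V, (∀ g : G, ∀ v ∈ N, g • v ∈ N) → N = ⊥ ∨ N = ⊤
  faith : ∀ g : G, (∀ v : V, g • v = v) → g = 1

namespace Ctx
omit [Module (ZMod 3) V] [SMulCommClass G (ZMod 3) V]
variable (c : Ctx V R b)
include c

theorem der (g h : G) : ⁅g, h⁆ ∈ R := by
  have := c.norm
  have k : ∀ g : G, ∃ k : ℤ, QuotientGroup.mk' R g = QuotientGroup.mk' R b ^ k := fun g => by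
    obtain ⟨r, hr, _, ⟨k, rfl⟩, rfl⟩ := mem_sup_of_normal_left.1 (c.sup.symm ▸ mem_top g)
    exact ⟨k, by rw [map_mul, map_zpow, show QuotientGroup.mk' R r = 1 from
      (QuotientGroup.eq_one_iff r).2 hr, one_mul]⟩
  obtain ⟨l, hl⟩ := k h
  obtain ⟨k, hk⟩ := k g
  refine (QuotientGroup.eq_one_iff _).1 ((map_commutatorElement (QuotientGroup.mk' R) g h).trans ?_)
  rw [hk, hl]
  exact commutatorElement_eq_one_iff_commute.2 (Commute.zpow_zpow_self _ _ _)

theorem top (N : Subgroup G) [N.Normal] (h : b ∈ N) (g : G) : g ∈ N :=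
  (c.sup.ge.trans (sup_le (c.comm.ge.trans ((commutator_mono le_rfl (zpowers_le.2 h)).trans
    (commutator_le_right _ _))) (zpowers_le.2 h))) (mem_top g)

theorem all (N : AddSubgroup V) (hN : ∀ g : G, ∀ v ∈ N, g • v ∈ N) (h : e ∈ N) (h0 : e ≠ 0) (v : V) :
    v ∈ N := by
  rcases c.irr N hN with rfl | rfl
  exacts [absurd h h0, trivial]

theorem triv (A : Subgroup G) [hA : A.Normal] (h0 : e ≠ 0) (h : ∀ a ∈ A, a • e = e) : A = ⊥ := by
  let N : AddSubgroup V :=
    { carrier := {v | ∀ a ∈ A, a • v = v}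
      add_mem' := fun hu hv a ha => by rw [smul_add, hu a ha, hv a ha]
      zero_mem' := fun a _ => smul_zero a
      neg_mem' := fun hu a ha => by rw [smul_neg, hu a ha] }
  refine eq_bot_iff.2 fun a ha => c.faith a fun v => c.all N (fun g v hv a ha => ?_) h h0 v a ha
  have := hv _ (hA.conj_mem a ha g⁻¹)
  rwa [inv_inv, mul_smul, mul_smul, inv_smul_eq_iff] at this

end Ctx

theorem Ctx.fr [Finite V] (c : Ctx V R b) (h : Four b q) : ∃ e : V, Fr b q e :=
  exists_fr h c.J (not_forall.1 fun h1 => h.ne (c.faith q h1))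

theorem monomial [Finite G] [Finite V] (c : Ctx V R b) (h4 : Four b q) (hq : q ∈ R)
    (hc : ∀ g : G, Commute (g * q * g⁻¹) q) : Concl R := by
  obtain ⟨e, h⟩ := c.fr h4
  have := c.norm
  have ne : ∀ g : G, g • e ≠ 0 := fun g h1 => h.e0 ((smul_eq_zero_iff_eq g).1 h1)
  have eig : ∀ g : G, q • g • e = g • e ∨ q • g • e = -(g • e) := fun g => by
    have h1 := (hc (b⁻¹ * g⁻¹)).map (MulAut.conj b)
    rcases h.sgn (hc g⁻¹) (by simpa [mul_assoc] using h1) with h2 | h2 <;>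
      rw [inv_inv, mul_smul, mul_smul, inv_smul_eq_iff] at h2
    exacts [Or.inl h2, Or.inr (by rw [h2, smul_neg])]
  have eig' : ∀ g : G, (b * q * b⁻¹) • g • e = g • e ∨ (b * q * b⁻¹) • g • e = -(g • e) := fun g => by
    have := eig (b⁻¹ * g)
    rw [mul_smul, mul_smul]
    rw [mul_smul] at this
    rcases this with h2 | h2 <;> rw [h2] <;> simp
  have cases : ∀ g : G, (g • e = e ∨ g • e = -e) ∨ (g • e = b • e ∨ g • e = -(b • e)) ∨
      (g • e = b • b • e ∨ g • e = -(b • b • e)) ∨ (q • g • e = g • e ∧ (b * q * b⁻¹) • g • e = g • e) :=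
    fun g => by
      rcases eig g with h1 | h1 <;> rcases eig' g with h2 | h2
      exacts [Or.inr (Or.inr (Or.inr ⟨h1, h2⟩)), Or.inl (Fr.pm (ne g) (h.uniq _ h1 h2)),
        Or.inr (Or.inl (Fr.pm (ne g) (h.uniq1 _ h1 h2))),
        Or.inr (Or.inr (Or.inl (Fr.pm (ne g) (h.uniq2 _ h1 h2))))]
  have ln : ∀ (g : G) (v : V), g • ({v, -v} : Set V) = {g • v, -(g • v)} := fun g v => by
    rw [Set.smul_set_insert, Set.smul_set_singleton, smul_neg]
  have l1 : ∀ u v : V, ({u, -u} : Set V) = {v, -v} ↔ u = v ∨ u = -v := fun u v =>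
    ⟨fun h => (h ▸ Set.mem_insert u {-u} : u ∈ ({v, -v} : Set V)), by
      rintro (rfl | rfl)
      exacts [rfl, by rw [neg_neg, Set.pair_comm]]⟩
  have nq : ∀ (t : G) (u v : V), u ≠ 0 → t • u = u → t • v = -v → ¬ (u = v ∨ u = -v) := by
    rintro t u v h0 h1 h2 (rfl | rfl)
    · exact h0 (eq_zero_of_neg (h1.symm.trans h2))
    · rw [smul_neg, h2] at h1
      exact h0 (eq_zero_of_neg h1.symm)
  obtain ⟨y, hy⟩ := perm3 c.cop c.der (b := b) (by rw [pow_three', c.b3]) (x := ({e, -e} : Set V))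
    (by rw [ln, Ne, l1]; exact nq _ _ _ (ne b) h.p1 h.pe) fun g => by
      simp only [ln, l1]
      rcases cases g with h1 | h1 | h1 | h1
      exacts [Or.inl h1, Or.inr (Or.inl h1), Or.inr (Or.inr (Or.inl h1)),
        Or.inr (Or.inr (Or.inr (Or.inl (h.fix _ h1.1 h1.2))))]
  simp only [ln, l1] at hy
  letI : MulAction G (V × ZMod 3) :=
    { smul := fun g x => (g • x.1, x.2)
      one_smul := fun x => Prod.ext (one_smul _ _) rfl
      mul_smul := fun a b x => Prod.ext (mul_smul _ _ _) rfl }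
  have sm : ∀ (g : G) (v : V) (a : ZMod 3), g • (v, a) = (g • v, a) := fun _ _ _ => rfl
  haveI : SMulCommClass G ℤˣ (V × ZMod 3) := ⟨fun g ε x => by
    rcases Int.units_eq_one_or ε with rfl | rfl
    · simp
    · simp only [Units.neg_smul, one_smul]
      exact Prod.ext (smul_neg _ _) rfl⟩
  obtain ⟨x, x0, x1, x2, x3, x4, x5⟩ : ∃ x : V × ZMod 3, x ≠ 0 ∧ q • x = x ∧ (b * q * b⁻¹) • x = x ∧
      b • x = x ∧ (∀ g : G, q • g • e = g • e → (b * q * b⁻¹) • g • e = g • e →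
        (g • e, 0) = x ∨ (g • e, 0) = -x) ∧ ∀ g : G, g • x = x ∨ ∃ k : G, g • x = (k • e, 0) := by
    by_cases hx : ∃ g : G, q • g • e = g • e ∧ (b * q * b⁻¹) • g • e = g • e
    · obtain ⟨g, g1, g2⟩ := hx
      have k : ∀ g : G, q • g • e = g • e → (b * q * b⁻¹) • g • e = g • e →
          ({g • e, -(g • e)} : Set V) = y := fun g g1 g2 =>
        (((hy g).resolve_left (nq _ _ _ (ne g) g2 h.pe)).resolve_left
          (nq _ _ _ (ne g) g1 h.q1)).resolve_left (nq _ _ _ (ne g) g1 h.q2)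
      refine ⟨(g • e, 0), fun h1 => ne g (congrArg Prod.fst h1), by rw [sm, g1], by rw [sm, g2],
        by rw [sm, h.fix _ g1 g2], fun k' k1 k2 => ?_, fun k => Or.inr ⟨k * g, by rw [sm, mul_smul]⟩⟩
      rcases (l1 _ _).1 ((k k' k1 k2).trans (k g g1 g2).symm) with h1 | h1 <;> simp [h1]
    · exact ⟨(0, 1), fun h1 => absurd (show (1 : ZMod 3) = 0 from congrArg Prod.snd h1) (by decide), by rw [sm, smul_zero],
        by rw [sm, smul_zero], by rw [sm, smul_zero], fun g g1 g2 => absurd ⟨g, g1, g2⟩ hx,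
        fun g => Or.inl (by rw [sm, smul_zero])⟩
  obtain ⟨x, x'⟩ := x
  let f : Fin 4 → V × ZMod 3 := ![(e, 0), (b • e, 0), (b • b • e, 0), (x, x')]
  have y1 : q • x = x := congrArg Prod.fst x1
  have y2 : (b * q * b⁻¹) • x = x := congrArg Prod.fst x2
  have y3 : b • x = x := congrArg Prod.fst x3
  have f0 : ∀ i, f i ≠ 0 := fun i => by
    fin_cases i
    exacts [fun h1 => h.e0 (congrArg Prod.fst h1), fun h1 => ne b (congrArg Prod.fst h1),
      fun h1 => ne b ((smul_eq_zero_iff_eq b).1 (congrArg Prod.fst h1)), x0]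
  have fq : ∀ i, q • f i = qW.s i • f i := fun i => by
    fin_cases i <;> simp [f, qW, sm, h.qe, h.q1, h.q2, y1]
  have fp : ∀ i, (b * q * b⁻¹) • f i = (![-1, 1, -1, 1] : Fin 4 → ℤˣ) i • f i := fun i => by
    fin_cases i <;> simp [f, sm, h.pe, h.p1, h.p2, y2]
  have u : ∀ (ε ε' : ℤˣ) i, ε • f i = ε' • f i → ε = ε' := fun ε ε' i h1 => by
    rcases Int.units_eq_one_or ε with rfl | rfl <;> rcases Int.units_eq_one_or ε' with rfl | rfl
    exacts [rfl, absurd (eq_zero_of_neg (by simpa using h1)) (f0 i),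
      absurd (eq_zero_of_neg (by simpa using h1.symm)) (f0 i), rfl]
  have orb : ∀ g : G, ∃ (ε : ℤˣ) (j : Fin 4), (g • e, (0 : ZMod 3)) = ε • f j := fun g => by
    rcases cases g with (h1 | h1) | (h1 | h1) | (h1 | h1) | h1
    exacts [⟨1, 0, by simp [f, h1]⟩, ⟨-1, 0, by simp [f, h1]⟩, ⟨1, 1, by simp [f, h1]⟩,
      ⟨-1, 1, by simp [f, h1]⟩, ⟨1, 2, by simp [f, h1]⟩, ⟨-1, 2, by simp [f, h1]⟩,
      (x4 g h1.1 h1.2).elim (fun h2 => ⟨1, 3, by simp [f, h2]⟩) fun h2 => ⟨-1, 3, by simp [f, h2]⟩]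
  obtain ⟨φ, hφ⟩ := exists_phi (G := G) f (fun ε i j h1 => by
    have e1 := u (qW.s i) (qW.s j) i (by
      rw [← fq]; conv_lhs => rw [h1, smul_comm, fq, smul_comm, ← h1])
    have e2 := u (![-1, 1, -1, 1] i) (![-1, 1, -1, 1] j) i (by
      rw [← fp]; conv_lhs => rw [h1, smul_comm, fp, smul_comm, ← h1])
    obtain rfl : i = j := by clear h1; revert e1 e2; revert i j; decide
    exact ⟨(u 1 ε i (by rwa [one_smul])).symm, rfl⟩) fun g i => by
      fin_cases i
      · exact orb g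
      · have := orb (g * b)
        rwa [mul_smul] at this
      · have := orb (g * b * b)
        rwa [mul_smul, mul_smul] at this
      · rcases x5 g with h1 | ⟨k, h1⟩
        exacts [⟨1, 3, by simpa [f] using h1⟩, by simpa [f, h1] using orb k]
  refine mono' (φ := φ) ((MonoidHom.ker_eq_bot_iff φ).1 (c.triv _ h.e0 fun a ha => ?_)) c.cop c.comm
    ((hφ b bW).2 fun i => ?_) hq ((hφ q qW).2 fq)
  · simpa [f, sm] using (hφ a 1).1 ha 0
  · fin_cases i <;> simp [f, bW, cc, sm, h.bbb, y3]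

end Cfsg.Agent.H2.Cub
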