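import Cfsg.Agent.H2.Cub4
import Cfsg.Agent.H2.Prim
import Cfsg.Agent.H26.AutP

/-! No normal subgroups of odd order; elements of order five. -/

set_option autoImplicit false

namespace Cfsg.Agent.H2.Cub
open Subgroup
open scoped commutatorElement Pointwise

variable {G V : Type*} [Group G] [AddCommGroup V] [Module (ZMod 3) V] [DistribMulAction G V]
  [SMulCommClass G (ZMod 3) V] {b q : G} {e : V} {R : Subgroup G}

/-- the fixed vectors of `a` -/
def Fix (V : Type*) [AddCommGroup V] [DistribMulAction G V] (a : G) : AddSubgroup V where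
  carrier := {v | a • v = v}
  add_mem' := fun {u v} hu hv => by rw [Set.mem_setOf_eq, smul_add, hu, hv]
  zero_mem' := smul_zero a
  neg_mem' := fun {u} hu => by rw [Set.mem_setOf_eq, smul_neg, hu]

/-- the span of two vectors -/
def Sp (u w : V) : AddSubgroup V where
  carrier := {v | ∃ c d : ZMod 3, v = c • u + d • w}
  add_mem' := by rintro _ _ ⟨c, d, rfl⟩ ⟨c', d', rfl⟩; exact ⟨c + c', d + d', by module⟩
  zero_mem' := ⟨0, 0, by simp⟩
  neg_mem' := by rintro _ ⟨c, d, rfl⟩; exact ⟨-c, -d, by module⟩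

theorem card_Sp (u w : V) : Nat.card (Sp u w) ≤ 9 := by
  have := Nat.card_le_card_of_surjective (β := Sp u w)
    (fun x : ZMod 3 × ZMod 3 => ⟨_, x.1, x.2, rfl⟩) (by rintro ⟨_, c, d, rfl⟩; exact ⟨(c, d), rfl⟩)
  simpa using this

theorem card3 [Finite V] (N : AddSubgroup V) : ∃ k, Nat.card N = 3 ^ k :=
  ⟨_, (Module.natCard_eq_pow_finrank (K := ZMod 3) (V := AddSubgroup.toZModSubmodule 3 N)).trans
    (by rw [Nat.card_zmod])⟩

omit [SMulCommClass G (ZMod 3) V] in
theorem allfix [Finite V] {p : ℕ} [hp : Fact p.Prime] {a : G} (ha : a ^ p = 1) (N : AddSubgroup V)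
    (hN : ∀ v ∈ N, a • v ∈ N) (h : ∀ k m, Nat.card N = 3 ^ k → Nat.card (N ⊓ Fix V a : AddSubgroup V) = 3 ^ m →
      m < k → ¬ p ∣ 3 ^ k - 3 ^ m) {v : V} (hv : v ∈ N) : a • v = v := by
  classical
  obtain ⟨k, hk⟩ := card3 N
  obtain ⟨m, hm⟩ := card3 (N ⊓ Fix V a)
  have := Fintype.ofFinite N
  let f : Function.End N := fun u => ⟨a • u.1, hN _ u.2⟩
  have f1 : ∀ n (u : N), ((f ^ n) u : V) = (a ^ n) • u.1 := fun n => by
    induction n with
    | zero => intro u; rw [pow_zero, pow_zero, one_smul]; rfl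
    | succ n ih => intro u; rw [pow_succ, pow_succ, mul_smul]; exact ih (f u)
  have f2 := Equiv.Perm.card_fixedPoints_modEq (f := f) (p := p) (n := 1)
    (funext fun u => Subtype.ext (by rw [f1, pow_one, ha, one_smul]; rfl))
  have f3 : Nat.card f.fixedPoints = Nat.card (N ⊓ Fix V a : AddSubgroup V) := Nat.card_congr
    ⟨fun u => ⟨u.1.1, u.1.2, congrArg Subtype.val u.2⟩, fun u => ⟨⟨u.1, u.2.1⟩, Subtype.ext u.2.2⟩,
      fun _ => rfl, fun _ => rfl⟩
  rw [← Nat.card_eq_fintype_card, ← Nat.card_eq_fintype_card, f3, hk, hm] at f2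
  have h1 : k ≤ m := not_lt.1 fun h1 => h k m hk hm h1
    ((Nat.modEq_iff_dvd' (Nat.pow_le_pow_right (by norm_num) h1.le)).1 f2.symm)
  have h2 : N ⊓ Fix V a = N := AddSubgroup.eq_of_le_of_card_ge inf_le_left
    (by rw [hk, hm]; exact Nat.pow_le_pow_right (by norm_num) h1)
  exact (h2.ge hv).2

theorem two_dim [Finite V] {p : ℕ} [hp : Fact p.Prime] (h5 : 5 ≤ p) {a : G} (ha : a ^ p = 1) {u w : V}
    (hu : a • u ∈ Sp u w) (hw : a • w ∈ Sp u w) : a • u = u ∧ a • w = w := by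
  have m : ∀ (c : ZMod 3) v, v ∈ Sp u w → c • v ∈ Sp u w := by
    rintro c _ ⟨x, y, rfl⟩
    exact ⟨c * x, c * y, by module⟩
  have key : ∀ v ∈ Sp u w, a • v = v := fun v hv => allfix ha _ (by
    rintro _ ⟨c, d, rfl⟩
    rw [smul_add, smul_comm a c, smul_comm a d]
    exact add_mem (m _ _ hu) (m _ _ hw)) (fun k m h1 _ h2 h3 => by
      have h4 : 3 ^ k ≤ 3 ^ 2 := h1 ▸ card_Sp u w
      rw [Nat.pow_le_pow_iff_right (by norm_num)] at h4
      have h6 : p ∣ 2 ^ 3 * 3 := h3.trans (by interval_cases k <;> interval_cases m <;> norm_num)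
      rcases hp.out.dvd_mul.1 h6 with h | h
      · have := Nat.le_of_dvd (by norm_num) (hp.out.dvd_of_dvd_pow h); omega
      · have := Nat.le_of_dvd (by norm_num) h; omega) hv
  exact ⟨key u ⟨1, 0, by simp⟩, key w ⟨0, 1, by simp⟩⟩

omit [Module (ZMod 3) V] [SMulCommClass G (ZMod 3) V] in
theorem odd_fix {n : ℕ} (hn : Odd n) {a : G} (ha : a ^ n = 1) {v : V} (h : a • a • v = v) : a • v = v := by
  obtain ⟨m, rfl⟩ := hn
  have : (a ^ 2) ^ (m + 1) ∈ MulAction.stabilizer G v := pow_mem (by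
    rw [MulAction.mem_stabilizer_iff, pow_two, mul_smul, h]) _
  rwa [← pow_mul, show 2 * (m + 1) = 2 * m + 1 + 1 by ring, pow_succ, ha, one_mul] at this

omit [Module (ZMod 3) V] [SMulCommClass G (ZMod 3) V] in
theorem odd_pm {n : ℕ} (hn : Odd n) {a : G} (ha : a ^ n = 1) {v : V} (h : a • v = v ∨ a • v = -v) :
    a • v = v := h.elim id fun h => odd_fix hn ha (by rw [h, smul_neg, h, neg_neg])

theorem Fr.neg (h : Fr b q e) {v : V} (hv : q • v = -v) : v ∈ Sp (b • e) (b • b • e) := by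
  obtain ⟨w, a, c, d, h1, -, rfl⟩ := h.decomp v
  simp only [smul_add, smul_comm q, h1, h.qe, h.q1, h.q2] at hv
  refine ⟨c, d, ?_⟩
  generalize b • b • e = f2 at hv ⊢
  generalize b • e = f1 at hv ⊢
  linear_combination (norm := module) -hv + h3 (w + a • e)

theorem Fr.pos (h : Fr b q e) {v : V} (hv : q • v = v) :
    ∃ (c : ZMod 3), (b * q * b⁻¹) • v = v + c • e := by
  obtain ⟨w, a, c, d, h1, h2, rfl⟩ := h.decomp v
  simp only [smul_add, smul_comm q, smul_comm (b * q * b⁻¹), h1, h2, h.qe, h.q1, h.q2, h.pe, h.p1,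
    h.p2] at hv ⊢
  have h4 := congrArg ((b * q * b⁻¹) • ·) hv
  simp only [smul_add, smul_neg, smul_comm (b * q * b⁻¹), h2, h.pe, h.p1, h.p2] at h4
  refine ⟨a, ?_⟩
  generalize b • b • e = f2 at hv h4 ⊢
  generalize b • e = f1 at hv h4 ⊢
  linear_combination (norm := module) h4 - hv - h3 (a • e) - h3 (d • f2) - h3 (d • f2)

theorem Fr.inv [Finite V] (h : Fr b q e) {p : ℕ} [hp : Fact p.Prime] (h5 : 5 ≤ p) {a : G}
    (ha : a ^ p = 1) (h1 : q * a = a * q) (h2 : b * q * b⁻¹ * a = a⁻¹ * (b * q * b⁻¹)) (v : V) :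
    a • v = v := by
  have ho : Odd p := hp.out.odd_of_ne_two (by omega)
  have k1 : ∀ v : V, q • a • v = a • q • v := fun v => by rw [smul_smul, h1, mul_smul]
  have k2 : ∀ v : V, a • (b * q * b⁻¹) • a • v = (b * q * b⁻¹) • v := fun v => by
    rw [smul_smul _ a, h2, mul_smul a⁻¹, smul_inv_smul]
  obtain ⟨s1, s2⟩ := two_dim h5 ha (h.neg (by rw [k1, h.q1, smul_neg])) (h.neg (by rw [k1, h.q2, smul_neg]))
  have s0 : a • e = e := by
    obtain ⟨c, hc⟩ := h.pos (v := a • e) (by rw [k1, h.qe])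
    have := k2 e
    rw [hc, h.pe, smul_add, smul_comm a c] at this
    refine (two_dim h5 ha (u := e) (w := a • e) ⟨0, 1, by simp⟩ ⟨-1, -c, ?_⟩).1
    generalize a • a • e = f2 at this ⊢
    generalize a • e = f1 at this ⊢
    linear_combination (norm := module) this
  obtain ⟨w, x, c, d, w1, w2, rfl⟩ := h.decomp v
  have s3 : a • w = w := by
    obtain ⟨c, hc⟩ := h.pos (v := a • w) (by rw [k1, w1])
    have := k2 w
    rw [hc, w2, smul_add, smul_comm a c, s0, smul_smul] at this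
    refine odd_fix ho ha ((mul_smul _ _ _).symm.trans (two_dim h5 (a := a * a)
      (by rw [← pow_two, ← pow_mul, mul_comm, pow_mul, ha, one_pow]) (u := w) (w := e) ⟨1, -c, ?_⟩
      ⟨0, 1, by simp [mul_smul, s0]⟩).1)
    generalize (a * a) • w = f at this ⊢
    linear_combination (norm := module) this
  simp only [smul_add, smul_comm a, s0, s1, s2, s3]

theorem Ctx.odd_core [Finite G] [Finite V] [Group.IsSolvable G] (c : Ctx V R b) (h4 : Four b q) :
    pPrimeCore 2 G = ⊥ := by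
  by_contra h0
  obtain ⟨A, hA, hle⟩ := exists_isMinNormal_le inferInstance h0
  have := hA.normal
  obtain ⟨hc, p, hp, hpow⟩ := hA.exists_prime_of_isSolvable inferInstance
  have : Fact p.Prime := ⟨hp⟩
  obtain ⟨e, h⟩ := c.fr h4
  have h2 : p ≠ 2 := by
    rintro rfl
    exact hA.ne_bot (eq_bot_iff.2 ((le_inf le_rfl hle).trans
      (H1.inf_pPrimeCore_eq_bot (isPGroup_of_forall_pow_eq_one hpow)).le))
  have ho : Odd p := hp.odd_of_ne_two h2
  by_cases hp3 : p = 3
  · subst hp3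
    obtain ⟨k, hk⟩ := card3 (⊤ : AddSubgroup V)
    rw [AddSubgroup.card_top] at hk
    have : Nontrivial V := ⟨e, 0, h.e0⟩
    obtain ⟨v, hv, h1⟩ := (isPGroup_of_forall_pow_eq_one hpow).exists_fixed_point_of_prime_dvd_card_of_fixed_point
      V (hk ▸ dvd_pow_self 3 fun h => absurd hk (by rw [h]; exact Finite.one_lt_card.ne'))
      (a := 0) fun a => smul_zero a
    exact hA.ne_bot (c.triv A h1.symm fun a ha => hv ⟨a, ha⟩)
  have h5 := hp.five_le_of_ne_two_of_ne_three h2 hp3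
  have inv' : ∀ t, Four b t → ∀ y ∈ A, t * y * t⁻¹ = y → b * t * b⁻¹ * y * (b * t * b⁻¹)⁻¹ = y⁻¹ →
      y = 1 := fun t ht y hy h1 h2 => by
    obtain ⟨e, h⟩ := c.fr ht
    exact c.faith y (h.inv h5 (hpow y hy) (mul_inv_eq_iff_eq_mul.1 h1) (mul_inv_eq_iff_eq_mul.1 h2))
  have hq : q ∈ centralizer (A : Set G) := fun a ha => by
    letI : CommGroup A := { mul_comm := hc.is_comm.comm }
    let σ : MulAut A := MulAut.conjNormal q
    let τ : MulAut A := MulAut.conjNormal (b * q * b⁻¹)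
    have s1 : ∀ y, σ (σ y) = y := fun y => by
      rw [← MulAut.mul_apply, ← map_mul, h4.sq, map_one, MulAut.one_apply]
    have s2 : ∀ y, τ (τ y) = y := fun y => by
      rw [← MulAut.mul_apply, ← map_mul, h4.sq1, map_one, MulAut.one_apply]
    have s3 : ∀ y, σ (τ y) = τ (σ y) := fun y => by
      rw [← MulAut.mul_apply, ← map_mul, h4.comm, map_mul, MulAut.mul_apply]
    have s4 : ∀ y : A, b * (b * q * b⁻¹) * b⁻¹ * y * (b * (b * q * b⁻¹) * b⁻¹)⁻¹ = σ (τ y) := fun y => by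
      rw [h4.pr, ← MulAut.mul_apply, ← map_mul]; rfl
    suffices y3 : ∀ x : A, σ x = x⁻¹ → x = 1 from (mul_inv_eq_iff_eq_mul.1 (congrArg Subtype.val
      (mul_inv_eq_one.1 (y3 (⟨a, ha⟩ * (σ ⟨a, ha⟩)⁻¹) (by
        simp only [map_mul, map_inv, s1, mul_inv_rev, inv_inv])))).symm).symm
    intro x x1
    have y1 : x * τ x = 1 := Subtype.ext (inv' _ h4.rot _ (x * τ x).2
      (congrArg Subtype.val (show τ (x * τ x) = x * τ x by rw [map_mul, s2, mul_comm]))
      ((s4 _).trans (congrArg Subtype.val (show σ (τ (x * τ x)) = (x * τ x)⁻¹ by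
        rw [map_mul, s2, map_mul, s3, x1, map_inv, mul_inv_rev]))))
    have y2 : x * (τ x)⁻¹ = 1 := Subtype.ext (inv' _ h4.rot.rot _ (x * (τ x)⁻¹).2
      ((s4 _).trans (congrArg Subtype.val (show σ (τ (x * (τ x)⁻¹)) = x * (τ x)⁻¹ by
        rw [map_mul, map_inv, s2, map_mul, map_inv, s3, x1, map_inv, inv_inv, mul_comm])))
      (by rw [h4.r3]; exact congrArg Subtype.val (show σ (x * (τ x)⁻¹) = (x * (τ x)⁻¹)⁻¹ by
        rw [map_mul, map_inv, s3, x1, map_inv, mul_inv])))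
    rw [← mul_inv_eq_one.1 y2] at y1
    obtain ⟨m, rfl⟩ := ho
    have h1 : x ^ (2 * m + 1) = 1 := Subtype.ext (hpow _ x.2)
    rwa [pow_succ, pow_mul, pow_two, y1, one_pow, one_mul] at h1
  exact hA.ne_bot (c.triv A h.e0 fun a ha => odd_pm ho (hpow a ha) (h.sgn (hq a ha)
    (Normal.conj_mem inferInstance q hq b a ha)))

theorem Ctx.five [Finite V] (c : Ctx V R b) (h4 : Four b q) (hV : Nat.card V ≤ 81) {t : G}
    (ht : t ^ 5 = 1) (hb : b * t = t * b) : t = 1 := by
  have : Fact (Nat.Prime 5) := ⟨by norm_num⟩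
  obtain ⟨e, h⟩ := c.fr h4
  have s0 : e + b • e + b • b • e ≠ 0 := fun h0 => h.e0 (by
    have h1 := congrArg (q • ·) h0
    simp only [smul_add, h.qe, h.q1, h.q2, smul_zero] at h1
    linear_combination (norm := abel) h3 e - h0 - h1)
  have s1 : t • (e + b • e + b • b • e) = e + b • e + b • b • e := by
    refine odd_pm (by decide) ht (Fr.pm (fun h0 => s0 ((smul_eq_zero_iff_eq t).1 h0)) ?_)
    have k : ∀ v : V, t • b • v = b • t • v := fun v => by rw [smul_smul, ← hb, mul_smul]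
    obtain ⟨w, a, x, d, w1, w2, hw⟩ := h.decomp (t • e)
    refine ⟨a + x + d, ?_⟩
    simp only [smul_add t, k, hw, smul_add b, smul_comm b, h.fix w w1 w2, h.bbb]
    generalize b • b • e = f2
    generalize b • e = f1
    linear_combination (norm := module) h3 w
  refine c.faith t fun v => allfix ht ⊤ (fun _ _ => trivial) (fun k m h1 h2 h5 => ?_) trivial
  rw [AddSubgroup.card_top] at h1
  have h6 : 3 ^ k ≤ 3 ^ 4 := h1 ▸ hV
  rw [Nat.pow_le_pow_iff_right (by norm_num)] at h6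
  have h7 : m ≠ 0 := by
    rintro rfl
    exact s0 (AddSubgroup.mem_bot.1 (AddSubgroup.card_eq_one.1 h2 ▸ ⟨trivial, s1⟩))
  interval_cases k <;> interval_cases m <;> simp_all

end Cfsg.Agent.H2.Cub
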