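import Cfsg.Agent.H2.Cub5

/-! The irreducible case. -/

set_option autoImplicit false

namespace Cfsg.Agent.H2.Cub
open Subgroup
open scoped commutatorElement Pointwise

variable {G V : Type*} [Group G] [AddCommGroup V] [Module (ZMod 3) V] [DistribMulAction G V]
  [SMulCommClass G (ZMod 3) V] {b q : G} {e : V} {R : Subgroup G}

theorem prod_one (hb : b * b * b = 1) (y : G) : b * (b * (b * y * b⁻¹ * y⁻¹) * b⁻¹) * b⁻¹ *
    (b * (b * y * b⁻¹ * y⁻¹) * b⁻¹) * (b * y * b⁻¹ * y⁻¹) = 1 := by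
  calc _ = (b * b * b) * y * (b * b * b)⁻¹ * y⁻¹ := by group
    _ = 1 := by rw [hb]; simp

omit [Module (ZMod 3) V] [SMulCommClass G (ZMod 3) V] in
theorem Ctx.mem_of_two [Finite G] (c : Ctx V R b) {x : G} (hx : x ∈ pCore 2 G) : x ∈ R := by
  have := c.norm
  obtain ⟨k, hk⟩ := H1.isPGroup_pCore 2 G ⟨x, hx⟩
  obtain ⟨m, hm⟩ := exists_pow_eq_self_of_coprime (x := x) (n := 3) (Nat.Coprime.coprime_dvd_right
    (orderOf_dvd_of_pow_eq_one (congrArg Subtype.val hk)) (Nat.Coprime.pow_right _ (by norm_num)))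
  refine hm ▸ pow_mem ((QuotientGroup.eq_one_iff _).1 ?_) m
  obtain ⟨r, hr, _, ⟨k, rfl⟩, rfl⟩ := mem_sup_of_normal_left.1 (c.sup.symm ▸ mem_top x)
  rw [QuotientGroup.mk_pow, QuotientGroup.mk_mul, (QuotientGroup.eq_one_iff r).2 hr, one_mul,
    ← QuotientGroup.mk_pow, ← zpow_natCast, ← zpow_mul, mul_comm, zpow_mul, zpow_natCast, pow_three',
    c.b3, one_zpow, QuotientGroup.mk_one]

variable [Finite V]

theorem Ctx.cent (c : Ctx V R b) (h4 : Four b q) {z : G} (hz : z ∈ center G) (h1 : z ≠ 1) (v : V) :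
    z • v = -v := by
  obtain ⟨e, h⟩ := c.fr h4
  have k : ∀ (g : G) (v : V), z • g • v = g • z • v := fun g v => by
    rw [smul_smul, smul_smul, mem_center_iff.1 hz]
  rcases h.sgn (mem_center_iff.1 hz q).symm (mem_center_iff.1 hz _).symm with h2 | h2
  · exact absurd (c.faith z (c.all (Fix V z) (fun g v hv => (k g v).trans (congrArg _ hv)) h2 h.e0)) h1
  · let N : AddSubgroup V :=
      { carrier := {v | z • v = -v}
        add_mem' := fun {u v} hu hv => by rw [Set.mem_setOf_eq, smul_add, hu, hv, neg_add]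
        zero_mem' := by simp
        neg_mem' := fun {u} hu => by rw [Set.mem_setOf_eq, smul_neg, hu] }
    exact c.all N (fun g v hv => (k g v).trans ((congrArg _ hv).trans (smul_neg _ _))) h2 h.e0 v

theorem Ctx.cent_eq (c : Ctx V R b) (h4 : Four b q) {z w : G} (hz : z ∈ center G) (h1 : z ≠ 1)
    (hw : w ∈ center G) (h2 : w ≠ 1) : z * w = 1 :=
  c.faith _ fun v => by rw [mul_smul, c.cent h4 hw h2, c.cent h4 hz h1, neg_neg]

theorem Ctx.cent_sq (c : Ctx V R b) (h4 : Four b q) {z : G} (hz : z ∈ center G) : z * z = 1 := by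
  by_cases h : z = 1
  exacts [by rw [h, one_mul], c.cent_eq h4 hz h hz h]

omit [SMulCommClass G (ZMod 3) V] in
theorem Ctx.card_dvd (c : Ctx V R b) (hV : Nat.card V ≤ 81) : Nat.card G ∣ 2 ^ 9 * 3 ^ 6 * 5 * 13 := by
  have : Fact (Nat.Prime 3) := ⟨Nat.prime_three⟩
  obtain ⟨k, hk⟩ := card3 (⊤ : AddSubgroup V)
  rw [AddSubgroup.card_top] at hk
  have h1 := H26.card_mulAut_of_elementary (V := Multiplicative V) (p := 3) (r := k)
    (fun x => by rw [pow_three']; exact h3 x.toAdd) hk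
  let f : G →* MulAut (Multiplicative V) :=
    (MulAutMultiplicative V).symm.toMonoidHom.comp (DistribMulAction.toAddAut G V)
  refine (card_dvd_of_injective f ((injective_iff_map_eq_one f).2 fun g hg => c.faith g fun v =>
    congrArg (fun a : MulAut (Multiplicative V) => (a (Multiplicative.ofAdd v)).toAdd) hg)).trans ?_
  rw [h1]
  have h2 : 3 ^ k ≤ 3 ^ 4 := hk ▸ hV
  rw [Nat.pow_le_pow_iff_right (by norm_num)] at h2
  interval_cases k <;> simp [Finset.prod_range_succ]

variable [Finite G] [Group.IsSolvable G]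

theorem Ctx.two_group (c : Ctx V R b) (h4 : Four b q) (hV : Nat.card V ≤ 81) : R ≤ pCore 2 G := by
  have : Fact (Nat.Prime 2) := ⟨Nat.prime_two⟩
  have : Fact (Nat.Prime 3) := ⟨Nat.prime_three⟩
  have := c.norm
  have hd := c.card_dvd hV
  refine H1.le_pCore (H21.isPi_singleton_iff.1 fun r hr h => ?_)
  have : Fact r.Prime := ⟨hr⟩
  have h1 := h.trans ((card_subgroup_dvd_card R).trans hd)
  rw [hr.dvd_mul, hr.dvd_mul, hr.dvd_mul] at h1
  rcases h1 with ((h1 | h1) | h1) | h1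
  · exact (Nat.prime_dvd_prime_iff_eq hr Nat.prime_two).1 (hr.dvd_of_dvd_pow h1)
  · rw [(Nat.prime_dvd_prime_iff_eq hr Nat.prime_three).1 (hr.dvd_of_dvd_pow h1)] at h
    exact absurd (c.cop.symm.eq_one_of_dvd h) (by norm_num)
  · obtain rfl := (Nat.prime_dvd_prime_iff_eq hr (by norm_num)).1 h1
    have hB : IsPGroup 3 (zpowers b) := by
      rintro ⟨x, hx⟩
      refine ⟨1, Subtype.ext ?_⟩
      obtain ⟨k, rfl⟩ := hx
      show (b ^ k) ^ 3 ^ 1 = 1
      rw [pow_one, ← zpow_natCast, ← zpow_mul, mul_comm, zpow_mul, zpow_natCast, pow_three', c.b3, one_zpow]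
    obtain ⟨T, hT, hn⟩ := H1.exists_invariant_isSylowIn 5 (A := zpowers b) (K := R)
      le_normalizer_of_normal (H1.coprime_card_of_isPGroup_of_coprime hB c.cop) (Or.inr inferInstance)
    obtain ⟨k, hk⟩ := IsPGroup.iff_card.1 hT.isPGroup
    have h2 : k = 1 := by
      have h2 : k ≠ 0 := by
        rintro rfl
        rw [pow_zero, card_eq_one] at hk
        exact hT.not_dvd (by rwa [hk, relIndex_bot_left])
      by_contra h3
      have := ((pow_dvd_pow 5 (show 2 ≤ k by omega)).trans (hk ▸ card_subgroup_dvd_card T)).trans hd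
      norm_num at this
    rw [h2, pow_one] at hk
    have h3 := card_modEq_card_inf_centralizer hB hn
    have h5 := card_dvd_of_le (inf_le_left : T ⊓ centralizer (zpowers b : Set G) ≤ T)
    rw [hk] at h3 h5
    have h6 := eq_of_le_of_card_ge (inf_le_left : T ⊓ centralizer (zpowers b : Set G) ≤ T) (by
      rcases (Nat.dvd_prime hr).1 h5 with h | h <;> rw [h] at h3 ⊢
      exacts [absurd h3 (by decide), hk.le])
    have h7 : T = ⊥ := eq_bot_iff.2 fun t ht => c.five h4 hV
      (orderOf_dvd_iff_pow_eq_one.1 (hk ▸ T.orderOf_dvd_natCard ht)) ((h6.ge ht).2 b (mem_zpowers b))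
    rw [h7, card_bot] at hk
    omega
  · obtain rfl := (Nat.prime_dvd_prime_iff_eq hr (by norm_num)).1 h1
    obtain ⟨t, ht⟩ := exists_prime_orderOf_dvd_card' 13 (h.trans (card_subgroup_dvd_card R))
    obtain ⟨k, hk⟩ := IsPGroup.iff_card.1 (H1.isPGroup_pCore 2 G)
    have h2 : k ≤ 9 := by
      by_contra h3
      have := ((pow_dvd_pow 2 (show 10 ≤ k by omega)).trans (hk ▸ card_subgroup_dvd_card _)).trans hd
      norm_num at this
    have h3 := card_modEq_card_inf_centralizer (Q := zpowers t) (V := pCore 2 G)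
      (IsPGroup.of_card (n := 1) (by rw [Nat.card_zpowers, ht, pow_one])) le_normalizer_of_normal
    have h5 := card_dvd_of_le (inf_le_left : pCore 2 G ⊓ centralizer (zpowers t : Set G) ≤ _)
    rw [hk] at h3 h5
    obtain ⟨m, hm, h6⟩ := (Nat.dvd_prime_pow Nat.prime_two).1 h5
    rw [h6] at h3
    have h7 := eq_of_le_of_card_ge (inf_le_left : pCore 2 G ⊓ centralizer (zpowers t : Set G) ≤ _) (by
      rw [hk, h6]
      refine Nat.pow_le_pow_right (by norm_num) ?_
      clear hk h5 h6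
      interval_cases k <;> interval_cases m <;> first | rfl | exact absurd h3 (by decide))
    have h8 := H1.centralizer_pCore_le_of_isSolvable inferInstance (c.odd_core h4)
      (le_centralizer_iff.1 (inf_eq_left.1 h7) (mem_zpowers t))
    have h9 := (pCore 2 G).orderOf_dvd_natCard h8
    rw [hk, ht] at h9
    exact absurd (hr.dvd_of_dvd_pow h9) (by norm_num)

/-- the elements that are central in `O₂(G)` modulo the centre -/
def YY (G : Type*) [Group G] : Subgroup G :=
  (centralizer ((pCore 2 G).map (QuotientGroup.mk' (center G)) : Set (G ⧸ center G))).comap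
    (QuotientGroup.mk' (center G))

instance (G : Type*) [Group G] : (YY G).Normal :=
  have := Normal.map (inferInstance : (pCore 2 G).Normal) _ (QuotientGroup.mk'_surjective (center G))
  Normal.comap inferInstance _

omit [Finite G] [Group.IsSolvable G] in
theorem mem_YY {y p : G} (hy : y ∈ YY G) (hp : p ∈ pCore 2 G) : ⁅p, y⁆ ∈ center G :=
  (QuotientGroup.eq_one_iff _).1 ((map_commutatorElement (QuotientGroup.mk' _) p y).trans
    (commutatorElement_eq_one_iff_mul_comm.2 (hy _ ⟨p, hp, rfl⟩)))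

omit [Module (ZMod 3) V] [SMulCommClass G (ZMod 3) V] [Finite V] [Finite G] [Group.IsSolvable G] in
theorem Ctx.moved (c : Ctx V R b) (N : Subgroup G) [N.Normal] (h : ¬ N ≤ center G) :
    ∃ y ∈ N, b * y * b⁻¹ * y⁻¹ ≠ 1 := by
  by_contra h1
  push Not at h1
  exact h fun x hx => mem_center_iff.2 fun g => (c.top (centralizer N) (fun y hy =>
    (mul_inv_eq_iff_eq_mul.1 (mul_inv_eq_one.1 (h1 y hy))).symm) g x hx).symm

theorem Ctx.getU (c : Ctx V R b) (h4 : Four b q) (N : Subgroup G) [hN : N.Normal] (hP : N ≤ pCore 2 G)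
    (h : ¬ N ≤ center G) : ∃ y ∈ N ⊓ YY G, b * y * b⁻¹ * y⁻¹ ∈ N ⊓ YY G ∧ b * y * b⁻¹ * y⁻¹ ∉ center G := by
  have : Fact (Nat.Prime 2) := ⟨Nat.prime_two⟩
  have := hN.map _ (QuotientGroup.mk'_surjective (center G))
  obtain ⟨⟨_, ⟨y, hy, rfl⟩, h1⟩, h2⟩ := ne_bot_iff_exists_ne_one.1 (inf_centralizer_ne_bot_of_isPGroup
    (N := N.map (QuotientGroup.mk' (center G))) (((H1.isPGroup_pCore 2 G).to_le hP).map _)
    ((H1.isPGroup_pCore 2 G).map (QuotientGroup.mk' (center G))) le_normalizer_of_normal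
    (by rwa [Ne, Subgroup.map_eq_bot_iff, QuotientGroup.ker_mk']))
  obtain ⟨y, hy, h3⟩ := c.moved (N ⊓ YY G) fun h => h2 (Subtype.ext
    ((QuotientGroup.eq_one_iff _).2 (h ⟨hy, h1⟩)))
  refine ⟨y, hy, mul_mem (Normal.conj_mem inferInstance y hy b) (inv_mem hy), fun hz => h3 ?_⟩
  have h5 := prod_one c.b3 y
  generalize b * y * b⁻¹ * y⁻¹ = u at *
  have h6 : b * u * b⁻¹ = u := mul_inv_eq_iff_eq_mul.2 (mem_center_iff.1 hz b)
  rwa [h6, h6, c.cent_sq h4 hz, one_mul] at h5

end Cfsg.Agent.H2.Cub
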