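import Cfsg.Agent.H2.Cub6

/-! The irreducible case, concluded. -/

set_option autoImplicit false

namespace Cfsg.Agent.H2.Cub
open Subgroup
open scoped commutatorElement Pointwise

variable {G V : Type*} [Group G] [AddCommGroup V] [Module (ZMod 3) V] [DistribMulAction G V]
  [SMulCommClass G (ZMod 3) V] {b q : G} {e : V} {R : Subgroup G}

theorem anti_mul {z x y t : G} (hz : z ∈ center G) (h2 : z * z = 1) (hx : ⁅x, t⁆ = z) (hy : ⁅y, t⁆ = z) :
    Commute (x * y) t := by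
  refine commutatorElement_eq_one_iff_commute.1 ?_
  calc ⁅x * y, t⁆ = x * ⁅y, t⁆ * x⁻¹ * ⁅x, t⁆ := by simp only [commutatorElement_def]; group
    _ = 1 := by rw [hx, hy, mem_center_iff.1 hz x, mul_inv_cancel_right, h2]

variable [Finite V] [Finite G] [Group.IsSolvable G]

theorem Ctx.small (c : Ctx V R b) (h4 : Four b q) {y : G} (hy : y ∈ pCore 2 G)
    (hu : b * y * b⁻¹ * y⁻¹ ∈ YY G) (hz : b * y * b⁻¹ * y⁻¹ ∉ center G)
    (ha : pCore 2 G ⊓ centralizer (pCore 2 G : Set G) ≤ center G)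
    (hsq : b * y * b⁻¹ * y⁻¹ * (b * y * b⁻¹ * y⁻¹) ∈ center G) : Nat.card V ≤ 81 := by
  by_cases h1 : b * y * b⁻¹ * y⁻¹ * (b * y * b⁻¹ * y⁻¹) = 1
  · have hP : b * y * b⁻¹ * y⁻¹ ∈ pCore 2 G := mul_mem (Normal.conj_mem inferInstance y hy b) (inv_mem hy)
    have hu4 := Four.of_prod (q := b * y * b⁻¹ * y⁻¹) c.b3 (fun h => hz (h ▸ one_mem _)) h1 (prod_one c.b3 y)
    generalize b * y * b⁻¹ * y⁻¹ = u at *
    obtain ⟨e, h⟩ := c.fr hu4
    obtain ⟨p, hp, h2⟩ : ∃ p ∈ pCore 2 G, ⁅p, u⁆ ≠ 1 := by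
      by_contra h2
      push Not at h2
      exact hz (ha ⟨hP, fun p hp => commutatorElement_eq_one_iff_mul_comm.1 (h2 p hp)⟩)
    have h5 : ∀ v : V, u • p⁻¹ • v = -(p⁻¹ • u • v) := fun v => by
      have := c.cent h4 (mem_YY hu hp) h2 (u • v)
      rw [commutatorElement_def, mul_smul, mul_smul, mul_smul, inv_smul_smul, smul_eq_iff_eq_inv_smul,
        smul_neg] at this
      exact this
    let f : V → Sp (b • e) (b • b • e) × Sp (b • e) (b • b • e) := fun v =>
      (⟨v - u • v, h.neg (by rw [smul_sub, hu4.qq, neg_sub])⟩,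
        ⟨p⁻¹ • (v + u • v), h.neg (by rw [h5, smul_add u, hu4.qq, add_comm])⟩)
    refine (Nat.card_le_card_of_injective f fun v w h => ?_).trans ?_
    · have e1 : v - u • v = w - u • w := congrArg (fun x => x.1.1) h
      have e2 : v + u • v = w + u • w := smul_left_cancel p⁻¹ (congrArg (fun x => x.2.1) h)
      linear_combination (norm := abel) h3 v - h3 w - e1 - e2
    · rw [Nat.card_prod]
      exact Nat.mul_le_mul (card_Sp _ _) (card_Sp _ _)
  · let f : V → Im V b × Im V b := fun v => (⟨_, v, rfl⟩, ⟨_, y⁻¹ • v, rfl⟩)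
    refine (Nat.card_le_card_of_injective f fun v w h => ?_).trans ?_
    · have e1 : b • v - v = b • w - w := congrArg (fun x => x.1.1) h
      have e2 : b • y⁻¹ • v - y⁻¹ • v = b • y⁻¹ • w - y⁻¹ • w := congrArg (fun x => x.2.1) h
      have e3 : b • (v - w) = v - w := by rw [smul_sub]; linear_combination (norm := abel) e1
      have e4 : b • y⁻¹ • (v - w) = y⁻¹ • (v - w) := by
        rw [smul_sub, smul_sub]; linear_combination (norm := abel) e2
      have e5 : (b * y * b⁻¹ * y⁻¹) • (v - w) = v - w := by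
        rw [mul_smul, mul_smul, inv_smul_eq_iff.2 e4.symm, mul_smul, smul_inv_smul, e3]
      have e6 := c.cent h4 hsq h1 (v - w)
      rw [mul_smul, e5, e5] at e6
      exact sub_eq_zero.1 (eq_zero_of_neg e6)
    · rw [Nat.card_prod]
      exact Nat.mul_le_mul c.J c.J

theorem core (c : Ctx V R b) (h4 : Four b q) (hq : q ∈ R) : Concl R := by
  have : Fact (Nat.Prime 2) := ⟨Nat.prime_two⟩
  by_contra hn
  have H : ∀ v ∈ pCore 2 G, Four b v → ¬ ∀ g : G, Commute (g * v * g⁻¹) v := fun v hv h1 h2 =>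
    hn (monomial c h1 (c.mem_of_two hv) h2)
  have ha : pCore 2 G ⊓ centralizer (pCore 2 G : Set G) ≤ center G := by
    by_contra h
    obtain ⟨y, hy, h1⟩ := c.moved _ h
    have h2 := prod_one c.b3 y
    have hu := mul_mem (Normal.conj_mem inferInstance y hy b) (inv_mem hy)
    generalize b * y * b⁻¹ * y⁻¹ = u at *
    have cm : ∀ (g : G) (n m : ℕ), Commute (g * u ^ n * g⁻¹) (u ^ m) := fun g n m =>
      (pow_mem hu m).2 _ (Normal.conj_mem inferInstance _ (pow_mem hu n).1 g)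
    obtain ⟨k, hk⟩ := IsPGroup.iff_orderOf.1 (H1.isPGroup_pCore 2 G) ⟨u, hu.1⟩
    rw [← orderOf_coe] at hk
    obtain ⟨k, rfl⟩ : ∃ j, k = j + 1 := ⟨k - 1, by
      have : k ≠ 0 := by
        rintro rfl
        exact h1 (orderOf_eq_one_iff.1 hk)
      omega⟩
    refine H (u ^ 2 ^ k) (pow_mem hu _).1 (Four.of_prod c.b3 (pow_ne_one_of_lt_orderOf (by positivity)
      (by rw [show orderOf u = _ from hk]; exact Nat.pow_lt_pow_right (by norm_num) (by omega)))
      (by rw [← pow_two, ← pow_mul, ← pow_succ, ← show orderOf u = _ from hk, pow_orderOf_eq_one]) ?_)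
      fun g => cm g _ _
    have c1 : Commute (b * u * b⁻¹) u := by simpa using cm b 1 1
    have c2 : Commute (b * (b * u * b⁻¹) * b⁻¹) u := by simpa [mul_assoc] using cm (b * b) 1 1
    have c3 : Commute (b * (b * u * b⁻¹) * b⁻¹) (b * u * b⁻¹) := c1.map (MulAut.conj b)
    rw [← conj_pow, ← conj_pow, ← c3.mul_pow, ← (c2.mul_left c1).mul_pow, h2, one_pow]
  have get : ∀ (N : Subgroup G) [N.Normal], N ≤ pCore 2 G → ¬ N ≤ center G → ∃ y ∈ pCore 2 G, ∃ u,
      u = b * y * b⁻¹ * y⁻¹ ∧ u ∈ N ⊓ YY G ∧ u ∉ center G ∧ u * u ∈ center G := fun N _ hN h => by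
    obtain ⟨y, hy, h1, h2⟩ := c.getU h4 N hN h
    refine ⟨y, hN hy.1, _, rfl, h1, h2, ha ⟨mul_mem (hN h1.1) (hN h1.1), fun p hp => ?_⟩⟩
    have h5 := mem_YY h1.2 (inv_mem hp)
    generalize b * y * b⁻¹ * y⁻¹ = u at *
    have h6 := inv_mem h5
    rw [commutatorElement_inv] at h6
    simpa using (anti_mul h6 (c.cent_sq h4 h6) rfl rfl).inv_right.symm.eq
  have hb : b * q * b⁻¹ ≠ q := fun h => h4.ne (by
    have := h4.pr
    rwa [h, h, h4.sq] at this)
  obtain ⟨y, hy, u, hu, u1, u2, u3⟩ := get (pCore 2 G) le_rfl fun h => by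
    have h1 : b ∈ pCore 2 G := H1.centralizer_pCore_le_of_isSolvable inferInstance (c.odd_core h4)
      fun x hx => (mem_center_iff.1 (h hx) b).symm
    exact hb (mul_inv_eq_iff_eq_mul.2 (mem_center_iff.1 (h h1) q).symm)
  have hR := c.two_group h4 (c.small h4 hy (hu ▸ u1.2) (hu ▸ u2) ha (hu ▸ u3))
  have cj : ∀ v ∈ YY G, ∀ x : G, Commute x v → Commute x (b * v * b⁻¹) →
      Commute x (b * (b * v * b⁻¹) * b⁻¹) → ∀ g : G, Commute x (g * v * g⁻¹) := fun v hv x h1 h2 h5 g => by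
    have := c.norm
    obtain ⟨s, hs, r, hr, rfl⟩ := mem_sup_of_normal_right.1 ((sup_comm R _ ▸ c.sup).symm ▸ mem_top g)
    have h6 := mem_YY hv (hR hr)
    rw [show s * r * v * (s * r)⁻¹ = s * ⁅r, v⁆ * (v * s⁻¹) by simp only [commutatorElement_def]; group,
      mem_center_iff.1 h6 s, mul_assoc]
    refine Commute.mul_right (mem_center_iff.1 h6 x) ?_
    rcases mem_zp (by rw [pow_three', c.b3]) hs with rfl | rfl | rfl
    exacts [by simpa using h1, by simpa [mul_assoc] using h2, by simpa [mul_assoc] using h5]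
  have H' : ∀ v ∈ pCore 2 G ⊓ YY G, v ≠ 1 → b * (b * v * b⁻¹) * b⁻¹ * (b * v * b⁻¹) * v = 1 →
      v * v ≠ 1 := fun v hv h1 h2 h5 => by
    have h6 := Four.of_prod c.b3 h1 h5 h2
    exact H v hv.1 h6 fun g => (cj v hv.2 v rfl h6.comm (h6.pr ▸ Commute.mul_right rfl h6.comm) g).symm
  have u4 := hu ▸ prod_one c.b3 y
  have u5 := H' u u1 (fun h => u2 (h ▸ one_mem _)) u4
  have u' := Normal.conj_mem inferInstance u u1 b
  have sq' : ∀ g : G, g * u * g⁻¹ * (g * u * g⁻¹) = u * u := fun g => by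
    calc _ = g * (u * u) * g⁻¹ := by group
      _ = _ := by rw [mem_center_iff.1 u3 g, mul_inv_cancel_right]
  have u6 : b * (b * u * b⁻¹) * b⁻¹ = (b * u * b⁻¹ * u)⁻¹ := by
    rw [mul_assoc] at u4; exact eq_inv_of_mul_eq_one_left u4
  have u7 : b * u * b⁻¹ * u * (b * u * b⁻¹ * u) ≠ 1 := fun h => u5 (by
    rw [← sq' (b * b), ← inv_eq_one, show b * b * u * (b * b)⁻¹ = b * (b * u * b⁻¹) * b⁻¹ by group, u6,
      ← mul_inv_rev, inv_inv, h])
  have u8 : ¬ Commute (b * u * b⁻¹) u := fun h => u7 (by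
    rw [h.symm.mul_mul_mul_comm, sq', c.cent_sq h4 u3])
  have zz : ∀ z ∈ center G, z ≠ 1 → z = u * u := fun z hz h1 =>
    mul_right_cancel ((c.cent_eq h4 hz h1 u3 u5).trans (c.cent_sq h4 u3).symm)
  have mK : ∀ x : G, x ∈ (centralizer {u}).normalCore ↔ ∀ g : G, Commute x (g * u * g⁻¹) := fun x =>
    ⟨fun h g => by simpa [mul_assoc] using
      (show Commute _ _ from mem_centralizer_singleton_iff.1 (h g⁻¹)).map (MulAut.conj g),
    fun h g => mem_centralizer_singleton_iff.2 (by simpa [mul_assoc] using ((h g⁻¹).map (MulAut.conj g)).eq)⟩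
  by_cases hK : (centralizer {u}).normalCore ⊓ pCore 2 G ≤ center G
  · have k : ∀ x ∈ pCore 2 G, Commute (q * x) u → Commute (q * x) (b * u * b⁻¹) → q * x ∈ center G :=
      fun x hx h1 h2 => hK ⟨(mK _).2 (cj u u1.2 _ h1 h2 (u6 ▸ (h2.mul_right h1).inv_right)),
        mul_mem (hR hq) hx⟩
    have k2 : ∀ x, q * x ∈ center G → x * x = 1 := fun x h => by
      have h1 := c.cent_sq h4 h
      rwa [← mul_assoc, ← mem_center_iff.1 h q, ← mul_assoc, h4.sq, one_mul] at h1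
    have an : ∀ x ∈ pCore 2 G, ∀ t ∈ YY G, ¬ Commute x t → ⁅x, t⁆ = u * u := fun x hx t ht h =>
      zz _ (mem_YY ht hx) fun h1 => h (commutatorElement_eq_one_iff_commute.1 h1)
    have a1 := an _ u'.1 _ u1.2 u8
    have a2 := an _ u1.1 _ u'.2 fun h => u8 h.symm
    have z2 := c.cent_sq h4 u3
    by_cases h1 : Commute q u <;> by_cases h2 : Commute q (b * u * b⁻¹)
    · have := k 1 (one_mem _) (by rwa [mul_one]) (by rwa [mul_one])
      rw [mul_one] at this
      exact hb (mul_inv_eq_iff_eq_mul.2 (mem_center_iff.1 this b))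
    · exact u5 (k2 _ (k u u1.1 (h1.mul_left rfl) (anti_mul u3 z2 (an _ (hR hq) _ u'.2 h2) a2)))
    · exact u5 (sq' b ▸ k2 _ (k _ u'.1 (anti_mul u3 z2 (an _ (hR hq) _ u1.2 h1) a1) (h2.mul_left rfl)))
    · refine u7 (k2 _ (k _ (mul_mem u'.1 u1.1) ?_ ?_))
      · rw [← mul_assoc]
        exact (anti_mul u3 z2 (an _ (hR hq) _ u1.2 h1) a1).mul_left rfl
      · rw [← mul_assoc]
        refine anti_mul u3 z2 ?_ a2
        rw [← an _ (hR hq) _ u'.2 h2]
        simp only [commutatorElement_def]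
        group
  · obtain ⟨y', -, w, hw, w1, w2, w3⟩ := get _ inf_le_right hK
    have w4 := hw ▸ prod_one c.b3 y'
    have w5 := zz _ w3 (H' w ⟨w1.1.2, w1.2⟩ (fun h => w2 (h ▸ one_mem _)) w4)
    have cw : ∀ g h : G, Commute (g * w * g⁻¹) (h * u * h⁻¹) := fun g =>
      (mK _).1 (Normal.conj_mem inferInstance w w1.1.1 g)
    have c0 : Commute w u := by simpa using cw 1 1
    refine H' (u * w) (mul_mem u1 ⟨w1.1.2, w1.2⟩) (fun h => u8 ?_) ?_ ?_
    · have : Commute w (b * u * b⁻¹) := by simpa using cw 1 b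
      rw [eq_inv_of_mul_eq_one_left h]
      rw [eq_inv_of_mul_eq_one_left h] at this
      exact this.inv_left.symm
    · have c1 : Commute (b * w * b⁻¹) u := by simpa using cw b 1
      have c2 : Commute (b * (b * w * b⁻¹) * b⁻¹) u := by simpa [mul_assoc] using cw (b * b) 1
      have c3 : Commute (b * (b * w * b⁻¹) * b⁻¹) (b * u * b⁻¹) := by simpa [mul_assoc] using cw (b * b) b
      rw [show b * (u * w) * b⁻¹ = b * u * b⁻¹ * (b * w * b⁻¹) by group,
        show b * (b * u * b⁻¹ * (b * w * b⁻¹)) * b⁻¹ =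
          b * (b * u * b⁻¹) * b⁻¹ * (b * (b * w * b⁻¹) * b⁻¹) by group,
        c3.mul_mul_mul_comm, (c2.mul_left c1).mul_mul_mul_comm, u4, w4, one_mul]
    · rw [c0.mul_mul_mul_comm, w5, c.cent_sq h4 u3]

end Cfsg.Agent.H2.Cub
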