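import Cfsg.Agent.H2.Cub7

/-! A solvable group on an `F₃`-space with a cubic element of order three. -/

set_option autoImplicit false

namespace Cfsg.Agent.H2.Cub
open Subgroup
open scoped commutatorElement Pointwise

variable {G V : Type*} [Group G] [AddCommGroup V] [Module (ZMod 3) V] [DistribMulAction G V]
  [SMulCommClass G (ZMod 3) V] {b q : G} {e : V} {R : Subgroup G}

theorem Fr.dich (h : Fr b q e) (N : AddSubgroup V) (hb : ∀ v ∈ N, b • v ∈ N) (hq : ∀ v ∈ N, q • v ∈ N)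
    (hp : ∀ v ∈ N, (b * q * b⁻¹) • v ∈ N) : (∀ v ∈ N, b • v = v) ∨ ∀ v, b • v - v ∈ N := by
  have m : ∀ (a : ZMod 3) (x : V), x ∈ N → a • x ∈ N := fun a x hx =>
    (AddSubgroup.toZModSubmodule 3 N).smul_mem a hx
  by_cases he : e ∈ N
  · refine Or.inr fun v => ?_
    obtain ⟨w, a, c, d, w1, w2, rfl⟩ := h.decomp v
    have h1 := hb _ he
    have h2 := hb _ h1
    have := add_mem (add_mem (m a _ (sub_mem h1 he)) (m c _ (sub_mem h2 h1))) (m d _ (sub_mem he h2))
    simp only [smul_add b, smul_comm b, h.fix w w1 w2, h.bbb]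
    convert this using 1
    generalize b • b • e = f2
    generalize b • e = f1
    module
  refine Or.inl fun v hv => ?_
  obtain ⟨w, a, c, d, w1, w2, rfl⟩ := h.decomp v
  have m1 := hq _ hv
  have m2 := hp _ hv
  have m3 := hq _ m2
  simp only [smul_add, smul_neg, smul_comm q, smul_comm (b * q * b⁻¹), w1, w2, h.qe, h.q1, h.q2, h.pe,
    h.p1, h.p2] at m1 m2 m3
  have z : ∀ (a : ZMod 3) (x : V), x ∉ N → a • x ∈ N → a = 0 := fun a x hx h => by
    rcases zm a with rfl | rfl | rfl <;> simp_all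
  have n2 : b • b • e ∉ N := fun h1 => he (h.bbb e ▸ hb _ h1)
  have n1 : b • e ∉ N := fun h1 => n2 (hb _ h1)
  have hw := h.fix w w1 w2
  generalize b • b • e = f2 at *
  generalize b • e = f1 at *
  obtain rfl := z a e he (by
    convert sub_mem (sub_mem (add_mem hv m1) m2) m3 using 1
    linear_combination (norm := module) -h3 (a • e))
  obtain rfl := z c f1 n1 (by
    convert sub_mem (sub_mem (add_mem hv m2) m1) m3 using 1
    linear_combination (norm := module) -h3 (c • f1))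
  obtain rfl := z d f2 n2 (by
    convert sub_mem (sub_mem (add_mem hv m3) m1) m2 using 1
    linear_combination (norm := module) -h3 (d • f2))
  simpa using hw

theorem reduce [Finite G] [Finite V] [Group.IsSolvable G] (hf : ∀ g : G, (∀ v : V, g • v = v) → g = 1)
    (h4 : Four b q) (hq : q ∈ R) (hJ : Nat.card (Im V b) ≤ 9) (cop : (Nat.card R).Coprime 3)
    (hn : zpowers b ≤ normalizer (R : Set G)) (hR : ⁅R, zpowers b⁆ = R) :
    Concl R ∧ ∃ F₀ F₁ : Submodule (ZMod 3) V, F₀ ⊓ F₁ = ⊥ ∧ F₀ ⊔ F₁ = ⊤ ∧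
      (∀ r ∈ R, ∀ v ∈ F₁, r • v = v) ∧ (∀ r ∈ R ⊔ zpowers b, ∀ v ∈ F₀, r • v ∈ F₀) ∧
      (∀ r ∈ R ⊔ zpowers b, (∀ v ∈ F₀, r • v = v) → r = 1) ∧
      (∀ N : Submodule (ZMod 3) V, N ≤ F₀ → (∀ r ∈ R ⊔ zpowers b, ∀ v ∈ N, r • v ∈ N) →
        N = ⊥ ∨ N = F₀) := by
  have := Fintype.ofFinite R
  obtain ⟨e, h⟩ := exists_fr h4 hJ (not_forall.1 fun h1 => h4.ne (hf q h1))
  set H := R ⊔ zpowers b with hH
  have hHn : H ≤ normalizer (R : Set G) := sup_le le_normalizer hn
  have bH : b ∈ H := mem_sup_right (mem_zpowers b)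
  have hp : b * q * b⁻¹ ∈ R := (mem_normalizer_iff.1 (hHn bH) q).1 hq
  let T : V →ₗ[ZMod 3] V := ∑ r : R, DistribSMul.toLinearMap (ZMod 3) V (r : G)
  have T1 : ∀ v, T v = ∑ r : R, (r : G) • v := fun v => by simp [T, LinearMap.sum_apply]
  have T2 : ∀ g ∈ H, ∀ v, T (g • v) = g • T v := fun g hg v => by
    rw [T1, T1, Finset.smul_sum, ← Equiv.sum_comp (R.normalizerMonoidHom ⟨g, hHn hg⟩).toEquiv]
    exact Finset.sum_congr rfl fun r _ => by
      show (g * r * g⁻¹) • g • v = g • (r : G) • v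
      simp [mul_smul]
  have T3 : ∀ r ∈ R, ∀ v, r • T v = T v := fun r hr v => by
    rw [T1, Finset.smul_sum, ← Equiv.sum_comp (Equiv.mulLeft (⟨r, hr⟩ : R)) fun s : R => (s : G) • v]
    exact Finset.sum_congr rfl fun s _ => (mul_smul _ _ _).symm
  let F₁ : Submodule (ZMod 3) V :=
    { carrier := {v | ∀ r ∈ R, r • v = v}
      add_mem' := fun hu hv r hr => by rw [smul_add, hu r hr, hv r hr]
      zero_mem' := fun r _ => smul_zero r
      smul_mem' := fun c v hv r hr => by rw [smul_comm, hv r hr] }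
  obtain ⟨n, hn'⟩ : ∃ n : ZMod 3, n * (Fintype.card R : ZMod 3) = 1 :=
    ⟨_, ((ZMod.isUnit_iff_coprime _ _).2 (Nat.card_eq_fintype_card (α := R) ▸ cop)).val_inv_mul⟩
  have T4 : ∀ v ∈ F₁, n • T v = v := fun v hv => by
    rw [T1, Finset.sum_congr rfl fun (r : R) _ => hv r r.2, Finset.sum_const, Finset.card_univ,
      ← Nat.cast_smul_eq_nsmul (ZMod 3), smul_smul, hn', one_smul]
  have i1 : LinearMap.ker T ⊓ F₁ = ⊥ := eq_bot_iff.2 fun v hv => by
    rw [Submodule.mem_bot, ← T4 v hv.2, show T v = 0 from hv.1, smul_zero]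
  have i2 : ∀ v, v - n • T v ∈ LinearMap.ker T ∧ n • T v ∈ F₁ := fun v =>
    ⟨by rw [LinearMap.mem_ker, map_sub, map_smul, T4 _ fun r hr => T3 r hr v, sub_self],
      F₁.smul_mem _ fun r hr => T3 r hr v⟩
  have i3 : ∀ r ∈ H, ∀ v ∈ LinearMap.ker T, r • v ∈ LinearMap.ker T := fun r hr v hv => by
    rw [LinearMap.mem_ker, T2 r hr, show T v = 0 from hv, smul_zero]
  have i4 : ∀ r ∈ H, (∀ v ∈ LinearMap.ker T, r • v = v) → r = 1 := fun r hr h1 => hf r fun v => by
    have h2 : H ≤ MulAction.stabilizer G (n • T v) := sup_le (fun r hr => (i2 v).2 r hr)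
      (zpowers_le.2 (h.fix _ ((i2 v).2 _ hq) ((i2 v).2 _ hp)))
    rw [← sub_add_cancel v (n • T v), smul_add, h1 _ (i2 v).1, show r • n • T v = _ from h2 hr]
  have i5 : ∀ N : Submodule (ZMod 3) V, N ≤ LinearMap.ker T → (∀ r ∈ H, ∀ v ∈ N, r • v ∈ N) →
      N = ⊥ ∨ N = LinearMap.ker T := fun N hN h1 => by
    rcases h.dich N.toAddSubgroup (h1 b bH) (h1 q (mem_sup_left hq)) (h1 _ (mem_sup_left hp)) with h2 | h2
    · refine Or.inl (eq_bot_iff.2 (i1 ▸ le_inf hN fun v hv r hr => ?_))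
      refine (hR.ge.trans (commutator_le.2 fun r hr s hs => ?_) : R ≤ MulAction.stabilizer G v) hr
      have k : ∀ v ∈ N, ∀ s ∈ zpowers b, s • v = v := fun v hv =>
        (zpowers_le.2 (h2 v hv) : zpowers b ≤ MulAction.stabilizer G v)
      rw [MulAction.mem_stabilizer_iff, commutatorElement_def, mul_smul, mul_smul, mul_smul,
        k v hv _ (inv_mem hs), k _ (h1 _ (mem_sup_left (inv_mem hr)) v hv) s hs, smul_inv_smul]
    · let D : Subgroup G :=
        { carrier := {g | ∀ v, g • v - v ∈ N}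
          mul_mem' := fun {x y} hx hy v => by
            simpa [mul_smul] using N.add_mem (hx (y • v)) (hy v)
          one_mem' := fun v => by simp
          inv_mem' := fun {x} hx v => by simpa using N.neg_mem (hx (x⁻¹ • v)) }
      have h5 : R ≤ D := hR.ge.trans (commutator_le.2 fun r hr s hs => by
        have h6 : s ∈ D := zpowers_le.2 (show b ∈ D from h2) hs
        refine D.mul_mem (fun v => ?_) (D.inv_mem h6)
        simpa [mul_smul, smul_sub] using h1 r (mem_sup_left hr) _ (h6 (r⁻¹ • v)))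
      refine Or.inr (le_antisymm hN fun v hv => ?_)
      have h6 := N.smul_mem n (N.sum_mem (t := Finset.univ) fun (r : R) _ => h5 r.2 v)
      rwa [Finset.sum_sub_distrib, ← T1, show T v = 0 from hv, Finset.sum_const, Finset.card_univ,
        ← Nat.cast_smul_eq_nsmul (ZMod 3), zero_sub, smul_neg, smul_smul, hn', one_smul,
        neg_mem_iff] at h6
  refine ⟨?_, LinearMap.ker T, F₁, i1, eq_top_iff.2 fun v _ => sub_add_cancel v (n • T v) ▸
    Submodule.add_mem_sup (i2 v).1 (i2 v).2, fun r hr v hv => hv r hr, i3, i4, i5⟩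
  letI : DistribMulAction H (LinearMap.ker T) :=
    { smul := fun g v => ⟨g.1 • v.1, i3 _ g.2 _ v.2⟩
      one_smul := fun v => Subtype.ext (one_smul _ _)
      mul_smul := fun _ _ v => Subtype.ext (mul_smul _ _ _)
      smul_zero := fun g => Subtype.ext (smul_zero _)
      smul_add := fun g u v => Subtype.ext (smul_add _ _ _) }
  haveI : SMulCommClass H (ZMod 3) (LinearMap.ker T) := ⟨fun g c v => Subtype.ext (smul_comm g.1 c v.1)⟩
  have e1 : (R.subgroupOf H).map H.subtype = R := by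
    rw [subgroupOf_map_subtype, inf_eq_left.2 le_sup_left]
  have e2 : (zpowers (⟨b, bH⟩ : H)).map H.subtype = zpowers b := MonoidHom.map_zpowers _ _
  rw [← e1, concl_map H.subtype_injective]
  refine core (V := LinearMap.ker T) (b := ⟨b, bH⟩) (q := ⟨q, mem_sup_left hq⟩)
    ⟨(normal_subgroupOf_iff_le_normalizer le_sup_left).2 hHn,
      by rwa [← card_map_of_injective H.subtype_injective, e1], Subtype.ext h4.b3,
      map_injective H.subtype_injective (by rw [Subgroup.map_sup, e1, e2, ← MonoidHom.range_eq_map,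
        range_subtype]),
      map_injective H.subtype_injective (by rw [map_commutator, e1, e2, hR]), ?_, fun N hN => ?_,
      fun g hg => Subtype.ext (i4 _ g.2 fun v hv => congrArg Subtype.val (hg ⟨v, hv⟩))⟩
    ⟨Subtype.ext h4.b3, fun h => h4.ne (congrArg Subtype.val h), Subtype.ext h4.sq, Subtype.ext h4.pr⟩ hq
  · refine (Nat.card_le_card_of_injective (β := Im V b) (fun w => ⟨w.1.1, w.2.elim fun v hv =>
      ⟨v.1, congrArg Subtype.val hv⟩⟩) fun u w h => ?_).trans hJ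
    exact Subtype.ext (Subtype.ext (congrArg (fun x : Im V b => x.1) h))
  · rcases i5 ((AddSubgroup.toZModSubmodule 3 N).map (LinearMap.ker T).subtype) (Submodule.map_subtype_le _ _)
      (by rintro r hr _ ⟨v, hv, rfl⟩; exact ⟨_, hN ⟨r, hr⟩ v hv, rfl⟩) with h | h
    · refine Or.inl (eq_bot_iff.2 fun v hv => AddSubgroup.mem_bot.2 (Subtype.ext ?_))
      exact (Submodule.mem_bot _).1 (h.le ⟨v, hv, rfl⟩)
    · refine Or.inr (eq_top_iff.2 fun v _ => ?_)
      obtain ⟨w, hw, h1⟩ := h.ge v.2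
      exact (Subtype.ext h1 : w = v) ▸ hw

theorem main {S : Type*} [Group S] [Finite S]
    [Group.IsSolvable S] {E : Type*} [AddCommGroup E] [Module (ZMod 3) E] [Finite E]
    (ρ : Representation (ZMod 3) S E) (hfaith : Function.Injective ρ)
    (B : Subgroup S) (hB : Nat.card ↥B = 3) (b : S) (hb : Subgroup.zpowers b = B)
    (E₀ E₁ : Submodule (ZMod 3) E) (hE01' : E₀ ⊔ E₁ = ⊤)
    (hE1 : ∀ v ∈ E₁, ρ b v = v) (hE0inv : ∀ v ∈ E₀, ρ b v ∈ E₀) (hE0 : Nat.card ↥E₀ = 27)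
    (hind : ∃ v ∈ E₀, ρ b (ρ b v - v) - (ρ b v - v) ≠ 0)
    (Q : Subgroup S) (hQ : Cfsg.IsElementaryAbelian 2 Q)
    (hBQ : B ≤ Subgroup.normalizer (Q : Set S)) (hBQ' : ¬ B ≤ Subgroup.centralizer (Q : Set S))
    (P : Sylow 3 S) (hBZ : (Subgroup.center ↥(P : Subgroup S)).map (P : Subgroup S).subtype = B) :
    Concl ⁅pPrimeCore 3 S, B⁆ ∧ ∃ F₀ F₁ : Submodule (ZMod 3) E, F₀ ⊓ F₁ = ⊥ ∧ F₀ ⊔ F₁ = ⊤ ∧
      (∀ r ∈ ⁅pPrimeCore 3 S, B⁆, ∀ v ∈ F₁, ρ r v = v) ∧
      (∀ r ∈ ⁅pPrimeCore 3 S, B⁆ ⊔ B, ∀ v ∈ F₀, ρ r v ∈ F₀) ∧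
      (∀ r ∈ ⁅pPrimeCore 3 S, B⁆ ⊔ B, (∀ v ∈ F₀, ρ r v = v) → r = 1) ∧
      (∀ N : Submodule (ZMod 3) E, N ≤ F₀ → (∀ r ∈ ⁅pPrimeCore 3 S, B⁆ ⊔ B, ∀ v ∈ N, ρ r v ∈ N) →
        N = ⊥ ∨ N = F₀) := by
  have : Fact (Nat.Prime 3) := ⟨Nat.prime_three⟩
  subst hb
  letI : DistribMulAction S E :=
    { smul := fun g v => ρ g v
      one_smul := fun v => by show ρ 1 v = v; simp
      mul_smul := fun x y v => by show ρ (x * y) v = ρ x (ρ y v); simp
      smul_zero := fun g => map_zero (ρ g)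
      smul_add := fun g => map_add (ρ g) }
  haveI : SMulCommClass S (ZMod 3) E := ⟨fun g c v => map_smul (ρ g) c v⟩
  have b3 : b * b * b = 1 := by rw [← pow_three', ← hB, Nat.card_zpowers, pow_orderOf_eq_one]
  obtain ⟨y, hy, h1⟩ : ∃ y ∈ Q, b * y * b⁻¹ * y⁻¹ ≠ 1 := by
    by_contra h
    push Not at h
    exact hBQ' (zpowers_le.2 fun y hy => (mul_inv_eq_iff_eq_mul.1 (mul_inv_eq_one.1 (h y hy))).symm)
  have h2 : b * y * b⁻¹ * y⁻¹ * (b * y * b⁻¹ * y⁻¹) = 1 := (pow_two _).symm.trans (hQ.2 _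
    (mul_mem ((mem_normalizer_iff.1 (hBQ (mem_zpowers b)) y).1 hy) (inv_mem hy)))
  have h4 := Four.of_prod b3 h1 h2 (prod_one b3 y)
  have hK : b * y * b⁻¹ * y⁻¹ ∈ pPrimeCore 3 S := by
    let f := QuotientGroup.mk' (pPrimeCore 3 S)
    have h5 : f b ∈ pCore 3 _ := H1.centralizer_pCore_le_of_isSolvable inferInstance
      (H1.pPrimeCore_quotient_pPrimeCore 3) fun x hx => by
        obtain ⟨x, hx', rfl⟩ := H1.pCore_le_sylow (P.mapSurjective (QuotientGroup.mk'_surjective _)) hx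
        obtain ⟨z, hz, h6⟩ := hBZ.ge (mem_zpowers b)
        rw [← map_mul, ← map_mul, ← h6]
        exact congrArg (fun a : P => f a) (mem_center_iff.1 hz ⟨x, hx'⟩)
    have h6 : f (b * y * b⁻¹ * y⁻¹) ∈ pCore 3 _ := by
      have := mul_mem h5 (Normal.conj_mem inferInstance _ (inv_mem h5) (f y))
      simpa [mul_assoc] using this
    obtain ⟨k, hk⟩ := H1.isPGroup_pCore 3 _ ⟨_, h6⟩
    have h7 : f (b * y * b⁻¹ * y⁻¹) ^ 2 = 1 := by rw [← map_pow, pow_two, h2, map_one]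
    exact (QuotientGroup.eq_one_iff _).1 (orderOf_eq_one_iff.1 (Nat.eq_one_of_dvd_coprimes
      (Nat.Coprime.pow_right k (by norm_num : Nat.Coprime 2 3)) (orderOf_dvd_of_pow_eq_one h7)
      (orderOf_dvd_of_pow_eq_one (congrArg Subtype.val hk))))
  have cK := H1.coprime_card_pPrimeCore 3 S
  have hle : ⁅pPrimeCore 3 S, zpowers b⁆ ≤ pPrimeCore 3 S := commutator_le_left _ _
  refine reduce (fun g hg => hfaith (LinearMap.ext fun v => (hg v).trans (by simp))) h4.rot.rot ?_ ?_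
    (cK.coprime_dvd_left (card_dvd_of_le hle)) (normalizer_commutator_ge_right _ _)
    (H1.commutator_commutator_eq le_normalizer_of_normal (hB ▸ cK.symm))
  · rw [h4.pr, ← inv_mem_iff]
    generalize b * y * b⁻¹ * y⁻¹ = u at *
    convert commutator_mem_commutator hK (mem_zpowers b) using 1
    rw [commutatorElement_def, mul_inv_rev, inv_eq_of_mul_eq_one_left h4.sq1,
      inv_eq_of_mul_eq_one_left h2, ← h4.comm]
    group
  · let f : E₀ →+ Im E b := AddMonoidHom.mk' (fun v => ⟨b • v.1 - v.1, v.1, rfl⟩) fun u v =>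
      Subtype.ext (by simp only [Submodule.coe_add, smul_add, AddSubgroup.coe_add]; abel)
    have h5 : f.range = ⊤ := AddMonoidHom.range_eq_top.2 (by
      rintro ⟨_, v, rfl⟩
      obtain ⟨u, hu, w, hw, rfl⟩ := Submodule.mem_sup.1 (hE01'.ge (Submodule.mem_top (x := v)))
      exact ⟨⟨u, hu⟩, Subtype.ext (by
        show b • u - u = b • (u + w) - (u + w)
        rw [smul_add, show b • w = w from hE1 w hw]; abel)⟩)
    have h6 := f.ker.card_mul_index
    rw [AddSubgroup.index_ker, h5, AddSubgroup.card_top, hE0] at h6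
    obtain ⟨k, hk⟩ := card3 f.ker
    obtain ⟨v, hv, h7⟩ := hind
    have h8 : k ≠ 0 := by
      rintro rfl
      have m1 := E₀.sub_mem (hE0inv v hv) hv
      rw [pow_zero, AddSubgroup.card_eq_one] at hk
      refine h7 (congrArg (fun x : E₀ => x.1) (AddSubgroup.mem_bot.1 (hk.le
        (show (⟨_, E₀.sub_mem (hE0inv _ m1) m1⟩ : E₀) ∈ f.ker from Subtype.ext ?_))))
      show b • (b • (b • v - v) - (b • v - v)) - (b • (b • v - v) - (b • v - v)) = 0
      simp only [smul_sub, h4.bbb]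
      linear_combination (norm := abel) h3 (b • v) - h3 (b • b • v)
    have h9 : 3 ^ 1 ≤ 3 ^ k := Nat.pow_le_pow_right (by norm_num) (by omega)
    rw [hk] at h6
    nlinarith

end Cfsg.Agent.H2.Cub
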