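import Mathlib

/-! Eigenvectors for a normal abelian subgroup of odd order acting on an elementary abelian 2-group. -/

namespace Cfsg.Agent.H2.Eig2
open Subgroup MulAction
open scoped IsMulCommutative Pointwise

variable {S : Type*} [Group S] [Finite S] {E : Type*} [AddCommGroup E] [DistribMulAction S E]
  (P : Subgroup S) [P.Normal] {K : Type*} [Field K]

/-- conjugation action on characters -/
@[reducible] def chAct (K : Type*) [Field K] : MulAction S (P →* Kˣ) where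
  smul s χ := χ.comp (MulAut.conjNormal s⁻¹ : MulAut P).toMonoidHom
  one_smul χ := by ext g; change (χ (MulAut.conjNormal (1 : S)⁻¹ g) : K) = χ g; simp
  mul_smul s t χ := by
    ext g
    change (χ (MulAut.conjNormal (s * t)⁻¹ g) : K) = χ (MulAut.conjNormal t⁻¹ (MulAut.conjNormal s⁻¹ g))
    rw [mul_inv_rev, map_mul, MulAut.mul_apply]

attribute [local instance] chAct

variable {P}

omit [Finite S] in
theorem ch_apply (s : S) (χ : P →* Kˣ) (g : P) : (s • χ) g = χ (MulAut.conjNormal s⁻¹ g) := rfl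

/-- eigenvectors -/
def Ev (E : Type*) [AddCommGroup E] [DistribMulAction S E] (χ : P →* Kˣ) : AddSubgroup (K →+ E) where
  carrier := {f | ∀ (g : P) (k : K), (g : S) • f k = f (χ g * k)}
  zero_mem' := fun g k => by simp
  add_mem' := fun {a b} ha hb g k => by simp [ha g k, hb g k]
  neg_mem' := fun {a} ha g k => by simp [ha g k]

omit [Finite S] in
theorem smul_mem {χ : P →* Kˣ} {f : K →+ E} (hf : f ∈ Ev E χ) (s : S) : s • f ∈ Ev E (s • χ) := fun g k => by
  rw [AddMonoidHom.smul_apply, AddMonoidHom.smul_apply, ch_apply, ← hf, ← mul_smul, ← mul_smul]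
  congr 1
  simp [mul_assoc]

/-- projection to an eigenspace -/
noncomputable def proj (χ : P →* Kˣ) : (K →+ E) →+ (K →+ E) :=
  haveI := Fintype.ofFinite P
  { toFun := fun f => ∑ g : P, (g : S) • f.comp (AddMonoidHom.mulLeft ((χ g)⁻¹ : K))
    map_zero' := by simp
    map_add' := fun a b => by simp [AddMonoidHom.add_comp, Finset.sum_add_distrib] }

omit [P.Normal] in
theorem proj_apply [Fintype P] (χ : P →* Kˣ) (f : K →+ E) (k : K) :
    proj χ f k = ∑ g : P, (g : S) • f (((χ g : K))⁻¹ * k) := by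
  simp only [proj, AddMonoidHom.coe_mk, ZeroHom.coe_mk, AddMonoidHom.finsetSum_apply]
  congr!

omit [P.Normal] in
theorem proj_mem (χ : P →* Kˣ) (f : K →+ E) : proj χ f ∈ Ev E χ := fun h k => by
  haveI := Fintype.ofFinite P
  rw [proj_apply, proj_apply, Finset.smul_sum]
  refine Fintype.sum_equiv (Equiv.mulLeft h) _ _ fun g => ?_
  rw [← mul_smul, Equiv.coe_mulLeft, coe_mul, map_mul χ]
  congr 2
  have := (χ h).ne_zero
  push_cast
  field_simp

omit [P.Normal] in
theorem proj_of_mem (h1 : (Nat.card P : K) = 1) (χ : P →* Kˣ) {ψ : P →* Kˣ} {f : K →+ E} (hf : f ∈ Ev E ψ) :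
    (χ = ψ → proj χ f = f) ∧ (χ ≠ ψ → proj χ f = 0) := by
  classical
  haveI := Fintype.ofFinite P
  have key : ∀ k, proj χ f k = f ((∑ g : P, ((Units.coeHom K).comp (ψ / χ)) g) * k) := fun k => by
    rw [proj_apply, Finset.sum_mul, map_sum]
    refine Finset.sum_congr rfl fun g _ => ?_
    rw [hf, ← mul_assoc]
    simp [div_eq_mul_inv]
  constructor
  · rintro rfl
    ext k
    rw [key]
    simp [← Nat.card_eq_fintype_card, h1]
  · intro h
    ext k
    rw [key, sum_hom_units, if_neg]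
    · simp
    · intro h2
      refine h (eq_of_div_eq_one (MonoidHom.ext fun g => Units.ext ?_)).symm
      exact DFunLike.congr_fun h2 g

omit [P.Normal] in
theorem exists_ev [IsMulCommutative P] [HasEnoughRootsOfUnity K (Monoid.exponent P)]
    (h1 : (Nat.card P : K) = 1) {f : K →+ E} {g : P} (hg : (g : S) • f 1 ≠ f 1) :
    ∃ χ : P →* Kˣ, χ ≠ 1 ∧ ∃ f ∈ Ev E χ, f ≠ 0 := by
  classical
  haveI := Fintype.ofFinite P
  have hc := CommGroup.card_monoidHom_of_hasEnoughRootsOfUnity P K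
  haveI : Finite (P →* Kˣ) := Nat.finite_of_card_ne_zero (by rw [hc]; exact Nat.card_pos.ne')
  haveI := Fintype.ofFinite (P →* Kˣ)
  have h2 : ∑ χ : P →* Kˣ, proj χ f = f := by
    ext k
    simp only [AddMonoidHom.finsetSum_apply, proj_apply]
    rw [Finset.sum_comm, Finset.sum_eq_single 1]
    · simp only [map_one, Units.val_one, inv_one, one_mul, OneMemClass.coe_one, one_smul, Finset.sum_const,
        Finset.card_univ]
      rw [← map_nsmul, ← Nat.card_eq_fintype_card, hc, nsmul_eq_mul, h1, one_mul]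
    · intro a _ ha
      rw [← Finset.smul_sum, ← map_sum, ← Finset.sum_mul]
      have h3 := sum_hom_units ((Units.coeHom K).comp (MonoidHom.eval a⁻¹ : (P →* Kˣ) →* Kˣ))
      rw [if_neg] at h3
      · have h4 : ∑ χ : P →* Kˣ, ((χ a : K))⁻¹ = 0 := by simpa using h3
        simp [h4]
      · obtain ⟨φ, hφ⟩ := CommGroup.exists_apply_ne_one_of_hasEnoughRootsOfUnity P K (inv_ne_one.2 ha)
        exact fun h => hφ (Units.ext (DFunLike.congr_fun h φ))
    · simp
  by_contra hc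
  push Not at hc
  rw [Finset.sum_eq_single 1 (fun χ _ h => hc χ h _ (proj_mem χ f)) (by simp)] at h2
  have h3 := proj_mem 1 f g 1
  rw [h2] at h3
  exact hg (by simpa using h3)

theorem exists_fixed {M : Type*} [AddCommGroup M] [Finite M] [DistribMulAction S M] (h2 : ∀ m : M, m + m = 0)
    {N : Subgroup S} (hN : IsPGroup 2 N) (W : AddSubgroup M) (hW : ∀ n ∈ N, ∀ w ∈ W, n • w ∈ W)
    {w : M} (hw : w ∈ W) (h0 : w ≠ 0) : ∃ f ∈ W, f ≠ 0 ∧ ∀ n ∈ N, n • f = f := by
  let A : SubMulAction N M := ⟨W, fun n w hw => hW n n.2 w hw⟩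
  have h3 : 2 ∣ Nat.card A := by
    have h4 : addOrderOf (⟨w, hw⟩ : W) = 2 :=
      addOrderOf_eq_prime (Subtype.ext (by simpa [two_nsmul] using h2 w)) fun h => h0 (congrArg Subtype.val h)
    exact h4 ▸ addOrderOf_dvd_natCard (⟨w, hw⟩ : W)
  obtain ⟨b, hb, hb0⟩ := hN.exists_fixed_point_of_prime_dvd_card_of_fixed_point A h3 (a := ⟨0, W.zero_mem⟩)
    fun n => Subtype.ext (smul_zero n)
  exact ⟨b, b.2, fun h => hb0 (Subtype.ext h.symm), fun n hn => congrArg Subtype.val (hb ⟨n, hn⟩)⟩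

theorem orbit_sum (h1 : (Nat.card P : K) = 1) {χ : P →* Kˣ} {f : K →+ E} (hf : f ∈ Ev E χ) (H : Subgroup S)
    (hH : ∀ h ∈ H, h • χ = χ → h • f = f) : ∃ F : K →+ E, (∀ h ∈ H, h • F = F) ∧ proj χ F = f ∧
      ∀ y : S, (∀ h ∈ H, (y * h) • χ ≠ χ) → proj χ (y • F) = 0 := by
  classical
  have hfin : (orbit H f).Finite := Set.finite_range _
  refine ⟨∑ a ∈ hfin.toFinset, a, fun h hh => ?_, ?_, fun y hy => ?_⟩
  · rw [Finset.smul_sum]
    refine Finset.sum_bijective (fun a => h • a) (MulAction.bijective h) (fun a => ?_) fun _ _ => rfl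
    simp only [Set.Finite.mem_toFinset]
    exact (orbit_eq_iff.trans ⟨fun h' => by
      simpa using (show (⟨h, hh⟩ : H) • a ∈ orbit H f from orbit_eq_iff.1 ((orbit_smul _ _).trans
        (orbit_eq_iff.2 h'))), fun h' => orbit_eq_iff.1 ((orbit_smul (⟨h, hh⟩ : H) a).symm.trans
        (orbit_eq_iff.2 h'))⟩) |> fun e => orbit_eq_iff.symm.trans e
  · rw [map_sum, Finset.sum_eq_single f]
    · exact (proj_of_mem h1 χ hf).1 rfl
    · intro a ha haf
      obtain ⟨h, rfl⟩ := hfin.mem_toFinset.1 ha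
      exact (proj_of_mem h1 χ (smul_mem hf h)).2 fun e => haf (hH h h.2 e.symm)
    · exact fun h => absurd (hfin.mem_toFinset.2 (mem_orbit_self f)) h
  · rw [Finset.smul_sum, map_sum]
    refine Finset.sum_eq_zero fun a ha => ?_
    obtain ⟨h, rfl⟩ := hfin.mem_toFinset.1 ha
    have := (proj_of_mem h1 χ (smul_mem hf (y * h))).2 (hy h h.2).symm
    rwa [mul_smul] at this

theorem main [Finite E] [Module (ZMod 2) E] [IsMulCommutative P] (hodd : Odd (Nat.card P))
    {e : E} {g : S} (hg : g ∈ P) (he : g • e ≠ e) (L T : Subgroup S) (hTL : T ≤ L)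
    (hL : ∀ N ≤ L, ⁅P, N⁆ ≠ P → ∃ l ∈ L, ∀ a, l⁻¹ * a * l ∈ N → a ∈ T) (hT : IsPGroup 2 T) :
    (∃ u : E, u ≠ 0 ∧ ∀ l ∈ L, l • u = u) ∧ ∀ y ∈ L, y ∉ T → ∃ v : E, (∀ t ∈ T, t • v = v) ∧ y • v ≠ v := by
  have hexp : Odd (Monoid.exponent P) := Odd.of_dvd_nat hodd Group.exponent_dvd_nat_card
  haveI : NeZero (Monoid.exponent P : ZMod 2) := ⟨by rw [(ZMod.natCast_eq_one_iff_odd).2 hexp]; exact one_ne_zero⟩
  haveI : NeZero (Monoid.exponent P) := ⟨hexp.pos.ne'⟩
  let K := CyclotomicField (Monoid.exponent P) (ZMod 2)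
  haveI : FiniteDimensional (ZMod 2) K := IsCyclotomicExtension.finiteDimensional {Monoid.exponent P} _ _
  haveI : Finite K := Module.finite_of_finite (ZMod 2)
  haveI : HasEnoughRootsOfUnity K (Monoid.exponent P) :=
    ⟨IsCyclotomicExtension.exists_isPrimitiveRoot (ZMod 2) K (Set.mem_singleton _) hexp.pos.ne', inferInstance⟩
  have h1 : (Nat.card P : K) = 1 := by
    rw [← map_natCast (algebraMap (ZMod 2) K), (ZMod.natCast_eq_one_iff_odd).2 hodd, map_one]
  obtain ⟨lam, hlam⟩ := (Algebra.linearMap (ZMod 2) K).exists_leftInverse_of_injective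
    (LinearMap.ker_eq_bot.2 (algebraMap (ZMod 2) K).injective)
  have hl1 : lam 1 = 1 := by simpa using DFunLike.congr_fun hlam 1
  obtain ⟨χ0, hχ0, f0, hf0, hf00⟩ := exists_ev (K := K) h1 (f := (lam.smulRight e).toAddMonoidHom) (g := ⟨g, hg⟩)
    (by simpa [hl1] using he)
  obtain ⟨l, hl, hlT⟩ := hL (L ⊓ stabilizer S χ0) inf_le_left (fun h => hχ0 (by
    have h2 : ⁅P, L ⊓ stabilizer S χ0⁆ ≤ χ0.ker.map P.subtype := commutator_le.2 fun a ha b hb => by
      refine ⟨⟨a, ha⟩ * (MulAut.conjNormal b (⟨a, ha⟩ : P))⁻¹, ?_, by simp [commutatorElement_def, mul_assoc]⟩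
      have h3 := DFunLike.congr_fun (mem_stabilizer_iff.1 (inv_mem hb.2)) ⟨a, ha⟩
      rw [ch_apply, inv_inv] at h3
      simp [MonoidHom.mem_ker, h3]
    rw [h] at h2
    ext a
    obtain ⟨b, hb, e⟩ := h2 a.2
    obtain rfl : b = a := Subtype.ext e
    simpa using hb))
  have hst : L ⊓ stabilizer S (l • χ0) ≤ T := fun a ha => hlT a (by
    refine mem_inf.2 ⟨mul_mem (mul_mem (inv_mem hl) (mem_inf.1 ha).1) hl, mem_stabilizer_iff.2 ?_⟩
    rw [mul_smul, mul_smul, mem_stabilizer_iff.1 (mem_inf.1 ha).2, inv_smul_smul])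
  haveI : Finite (K →+ E) := DFunLike.finite _
  obtain ⟨f, hf, hf1, hf2⟩ := exists_fixed (M := K →+ E) (fun m => by
      ext k
      rw [AddMonoidHom.add_apply, ← two_smul (ZMod 2), show (2 : ZMod 2) = 0 from rfl, zero_smul]; rfl)
    (hT.to_le hst) (Ev E (l • χ0)) (fun n hn w hw => by
      have := smul_mem hw n
      rwa [mem_stabilizer_iff.1 hn.2] at this) (smul_mem hf0 l) ((smul_ne_zero_iff_ne l).2 hf00)
  constructor
  · obtain ⟨F, a1, a2, -⟩ := orbit_sum h1 hf L fun h hh e => hf2 h ⟨hh, e⟩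
    have : F ≠ 0 := by rintro rfl; exact hf1 (by simpa using a2.symm)
    obtain ⟨k, hk⟩ := DFunLike.ne_iff.1 this
    exact ⟨F k, hk, fun l hl => DFunLike.congr_fun (a1 l hl) k⟩
  · intro y hy hyT
    obtain ⟨F, a1, a2, a3⟩ := orbit_sum h1 hf T fun h hh e => hf2 h ⟨hTL hh, e⟩
    have : y • F ≠ F := fun e => hf1 (by
      rw [← a2, ← e]
      exact a3 y fun h hh e => hyT ((mul_mem_cancel_right hh).1 (hst ⟨mul_mem hy (hTL hh), e⟩)))
    obtain ⟨k, hk⟩ := DFunLike.ne_iff.1 this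
    exact ⟨F k, fun l hl => DFunLike.congr_fun (a1 l hl) k, hk⟩

end Cfsg.Agent.H2.Eig2
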