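import Cfsg.Agent.H8.Gal2
import Cfsg.Agent.S4550

set_option autoImplicit false

namespace Cfsg.Agent.H2GalP

open Cfsg Cfsg.Agent.H4 Cfsg.Agent.H5 Cfsg.Agent.H3 Cfsg.Agent.H8

variable {G : Type*} [Group G] [Finite G]

/-- conjugation followed by a sign power -/
def tw (N : Subgroup G) [N.Normal] (x : G) (u : ℤˣ) (n : N) : N := (MulAut.conjNormal x⁻¹ n) ^ (u : ℤ)

omit [Finite G] in
theorem tw_mul (N : Subgroup G) [N.Normal] (x y : G) (u v : ℤˣ) (n : N) :
    tw N (x * y) (u * v) n = tw N y v (tw N x u n) := by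
  simp only [tw, mul_inv_rev, map_mul, MulAut.mul_apply, map_zpow, Units.val_mul, zpow_mul]

omit [Finite G] in
theorem tw_one (N : Subgroup G) [N.Normal] (n : N) : tw N 1 1 n = n := by simp [tw]

omit [Finite G] in
theorem tw_pow (N : Subgroup G) [N.Normal] (x : G) (u : ℤˣ) (n : N) (k : ℕ) :
    tw N x u (n ^ k) = tw N x u n ^ k := by
  simp only [tw, map_pow]
  rw [← zpow_natCast, ← zpow_natCast, ← zpow_mul, ← zpow_mul, mul_comm]

omit [Finite G] in
theorem tw_order (N : Subgroup G) [N.Normal] (x : G) (u : ℤˣ) (n : N) :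
    orderOf (tw N x u n) = orderOf n := by
  rcases Int.units_eq_one_or u with rfl | rfl <;> simp [tw]

theorem tw_irr (N : Subgroup G) [N.Normal] (x : G) (u : ℤˣ) {θ : N → ℂ} (h : IsIrrCharacter N θ) :
    IsIrrCharacter N fun n => θ (tw N x u n) := by
  rcases Int.units_eq_one_or u with rfl | rfl
  · simpa [tw] using h.comp_equiv (MulAut.conjNormal x⁻¹)
  · have := (h.comp_equiv (MulAut.conjNormal x⁻¹)).conj
    simpa [tw, h.isCharacter.apply_inv] using this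

omit [Finite G] in
theorem tw_bij (N : Subgroup G) [N.Normal] (x : G) (u : ℤˣ) : Function.Bijective (tw N x u) :=
  Function.bijective_iff_has_inverse.2 ⟨tw N x⁻¹ u⁻¹,
    fun n => by rw [← tw_mul, mul_inv_cancel, mul_inv_cancel, tw_one],
    fun n => by rw [← tw_mul, inv_mul_cancel, inv_mul_cancel, tw_one]⟩

theorem exists_theta (M : Ideal AlgInt) (hM : IsPModular 2 M) (N : Subgroup G) [N.Normal] (P : Sylow 2 G)
    (hev : Even (Nat.card N)) (k : ℕ) (hk₁ : ∀ g : G, (∃ j : ℕ, orderOf g = 2 ^ j) → g ^ k = g ^ 3)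
    (hk₂ : ∀ g : G, Odd (orderOf g) → g ^ k = g) :
    ∃ θ : IrrCharacter N, θ ≠ irrOne N ∧ θ ∈ principalBlock M N ∧ Odd (charDegree (θ : N → ℂ)) ∧
      (∀ n : N, θ.1 (n ^ k) = θ.1 n) ∧ (∀ n : N, θ.1 n⁻¹ = θ.1 n) ∧
      ∀ x ∈ (P : Subgroup G), ∀ n : N, θ.1 (MulAut.conjNormal x n) = θ.1 n := by
  classical
  haveI := Fintype.ofFinite N
  haveI := hM.2.1
  have h1 := S4550.result M hM hev k
    (fun g hg => Subtype.ext (hk₁ g (by rwa [Subgroup.orderOf_coe])))
    (fun g hg => Subtype.ext (hk₂ g (by rwa [Subgroup.orderOf_coe])))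
  set X := {χ : IrrCharacter N // χ ∈ principalBlock M N ∧ Odd (charDegree (χ : N → ℂ)) ∧
    ∀ g : N, (χ : N → ℂ) (g ^ k) = (χ : N → ℂ) g}
  have hmem : ∀ (x : G) (u : ℤˣ) (χ : X),
      (⟨_, tw_irr N x u χ.1.2⟩ : IrrCharacter N) ∈ principalBlock M N ∧
      Odd (charDegree fun n => χ.1.1 (tw N x u n)) ∧
      ∀ g : N, χ.1.1 (tw N x u (g ^ k)) = χ.1.1 (tw N x u g) := by
    intro x u χ
    refine ⟨?_, ?_, fun g => by rw [tw_pow]; exact χ.2.2.2 _⟩
    · have h2 := (mem_principal_iff hM _).1 χ.2.1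
      rw [mem_principal_iff hM]
      refine fun h => h2 (Eq.trans ?_ h)
      rw [← (tw_bij N x u).sum_comp]
      refine Finset.sum_congr rfl fun g _ => ?_
      rw [pReg_eq_ite, pReg_eq_ite, tw_order]
    · have := χ.2.2.1
      unfold charDegree at this ⊢
      simpa [tw] using this
  letI : MulAction (↥(P : Subgroup G) × ℤˣ) X :=
    { smul := fun γ χ => ⟨⟨_, tw_irr N γ.1 γ.2 χ.1.2⟩, hmem γ.1 γ.2 χ⟩
      one_smul := fun χ => Subtype.ext (Subtype.ext (funext fun n => congrArg χ.1.1 (tw_one N n)))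
      mul_smul := fun γ δ χ => Subtype.ext (Subtype.ext (funext fun n =>
        congrArg χ.1.1 (tw_mul N γ.1 δ.1 γ.2 δ.2 n))) }
  have hP : IsPGroup 2 (↥(P : Subgroup G) × ℤˣ) := fun γ => by
    obtain ⟨j, hj⟩ := P.2 γ.1
    refine ⟨j + 1, Prod.ext ?_ ?_⟩
    · rw [Prod.pow_fst, pow_succ, pow_mul, hj, one_pow]; rfl
    · rw [Prod.pow_snd, pow_succ', pow_mul, Int.units_sq, one_pow]; rfl
  let o : X := ⟨irrOne N, irrOne_mem_principal, by
    rw [show charDegree (irrOne N : N → ℂ) = 1 from charDegree_one]; exact odd_one, fun _ => rfl⟩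
  obtain ⟨θ, hθ, hne⟩ := hP.exists_fixed_point_of_prime_dvd_card_of_fixed_point X h1.two_dvd
    (a := o) (fun _ => rfl)
  have hfix : ∀ (x : (P : Subgroup G)) (u : ℤˣ) (n : N), θ.1.1 (tw N x u n) = θ.1.1 n := fun x u n =>
    congrFun (congrArg (fun χ : X => χ.1.1) (hθ (x, u))) n
  refine ⟨θ.1, fun e => hne (Subtype.ext e.symm), θ.2.1, θ.2.2.1, θ.2.2.2, fun n => ?_, fun x hx n => ?_⟩
  · simpa [tw] using hfix 1 (-1) n
  · simpa [tw] using hfix ⟨x, hx⟩⁻¹ 1 n

theorem exists_chi (M : Ideal AlgInt) (hM : IsPModular 2 M) (hev : 2 ∣ Nat.card (pResidual 2 G)) (k : ℕ)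
    (hk₁ : ∀ g : G, (∃ j : ℕ, orderOf g = 2 ^ j) → g ^ k = g ^ 3)
    (hk₂ : ∀ g : G, Odd (orderOf g) → g ^ k = g) :
    ∃ χ ∈ principalBlock M G, Odd (charDegree (χ : G → ℂ)) ∧ (∀ g : G, χ.1 (g ^ k) = χ.1 g) ∧
      charDegree (χ : G → ℂ) ≠ 1 := by
  classical
  haveI := Fintype.ofFinite G
  set N := pResidual 2 G with hNres
  haveI := Fintype.ofFinite N
  obtain ⟨P⟩ := (Sylow.nonempty : Nonempty (Sylow 2 G))
  obtain ⟨θ, h0, h1, h2, h4, h5, h3⟩ := exists_theta M hM N P (even_iff_two_dvd.2 hev) k hk₁ hk₂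
  have h2' : ¬ 2 ∣ charDegree θ.1 := by rwa [← even_iff_two_dvd, Nat.not_even_iff_odd]
  have hk : k.Coprime (Nat.card G) := coprime_of_pow_fix fun g hg => by
    by_cases h : orderOf g = 2
    · rw [hk₁ g ⟨1, by rw [h, pow_one]⟩, pow_succ, ← h, pow_orderOf_eq_one, one_mul]
    · exact hk₂ g (hg.odd_of_ne_two h)
  let E := NEmb.ofNormal N
  have hE : E.f.range = N := NEmb.ofNormal_range N
  obtain ⟨a, ha⟩ : ∃ a, N.index = 2 ^ a := exists_index_pResidual
  have hcop : ∀ {d : ℕ}, ¬ 2 ∣ d → E.f.range.index.Coprime d := fun h => by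
    rw [hE, ha]; exact ((Nat.prime_two.coprime_iff_not_dvd).2 h).pow_left a
  have hNN : pResidual 2 N = ⊤ := pResidual_pResidual
  have hinv : ∀ g n, θ.1 (E.act g n) = θ.1 n := fun g n => by
    obtain ⟨m, hm, x, hx, rfl⟩ := exists_eq_pResidual_mul_sylow P g
    rw [E.act_mul]
    have := E.act_f ⟨m, hm⟩ (E.act x n)
    rw [show E.f ⟨m, hm⟩ = m from rfl] at this
    rw [this, θ.2.isClassFunction]
    exact h3 x hx n
  have hdo : E.f.range.index.Coprime (detOrder θ.1) := by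
    rw [detOrder_eq]; exact hcop (not_dvd_orderOf_linear hNN _)
  obtain ⟨χ, hχ, h6, h7⟩ := E.exists_canonical_ext θ.2 hinv (irr_coe_charDegree θ).symm
    (hcop h2') hdo
  have hdeg : charDegree χ = charDegree θ.1 :=
    charDegree_eq_of_apply_one (by rw [irr_coe_charDegree]; exact h6 1)
  refine ⟨⟨χ, hχ⟩, (mem_principal_res hM le_rfl ⟨χ, hχ⟩ θ h6).2 h1, hdeg ▸ h2, fun g => ?_, fun e => h0 ?_⟩
  · refine congrFun (E.canonical_ext_unique θ.2 (irr_coe_charDegree θ).symm (hcop h2')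
      (hχ.isCharacter.comp_pow hk) hχ.isCharacter (fun n => ?_) h6 ?_ (h7 ▸ hdo)) g
    · rw [← map_pow, h6, h4]
    · rw [detOrder_eq, detHom_comp_pow hχ.isCharacter hk]
      exact (h7 ▸ hdo).coprime_dvd_right (detOrder_eq χ ▸ orderOf_pow_dvd k)
  · have e1 : θ.1 1 = 1 := (irr_charDegree_eq_one_iff θ).1 (hdeg ▸ e)
    obtain ⟨lam, hl⟩ := θ.2.isCharacter.exists_linear e1
    have e2 : lam ^ 2 = 1 := by
      refine MonoidHom.ext fun n => ?_
      have := h5 n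
      rw [hl] at this
      have e3 : lam n⁻¹ = lam n := Units.ext this
      change lam n ^ 2 = 1
      rw [pow_two]
      nth_rewrite 1 [← e3]
      rw [← map_mul, inv_mul_cancel, map_one]
    have e4 : lam = 1 := by
      rcases (Nat.dvd_prime Nat.prime_two).1 (orderOf_dvd_of_pow_eq_one e2) with h | h
      · exact orderOf_eq_one_iff.1 h
      · exact absurd (h ▸ dvd_rfl) (not_dvd_orderOf_linear hNN lam)
    apply Subtype.ext
    rw [hl, e4]
    rfl

end Cfsg.Agent.H2GalP
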