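import Mathlib
import Cfsg.Agent.H2.St2
import Cfsg.Agent.H16.M24h

/-! Abstract Golay codes as families of sets; uniqueness. -/

namespace Cfsg.Agent.H2.St

open Cfsg Finset H16
open scoped Classical symmDiff

variable {ι κ : Type*} [Fintype ι] [DecidableEq ι] {C : Set (Finset ι)} {s t : Finset ι}

/-- an abstract Golay code -/
structure Gol (C : Set (Finset ι)) : Prop where
  hι : Fintype.card ι = 24
  xor : ∀ s ∈ C, ∀ t ∈ C, s ∆ t ∈ C
  even : ∀ s ∈ C, ∀ t ∈ C, Even #(s ∩ t)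
  min : ∀ s ∈ C, s ≠ ∅ → 8 ≤ #s
  card : 4096 ≤ C.ncard

theorem Gol.eq (h : Gol C) (hs : s ∈ C) (ht : t ∈ C) (h7 : #(s ∆ t) ≤ 7) : s = t :=
  symmDiff_eq_bot.1 (by_contra fun e => by have := h.min _ (h.xor s hs t ht) e; omega)

theorem Gol.empty (h : Gol C) : ∅ ∈ C := by
  obtain ⟨s, hs⟩ := Set.nonempty_of_ncard_ne_zero (s := C) (by have := h.card; omega)
  simpa using h.xor s hs s hs

omit [Fintype ι] in
theorem card_symmDiff_le (s t : Finset ι) : #(s ∆ t) ≤ #s + #t := by have := card_symmDiff_add s t; omega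

theorem Gol.perfect (h : Gol C) (p : ι) (w : Finset ι) : ∃ c ∈ C, #((w ∆ c).erase p) ≤ 3 := by
  let L := (range 4).biUnion fun i => powersetCard i ({p}ᶜ : Finset ι)
  have h1 : ∀ u, u ∈ L ↔ p ∉ u ∧ #u ≤ 3 := fun u => by
    simp [L, mem_powersetCard, Nat.lt_succ_iff, subset_compl_iff_disjoint_right]; tauto
  have h2 : #L = 2048 := by
    rw [card_biUnion fun i _ j _ e => (pairwise_disjoint_powersetCard _) e]
    simp [card_compl, h.hι, sum_range_succ, Nat.choose]
  have h3 : (L ×ˢ blocksF C).image (fun x => x.1 ∆ x.2.erase p) = ({p}ᶜ : Finset ι).powerset := by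
    refine eq_of_subset_of_card_le (image_subset_iff.2 fun x hx => ?_) ?_
    · have := ((h1 _).1 (mem_product.1 hx).1).1
      simp [subset_compl_iff_disjoint_right, mem_symmDiff, this]
    rw [card_image_of_injOn, card_product, h2, card_blocksF, card_powerset, card_compl, h.hι]
    · have := h.card; simp; omega
    rintro ⟨u, c⟩ hx ⟨v, d⟩ hy (e : u ∆ c.erase p = v ∆ d.erase p)
    simp only [coe_product, Set.mem_prod, mem_coe, h1, mem_blocksF] at hx hy
    obtain rfl : c = d := h.eq hx.2 hy.2 (by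
      refine (card_le_card (t := insert p (u ∆ v)) fun x => ?_).trans ((card_insert_le _ _).trans
        (by have := card_symmDiff_le u v; omega))
      have := Finset.ext_iff.1 e x
      simp only [mem_symmDiff, mem_erase, mem_insert] at *
      tauto)
    rw [symmDiff_left_injective _ e]
  obtain ⟨⟨u, c⟩, hx, e⟩ := mem_image.1 (h3 ▸ mem_powerset.2 (show w.erase p ⊆ {p}ᶜ by
    simp [subset_compl_iff_disjoint_right]))
  simp only [mem_product, h1, mem_blocksF] at hx
  refine ⟨c, hx.2, (card_le_card fun x => ?_).trans hx.1.2⟩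
  have := Finset.ext_iff.1 e x
  simp only [mem_symmDiff, mem_erase] at *
  tauto

theorem Gol.cover (h : Gol C) (w : Finset ι) : ∃ c ∈ C, #(w ∆ c) ≤ 4 := by
  obtain ⟨p⟩ : Nonempty ι := Fintype.card_pos_iff.1 (h.hι ▸ by omega)
  obtain ⟨c, h1, h2⟩ := h.perfect p w
  exact ⟨c, h1, by have := pred_card_le_card_erase (s := w ∆ c) (a := p); omega⟩

/-- the octads -/
def oct (C : Set (Finset ι)) : Set (Finset ι) := {o | o ∈ C ∧ #o = 8}

theorem Gol.steiner (h : Gol C) : IsSteinerSystem 5 8 (oct C) := by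
  refine ⟨fun _ h => h.2, fun s hs => ?_⟩
  obtain ⟨c, h1, h2⟩ := h.cover s
  have h3 := card_symmDiff_add s c
  have h4 := card_le_card (inter_subset_left (s₁ := s) (s₂ := c))
  obtain ⟨r, h5⟩ := inter_self c ▸ h.even c h1 c h1
  have h6 := h.min c h1 (by rintro rfl; rw [card_empty] at h3; rw [inter_empty, card_empty] at h3; omega)
  have h7 : s ⊆ c := inter_eq_left.1 (eq_of_subset_of_card_le inter_subset_left (by omega))
  refine ⟨c, ⟨⟨h1, by omega⟩, h7⟩, fun d ⟨⟨a, b⟩, e⟩ => h.eq a h1 ?_⟩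
  have := card_symmDiff_add d c
  have := card_le_card (subset_inter e h7)
  omega

theorem Gol.ind (h : Gol C) {P : Finset ι → Prop} (h0 : P ∅)
    (h1 : ∀ s ∈ C, ∀ o ∈ oct C, P s → P (s ∆ o)) (hs : s ∈ C) : P s := by
  induction' hn : #s using Nat.strong_induction_on with n ih generalizing s
  rcases eq_or_ne s ∅ with rfl | e
  · exact h0
  obtain ⟨u, a1, a2⟩ := exists_subset_card_eq (show 5 ≤ #s by have := h.min s hs e; omega)
  obtain ⟨o, a3, a4, a5⟩ := cov_of h.steiner u a2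
  have := card_symmDiff_add s o
  have := card_le_card (subset_inter a1 a4)
  simpa using h1 _ (h.xor s hs o a3.1) o a3 (ih _ (by omega) (h.xor s hs o a3.1) rfl)

theorem Gol.four (h : Gol C) (hs : s ∈ C) : 4 ∣ #s :=
  h.ind (P := fun s => 4 ∣ #s) (by simp) (fun s hs o ho e => by
    have := card_symmDiff_add s o
    obtain ⟨r, h2⟩ := h.even s hs o ho.1
    have := ho.2
    omega) hs

omit [Fintype ι] in
theorem even_inter_xor {a b c : Finset ι} : Even #(a ∆ b ∩ c) ↔ (Even #(a ∩ c) ↔ Even #(b ∩ c)) := by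
  have := card_symmDiff_add (a ∩ c) (b ∩ c)
  rw [show (a ∩ c) ∆ (b ∩ c) = a ∆ b ∩ c from (inf_symmDiff_distrib_right a b c).symm] at this
  simp only [Nat.even_iff]
  omega

theorem Gol.dual' (h : Gol C) (hs : ∀ c ∈ oct C, Even #(s ∩ c)) : s ∈ C := by
  obtain ⟨c, h1, h2⟩ := h.cover s
  by_contra e
  obtain ⟨x, hx⟩ : (s ∆ c).Nonempty := nonempty_iff_ne_empty.2 fun e' => e (symmDiff_eq_bot.1 e' ▸ h1)
  obtain ⟨o, a1, a2⟩ := exists_inter h.steiner (by omega) (.inl (show #(s ∆ c) ≤ 5 by omega))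
    (singleton_subset_iff.2 hx) (by
      have := card_pos.2 ⟨x, hx⟩
      rw [h.hι, card_singleton]
      generalize #(s ∆ c) = i at *
      interval_cases i <;> decide +kernel)
  have := even_inter_xor.2 (iff_of_true (hs o a1) (h.even c h1 o a1.1))
  simp [a2] at this

theorem Gol.dual (h : Gol C) (hs : ∀ c ∈ C, Even #(s ∩ c)) : s ∈ C := h.dual' fun c hc => hs c hc.1

theorem Gol.univ (h : Gol C) : univ ∈ C := h.dual fun c hc => by simpa using h.even c hc c hc

theorem Gol.compl (h : Gol C) (hs : s ∈ C) : sᶜ ∈ C := by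
  convert h.xor s hs _ h.univ using 1; ext; simp [mem_symmDiff]

theorem Gol.wt (h : Gol C) (hs : s ∈ C) : #s = 0 ∨ #s = 8 ∨ #s = 12 ∨ #s = 16 ∨ #s = 24 := by
  have h1 := fun s hs => (h.min s hs).mt (b := 8 ≤ #s)
  have := h1 s hs
  have := h1 _ (h.compl hs)
  have := h.four hs
  have := card_le_univ s
  simp only [not_not, ← card_eq_zero, card_compl, h.hι] at *
  omega

theorem Gol.eq_of_le {D : Set (Finset ι)} (h : Gol C) (h' : Gol D) (e : C ⊆ D) : C = D :=
  e.antisymm fun s hs => h.dual fun c hc => h'.even s hs c (e hc)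

theorem Gol.tr [Fintype κ] [DecidableEq κ] (h : Gol C) (e : κ ≃ ι) : Gol (tr e C) := by
  refine ⟨(Fintype.card_congr e).trans h.hι, fun s hs t ht => ?_, fun s hs t ht => map_inter_card e s t ▸ h.even _ hs _ ht,
    fun s hs e' => card_map e.toEmbedding ▸ h.min _ hs (by simpa), h.card.trans_eq ?_⟩
  · rw [mem_tr, show (s ∆ t).map e.toEmbedding = s.map e.toEmbedding ∆ t.map e.toEmbedding by
      ext; simp [mem_symmDiff]]
    exact h.xor _ hs _ ht
  · exact (Set.ncard_preimage_of_injective_subset_range (map_injective _) fun s _ => ⟨_, map_symm_map e s⟩).symm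

theorem gol_gSets : Gol gSets := by
  refine ⟨card_golayPt, fun _ hs _ => symmDiff_mem_gSets hs, fun _ hs _ => even_card_inter hs, fun s hs e => ?_, ?_⟩
  · have := card_of_mem_gSets hs
    have := card_eq_zero.not.2 e
    omega
  · rw [gSets, supports, Set.ncard_image_of_injective _ support_injective]
    exact card_golayCode.ge

theorem Gol.exists_ge (h : Gol C) (F : Finset (Finset ι)) (h4 : ∀ f ∈ F, 4 ∣ #f)
    (h2 : ∀ f ∈ F, ∀ g ∈ F, Even #(f ∩ g)) (h0 : ∀ s, #s = 4 → ∃ f ∈ F, ¬ Even #(f ∩ s)) :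
    ∃ D, Gol D ∧ ∀ f ∈ F, f ∈ D := by
  have h1 : ∀ {D : Set (Finset ι)}, (∀ s ∈ D, ∀ t ∈ D, s ∆ t ∈ D) → (∀ s ∈ D, 4 ∣ #s) →
      ∀ s ∈ D, ∀ t ∈ D, Even #(s ∩ t) := fun a b s hs t ht => by
    have := card_symmDiff_add s t
    have := b s hs
    have := b t ht
    have := b _ (a s hs t ht)
    rw [Nat.even_iff]; omega
  suffices ∃ D : Set (Finset ι), (∀ s ∈ D, ∀ t ∈ D, s ∆ t ∈ D) ∧ (∀ s ∈ D, 4 ∣ #s) ∧ 4096 ≤ D.ncard ∧
      ∀ f ∈ F, f ∈ D by
    obtain ⟨D, a, b, c, d⟩ := this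
    refine ⟨D, ⟨h.hι, a, h1 a b, fun s hs e => ?_, c⟩, d⟩
    have := b s hs
    have := card_eq_zero.not.2 e
    have : #s ≠ 4 := fun e => let ⟨f, hf, e⟩ := h0 s e; e (h1 a b f (d f hf) s hs)
    omega
  clear h0
  induction F using Finset.induction_on with
  | empty => exact ⟨C, h.xor, fun _ => h.four, h.card, by simp⟩
  | insert f F _ ih =>
    obtain ⟨D, a, b, c, d⟩ := ih (fun g hg => h4 g (mem_insert_of_mem hg))
      fun g hg k hk => h2 g (mem_insert_of_mem hg) k (mem_insert_of_mem hk)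
    by_cases hf : f ∈ D
    · exact ⟨D, a, b, c, forall_mem_insert _ _ _ |>.2 ⟨hf, d⟩⟩
    have e0 := h2 f (mem_insert_self _ _) f (mem_insert_self _ _)
    refine ⟨{s | (s ∈ D ∨ s ∆ f ∈ D) ∧ Even #(s ∩ f)}, ?_, ?_, c.trans ?_, forall_mem_insert _ _ _ |>.2
      ⟨⟨.inr ?_, e0⟩, fun g hg => ⟨.inl (d g hg), h2 g (mem_insert_of_mem hg) f (mem_insert_self _ _)⟩⟩⟩
    · rintro s ⟨s1 | s1, s2⟩ t ⟨t1 | t1, t2⟩ <;> refine ⟨?_, even_inter_xor.2 (iff_of_true s2 t2)⟩
      · exact .inl (a _ s1 _ t1)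
      · exact .inr (symmDiff_assoc s t f ▸ a _ s1 _ t1)
      · exact .inr (symmDiff_right_comm s f t ▸ a _ s1 _ t1)
      · exact .inl (by convert a _ s1 _ t1 using 1; ext; simp only [mem_symmDiff]; tauto)
    · rintro s ⟨s1 | s1, r, s2⟩
      · exact b s s1
      · have := b _ s1
        have := h4 f (mem_insert_self _ _)
        have := card_symmDiff_add s f
        omega
    · by_cases e : ∀ s ∈ D, Even #(s ∩ f)
      · exact Set.ncard_le_ncard fun s hs => ⟨.inl hs, e s hs⟩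
      push Not at e
      obtain ⟨u, u1, u2⟩ := e
      refine Set.ncard_le_ncard_of_injOn (fun s => if Even #(s ∩ f) then s else (s ∆ u) ∆ f) (fun s hs => ?_)
        fun s hs t ht e => ?_
      · split_ifs with e
        · exact ⟨.inl hs, e⟩
        · exact ⟨.inr (by simpa using a s hs u u1), by simp only [even_inter_xor, *]⟩
      have k : ∀ s ∈ D, ∀ t ∈ D, s ≠ (t ∆ u) ∆ f := fun s hs t ht e =>
        hf (by simpa [e] using a _ (a t ht u u1) s hs)
      beta_reduce at e
      split_ifs at e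
      · exact e
      · exact absurd e (k s hs t ht)
      · exact absurd e.symm (k t ht s hs)
      · exact symmDiff_left_injective _ (symmDiff_left_injective _ e)
    · obtain ⟨s, hs⟩ := Set.nonempty_of_ncard_ne_zero (s := D) (by omega)
      simpa using a s hs s hs

noncomputable def p24 : Pr := ⟨24, 5, 8, 0, true, fun a => tb 16847105 (pc24 a),
  fun a b => tb 16847105 (pc24 (Nat.xor a b)), [13062145, 4845570, 13938692, 7221256, 10170384, 11952160, 15515712, 2019456, 4038912, 8077824, 11654144, 14919680]⟩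

def c24 : T := (.br 31 [197, 230, 263, 296, 329, 362, 395, 428, 461, 494, 527, 560, 593, 626, 659, 692, 725, 758] (.cons 255 (.br 271 [329, 362, 395, 428, 461, 494,
  527, 560, 593, 626, 659, 692, 725, 758] (.cons 3855 (.br 4111 [461, 494, 527, 560, 593, 626, 659, 692, 725, 758] (.cons 61455 (.br 65551 [593, 626,
  659, 692, 725, 758] (.cons 983055 (.br 279 [428, 461, 494, 560, 593, 626, 692, 725, 758] (.cons 1118487 (.br 535 [461, 494, 593, 626, 725, 758] (.cons
  2236951 (.br 1047 [494, 626, 758] (.cons 4473879 (.br 13064 [32, 65, 197, 230] (.cons 13113 (.br 266505 [65, 230] (.cons 4460875 (.br 295 [] (.cons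
  8659239 (.br 327 [] (.cons 2638151 (.leaf 477106468873346272806759545098569760
  93434029084611573557928685948249118248203687523329381892697558319911645747532006315) .nil)) (.cons 4727079 (.br 327 [] (.cons 8536391 (.leaf
  477273645243024856268640868714514464 93434029084611223078622012989931787577007560011236437633637523221863928132460874923) .nil)) .nil))) .nil)) .nil))
  .nil)) .nil)) .nil)) .nil)) .nil)) .nil)) .nil))

theorem ok24 : p24.Ok Gol := by
  have h : ∀ B : Set (Finset (Fin 24)), Gol B → ∀ a < 2 ^ 24, fs 24 a ∈ B → tb 16847105 (pc24 a) = true :=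
    fun B hB a ha h => by
      rw [← card_fs le_rfl ha]
      rcases hB.wt h with e | e | e | e | e <;> rw [e] <;> decide +kernel
  exact ⟨le_rfl, fun _ π _ h => h.tr π, fun _ h s hs => (cov_of h.steiner s hs).imp fun _ h => ⟨h.1.1, h.2⟩,
    fun _ _ h => ⟨h.empty, h.xor⟩, h, fun B hB a ha b hb h1 h2 =>
      h B hB _ (Nat.xor_lt_two_pow ha hb) (fs_xor a b ▸ hB.xor _ h1 _ h2)⟩

/-- bit positions -/
def idxE : GolayPt ≃ Fin 24 :=
  ⟨fun p => ⟨idx p, idx_lt p⟩, fun i => gpt i, gpt_idx, fun i => Fin.ext (idx_gpt i.2)⟩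

theorem Gol.unique (h : Gol C) : ∃ e : GolayPt ≃ ι, St.tr e C = gSets := by
  let e := (Fintype.equivFinOfCardEq h.hι).symm
  obtain ⟨π : Equiv.Perm (Fin 24), -, h1⟩ := ok24.goal c24 (L := [16777215]) (by decide +kernel) (h.tr e)
    (List.forall_mem_singleton.2 ⟨by decide, (show Finset.univ = fs 24 16777215 by decide) ▸ (h.tr e).univ⟩)
  have h2 := ((h.tr e).tr π).tr idxE
  refine ⟨idxE.trans (π.trans e), ?_⟩
  rw [← tr_tr, ← tr_tr]
  refine (gol_gSets.eq_of_le h2 fun s hs => ?_).symm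
  obtain ⟨i, hi, rfl⟩ := mem_gSets_iff.1 hs
  rw [cset, cw_eq hi]
  refine xc_ind (P := fun m => toSet m ∈ _) (toSet_zero ▸ h2.empty) (fun a b ha hb => toSet_xor a b ▸ h2.xor _ ha _ hb)
    (fun b hb => ?_) i
  have : ∀ b < 12, H16.get 24 gRows b ∈ p24.gens := by decide +kernel
  have h3 := h1 _ (this b hb)
  rwa [mem_tr, show (toSet _).map idxE.toEmbedding = fs 24 (H16.get 24 gRows b) by ext; simp [idxE, idx_gpt]]

end Cfsg.Agent.H2.St
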