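import Mathlib
import Cfsg.Agent.H2.Gol

/-! Words and supports; cosets of Golay codes; the Witt designs inside the Golay code. -/

namespace Cfsg.Agent.H2.St

open Cfsg Finset H16 MulAction
open scoped Classical symmDiff Pointwise

variable {ι : Type*} [Fintype ι] [DecidableEq ι]

omit [DecidableEq ι] in
theorem mem_sup {w : ι → ZMod 2} {i : ι} : i ∈ support₂ w ↔ w i = 1 := by
  simp only [support₂, mem_filter, mem_univ, true_and]
  generalize w i = a; revert a; decide

theorem sup_add (v w : ι → ZMod 2) : support₂ (v + w) = support₂ v ∆ support₂ w := by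
  ext i
  simp only [mem_sup, mem_symmDiff, Pi.add_apply]
  generalize v i = a; generalize w i = b; revert a b; decide

theorem sup_sub (v w : ι → ZMod 2) : support₂ (v - w) = support₂ v ∆ support₂ w := by
  rw [← sup_add, sub_eq_add_neg, show -w = w from funext fun i => ZMod.neg_eq_self_mod_two _]

theorem sup_surj (s : Finset ι) : ∃ w, support₂ w = s := ⟨fun i => if i ∈ s then 1 else 0, by ext; simp [mem_sup]⟩

omit [DecidableEq ι] in
theorem sup_eq_empty {w : ι → ZMod 2} : support₂ w = ∅ ↔ w = 0 := by simp [support₂, funext_iff]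

omit [DecidableEq ι] in
theorem sup_mem {C : Set (ι → ZMod 2)} {w : ι → ZMod 2} : support₂ w ∈ supports C ↔ w ∈ C :=
  support_injective.mem_set_image

theorem dot_eq (v w : ι → ZMod 2) : ∑ i, v i * w i = #(support₂ v ∩ support₂ w) := by
  rw [card_eq_sum_ones, Nat.cast_sum, ← sum_subset (subset_univ (support₂ v ∩ support₂ w))]
  · exact sum_congr rfl fun i hi => by simp only [mem_inter, mem_sup] at hi; simp [hi]
  · intro i _
    simp only [mem_inter, mem_sup]
    generalize v i = a; generalize w i = b; revert a b; decide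

theorem gol_of (hι : Fintype.card ι = 24) {C : Submodule (ZMod 2) (ι → ZMod 2)}
    (hdim : Module.finrank (ZMod 2) C = 12) (horth : ∀ v ∈ C, ∀ w ∈ C, ∑ i, v i * w i = 0)
    (hmin : ∀ w ∈ C, w ≠ 0 → 8 ≤ hammingNorm w) : Gol (supports (C : Set (ι → ZMod 2))) := by
  refine ⟨hι, ?_, ?_, ?_, ?_⟩
  · rintro _ ⟨v, hv, rfl⟩ _ ⟨w, hw, rfl⟩
    exact ⟨_, add_mem hv hw, sup_add v w⟩
  · rintro _ ⟨v, hv, rfl⟩ _ ⟨w, hw, rfl⟩
    exact ZMod.natCast_eq_zero_iff_even.1 (dot_eq v w ▸ horth v hv w hw)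
  · rintro _ ⟨v, hv, rfl⟩ e
    exact hmin v hv (mt sup_eq_empty.2 e)
  · rw [supports, Set.ncard_image_of_injective _ support_injective]
    refine Eq.ge ((Module.natCard_eq_pow_finrank (K := ZMod 2) (V := C)).trans ?_)
    simp [hdim]

variable {C : Set (Finset ι)}

theorem Gol.coset (h : Gol C) (w : Finset ι) :
    (∃ u, {v | w ∆ v ∈ C ∧ #v ≤ 4} = {u} ∧ #u ≤ 3) ∨ ({v | w ∆ v ∈ C ∧ #v ≤ 4}.ncard = 6 ∧
      ∀ u, w ∆ u ∈ C → #u ≤ 4 → #u = 4 ∧ ∀ v, w ∆ v ∈ C → #v ≤ 4 → u ≠ v → Disjoint u v) := by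
  have h1 : ∀ u v, w ∆ u ∈ C → w ∆ v ∈ C → #(u ∆ v) ≤ 7 → u = v := fun u v a b c =>
    symmDiff_right_injective w (h.eq a b (by convert c using 2; ext; simp only [mem_symmDiff]; tauto))
  by_cases e : ∃ u, w ∆ u ∈ C ∧ #u ≤ 3
  · obtain ⟨u, a, b⟩ := e
    exact .inl ⟨u, Set.eq_singleton_iff_unique_mem.2 ⟨⟨a, by omega⟩, fun v hv =>
      h1 v u hv.1 a (by have := card_symmDiff_le v u; have := hv.2; omega)⟩, b⟩
  push Not at e
  have h2 : ∀ u, w ∆ u ∈ C → #u ≤ 4 → #u = 4 ∧ ∀ v, w ∆ v ∈ C → #v ≤ 4 → u ≠ v → Disjoint u v :=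
    fun u a b => ⟨by have := e u a; omega, fun v c d n => disjoint_iff_inter_eq_empty.2 (card_eq_zero.1 (by
      have := mt (h1 u v a c) n
      have := card_symmDiff_add u v
      omega))⟩
  refine .inr ⟨?_, h2⟩
  have h3 : (blocksF {v | w ∆ v ∈ C ∧ #v ≤ 4}).biUnion id = Finset.univ := eq_univ_of_forall fun p => by
    obtain ⟨c, a, b⟩ := h.perfect p w
    have := pred_card_le_card_erase (s := w ∆ c) (a := p)
    have := e (w ∆ c) (by simpa)
    exact mem_biUnion.2 ⟨w ∆ c, mem_blocksF.2 ⟨by simpa, by omega⟩, by_contra fun n : p ∉ w ∆ c => by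
      rw [erase_eq_of_notMem n] at b; omega⟩
  have h4 := congrArg Finset.card h3
  rw [card_biUnion, sum_congr rfl (g := fun _ => 4), sum_const, card_blocksF, card_univ, h.hι, smul_eq_mul] at h4
  · omega
  · exact fun u hu => (h2 u (mem_blocksF.1 hu).1 (mem_blocksF.1 hu).2).1
  · exact fun u hu v hv => (h2 u (mem_blocksF.1 hu).1 (mem_blocksF.1 hu).2).2 v (mem_blocksF.1 hv).1 (mem_blocksF.1 hv).2

theorem Gol.gen (h : Gol C) {R : Finset ι} (hR : #R ≤ 2) {W : Finset ι → Prop} (h0 : W ∅)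
    (h1 : ∀ s t, W s → W t → W (s ∆ t)) (h2 : ∀ o ∈ oct C, R ⊆ o → W o) {s : Finset ι} (hs : s ∈ C)
    (hs' : R ⊆ s ∨ Disjoint R s) : W s := by
  induction' hn : 2 * #s + (if R ⊆ s then 0 else 1) using Nat.strong_induction_on with n ih generalizing s
  rcases eq_or_ne s ∅ with rfl | e
  · exact h0
  obtain ⟨u, a1, a2⟩ := exists_subset_card_eq (show 5 - #R ≤ #(s \ R) by
    have := h.min s hs e; have := le_card_sdiff R s; omega)
  rw [subset_sdiff] at a1
  obtain ⟨o, a3, a4, a5⟩ := cov_of h.steiner (u ∪ R) (by rw [card_union_of_disjoint a1.2]; omega)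
  rw [union_subset_iff] at a4
  have := card_symmDiff_add s o
  have := card_le_card (subset_inter a1.1 a4.1)
  obtain ⟨r, a6⟩ := h.even s hs o a3.1
  have a7 : Disjoint R s → R ⊆ s ∆ o := fun e x hx => mem_symmDiff.2 (.inr ⟨a4.2 hx, disjoint_left.1 e hx⟩)
  simpa using h1 _ _ (ih _ (by
    by_cases e : R ⊆ s
    · have := card_le_card (subset_inter (union_subset a1.1 e) (union_subset a4.1 a4.2))
      rw [card_union_of_disjoint a1.2] at this
      split_ifs <;> omega
    · rw [if_pos (a7 (hs'.resolve_left e))]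
      rw [if_neg e] at hn
      omega) (h.xor s hs o a3.1) (hs'.symm.imp a7 fun e => disjoint_left.2 fun x hx => by
      simp [mem_symmDiff, e hx, a4.2 hx]) rfl) (h2 o a3 a4.2)

theorem oct_gSets : oct gSets = octads := rfl

variable {α β : Type*} [Fintype α] [DecidableEq α] {B : Set (Finset α)} {B' : Set (Finset β)} {t : ℕ}
  {R : Finset GolayPt} {j : α ↪ GolayPt}

/-- the blocks are the octads through `R` -/
structure Emb (B : Set (Finset α)) (R : Finset GolayPt) (j : α ↪ GolayPt) : Prop where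
  rng : Set.range j = (Rᶜ : Finset _)
  blk : ∀ b, b ∈ B ↔ b.map j ∪ R ∈ octads

theorem exists_odd (h2 : 2 ≤ t) (h5 : t ≤ 5) (hα : Fintype.card α = t + 19) (hB : IsSteinerSystem t (t + 3) B)
    {s : Finset α} (h1 : 0 < #s) (h4 : #s ≤ 4) : ∃ b ∈ B, #(b ∩ s) % 2 ≠ #s % 2 := by
  by_contra! h
  have h0 := fun i hi => moment hB (by omega) s (m := 5) (by omega) (i := i) hi
  have a0 := h0 0 (by omega)
  have a1 := h0 1 (by omega)
  have a2 := h0 2 h2
  have a3 : ∀ j, j % 2 ≠ #s % 2 ∨ #s < j → nb B s j = 0 := fun j hj => nb_eq_zero fun c hc => by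
    have := h c hc
    have := card_le_card (inter_subset_right (s₁ := c) (s₂ := s))
    omega
  have : 3 * lv t (t + 3) (t + 19) 2 < lv t (t + 3) (t + 19) 1 ∧ lv t (t + 3) (t + 19) 1 < lv t (t + 3) (t + 19) 0 ∧
      3 * lv t (t + 3) (t + 19) 1 < lv t (t + 3) (t + 19) 0 + 2 * lv t (t + 3) (t + 19) 2 := by
    interval_cases t <;> decide +kernel
  rw [hα] at a0 a1 a2
  generalize #s = m at *
  interval_cases m <;> norm_num [sum_range_succ, Nat.choose, a3] at a0 a1 a2 <;> omega

theorem exists_emb (h2 : 2 ≤ t) (h5 : t ≤ 5) (hα : Fintype.card α = t + 19) (hB : IsSteinerSystem t (t + 3) B)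
    (hR : #R = 5 - t) : ∃ j, Emb B R j := by
  have k0 : ∀ {R : Finset GolayPt} {j : α ↪ GolayPt}, Set.range j = (Rᶜ : Finset _) → ∀ b : Finset α,
      Disjoint (b.map j) R := fun {R j} h b => disjoint_left.2 fun x hx => by
    obtain ⟨a, -, rfl⟩ := mem_map.1 hx
    simpa using h.le ⟨a, rfl⟩
  have k1 : ∀ {R : Finset GolayPt} {j : α ↪ GolayPt}, Set.range j = (Rᶜ : Finset _) → ∀ b c : Finset α,
      #((b.map j ∪ R) ∩ (c.map j ∪ R)) = #(b ∩ c) + #R := fun h b c => by
    rw [← inter_union_distrib_right, ← map_inter, card_union_of_disjoint (k0 h _), card_map]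
  obtain ⟨e⟩ : Nonempty (α ≃ (Rᶜ : Finset GolayPt)) :=
    Fintype.card_eq.1 (by rw [Fintype.card_coe, card_compl, card_golayPt]; omega)
  let i := e.toEmbedding.trans (Function.Embedding.subtype _)
  have hi : Set.range i = (Rᶜ : Finset _) := (e.surjective.range_comp Subtype.val).trans Subtype.range_coe
  have k2 : ∀ b ∈ B, #(b.map i ∪ R) = 8 := fun b hb => by
    rw [card_union_of_disjoint (k0 hi b), card_map, hB.1 b hb]; omega
  obtain ⟨D, hD, h1⟩ := gol_gSets.exists_ge ((blocksF B).image fun b => b.map i ∪ R) (by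
    simp only [forall_mem_image, mem_blocksF]
    exact fun b hb => k2 b hb ▸ by decide) (by
    simp only [forall_mem_image, mem_blocksF]
    intro b hb c hc
    rw [k1 hi, hR, Nat.even_iff]
    rcases eq_or_ne b c with rfl | e
    · rw [inter_self, hB.1 b hb]; omega
    obtain ⟨a1, a2⟩ := tri_ne_zero hB (by omega) hb hc e
    rw [hα] at a2
    generalize #(b ∩ c) = m at *
    interval_cases t <;> interval_cases m <;> first | rfl | exact absurd (by decide +kernel) a2) fun s hs => by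
    obtain ⟨u, hu⟩ := subset_map_iff.1 (show s \ R ⊆ Finset.univ.map i from fun x hx => by
      obtain ⟨a, rfl⟩ := hi.ge (by simpa using (mem_sdiff.1 hx).2)
      exact mem_map_of_mem _ (mem_univ _))
    have a1 := card_sdiff_add_card_inter s R
    have := card_le_card (inter_subset_right (s₁ := s) (s₂ := R))
    rw [hu.2, card_map] at a1
    obtain ⟨b, hb, a2⟩ := exists_odd h2 h5 hα hB (s := u) (by omega) (by omega)
    refine ⟨_, mem_image_of_mem _ (mem_blocksF.2 hb), ?_⟩
    rw [union_inter_distrib_right, card_union_of_disjoint ((k0 hi b).mono inter_subset_left inter_subset_left),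
      show b.map i ∩ s = b.map i ∩ (s \ R) by have := disjoint_left.1 (k0 hi b); grind, hu.2, ← map_inter,
      card_map, inter_comm R, Nat.even_iff]
    omega
  obtain ⟨f, hf⟩ := hD.unique
  obtain ⟨g, hg⟩ : R ∈ orbit M24 (R.map f.symm.toEmbedding) := by
    rw [orbit_subset_eq (by rw [card_map]; omega)]; exact (card_map _).symm
  replace hg : R.map (f.symm.trans g.1).toEmbedding = R := by
    rw [Equiv.trans_toEmbedding, ← map_map, ← smul_eq_map]; exact hg
  have hj : Set.range (i.trans (f.symm.trans g.1).toEmbedding) = (Rᶜ : Finset _) := by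
    refine (Set.range_comp (f.symm.trans g.1) i).trans ?_
    rw [hi, coe_compl, Set.image_compl_eq (Equiv.bijective _)]
    exact congrArg _ ((coe_map _ _).symm.trans (congrArg _ hg))
  have k3 : ∀ b ∈ B, b.map (i.trans (f.symm.trans g.1).toEmbedding) ∪ R ∈ octads := fun b hb => by
    rw [← hg, ← map_map, ← map_union, Equiv.trans_toEmbedding, ← map_map, ← smul_eq_map]
    refine M24_smul_mem_octads g ⟨hf.le (mem_tr.2 ?_), by rw [card_map, k2 b hb]⟩
    rw [map_symm_map]
    exact h1 _ (mem_image_of_mem _ (mem_blocksF.2 hb))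
  refine ⟨_, hj, fun b => ⟨k3 b, fun hb => ?_⟩⟩
  have a1 := hb.2
  rw [card_union_of_disjoint (k0 hj b), card_map] at a1
  obtain ⟨s, a2, a3⟩ := exists_subset_card_eq (show t ≤ #b by omega)
  obtain ⟨c, a4, a5, -⟩ := cov_of hB s a3
  have := congrArg (· \ R) (octads_eq_of_five hb (k3 c a4) (by
    have := card_le_card (subset_inter a2 a5)
    rw [k1 hj]; omega))
  simp only [union_sdiff_cancel_right (k0 hj _), map_inj] at this
  exact this ▸ a4

omit [Fintype α] [DecidableEq α] in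
theorem exists_equiv {γ : Type*} (j : α ↪ γ) (j' : β ↪ γ) (h : Set.range j = Set.range j') :
    ∃ e : α ≃ β, ∀ a, j' (e a) = j a :=
  ⟨(Equiv.ofInjective j j.injective).trans ((Equiv.setCongr h).trans (Equiv.ofInjective j' j'.injective).symm),
    fun _ => Equiv.apply_ofInjective_symm j'.injective _⟩

theorem witt_unique [Fintype β] [DecidableEq β] (h2 : 2 ≤ t) (h5 : t ≤ 5) (hα : Fintype.card α = t + 19)
    (hβ : Fintype.card β = t + 19) (hB : IsSteinerSystem t (t + 3) B) (hB' : IsSteinerSystem t (t + 3) B') :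
    SetSystemIso B B' := by
  obtain ⟨R, -, hR⟩ := exists_subset_card_eq (s := (univ : Finset GolayPt)) (n := 5 - t)
    (by rw [card_univ, card_golayPt]; omega)
  obtain ⟨j, h⟩ := exists_emb h2 h5 hα hB hR
  obtain ⟨j', h'⟩ := exists_emb h2 h5 hβ hB' hR
  obtain ⟨e, he⟩ := exists_equiv j j' (h.rng.trans h'.rng.symm)
  refine iso_iff.2 ⟨e, Set.ext fun b => ?_⟩
  rw [mem_tr, h'.blk, h.blk, map_map, show e.toEmbedding.trans j' = j from DFunLike.ext _ _ he]

omit [Fintype α] in
theorem Emb.res (h : Emb B R j) (g : M24) (hg : g • R = R) :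
    ∃ σ ∈ setSystemAut B, ∀ a, j (σ a) = g • j a := by
  obtain ⟨σ, hσ⟩ := exists_equiv (j.trans g.1.toEmbedding) j ((Set.range_comp g.1 j).trans (by
    rw [h.rng, coe_compl, Set.image_compl_eq (Equiv.bijective _)]
    exact congrArg _ ((coe_smul_finset g R).symm.trans (congrArg _ hg))))
  refine ⟨σ, mem_aut.2 (Set.ext fun b => ?_), hσ⟩
  rw [mem_tr, h.blk, h.blk, map_map, show σ.toEmbedding.trans j = _ from DFunLike.ext _ _ hσ, ← map_map,
    ← smul_eq_map, ← smul_mem_octads g (b.map j ∪ R), smul_finset_union, hg]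
  rfl

theorem smul_xor (g : Equiv.Perm GolayPt) (s t : Finset GolayPt) : g • (s ∆ t) = (g • s) ∆ (g • t) := by
  ext; simp [← inv_smul_mem_iff, mem_symmDiff]

omit [Fintype α] in
theorem Emb.ext1 (h : Emb B R j) (hR : #R ≤ 2) {σ : Equiv.Perm α} (hσ : σ ∈ setSystemAut B)
    {ρ : Equiv.Perm GolayPt} (h1 : ρ • R = R) (h2 : ∀ a, ρ (j a) = j (σ a)) {s : Finset GolayPt} (hs : s ∈ gSets)
    (hs' : R ⊆ s ∨ Disjoint R s) : ρ • s ∈ gSets := by
  refine gol_gSets.gen hR (W := fun s => ρ • s ∈ gSets) (by simpa using empty_mem_gSets)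
    (fun s t a b => smul_xor ρ s t ▸ symmDiff_mem_gSets a b) (fun o ho a => ?_) hs hs'
  obtain ⟨b, rfl⟩ : ∃ b : Finset α, b.map j ∪ R = o := by
    use o.preimage j j.injective.injOn
    ext x
    have := Set.ext_iff.1 h.rng x
    have := @a x
    simp only [mem_union, mem_map, mem_preimage, Set.mem_range, coe_compl, Set.mem_compl_iff, mem_coe] at *
    grind
  have := (h.blk _).1 (smul_mem_of_aut hσ ((h.blk _).2 ho))
  rw [smul_eq_map, map_map, show σ.toEmbedding.trans j = j.trans ρ.toEmbedding from DFunLike.ext _ _ fun a =>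
    (h2 a).symm, ← map_map, ← smul_eq_map] at this
  rw [smul_finset_union, h1]
  exact this.1

omit [Fintype α] in
theorem Emb.ext (h : Emb B R j) (hR : #R ≤ 2) {σ : Equiv.Perm α} (hσ : σ ∈ setSystemAut B) :
    ∃ g : M24, g • R = R ∧ ∀ a, j (σ a) = g • j a := by
  have h0 : ∀ a, j a ∉ R := fun a => by simpa using h.rng.le ⟨a, rfl⟩
  let ρ := σ.viaEmbedding j
  have h1 : ∀ x ∈ R, ρ x = x := fun x hx => σ.viaEmbedding_apply_of_notMem j x (by simpa [h.rng])
  have h2 : ρ • R = R := (image_congr (g := id) h1).trans image_id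
  have h3 : ∀ a, ρ (j a) = j (σ a) := σ.viaEmbedding_apply j
  by_cases e : #R ≤ 1
  · refine ⟨⟨ρ, mem_M24_of_subset fun s hs => h.ext1 hR hσ h2 h3 hs (or_iff_not_imp_right.2 fun n x hx => ?_)⟩,
      h2, fun a => (h3 a).symm⟩
    obtain ⟨y, a, b⟩ := not_disjoint_iff.1 n
    exact card_le_one.1 e _ a _ hx ▸ b
  obtain ⟨p, q, hpq, rfl⟩ := card_eq_two.1 (show #R = 2 by omega)
  obtain ⟨w, w1, w2⟩ := exists_inter octads_steiner (by omega) (.inl (hR.trans (by omega))) (s := {p})
    (by simp) (by rw [card_pair hpq, card_golayPt, card_singleton]; decide +kernel)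
  have w3 : p ∈ w ∧ q ∉ w := by
    have := Finset.ext_iff.1 w2 p
    have := Finset.ext_iff.1 w2 q
    grind
  have k : ∀ {W : Finset GolayPt → Prop}, (∀ s t, W s → W t → W (s ∆ t)) → W w →
      (∀ s ∈ gSets, {p, q} ⊆ s ∨ Disjoint {p, q} s → W s) → ∀ s ∈ gSets, W s := fun a b c s hs => by
    by_cases e : {p, q} ⊆ s ∨ Disjoint {p, q} s
    · exact c s hs e
    simpa using a _ _ (c _ (symmDiff_mem_gSets hs w1.1) (by
      simp only [insert_subset_iff, singleton_subset_iff, disjoint_insert_left, disjoint_singleton_left,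
        mem_symmDiff] at *
      tauto)) b
  have h4 : ∀ s ∈ gSets, {p, q} ⊆ s ∨ Disjoint {p, q} s → Even #(ρ • w ∩ s) := fun s hs hs' => by
    rw [← smul_inv_smul ρ s, H16.card_smul_inter]
    exact even_card_inter w1.1 (h.ext1 hR (inv_mem hσ) (inv_smul_eq_iff.2 h2.symm)
      (fun a => by rw [Equiv.Perm.inv_eq_iff_eq, h3]; simp) hs hs')
  have h5 : ∀ τ : Equiv.Perm GolayPt, τ • ({p, q} : Finset _) = {p, q} → (∀ a, τ (j a) = j a) →
      τ • ρ • w ∈ gSets → ∃ g : M24, g • ({p, q} : Finset _) = {p, q} ∧ ∀ a, j (σ a) = g • j a := fun τ a b c =>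
    have d : (τ * ρ) • ({p, q} : Finset _) = {p, q} := by rw [mul_smul, h2, a]
    have d' : ∀ a, (τ * ρ) (j a) = j (σ a) := fun a => by rw [Equiv.Perm.mul_apply, h3, b]
    ⟨⟨τ * ρ, mem_M24_of_subset (k (W := fun s => (τ * ρ) • s ∈ gSets)
      (fun s t a b => smul_xor _ s t ▸ symmDiff_mem_gSets a b) (mul_smul τ ρ w ▸ c)
      fun s => h.ext1 hR hσ d d')⟩, d, fun a => (d' a).symm⟩
  have h6 : ∀ u : Finset GolayPt, ∀ s t, Even #(u ∩ s) → Even #(u ∩ t) → Even #(u ∩ s ∆ t) := fun u s t a b => by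
    rw [inter_comm] at *; exact even_inter_xor.2 (iff_of_true a b)
  by_cases e : Even #(ρ • w ∩ w)
  · exact h5 1 (one_smul _ _) (fun _ => rfl) (by rw [one_smul]; exact gol_gSets.dual (k (h6 _) e h4))
  have h7 : p ∈ ρ • w ∧ q ∉ ρ • w := by
    rw [← h1 p (by simp), ← h1 q (by simp)]
    exact ⟨smul_mem_smul_finset w3.1, mt (smul_mem_smul_finset_iff _).1 w3.2⟩
  refine h5 (Equiv.swap p q) (by simp [smul_eq_map, pair_comm]) (fun a => by
    have := h0 a
    exact Equiv.swap_apply_of_ne_of_ne (by grind) (by grind)) ?_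
  rw [show Equiv.swap p q • ρ • w = (ρ • w) ∆ {p, q} by
    ext x
    rw [smul_eq_map, mem_map_equiv, Equiv.symm_swap, Equiv.swap_apply_def, mem_symmDiff]
    grind]
  refine gol_gSets.dual (k (h6 _) (by simp [even_inter_xor, e, w2]) fun s hs hs' =>
    even_inter_xor.2 (iff_of_true (h4 s hs hs') ?_))
  rcases hs' with a | a
  · rw [inter_eq_left.2 a, card_pair hpq]; decide
  · simp [disjoint_iff_inter_eq_empty.1 a]

theorem eq_one_of_fix (hR : #R ≤ 3) {g : M24} (h : ∀ x ∉ R, g • x = x) : g = 1 := by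
  refine Subtype.ext (Equiv.ext fun x => by_contra fun e => ?_)
  obtain ⟨o, a1, a2⟩ := exists_inter octads_steiner (by omega) (w := {x, g.1 x}) (.inl (card_le_two.trans (by omega)))
    (s := {x}) (by simp) (by rw [card_pair (show x ≠ g.1 x from Ne.symm e), card_golayPt, card_singleton]; decide +kernel)
  have := smul_block octads_steiner (g := g.1) (smul_octads g) a1 (sdiff_subset (t := R))
    (by have := le_card_sdiff R o; have := a1.2; omega) fun y hy => by
      rw [show g.1 y = y from h y (mem_sdiff.1 hy).2]; exact (mem_sdiff.1 hy).1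
  have a3 : x ∈ o := (mem_inter.1 (a2.ge (mem_singleton_self x))).2
  exact e (mem_singleton.1 (a2.le (mem_inter.2 ⟨by simp, this ▸ smul_mem_smul_finset a3⟩)))

omit [Fintype α] in
theorem Emb.equiv (h : Emb B R j) (hR : #R ≤ 2) : Nonempty (stabilizer M24 R ≃* setSystemAut B) := by
  choose φ h1 h2 using fun g : stabilizer M24 R => h.res g.1 g.2
  refine ⟨MulEquiv.ofBijective (MonoidHom.mk' (fun g => (⟨φ g, h1 g⟩ : setSystemAut B)) fun a b =>
    Subtype.ext (Equiv.ext fun x => j.injective (by simp [h2, mul_smul]))) ⟨(injective_iff_map_eq_one _).2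
      fun g hg => Subtype.ext (eq_one_of_fix (R := R) (by omega) fun x hx => ?_), fun σ => ?_⟩⟩
  · obtain ⟨a, rfl⟩ := h.rng.ge (by simpa using hx)
    rw [← h2, show φ g = 1 from congrArg Subtype.val hg]; rfl
  · obtain ⟨g, a, b⟩ := h.ext hR σ.2
    exact ⟨⟨g, a⟩, Subtype.ext (Equiv.ext fun x => j.injective ((h2 _ x).trans (b x).symm))⟩

omit [Fintype α] in
theorem Emb.mt (h : Emb B R j) (hR : t + #R = 5) : IsMultiplyPretransitive (setSystemAut B) α t := by
  have h0 : ∀ x : Fin t → α, x.Injective → (Sum.elim (j ∘ x) (Subtype.val : R → _)).Injective := fun x hx =>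
    (j.injective.comp hx).sumElim Subtype.val_injective fun a b e => by
      simpa using h.rng.le ⟨x a, e⟩
  refine (Pm.mt_subgroup_iff _).2 fun x y hx hy => ?_
  obtain ⟨g, hg⟩ := Pm.exists_smul_family M24_five_transitive (by simpa) _ _ (h0 x hx) (h0 y hy)
  obtain ⟨σ, a, b⟩ := h.res g ((image_congr (g := id) fun z hz => hg (.inr ⟨z, hz⟩)).trans image_id)
  exact ⟨σ, a, fun i => j.injective ((b _).trans (hg (.inl i)))⟩

end Cfsg.Agent.H2.St
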