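import Mathlib

/-! Products of two regular unipotent classes: the choice of the first basis vector. -/

namespace Cfsg.Agent.H2.Lev
open Module

universe u w
variable {K : Type u} [Field K]

/-- at least four elements -/
def F4 (K : Type u) : Prop := ∀ a b c : K, ∃ t, t ≠ a ∧ t ≠ b ∧ t ≠ c

section
variable {V : Type w} [AddCommGroup V] [Module K V]

theorem line1 (P : Submodule K V) {x y : V} (hx : x ∉ P) : ∃ t0 : K, ∀ t, t ≠ t0 → y + t • x ∉ P := by
  by_cases h : ∃ t0 : K, y + t0 • x ∈ P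
  · obtain ⟨t0, h0⟩ := h
    refine ⟨t0, fun t ht h1 => hx ?_⟩
    have : (t - t0) • x ∈ P := by
      have := P.sub_mem h1 h0
      convert this using 1; module
    exact (P.smul_mem_iff (sub_ne_zero.mpr ht)).mp this
  · push Not at h
    exact ⟨0, fun t _ => h t⟩

theorem avoid_step (hK : F4 K) (P₁ P₂ P₃ P₄ : Submodule K V) (h4 : P₄ ≠ ⊤)
    (h : ∃ x, x ∉ P₁ ∧ x ∉ P₂ ∧ x ∉ P₃) : ∃ x, x ∉ P₁ ∧ x ∉ P₂ ∧ x ∉ P₃ ∧ x ∉ P₄ := by
  obtain ⟨x, h1, h2, h3⟩ := h
  by_cases hx : x ∈ P₄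
  · obtain ⟨y, hy⟩ : ∃ y, y ∉ P₄ := by
      by_contra hc; push Not at hc; exact h4 (Submodule.eq_top_iff'.mpr hc)
    obtain ⟨t1, e1⟩ := line1 P₁ (y := y) h1
    obtain ⟨t2, e2⟩ := line1 P₂ (y := y) h2
    obtain ⟨t3, e3⟩ := line1 P₃ (y := y) h3
    obtain ⟨t, a1, a2, a3⟩ := hK t1 t2 t3
    refine ⟨y + t • x, e1 t a1, e2 t a2, e3 t a3, fun hc => hy ?_⟩
    have := P₄.sub_mem hc (P₄.smul_mem t hx)
    simpa using this
  · exact ⟨x, h1, h2, h3, hx⟩

theorem avoid4 (hK : F4 K) (P₁ P₂ P₃ P₄ : Submodule K V) (h1 : P₁ ≠ ⊤) (h2 : P₂ ≠ ⊤) (h3 : P₃ ≠ ⊤)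
    (h4 : P₄ ≠ ⊤) : ∃ x, x ∉ P₁ ∧ x ∉ P₂ ∧ x ∉ P₃ ∧ x ∉ P₄ := by
  obtain ⟨y, hy⟩ : ∃ y, y ∉ P₁ := by
    by_contra hc; push Not at hc; exact h1 (Submodule.eq_top_iff'.mpr hc)
  obtain ⟨a, a1, -, -, a2⟩ := avoid_step hK P₁ P₁ P₁ P₂ h2 ⟨y, hy, hy, hy⟩
  obtain ⟨b, b1, b2, -, b3⟩ := avoid_step hK P₁ P₂ P₂ P₃ h3 ⟨a, a1, a2, a2⟩
  exact avoid_step hK P₁ P₂ P₃ P₄ h4 ⟨b, b1, b2, b3⟩

theorem dual_avoid4 (hK : F4 K) (z y₁ y₂ y₃ y₄ : V) (h1 : ∀ k : K, y₁ ≠ k • z) (h2 : ∀ k : K, y₂ ≠ k • z)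
    (h3 : ∀ k : K, y₃ ≠ k • z) (h4 : ∀ k : K, y₄ ≠ k • z) :
    ∃ φ : V →ₗ[K] K, φ z = 0 ∧ φ y₁ = 1 ∧ φ y₂ ≠ 0 ∧ φ y₃ ≠ 0 ∧ φ y₄ ≠ 0 := by
  let Z : Submodule K V := K ∙ z
  have key : ∀ y : V, (∀ k : K, y ≠ k • z) → LinearMap.ker (Dual.eval K (V ⧸ Z) (Z.mkQ y)) ≠ ⊤ := by
    intro y hy hc
    have h0 : Z.mkQ y ≠ 0 := by
      intro h
      rw [Submodule.mkQ_apply, Submodule.Quotient.mk_eq_zero, Submodule.mem_span_singleton] at h
      obtain ⟨k, hk⟩ := h
      exact hy k hk.symm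
    obtain ⟨f, hf⟩ := Module.Projective.exists_dual_ne_zero K h0
    have : f ∈ LinearMap.ker (Dual.eval K (V ⧸ Z) (Z.mkQ y)) := by rw [hc]; trivial
    exact hf (by simpa using this)
  obtain ⟨f, a1, a2, a3, a4⟩ := avoid4 hK _ _ _ _ (key _ h1) (key _ h2) (key _ h3) (key _ h4)
  simp only [LinearMap.mem_ker, Dual.eval_apply] at a1 a2 a3 a4
  have hz : Z.mkQ z = 0 := by
    rw [Submodule.mkQ_apply, Submodule.Quotient.mk_eq_zero]; exact Submodule.mem_span_singleton_self z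
  refine ⟨(f (Z.mkQ y₁))⁻¹ • (f ∘ₗ Z.mkQ), ?_, ?_, ?_, ?_, ?_⟩
  · simp only [LinearMap.smul_apply, LinearMap.comp_apply, hz, map_zero, smul_zero]
  · simp only [LinearMap.smul_apply, LinearMap.comp_apply, smul_eq_mul]; exact inv_mul_cancel₀ a1
  all_goals
    simp only [LinearMap.smul_apply, LinearMap.comp_apply, smul_eq_mul]
    exact mul_ne_zero (inv_ne_zero a1) (by assumption)

/-- `v, Tv, T²v` independent -/
def Good (T : V →ₗ[K] V) (v : V) : Prop :=
  ∀ a b c : K, a • v + b • T v + c • T (T v) = 0 → a = 0 ∧ b = 0 ∧ c = 0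

/-- conclusion of the inductive step -/
def Step (T : V →ₗ[K] V) (c : V) (r : V →ₗ[K] K) : Prop :=
  ∃ (v : V) (φ : V →ₗ[K] K), φ v = 1 ∧ φ (T v) = 0 ∧ φ c ≠ 0 ∧ r v ≠ 0 ∧ T v ≠ 0 ∧
    (∃ w, φ w = 0 ∧ φ (T w) ≠ 0) ∧ (finrank K V = 2 ∨
      ((¬ ∃ ν : K, ∀ w, φ w = 0 → T w - φ (T w) • (v + T v) = ν • w) ∧
        ∃ x y, φ x = 0 ∧ φ y = 0 ∧ ∀ a b : K,
          a • (T x - φ (T x) • (v + T v)) + b • (T y - φ (T y) • (v + T v)) = 0 → a = 0 ∧ b = 0))

theorem stepA (hK : F4 K) (T : V →ₗ[K] V) (c : V) (r : V →ₗ[K] K) (v : V) (hv : Good T v) (hr : r v ≠ 0)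
    (hc : ∀ k : K, c ≠ k • T v) : Step T c r := by
  obtain ⟨e, he⟩ : ∃ e : K, ∀ a b d : K, T (T (T v)) = a • T (T v) + b • T v + d • v → e = b - d := by
    by_cases h : ∃ a b d : K, T (T (T v)) = a • T (T v) + b • T v + d • v
    · obtain ⟨a, b, d, h⟩ := h
      refine ⟨b - d, fun a' b' d' h' => ?_⟩
      obtain ⟨e1, e2, -⟩ := hv (d - d') (b - b') (a - a') (by
        have := h.symm.trans h'
        linear_combination (norm := module) this)
      rw [sub_eq_zero.mp e1, sub_eq_zero.mp e2]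
    · push Not at h
      exact ⟨0, fun a b d h' => (h a b d h').elim⟩
  obtain ⟨φ, p0, p1, p2, p3, p4⟩ := dual_avoid4 hK (T v) v c (T (T v)) (T (T v) - e • v)
    (fun k hk => by
      have := (hv 1 (-k) 0 (by rw [one_smul, zero_smul, add_zero, neg_smul, ← hk, add_neg_cancel])).1
      exact one_ne_zero this) hc
    (fun k hk => by
      have := (hv 0 (-k) 1 (by rw [hk]; module)).2.2
      exact one_ne_zero this)
    (fun k hk => by
      have := (hv (-e) (-k) 1 (by linear_combination (norm := module) hk)).2.2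
      exact one_ne_zero this)
  have hT0 : T v ≠ 0 := fun h => by
    have := (hv 0 1 0 (by rw [h]; simp)).2.1
    exact one_ne_zero this
  refine ⟨v, φ, p1, p0, p2, hr, hT0, ⟨T v, p0, p3⟩, Or.inr ⟨?_, ?_⟩⟩
  · rintro ⟨ν, hν⟩
    have h1 := hν (T v) p0
    have := (hv (-φ (T (T v))) (-φ (T (T v)) - ν) 1 (by linear_combination (norm := module) h1)).2.2
    exact one_ne_zero this
  · set s := φ (T (T v)) with hs
    refine ⟨T v, T (T v) - s • v, p0, by simp [← hs, p1], fun a b hab => ?_⟩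
    simp only [map_sub, map_smul, p0, smul_eq_mul, mul_zero, sub_zero, ← hs] at hab
    set s3 := φ (T (T (T v))) with hs3
    by_cases hb : b = 0
    · rw [hb, zero_smul, add_zero] at hab
      have := (hv (-(a * s)) (-(a * s)) a (by linear_combination (norm := module) hab)).2.2
      exact ⟨this, hb⟩
    · exfalso
      have h3 : T (T (T v)) = (-(a / b)) • T (T v) + (s + s3 + a / b * s) • T v + (s3 + a / b * s) • v := by
        apply smul_right_injective V hb
        have e1 : b * (a / b) = a := by field_simp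
        show b • _ = b • _
        linear_combination (norm := module) hab + e1 • (T (T v) - s • T v - s • v)
      have := he _ _ _ h3
      apply p4
      rw [map_sub, map_smul, p1, ← hs, this]; simp

theorem Good.li {T : V →ₗ[K] V} {v : V} (hv : Good T v) : LinearIndependent K ![v, T v, T (T v)] := by
  rw [Fintype.linearIndependent_iff]
  intro g hg i
  simp only [Fin.sum_univ_three, Matrix.cons_val_zero, Matrix.cons_val_one, Matrix.cons_val] at hg
  obtain ⟨a, b, c⟩ := hv _ _ _ hg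
  fin_cases i <;> simpa

theorem dual_li {n : ℕ} {x : Fin n → V} (hx : LinearIndependent K x) (k : Fin n → K) :
    ∃ φ : V →ₗ[K] K, ∀ i, φ (x i) = k i := by
  obtain ⟨φ, hφ⟩ := LinearMap.exists_extend (Finsupp.linearCombination K k ∘ₗ hx.repr)
  refine ⟨φ, fun i => ?_⟩
  have hm : x i ∈ Submodule.span K (Set.range x) := Submodule.subset_span ⟨i, rfl⟩
  have := LinearMap.congr_fun hφ ⟨x i, hm⟩
  simp only [LinearMap.comp_apply, Submodule.subtype_apply] at this
  rw [this, hx.repr_eq_single i ⟨x i, hm⟩ rfl]; simp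

theorem exA1 (hK : F4 K) (T : V →ₗ[K] V) (r : V →ₗ[K] K) (hr : r ≠ 0) (x : V) (hx : Good T x) :
    ∃ v, Good T v ∧ r v ≠ 0 := by
  by_cases hrx : r x = 0
  swap
  · exact ⟨x, hx, hrx⟩
  obtain ⟨y, hy⟩ : ∃ y, r y ≠ 0 := by
    by_contra hc; push Not at hc; exact hr (LinearMap.ext hc)
  obtain ⟨f0, h0⟩ := dual_li hx.li ![1, 0, 0]
  obtain ⟨f1, h1⟩ := dual_li hx.li ![0, 1, 0]
  obtain ⟨f2, h2⟩ := dual_li hx.li ![0, 0, 1]
  have a00 : f0 x = 1 := h0 0
  have a01 : f0 (T x) = 0 := h0 1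
  have a02 : f0 (T (T x)) = 0 := h0 2
  have a10 : f1 x = 0 := h1 0
  have a11 : f1 (T x) = 1 := h1 1
  have a12 : f1 (T (T x)) = 0 := h1 2
  have a20 : f2 x = 0 := h2 0
  have a21 : f2 (T x) = 0 := h2 1
  have a22 : f2 (T (T x)) = 1 := h2 2
  let d : V → K := fun v => f0 v * (f1 (T v) * f2 (T (T v)) - f1 (T (T v)) * f2 (T v))
    - f0 (T v) * (f1 v * f2 (T (T v)) - f1 (T (T v)) * f2 v)
    + f0 (T (T v)) * (f1 v * f2 (T v) - f1 (T v) * f2 v)
  have hd : ∀ v, d v ≠ 0 → Good T v := by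
    intro v hv a b c h
    have e0 := congrArg f0 h
    have e1 := congrArg f1 h
    have e2 := congrArg f2 h
    simp only [map_add, map_smul, smul_eq_mul, map_zero] at e0 e1 e2
    refine ⟨(mul_eq_zero.mp (?_ : d v * a = 0)).resolve_left hv, (mul_eq_zero.mp (?_ : d v * b = 0)).resolve_left hv,
      (mul_eq_zero.mp (?_ : d v * c = 0)).resolve_left hv⟩
    · simp only [d]
      linear_combination (f1 (T v) * f2 (T (T v)) - f1 (T (T v)) * f2 (T v)) * e0
        - (f0 (T v) * f2 (T (T v)) - f0 (T (T v)) * f2 (T v)) * e1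
        + (f0 (T v) * f1 (T (T v)) - f0 (T (T v)) * f1 (T v)) * e2
    · simp only [d]
      linear_combination (-(f1 v * f2 (T (T v)) - f1 (T (T v)) * f2 v)) * e0
        + (f0 v * f2 (T (T v)) - f0 (T (T v)) * f2 v) * e1
        - (f0 v * f1 (T (T v)) - f0 (T (T v)) * f1 v) * e2
    · simp only [d]
      linear_combination (f1 v * f2 (T v) - f1 (T v) * f2 v) * e0
        - (f0 v * f2 (T v) - f0 (T v) * f2 v) * e1
        + (f0 v * f1 (T v) - f0 (T v) * f1 v) * e2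
  by_cases hdy : d y = 0
  swap
  · exact ⟨y, hd y hdy, hy⟩
  obtain ⟨α, β, hαβ⟩ : ∃ α β : K, ∀ t : K, d (x + t • y) = 1 + α * t + β * t ^ 2 + d y * t ^ 3 := by
    refine ⟨f0 y + f1 (T y) + f2 (T (T y)), f0 y * f1 (T y) - f0 (T y) * f1 y + f0 y * f2 (T (T y))
      - f0 (T (T y)) * f2 y + f1 (T y) * f2 (T (T y)) - f1 (T (T y)) * f2 (T y), fun t => ?_⟩
    simp only [d, map_add, map_smul, smul_eq_mul, a00, a01, a02, a10, a11, a12, a20, a21, a22]
    ring
  by_contra hc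
  push Not at hc
  have hbad : ∀ t : K, t ≠ 0 → 1 + α * t + β * t ^ 2 = 0 := by
    intro t ht
    by_contra hne
    have := hc (x + t • y) (hd _ (by rw [hαβ, hdy]; simpa using hne))
    rw [map_add, map_smul, hrx, zero_add, smul_eq_mul] at this
    exact mul_ne_zero ht hy this
  obtain ⟨t2, b1, b2, -⟩ := hK 0 1 1
  obtain ⟨t3, c1, c2, c3⟩ := hK 0 1 t2
  have e1 := hbad 1 one_ne_zero
  have e2 := hbad t2 b1
  have e3 := hbad t3 c1
  have g2 : α + β * (1 + t2) = 0 := by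
    apply mul_left_cancel₀ (sub_ne_zero.mpr b2); linear_combination e2 - e1
  have g3 : α + β * (1 + t3) = 0 := by
    apply mul_left_cancel₀ (sub_ne_zero.mpr c2); linear_combination e3 - e1
  have hβ : β = 0 := by
    apply mul_left_cancel₀ (sub_ne_zero.mpr c3); linear_combination g3 - g2
  rw [hβ] at g2 e1
  have hα : α = 0 := by linear_combination g2
  rw [hα] at e1
  exact one_ne_zero (by linear_combination e1)

theorem exA (hK : F4 K) (T : V →ₗ[K] V) (hinj : ∀ w, w + T w = 0 → w = 0) (c : V) (hc : c ≠ 0) (r : V →ₗ[K] K)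
    (hr : r ≠ 0) (x : V) (hx : Good T x) : ∃ v, Good T v ∧ r v ≠ 0 ∧ ∀ k : K, c ≠ k • T v := by
  obtain ⟨v, hv, hrv⟩ := exA1 hK T r hr x hx
  by_cases hcv : ∀ k : K, c ≠ k • T v
  · exact ⟨v, hv, hrv, hcv⟩
  push Not at hcv
  obtain ⟨μ, hμ⟩ := hcv
  have hμ0 : μ ≠ 0 := by rintro rfl; exact hc (by rw [hμ, zero_smul])
  have red : ∀ v', (∀ k : K, T v ≠ k • T v') → ∀ k : K, c ≠ k • T v' := by
    intro v' h k hk
    refine h (μ⁻¹ * k) ?_
    rw [mul_smul, ← hk, hμ, smul_smul, inv_mul_cancel₀ hμ0, one_smul]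
  by_cases hrg : r (v + T v) = 0
  swap
  · refine ⟨v + T v, fun a b d h => hv a b d (hinj _ ?_), hrg, red _ fun k hk => ?_⟩
    · simp only [map_add, map_smul] at h ⊢
      linear_combination (norm := module) h
    · obtain ⟨-, e1, e2⟩ := hv 0 (1 - k) (-k) (by
        rw [map_add] at hk; linear_combination (norm := module) hk)
      exact one_ne_zero (by linear_combination e1 - e2)
  by_contra hcon
  push Not at hcon
  have hbad : ∀ t : K, t ≠ 0 → ¬ Good T (v + t • (v + T v)) := by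
    intro t ht hg
    obtain ⟨k, hk⟩ := hcon _ hg (by rw [map_add, map_smul, hrg]; simpa using hrv)
    refine red _ (fun k hk => ?_) k hk
    obtain ⟨-, e1, e2⟩ := hv 0 (1 - k * (1 + t)) (-(k * t)) (by
      simp only [map_add, map_smul] at hk; linear_combination (norm := module) hk)
    have hk0 : k = 0 := by
      rcases mul_eq_zero.mp (neg_eq_zero.mp e2) with h | h
      · exact h
      · exact (ht h).elim
    rw [hk0] at e1
    exact one_ne_zero (by linear_combination e1)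
  -- every `τ ≠ -1` gives a cubic relation with root `τ`
  have hrel : ∀ τ : K, τ ≠ -1 → ∃ a b d : K, T (T (T v)) = a • T (T v) + b • T v + d • v ∧
      τ ^ 3 = a * τ ^ 2 + b * τ + d := by
    intro τ hτ
    have h1 : τ + 1 ≠ 0 := fun h => hτ (by linear_combination h)
    have := hbad (-(τ + 1)⁻¹) (neg_ne_zero.mpr (inv_ne_zero h1))
    simp only [Good] at this
    push Not at this
    obtain ⟨α, β, γ, h, hne⟩ := this
    simp only [map_add, map_smul] at h
    have hi : (τ + 1) * (τ + 1)⁻¹ = 1 := mul_inv_cancel₀ h1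
    have h' : (α * τ) • v + (β * τ - α) • T v + (γ * τ - β) • T (T v) - γ • T (T (T v)) = 0 := by
      linear_combination (norm := module) (τ + 1) • h +
        hi • (α • (v + T v) + β • (T v + T (T v)) + γ • (T (T v) + T (T (T v))))
    have hγ : γ ≠ 0 := by
      intro h0
      rw [h0] at h'
      obtain ⟨-, e2, e3⟩ := hv (α * τ) (β * τ - α) (-β) (by linear_combination (norm := module) h')
      have hb : β = 0 := by linear_combination -e3
      exact hne (by rw [hb] at e2; linear_combination -e2) hb h0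
    refine ⟨(γ * τ - β) / γ, (β * τ - α) / γ, α * τ / γ, ?_, by field_simp; ring⟩
    apply smul_right_injective V hγ
    show γ • _ = γ • _
    simp only [smul_add, smul_smul, mul_div_cancel₀ _ hγ]
    linear_combination (norm := module) -h'
  obtain ⟨a, b, d, h3, r0⟩ := hrel 0 (by norm_num)
  have uniq : ∀ τ : K, τ ≠ -1 → τ ^ 3 = a * τ ^ 2 + b * τ + d := by
    intro τ hτ
    obtain ⟨a', b', d', h', r'⟩ := hrel τ hτ
    obtain ⟨e1, e2, e3⟩ := hv (d - d') (b - b') (a - a') (by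
      have := h3.symm.trans h'
      linear_combination (norm := module) this)
    rw [sub_eq_zero.mp e1, sub_eq_zero.mp e2, sub_eq_zero.mp e3]; exact r'
  have hd : d = 0 := by linear_combination -r0
  obtain ⟨τ2, b1, b2, -⟩ := hK 0 (-1) (-1)
  obtain ⟨τ3, c1, c2, c3⟩ := hK 0 (-1) τ2
  have q2 : τ2 ^ 2 = a * τ2 + b := by
    apply mul_left_cancel₀ b1; linear_combination uniq τ2 b2 + hd
  have q3 : τ3 ^ 2 = a * τ3 + b := by
    apply mul_left_cancel₀ c1; linear_combination uniq τ3 c2 + hd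
  have c4 : τ3 - τ2 ≠ 0 := sub_ne_zero.mpr c3
  have ha : a = τ2 + τ3 := by
    apply mul_left_cancel₀ c4; linear_combination q2 - q3
  have hb : b = -(τ2 * τ3) := by rw [ha] at q2; linear_combination -q2
  rw [ha, hb, hd] at h3
  obtain ⟨e1, he1⟩ : ∃ e, e = T (T v) - (τ2 + τ3) • T v + (τ2 * τ3) • v := ⟨_, rfl⟩
  obtain ⟨e2, he2⟩ : ∃ e, e = T (T v) - τ3 • T v := ⟨_, rfl⟩
  obtain ⟨e3, he3⟩ : ∃ e, e = T (T v) - τ2 • T v := ⟨_, rfl⟩
  have t1 : T e1 = 0 := by rw [he1]; simp only [map_add, map_sub, map_smul, h3]; module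
  have t2 : T e2 = τ2 • e2 := by rw [he2]; simp only [map_add, map_sub, map_smul, h3]; module
  have t3 : T e3 = τ3 • e3 := by rw [he3]; simp only [map_add, map_sub, map_smul, h3]; module
  have ind : ∀ k1 k2 k3 : K, k1 • e1 + k2 • e2 + k3 • e3 = 0 → k1 = 0 ∧ k2 = 0 ∧ k3 = 0 := by
    intro k1 k2 k3 h
    obtain ⟨f1, f2, f3⟩ := hv (k1 * (τ2 * τ3)) (-(k1 * (τ2 + τ3) + k2 * τ3 + k3 * τ2)) (k1 + k2 + k3) (by
      rw [he1, he2, he3] at h; linear_combination (norm := module) h)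
    have g1 : k1 = 0 := (mul_eq_zero.mp f1).resolve_right (mul_ne_zero b1 c1)
    rw [g1] at f2 f3
    have g2 : k2 = 0 := by apply mul_left_cancel₀ c4; linear_combination -f2 - τ2 * f3
    rw [g2] at f3
    exact ⟨g1, g2, by linear_combination f3⟩
  have hv' : (τ2 * τ3 * (τ3 - τ2)) • v = (τ3 - τ2) • e1 - τ3 • e2 + τ2 • e3 := by
    rw [he1, he2, he3]; module
  obtain ⟨z, z1, z2, z3⟩ := hK 0 (-(τ2 / τ3)) (-(r e2 / r e3))
  obtain ⟨x, x1, x2⟩ : ∃ x : K, x ≠ 0 ∧ x * r e1 + r e2 + z * r e3 ≠ 0 := by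
    by_cases h1 : r e1 = 0
    · refine ⟨1, one_ne_zero, fun h => ?_⟩
      rw [h1] at h
      by_cases h3' : r e3 = 0
      · have := congrArg r hv'
        simp only [map_add, map_sub, map_smul, smul_eq_mul, h1, h3'] at this
        rw [h3'] at h
        have h2 : r e2 = 0 := by linear_combination h
        rw [h2] at this
        exact mul_ne_zero (mul_ne_zero (mul_ne_zero b1 c1) c4) hrv (by linear_combination this)
      · apply z3; field_simp; linear_combination h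
    · obtain ⟨x, x1, x2, -⟩ := hK 0 (-((r e2 + z * r e3) / r e1)) 0
      refine ⟨x, x1, fun h => x2 ?_⟩
      field_simp; linear_combination h
  have hgood : Good T (x • e1 + e2 + z • e3) := by
    intro α β γ h
    simp only [map_add, map_smul, t1, t2, t3, map_zero] at h
    obtain ⟨f1, f2, f3⟩ := ind (α * x) (α + β * τ2 + γ * τ2 ^ 2) ((α + β * τ3 + γ * τ3 ^ 2) * z)
      (by linear_combination (norm := module) h)
    have g1 : α = 0 := (mul_eq_zero.mp f1).resolve_right x1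
    have f3' := (mul_eq_zero.mp f3).resolve_right z1
    rw [g1] at f2 f3'
    have g2 : β + γ * τ2 = 0 := by apply mul_left_cancel₀ b1; linear_combination f2
    have g3 : β + γ * τ3 = 0 := by apply mul_left_cancel₀ c1; linear_combination f3'
    have g4 : γ = 0 := by apply mul_left_cancel₀ c4; linear_combination g3 - g2
    rw [g4] at g2
    exact ⟨g1, by linear_combination g2, g4⟩
  obtain ⟨k, hk⟩ := hcon _ hgood (by simpa [map_add, map_smul] using x2)
  refine red _ (fun k hk => ?_) k hk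
  simp only [map_add, map_smul, t1, t2, t3] at hk
  have hT : (τ3 - τ2) • T v = e3 - e2 := by rw [he2, he3]; module
  obtain ⟨-, f2, f3⟩ := ind 0 (1 + (τ3 - τ2) * k * τ2) (-1 + (τ3 - τ2) * k * z * τ3) (by
    linear_combination (norm := module) hT - (τ3 - τ2) • hk)
  have hk0 : (τ3 - τ2) * k ≠ 0 := fun h => by rw [h] at f2; exact one_ne_zero (by linear_combination f2)
  apply z2
  field_simp
  apply mul_left_cancel₀ hk0
  linear_combination f2 + f3

end
end Cfsg.Agent.H2.Lev
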