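import Cfsg.Agent.H2.Lev1

/-! Products of two regular unipotent classes: the quadratic case and the step. -/

namespace Cfsg.Agent.H2.Lev
open Module Polynomial

universe u w
variable {K : Type u} [Field K] {V : Type w} [AddCommGroup V] [Module K V]

theorem good_or_quad [FiniteDimensional K V] (T : V →ₗ[K] V) (hns : ¬ ∃ ν : K, ∀ w, T w = ν • w) :
    (∃ x, Good T x) ∨ ∃ a b : K, ∀ w, T (T w) = a • T w + b • w := by
  obtain ⟨x, hx⟩ := Module.exists_ker_toSpanSingleton_eq_annihilator (R := K[X]) (M := AEval' T)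
  obtain ⟨x, rfl⟩ := (AEval'.of T).surjective x
  by_cases hg : Good T x
  · exact Or.inl ⟨x, hg⟩
  right
  simp only [Good] at hg
  push Not at hg
  obtain ⟨α, β, γ, h, hne⟩ := hg
  have key : ∀ w, (C α + C β * X + C γ * (X * X) : K[X]) • AEval'.of T w =
      AEval'.of T (α • w + β • T w + γ • T (T w)) := by
    intro w
    simp only [add_smul, mul_smul, AEval'.X_smul_of, map_add, map_smul, AEval.C_smul]
  have hall : ∀ w, α • w + β • T w + γ • T (T w) = 0 := by
    intro w
    have h1 : (C α + C β * X + C γ * (X * X) : K[X]) ∈ annihilator K[X] (AEval' T) := by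
      rw [← hx, LinearMap.mem_ker, LinearMap.toSpanSingleton_apply, key, h, map_zero]
    have := mem_annihilator.mp h1 (AEval'.of T w)
    rw [key] at this
    exact (AEval'.of T).injective (by rw [this, map_zero])
  have hγ : γ ≠ 0 := by
    intro h0
    by_cases hβ : β = 0
    · by_cases hα : α = 0
      · exact hne hα hβ h0
      · apply hns
        refine ⟨0, fun w => ?_⟩
        have := hall w
        rw [h0, hβ, zero_smul, zero_smul, add_zero, add_zero] at this
        rw [(smul_eq_zero.mp this).resolve_left hα]; simp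
    · apply hns
      refine ⟨-(α / β), fun w => ?_⟩
      apply smul_right_injective V hβ
      show β • _ = β • _
      have := hall w
      rw [h0] at this
      have e : β * (α / β) = α := by field_simp
      linear_combination (norm := module) this + e • w
  refine ⟨-(β / γ), -(α / γ), fun w => ?_⟩
  apply smul_right_injective V hγ
  show γ • _ = γ • _
  have e1 : γ * (α / γ) = α := by field_simp
  have e2 : γ * (β / γ) = β := by field_simp
  linear_combination (norm := module) hall w + e1 • w + e2 • T w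

theorem ext3 {v₁ v₂ : V} (h : ∀ a b : K, a • v₁ + b • v₂ = 0 → a = 0 ∧ b = 0) (h3 : 2 < finrank K V) :
    ∃ u, ∀ a b c : K, a • v₁ + b • v₂ + c • u = 0 → a = 0 ∧ b = 0 ∧ c = 0 := by
  have hl : LinearIndependent K ![v₁, v₂] := LinearIndependent.pair_iff.mpr h
  obtain ⟨u, hu⟩ := exists_linearIndependent_cons_of_lt_finrank hl h3
  refine ⟨u, fun a b c e => ?_⟩
  have := Fintype.linearIndependent_iff.mp hu ![c, a, b] (by
    simp [Fin.sum_univ_succ]; linear_combination (norm := module) e)
  exact ⟨this 1, this 2, this 0⟩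

theorem li3 {v₁ v₂ u : V} (h : ∀ a b c : K, a • v₁ + b • v₂ + c • u = 0 → a = 0 ∧ b = 0 ∧ c = 0) :
    LinearIndependent K ![v₁, v₂, u] := by
  rw [Fintype.linearIndependent_iff]
  intro g hg i
  simp only [Fin.sum_univ_three, Matrix.cons_val_zero, Matrix.cons_val_one, Matrix.cons_val] at hg
  obtain ⟨a, b, c⟩ := h _ _ _ hg
  fin_cases i <;> simpa

theorem ext4 {v₁ v₂ v₃ : V} (h : ∀ a b c : K, a • v₁ + b • v₂ + c • v₃ = 0 → a = 0 ∧ b = 0 ∧ c = 0)
    (h3 : 3 < finrank K V) :
    ∃ u, ∀ a b c d : K, a • v₁ + b • v₂ + c • v₃ + d • u = 0 → a = 0 ∧ b = 0 ∧ c = 0 ∧ d = 0 := by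
  obtain ⟨u, hu⟩ := exists_linearIndependent_cons_of_lt_finrank (li3 h) h3
  refine ⟨u, fun a b c d e => ?_⟩
  have := Fintype.linearIndependent_iff.mp hu ![d, a, b, c] (by
    simp [Fin.sum_univ_succ]; linear_combination (norm := module) e)
  exact ⟨this 1, this 2, this 3, this 0⟩

theorem det3 [FiniteDimensional K V] (T : V →ₗ[K] V) (hdet : LinearMap.det (1 + T) = 1) (h3 : finrank K V = 3)
    {v u : V} (h : ∀ a b c : K, a • v + b • T v + c • u = 0 → a = 0 ∧ b = 0 ∧ c = 0) (a : K)
    (ha : T (T v) = a • T v + a • v) : ∃ x y : K, T u = x • v + y • T v := by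
  let B : Basis (Fin 3) K V := basisOfLinearIndependentOfCardEqFinrank (li3 h) (by simp [h3])
  have b0 : B 0 = v := by simp [B]
  have b1 : B 1 = T v := by simp [B]
  have b2 : B 2 = u := by simp [B]
  have hu := B.sum_repr (T u)
  simp only [Fin.sum_univ_three, b0, b1, b2] at hu
  set x := B.repr (T u) 0
  set y := B.repr (T u) 1
  set z := B.repr (T u) 2
  have hM : LinearMap.toMatrix B B (1 + T) = !![1, a, x; 1, 1 + a, y; 0, 0, 1 + z] := by
    have e0 : (1 + T) (B 0) = B 0 + B 1 := by rw [b0, b1]; rfl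
    have e1 : (1 + T) (B 1) = a • B 0 + (1 + a) • B 1 := by
      rw [b0, b1, LinearMap.add_apply, ha]; simp; module
    have e2 : (1 + T) (B 2) = x • B 0 + y • B 1 + (1 + z) • B 2 := by
      rw [b0, b1, b2, LinearMap.add_apply, ← hu]; simp; module
    ext i j
    rw [LinearMap.toMatrix_apply]
    fin_cases j
    · simp only [Fin.zero_eta, e0]; fin_cases i <;> simp
    · simp only [Fin.mk_one, e1]; fin_cases i <;> simp
    · simp only [Fin.reduceFinMk, e2]; fin_cases i <;> simp
  rw [← LinearMap.det_toMatrix B, hM, Matrix.det_fin_three] at hdet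
  simp at hdet
  have hz : z = 0 := by linear_combination hdet
  rw [hz, zero_smul, add_zero] at hu
  exact ⟨x, y, hu.symm⟩

theorem stepB [FiniteDimensional K V] (hK : F4 K) (T : V →ₗ[K] V) (hinj : ∀ w, w + T w = 0 → w = 0)
    (hdet : LinearMap.det (1 + T) = 1) (hns : ¬ ∃ ν : K, ∀ w, T w = ν • w)
    (hrk : ∃ x y, ∀ a b : K, a • T x + b • T y = 0 → a = 0 ∧ b = 0)
    (c : V) (hc : c ≠ 0) (r : V →ₗ[K] K) (hr : r ≠ 0) (a b : K) (hq : ∀ w, T (T w) = a • T w + b • w) :
    Step T c r := by
  obtain ⟨μ, hμ⟩ : ∃ μ : K, ∀ ν : K, ν ^ 2 = a * ν + b → ν = μ ∨ ν = a - μ := by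
    by_cases h : ∃ μ : K, μ ^ 2 = a * μ + b
    · obtain ⟨μ, h⟩ := h
      refine ⟨μ, fun ν h' => ?_⟩
      have : (ν - μ) * (ν - (a - μ)) = 0 := by linear_combination h' - h
      rcases mul_eq_zero.mp this with e | e
      · exact Or.inl (sub_eq_zero.mp e)
      · exact Or.inr (sub_eq_zero.mp e)
    · push Not at h
      exact ⟨0, fun ν h' => (h ν h').elim⟩
  have eig : ∀ ν : K, LinearMap.ker (T - ν • (1 : V →ₗ[K] V)) ≠ ⊤ := by
    intro ν h
    refine hns ⟨ν, fun w => ?_⟩
    have : w ∈ LinearMap.ker (T - ν • (1 : V →ₗ[K] V)) := by rw [h]; trivial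
    simpa [sub_eq_zero] using this
  obtain ⟨x0, y0, hxy⟩ := hrk
  have out : ∀ z : V, ∃ u, ∀ k : K, T u ≠ k • z := by
    intro z
    by_contra hcon
    push Not at hcon
    obtain ⟨k1, h1⟩ := hcon x0
    obtain ⟨k2, h2⟩ := hcon y0
    obtain ⟨e1, e2⟩ := hxy k2 (-k1) (by rw [h1, h2]; module)
    have := (hxy 1 0 (by rw [h1, neg_eq_zero.mp e2]; simp)).1
    exact one_ne_zero this
  obtain ⟨v, v1, v2, v3, v4⟩ := avoid4 hK _ _ (LinearMap.ker r) ((K ∙ c).comap T) (eig μ) (eig (a - μ))
    (fun h => hr (LinearMap.ker_eq_top.mp h)) (fun h => by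
      obtain ⟨u, hu⟩ := out c
      have : u ∈ (K ∙ c).comap T := by rw [h]; trivial
      obtain ⟨k, hk⟩ := Submodule.mem_span_singleton.mp this
      exact hu k hk.symm)
  simp only [LinearMap.mem_ker, LinearMap.sub_apply, LinearMap.smul_apply, End.one_apply, sub_eq_zero,
    Submodule.mem_comap, Submodule.mem_span_singleton] at v1 v2 v3 v4
  have hv0 : v ≠ 0 := by rintro rfl; simp at v3
  have ne : ∀ ν : K, T v ≠ ν • v := by
    intro ν h
    have h1 := hq v
    rw [h, map_smul, h] at h1
    have : (ν ^ 2 - (a * ν + b)) • v = 0 := by linear_combination (norm := module) h1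
    rcases hμ ν (sub_eq_zero.mp ((smul_eq_zero.mp this).resolve_right hv0)) with e | e
    · exact v1 (e ▸ h)
    · exact v2 (e ▸ h)
  have ind : ∀ α β : K, α • v + β • T v = 0 → α = 0 ∧ β = 0 := by
    intro α β h
    by_cases hβ : β = 0
    · rw [hβ, zero_smul, add_zero] at h
      exact ⟨(smul_eq_zero.mp h).resolve_right hv0, hβ⟩
    · exfalso
      apply ne (-(α / β))
      apply smul_right_injective V hβ
      show β • _ = β • _
      have e : β * (α / β) = α := by field_simp
      linear_combination (norm := module) h + e • v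
  have hT0 : T v ≠ 0 := fun h => ne 0 (by rw [h, zero_smul])
  have hlam : 1 + a - b ≠ 0 := by
    intro h
    apply ne (1 + a)
    have := hinj ((1 + a) • v - T v) (by
      simp only [map_sub, map_smul, hq v]; linear_combination (norm := module) h • v)
    exact (sub_eq_zero.mp this).symm
  obtain ⟨u, hu⟩ := out (T v)
  obtain ⟨φ, p0, p1, p2, p3, -⟩ := dual_avoid4 hK (T v) v c (T u) (T u)
    (fun k hk => by
      have := (ind 1 (-k) (by linear_combination (norm := module) hk)).1
      exact one_ne_zero this)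
    (fun k hk => by
      have hk0 : k ≠ 0 := by rintro rfl; exact hc (by rw [hk, zero_smul])
      exact v4 ⟨k⁻¹, by rw [hk, smul_smul, inv_mul_cancel₀ hk0, one_smul]⟩) hu hu
  have w0 : ∀ z : V, φ (z - φ z • v) = 0 := fun z => by simp [p1]
  refine ⟨v, φ, p1, p0, p2, v3, hT0, ⟨u - φ u • v, w0 u, by simpa [p0] using p3⟩, ?_⟩
  have t1 : T (T v) - φ (T (T v)) • (v + T v) = (a - b) • T v := by
    rw [hq v]; simp only [map_add, map_smul, p0, p1, smul_eq_mul]; module
  by_cases hb : b = 0
  · right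
    subst hb
    have hs : 1 + a ≠ 0 := by simpa using hlam
    set s := φ (T u) with hs'
    have t2 : T (T u - s • v) - φ (T (T u - s • v)) • (v + T v) = a • (T u - s • v) - (s * (1 + a)) • T v := by
      simp only [map_sub, map_smul, hq u, map_add, p0, ← hs', smul_eq_mul]; module
    have t3 : T (u - φ u • v) - φ (T (u - φ u • v)) • (v + T v) = (T u - s • v) - (φ u + s) • T v := by
      simp only [map_sub, map_smul, p0, ← hs', smul_eq_mul]; module
    have i2 : ∀ α β : K, α • T v + β • (T u - s • v) = 0 → α = 0 ∧ β = 0 := by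
      intro α β h
      have h1 := congrArg (fun w => T w - φ (T w) • (v + T v) - a • w) h
      simp only [map_add, map_smul, map_zero, smul_zero, zero_smul, sub_zero, smul_eq_mul] at h1
      have h2 : (β * (s * (1 + a))) • T v = 0 := by
        linear_combination (norm := module) α • t1 + β • t2 - h1
      have hβ : β = 0 := (mul_eq_zero.mp ((smul_eq_zero.mp h2).resolve_right hT0)).resolve_right
        (mul_ne_zero p3 hs)
      rw [hβ, zero_smul, add_zero] at h
      exact ⟨(smul_eq_zero.mp h).resolve_right hT0, hβ⟩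
    refine ⟨?_, ?_⟩
    · rintro ⟨ν, hν⟩
      have h2 := hν _ (w0 (T u))
      rw [t2] at h2
      obtain ⟨e1, -⟩ := i2 (-(s * (1 + a))) (a - ν) (by linear_combination (norm := module) h2)
      exact mul_ne_zero p3 hs (neg_eq_zero.mp e1)
    · by_cases ha : a = 0
      · refine ⟨_, _, w0 (T u), w0 u, fun α β h => ?_⟩
        rw [t2, t3, ha] at h
        obtain ⟨e1, e2⟩ := i2 (-(α * s + β * (φ u + s))) β (by linear_combination (norm := module) h)
        rw [e2] at e1
        exact ⟨(mul_eq_zero.mp (by linear_combination -e1 : α * s = 0)).resolve_right p3, e2⟩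
      · refine ⟨_, _, p0, w0 u, fun α β h => ?_⟩
        rw [t1, t3] at h
        obtain ⟨e1, e2⟩ := i2 (α * a - β * (φ u + s)) β (by linear_combination (norm := module) h)
        rw [e2] at e1
        exact ⟨(mul_eq_zero.mp (by linear_combination e1 : α * a = 0)).resolve_right ha, e2⟩
  have h2 : 2 ≤ finrank K V := by
    have := (LinearIndependent.pair_iff.mpr ind).fintype_card_le_finrank
    simpa using this
  rcases h2.eq_or_lt with h2 | h2
  · exact Or.inl h2.symm
  right
  obtain ⟨u2, hu2⟩ := ext3 ind h2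
  -- the key identity
  have key : ∀ w, φ w = 0 → φ (T w - φ (T w) • (v + T v) - a • w) = 0 ∧
      T (T w - φ (T w) • (v + T v) - a • w) - φ (T (T w - φ (T w) • (v + T v) - a • w)) • (v + T v) =
        b • w - (φ (T w) * (1 + a - b)) • T v := by
    intro w hw
    refine ⟨by simp [p0, p1, hw], ?_⟩
    simp only [map_sub, map_add, map_smul, hq w, hq v, p0, p1, hw, smul_eq_mul]; module
  refine ⟨?_, ?_⟩
  · rintro ⟨ν, hν⟩
    have e1 := hν _ p0
    rw [t1] at e1
    have hν' : ν = a - b := (smul_left_injective K hT0 e1).symm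
    obtain ⟨k1, k2⟩ := key _ (w0 u2)
    rw [hν _ k1, hν _ (w0 u2)] at k2
    obtain ⟨-, -, e⟩ := hu2 (-((ν * (ν - a) - b) * φ u2)) (φ (T (u2 - φ u2 • v)) * (1 + a - b)) (ν * (ν - a) - b)
      (by linear_combination (norm := module) k2)
    rw [hν'] at e
    exact mul_ne_zero hb hlam (by linear_combination -e)
  · obtain ⟨k1, k2⟩ := key _ (w0 u2)
    by_cases hab : a = b
    · rcases (Nat.succ_le_of_lt h2).eq_or_lt with h3 | h3
      · exfalso
        obtain ⟨x, y, hxy'⟩ := det3 T hdet h3.symm hu2 a (by rw [hq v, ← hab])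
        have h5 := hq u2
        rw [hxy', map_add, map_smul, map_smul, hq v] at h5
        obtain ⟨-, -, e⟩ := hu2 (a * x - y * b) (-x) b (by linear_combination (norm := module) -h5)
        exact hb e
      · obtain ⟨u3, hu3⟩ := ext4 hu2 h3
        obtain ⟨l1, l2⟩ := key _ (w0 u3)
        refine ⟨_, _, k1, l1, fun α β h => ?_⟩
        rw [k2, l2] at h
        obtain ⟨-, -, e1, e2⟩ := hu3 (-(α * b * φ u2 + β * b * φ u3))
          (-(α * (φ (T (u2 - φ u2 • v)) * (1 + a - b)) + β * (φ (T (u3 - φ u3 • v)) * (1 + a - b)))) (α * b) (β * b)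
          (by linear_combination (norm := module) h)
        exact ⟨(mul_eq_zero.mp e1).resolve_right hb, (mul_eq_zero.mp e2).resolve_right hb⟩
    · refine ⟨_, _, p0, k1, fun α β h => ?_⟩
      rw [t1, k2] at h
      obtain ⟨-, e1, e2⟩ := hu2 (-(β * b * φ u2))
        (α * (a - b) - β * (φ (T (u2 - φ u2 • v)) * (1 + a - b))) (β * b)
        (by linear_combination (norm := module) h)
      have hβ := (mul_eq_zero.mp e2).resolve_right hb
      rw [hβ] at e1
      exact ⟨(mul_eq_zero.mp (by linear_combination e1 : α * (a - b) = 0)).resolve_right (sub_ne_zero.mpr hab), hβ⟩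

theorem step [FiniteDimensional K V] (hK : F4 K) (T : V →ₗ[K] V) (hinj : ∀ w, w + T w = 0 → w = 0)
    (hdet : LinearMap.det (1 + T) = 1) (hns : ¬ ∃ ν : K, ∀ w, T w = ν • w)
    (hrk : ∃ x y, ∀ a b : K, a • T x + b • T y = 0 → a = 0 ∧ b = 0)
    (c : V) (hc : c ≠ 0) (r : V →ₗ[K] K) (hr : r ≠ 0) : Step T c r := by
  rcases good_or_quad T hns with ⟨x, hx⟩ | ⟨a, b, h⟩
  · obtain ⟨v, h1, h2, h3⟩ := exA hK T hinj c hc r hr x hx
    exact stepA hK T c r v h1 h2 h3
  · exact stepB hK T hinj hdet hns hrk c hc r hr a b h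

end Cfsg.Agent.H2.Lev
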