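import Cfsg.Agent.H2.Lev2

/-! Products of two regular unipotent classes: the induction. -/

namespace Cfsg.Agent.H2.Lev
open Module

universe u w
variable {K : Type u} [Field K]

section
variable {V : Type w} [AddCommGroup V] [Module K V]

/-- projection to the kernel along `v` -/
def proj (φ : V →ₗ[K] K) (v : V) (h : φ v = 1) : V →ₗ[K] LinearMap.ker φ :=
  LinearMap.codRestrict _ (LinearMap.id - φ.smulRight v) (fun x => by simp [h])

theorem proj_coe (φ : V →ₗ[K] K) (v : V) (h : φ v = 1) (x : V) : (proj φ v h x : V) = x - φ x • v := rfl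

theorem proj_ker (φ : V →ₗ[K] K) (v : V) (h : φ v = 1) (x : LinearMap.ker φ) : proj φ v h x = x := by
  ext; rw [proj_coe, x.2, zero_smul, sub_zero]

theorem proj_self (φ : V →ₗ[K] K) (v : V) (h : φ v = 1) : proj φ v h v = 0 := by
  ext; rw [proj_coe, h]; simp

theorem extL (φ : V →ₗ[K] K) (v : V) (h : φ v = 1) (N' : End K (LinearMap.ker φ)) (c' : LinearMap.ker φ) (m : ℕ)
    (hN : N' ^ (m + 1) = 0) : ∃ N : End K V, (∀ w : LinearMap.ker φ, N w = N' w) ∧ N v = c' ∧ N ^ (m + 2) = 0 ∧
      ∀ x, (N ^ (m + 1)) x = φ x • ((N' ^ m) c' : V) := by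
  let N : End K V := (LinearMap.ker φ).subtype ∘ₗ N' ∘ₗ proj φ v h + φ.smulRight (c' : V)
  have h0 : ∀ x, N x = (N' (proj φ v h x) + φ x • c' : LinearMap.ker φ) := fun x => rfl
  have h1 : ∀ w : LinearMap.ker φ, N w = N' w := fun w => by
    rw [h0, proj_ker, w.2, zero_smul, add_zero]
  have h2 : ∀ k, ∀ w : LinearMap.ker φ, (N ^ k) w = (N' ^ k) w := by
    intro k
    induction k with
    | zero => intro w; rfl
    | succ k ih => intro w; rw [pow_succ, pow_succ, End.mul_apply, End.mul_apply, h1, ih]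
  refine ⟨N, h1, by rw [h0, proj_self, h]; simp, ?_, fun x => ?_⟩
  · ext x
    rw [pow_succ, End.mul_apply, h0, h2, hN]; rfl
  · rw [pow_succ, End.mul_apply, h0, h2, map_add, ← End.mul_apply, ← pow_succ, hN, map_smul]; simp

theorem extU (φ : V →ₗ[K] K) (v : V) (h : φ v = 1) (M' : End K (LinearMap.ker φ)) (r' : LinearMap.ker φ →ₗ[K] K)
    (m : ℕ) (hM : M' ^ (m + 1) = 0) : ∃ M : End K V, (∀ w : LinearMap.ker φ, M w = M' w + r' w • v) ∧ M v = 0 ∧
      M ^ (m + 2) = 0 ∧ ∀ w : LinearMap.ker φ, (M ^ (m + 1)) w = r' ((M' ^ m) w) • v := by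
  let M : End K V := (LinearMap.ker φ).subtype ∘ₗ M' ∘ₗ proj φ v h + (r' ∘ₗ proj φ v h).smulRight v
  have h0 : ∀ x, M x = M' (proj φ v h x) + r' (proj φ v h x) • v := fun x => rfl
  have h1 : ∀ w : LinearMap.ker φ, M w = M' w + r' w • v := fun w => by rw [h0, proj_ker]
  have hv : M v = 0 := by rw [h0, proj_self]; simp
  have h2 : ∀ k, ∀ w : LinearMap.ker φ, (M ^ (k + 1)) w = (M' ^ (k + 1)) w + r' ((M' ^ k) w) • v := by
    intro k
    induction k with
    | zero => intro w; simpa using h1 w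
    | succ k ih =>
      intro w
      rw [pow_succ', End.mul_apply, ih, map_add, map_smul, hv, smul_zero, add_zero, h1, pow_succ' M' (k + 1),
        End.mul_apply]
  refine ⟨M, h1, hv, ?_, fun w => by rw [h2, hM]; simp⟩
  ext x
  have hx : x = (proj φ v h x : V) + φ x • v := by rw [proj_coe]; simp
  have hv' : (M ^ (m + 2)) v = 0 := by rw [pow_succ, End.mul_apply, hv, map_zero]
  rw [hx, map_add, h2, hM, pow_succ M', hM, map_smul, hv']; simp

theorem finrank_ker [FiniteDimensional K V] (φ : V →ₗ[K] K) (v : V) (h : φ v = 1) {m : ℕ}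
    (hm : finrank K V = m + 1) : finrank K (LinearMap.ker φ) = m := by
  have := Module.Dual.finrank_ker_add_one_of_ne_zero (f := φ) (by rintro rfl; simp at h)
  omega

end

theorem main (hK : F4 K) : ∀ (m : ℕ) (V : Type w) [AddCommGroup V] [Module K V] [FiniteDimensional K V],
    finrank K V = m + 1 → ∀ T : V →ₗ[K] V, LinearMap.det (1 + T) = 1 →
    (m = 0 ∨ ((¬ ∃ ν : K, ∀ w, T w = ν • w) ∧ ∃ x y, ∀ a b : K, a • T x + b • T y = 0 → a = 0 ∧ b = 0)) →
    ∀ c : V, c ≠ 0 → ∀ r : V →ₗ[K] K, r ≠ 0 → ∃ N M : End K V, 1 + T = (1 + N) * (1 + M) ∧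
      N ^ (m + 1) = 0 ∧ (N ^ m) c ≠ 0 ∧ M ^ (m + 1) = 0 ∧ ∃ w, r ((M ^ m) w) ≠ 0 := by
  intro m
  induction m with
  | zero =>
    intro V _ _ _ hV T hdet _ c hc r hr
    obtain ⟨ν, hν⟩ := exists_smul_eq_of_finrank_eq_one hV hc (T c)
    have hT : 1 + T = (1 + ν) • LinearMap.id := by
      ext x
      obtain ⟨k, rfl⟩ := exists_smul_eq_of_finrank_eq_one hV hc x
      simp only [LinearMap.add_apply, End.one_apply, map_smul, ← hν, LinearMap.smul_apply, LinearMap.id_apply]
      module
    rw [hT, LinearMap.det_smul, hV, LinearMap.det_id] at hdet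
    have h1 : 1 + ν = 1 := by simpa using hdet
    refine ⟨0, 0, by rw [hT, h1]; simp; rfl, by simp, by simpa using hc, by simp, ?_⟩
    by_contra hcon
    push Not at hcon
    exact hr (LinearMap.ext fun x => by simpa using hcon x)
  | succ m ih =>
    intro V _ _ _ hV T hdet hyp c hc r hr
    obtain ⟨hns, hrk⟩ := hyp.resolve_left (by omega)
    have hinj : ∀ w, w + T w = 0 → w = 0 := by
      intro w hw
      have hu : IsUnit (1 + T : End K V) := (LinearMap.isUnit_iff_isUnit_det _).mpr (by rw [hdet]; exact isUnit_one)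
      exact ((End.isUnit_iff _).mp hu).1 (by rw [map_zero]; exact hw)
    obtain ⟨v, φ, p1, p0, pc, pr, hT0, ⟨w0, hw0, hw1⟩, hrest⟩ := step hK T hinj hdet hns hrk c hc r hr
    let W := LinearMap.ker φ
    let T' : W →ₗ[K] W := LinearMap.codRestrict _ ((T - (φ ∘ₗ T).smulRight (v + T v)) ∘ₗ W.subtype)
      (fun x => by simp [W, p0, p1])
    have hT' : ∀ w : W, (T' w : V) = T w - φ (T w) • (v + T v) := fun w => rfl
    let c' : W := ⟨T v, p0⟩
    let r' : W →ₗ[K] K := φ ∘ₗ T ∘ₗ W.subtype
    have hW := finrank_ker φ v p1 hV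
    have hdet' : LinearMap.det (1 + T') = 1 := by
      let E : End K V := W.subtype ∘ₗ (1 + T') ∘ₗ proj φ v p1 + φ.smulRight v
      have hE : ∀ x, E x = (proj φ v p1 x : V) + T' (proj φ v p1 x) + φ x • v := fun x => rfl
      have hfac : 1 + T = LinearMap.transvection φ (T v) * E * LinearMap.transvection (φ ∘ₗ T) v := by
        ext x
        simp only [End.mul_apply, LinearMap.transvection.apply, hE, hT', proj_coe, LinearMap.add_apply, End.one_apply,
          LinearMap.comp_apply, map_add, map_sub, map_smul, p0, p1, smul_eq_mul]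
        module
      have he : W ≤ W.comap E := by
        intro x hx
        have hx' : φ x = 0 := hx
        rw [Submodule.mem_comap, hE, hx', zero_smul, add_zero]
        exact W.add_mem (Subtype.prop _) (Subtype.prop _)
      have d1 := LinearMap.det_eq_det_mul_det W E he
      have r1 : E.restrict he = 1 + T' := by
        ext x
        rw [LinearMap.coe_restrict_apply, hE, proj_ker, x.2]; simp
      have r2 : W.mapQ W E he = LinearMap.id := by
        ext x
        simp only [LinearMap.comp_apply, Submodule.mkQ_apply, Submodule.mapQ_apply, LinearMap.id_apply]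
        rw [Submodule.Quotient.eq, hE, proj_coe]
        have : x - φ x • v + ↑(T' (proj φ v p1 x)) + φ x • v - x = ↑(T' (proj φ v p1 x)) := by module
        rw [this]; exact Subtype.prop _
      rw [r1, r2, LinearMap.det_id, mul_one] at d1
      rw [hfac, map_mul, map_mul, LinearMap.transvection.det, LinearMap.transvection.det, d1] at hdet
      simpa [p0] using hdet
    obtain ⟨N', M', e1, n1, n2, m1, w1, m2⟩ := ih W hW T' hdet' (by
      rcases hrest with h | ⟨h1, x, y, hx, hy, h2⟩
      · left; omega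
      · right
        refine ⟨fun ⟨ν, hν⟩ => h1 ⟨ν, fun w hw => ?_⟩, ⟨x, hx⟩, ⟨y, hy⟩, fun a b hab => h2 a b ?_⟩
        · exact congrArg Subtype.val (hν ⟨w, hw⟩)
        · exact congrArg Subtype.val hab) c' (fun h => hT0 (congrArg Subtype.val h)) r'
        (fun h => hw1 (LinearMap.congr_fun h ⟨w0, hw0⟩))
    obtain ⟨N, a1, a2, a3, a4⟩ := extL φ v p1 N' c' m n1
    obtain ⟨M, b1, b2, b3, b4⟩ := extU φ v p1 M' r' m m1
    refine ⟨N, M, ?_, a3, ?_, b3, w1, ?_⟩
    · ext x
      have hx : x = (proj φ v p1 x : V) + φ x • v := by rw [proj_coe]; simp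
      obtain ⟨y, hy⟩ : ∃ y : W, y = proj φ v p1 x := ⟨_, rfl⟩
      rw [← hy] at hx
      have e2 := congrArg Subtype.val (LinearMap.congr_fun e1 y)
      simp only [End.mul_apply, LinearMap.add_apply, End.one_apply, map_add, Submodule.coe_add, hT'] at e2
      rw [hx]
      simp only [End.mul_apply, LinearMap.add_apply, End.one_apply, map_add, map_smul, b1, b2, a1, a2, c']
      have : r' y = φ (T y) := rfl
      rw [this, map_zero]
      linear_combination (norm := module) e2
    · rw [a4]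
      exact smul_ne_zero pc (fun h => n2 (Subtype.ext h))
    · rw [b4, map_smul, smul_eq_mul]; exact mul_ne_zero m2 pr

theorem nilp0 : ∀ (m : ℕ) (V : Type w) [AddCommGroup V] [Module K V] [FiniteDimensional K V],
    finrank K V = m + 1 → ∀ u : V, u ≠ 0 → ∃ (N : End K V) (c : V), N ^ (m + 1) = 0 ∧ (N ^ m) c ≠ 0 ∧ N u = 0 := by
  intro m
  induction m with
  | zero => intro V _ _ _ _ u hu; exact ⟨0, u, by simp, by simpa using hu, rfl⟩
  | succ m ih =>
    intro V _ _ _ hV u hu
    obtain ⟨v, hv⟩ := exists_linearIndependent_cons_of_lt_finrank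
      (LinearIndependent.of_subsingleton (R := K) (v := ![u]) 0 hu) (by omega)
    obtain ⟨φ, hφ⟩ := dual_li hv ![1, 0]
    have p1 : φ v = 1 := hφ 0
    have p0 : φ u = 0 := hφ 1
    obtain ⟨N', c', n1, n2, n3⟩ := ih _ (finrank_ker φ v p1 hV) ⟨u, p0⟩ (fun h => hu (congrArg Subtype.val h))
    obtain ⟨N, a1, a2, a3, a4⟩ := extL φ v p1 N' c' m n1
    refine ⟨N, v, a3, ?_, ?_⟩
    · rw [a4, p1, one_smul]; exact fun h => n2 (Subtype.ext h)
    · have := a1 ⟨u, p0⟩
      rw [n3] at this; exact this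

variable {V : Type w} [AddCommGroup V] [Module K V] [FiniteDimensional K V]

theorem all (hK : F4 K) (m : ℕ) (hV : finrank K V = m + 3) (T : V →ₗ[K] V) (hdet : LinearMap.det (1 + T) = 1)
    (hns : ¬ ∃ ν : K, ∀ w, T w = ν • w) : ∃ N M : End K V, 1 + T = (1 + N) * (1 + M) ∧
      N ^ (m + 3) = 0 ∧ (∃ c, (N ^ (m + 2)) c ≠ 0) ∧ M ^ (m + 3) = 0 ∧ ∃ w, (M ^ (m + 2)) w ≠ 0 := by
  obtain ⟨x0, hx0⟩ : ∃ x, T x ≠ 0 := by
    by_contra h; push Not at h
    exact hns ⟨0, fun w => by rw [h w, zero_smul]⟩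
  obtain ⟨f, hf⟩ := Module.Projective.exists_dual_eq_one K hx0
  by_cases hrk : ∃ x y, ∀ a b : K, a • T x + b • T y = 0 → a = 0 ∧ b = 0
  · obtain ⟨N, M, h1, h2, h3, h4, w, h5⟩ := main hK (m + 2) V hV T hdet (Or.inr ⟨hns, hrk⟩) _ hx0 f
      (by rintro rfl; simp at hf)
    exact ⟨N, M, h1, h2, ⟨_, h3⟩, h4, w, fun h => h5 (by rw [h, map_zero])⟩
  push Not at hrk
  have hT : ∀ y, T y = f (T y) • T x0 := by
    intro y
    obtain ⟨a, b, h, hne⟩ := hrk x0 y
    have hb : b ≠ 0 := by
      intro hb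
      rw [hb, zero_smul, add_zero] at h
      exact hne ((smul_eq_zero.mp h).resolve_right hx0) hb
    have h1 := congrArg f h
    simp only [map_add, map_smul, hf, smul_eq_mul, map_zero] at h1
    apply smul_right_injective V hb
    show b • _ = b • _
    linear_combination (norm := module) h - h1 • T x0
  set u := T x0 with hu
  let ψ : V →ₗ[K] K := f ∘ₗ T
  have hψ : ∀ y, T y = ψ y • u := hT
  have h0 : ψ u = 0 := by
    have : 1 + T = LinearMap.transvection ψ u := by
      ext y; rw [LinearMap.transvection.apply, ← hψ]; rfl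
    rw [this, LinearMap.transvection.det] at hdet
    linear_combination hdet
  have h1 : ψ x0 = 1 := hf
  obtain ⟨N', c', n1, n2, n3⟩ := nilp0 (m + 1) _ (finrank_ker ψ x0 h1 hV) ⟨u, h0⟩ (fun h => hx0 (congrArg Subtype.val h))
  obtain ⟨N, a1, a2, a3, a4⟩ := extL ψ x0 h1 N' c' (m + 1) n1
  have hNu : N u = 0 := by
    have := a1 ⟨u, h0⟩
    rw [n3] at this; exact this
  have hNT : N * T = 0 := by
    ext y; rw [End.mul_apply, hψ, map_smul, hNu]; simp
  have hTN : T * N = 0 := by
    ext y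
    have hx : y = (proj ψ x0 h1 y : V) + ψ y • x0 := by rw [proj_coe]; simp
    have : ψ (N y) = 0 := by
      rw [hx, map_add, map_smul, a1, a2, map_add, map_smul, (N' _).2, c'.2]; simp
    rw [End.mul_apply, hψ, this]; simp
  have hTT : T * T = 0 := by
    ext y; rw [End.mul_apply, hψ y, map_smul, hψ u, h0]; simp
  have hun : IsUnit (1 + N) := IsNilpotent.isUnit_one_add ⟨_, a3⟩
  obtain ⟨X, hX⟩ := hun
  set Y : End K V := ↑X⁻¹ with hY
  have y1 : (1 + N) * Y = 1 := by rw [← hX, hY]; simp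
  have y2 : Y * (1 + N) = 1 := by rw [← hX, hY]; simp
  have c1 : Commute N Y := by
    have : N * Y = Y * N := by
      have e1 : N * Y = 1 - Y := by rw [← y1]; noncomm_ring
      have e2 : Y * N = 1 - Y := by rw [← y2]; noncomm_ring
      rw [e1, e2]
    exact this
  have hYT : Y * T = T := by
    have : Y * ((1 + N) * T) = T := by rw [← mul_assoc, y2, one_mul]
    rwa [add_mul, hNT, one_mul, add_zero] at this
  let P : End K V := -(N * Y)
  have hPT : P * T = 0 := by simp only [P]; rw [neg_mul, mul_assoc, hYT, hNT, neg_zero]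
  have hTP : T * P = 0 := by simp only [P]; rw [mul_neg, ← mul_assoc, hTN, zero_mul, neg_zero]
  have hpow : ∀ k, (P + T) ^ (k + 2) = P ^ (k + 2) := by
    intro k
    induction k with
    | zero => simp only [zero_add, pow_two, add_mul, mul_add, hPT, hTP, hTT, add_zero]
    | succ k ih =>
      have : P ^ (k + 2) * T = 0 := by rw [pow_succ, mul_assoc, hPT, mul_zero]
      rw [pow_succ, ih, mul_add, this, add_zero, ← pow_succ]
  have hP : ∀ k, P ^ k = (-1) ^ k * (Y ^ k * N ^ k) := by
    intro k; simp only [P]; rw [neg_pow, c1.eq, c1.symm.mul_pow]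
  refine ⟨N, P + T, ?_, a3, ⟨x0, ?_⟩, ?_, x0, ?_⟩
  · have : 1 + (P + T) = Y * (1 + T) := by
      have e1 : N * Y = 1 - Y := by rw [← y1]; noncomm_ring
      simp only [P]; rw [mul_add, hYT, e1]; noncomm_ring
    rw [this, ← mul_assoc, y1, one_mul]
  · rw [a4, h1, one_smul]; exact fun h => n2 (Subtype.ext h)
  · rw [hpow (m + 1), hP, a3]; simp
  · rw [hpow m, hP, ← mul_assoc, End.mul_apply, a4, h1, one_smul]
    intro h
    have hu' : IsUnit ((-1 : End K V) ^ (m + 2) * Y ^ (m + 2)) :=
      (isUnit_one.neg.pow _).mul ((Units.isUnit _).pow _)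
    have := ((End.isUnit_iff _).mp hu').1 (h.trans (map_zero _).symm)
    exact n2 (Subtype.ext this)

omit [FiniteDimensional K V] in
theorem li_pow (N : End K V) (m : ℕ) (c : V) (h1 : N ^ (m + 1) = 0) (h2 : (N ^ m) c ≠ 0) :
    LinearIndependent K (fun j : Fin (m + 1) => (N ^ (j : ℕ)) c) := by
  rw [Fintype.linearIndependent_iff]
  intro g hg
  suffices h : ∀ k, ∀ j : Fin (m + 1), j.val = k → g j = 0 from fun j => h _ j rfl
  intro k
  induction k using Nat.strong_induction_on with
  | _ k ih =>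
    intro j hj
    have h3 := congrArg (N ^ (m - k)) hg
    rw [map_sum, map_zero, Finset.sum_eq_single j] at h3
    · rw [map_smul, ← End.mul_apply, ← pow_add, hj, show m - k + k = m by omega] at h3
      exact (smul_eq_zero.mp h3).resolve_right h2
    · intro i _ hi
      rcases lt_trichotomy i.val k with h | h | h
      · rw [ih _ h i rfl]; simp
      · exact (hi (Fin.ext (h.trans hj.symm))).elim
      · rw [map_smul, ← End.mul_apply, ← pow_add, show m - k + i.val = (m - k + i.val - (m + 1)) + (m + 1) by omega,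
          pow_add, h1]; simp
    · simp

theorem conjJ (m : ℕ) (J : Matrix (Fin (m + 1)) (Fin (m + 1)) K)
    (hJ : ∀ i j, J i j = if i = j then 1 else if j.val = i.val + 1 then 1 else 0)
    (N : End K (Fin (m + 1) → K)) (c : Fin (m + 1) → K) (h1 : N ^ (m + 1) = 0) (h2 : (N ^ m) c ≠ 0) :
    ∃ x : GL (Fin (m + 1)) K, LinearMap.toMatrix' (1 + N) * (x : Matrix _ _ K) = (x : Matrix _ _ K) * J := by
  have hl := (li_pow N m c h1 h2).comp Fin.rev Fin.rev_injective
  let A : Matrix (Fin (m + 1)) (Fin (m + 1)) K := Matrix.of fun i j => (N ^ (m - j.val)) c i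
  have hA : IsUnit A := by
    rw [← Matrix.linearIndependent_cols_iff_isUnit]
    have : A.col = (fun j : Fin (m + 1) => (N ^ (j : ℕ)) c) ∘ Fin.rev := by
      ext j i
      simp [A, Matrix.col, Fin.val_rev]
    rw [this]; exact hl
  obtain ⟨x, hx⟩ := hA
  refine ⟨x, ?_⟩
  rw [hx]
  ext i j
  have e1 : (LinearMap.toMatrix' (1 + N) * A : Matrix (Fin (m + 1)) (Fin (m + 1)) K) i j = ((1 + N) ((N ^ (m - j.val)) c)) i := by
    rw [← LinearMap.toMatrix'_mulVec]; rfl
  rw [e1, Matrix.mul_apply]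
  simp only [hJ, LinearMap.add_apply, End.one_apply, Pi.add_apply]
  rw [← End.mul_apply, ← pow_succ']
  have e2 : ∀ k : Fin (m + 1), A i k * (if k = j then (1 : K) else if j.val = k.val + 1 then 1 else 0) =
      (if k = j then A i k else 0) + if j.val = k.val + 1 then A i k else 0 := by
    intro k
    by_cases h : k = j
    · subst h; simp
    · simp [h]
  simp only [e2, Finset.sum_add_distrib, Finset.sum_ite_eq', Finset.mem_univ, if_true]
  congr 1
  rcases j with ⟨_ | j, hj⟩
  · simp [h1]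
  · rw [Finset.sum_eq_single ⟨j, by omega⟩]
    · simp only [if_true, A, Matrix.of_apply]
      rw [show m - (j + 1) + 1 = m - j by omega]
    · intro b _ hb
      rw [if_neg]; intro h; apply hb; ext; simp at h ⊢; omega
    · simp

end Cfsg.Agent.H2.Lev
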