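import Mathlib
import Cfsg.Agent.H2.Gol2

/-! Submodules of the binary permutation module of `M24`. -/

namespace Cfsg.Agent.H2.St

open Cfsg Finset H16 MulAction
open scoped Classical symmDiff Pointwise

theorem sup_perm (σ : Equiv.Perm GolayPt) (w : GolayPt → ZMod 2) :
    support₂ (fun p => w (σ.symm p)) = σ • support₂ w := by
  ext; simp [smul_eq_map, support₂]

theorem sup_one : support₂ (fun _ : GolayPt => (1 : ZMod 2)) = univ := by ext; simp [support₂]

variable {W : Finset GolayPt → Prop}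

theorem code_le (h1 : ∀ s t, W s → W t → W (s ∆ t)) (h2 : ∀ (g : M24) s, W s → W (g • s)) {s : Finset GolayPt}
    (hs : W s) (h0 : s ≠ ∅) (h3 : s ≠ univ) : ∀ c ∈ gSets, W c := by
  obtain ⟨x, hx⟩ := nonempty_iff_ne_empty.2 h0
  obtain ⟨y, hy⟩ := not_forall.1 (mt eq_univ_of_forall h3)
  obtain ⟨o, ho, a1⟩ := exists_inter octads_steiner (by omega) (w := {x, y}) (.inl (card_le_two.trans (by omega)))
    (empty_subset _) (by rw [card_pair (ne_of_mem_of_not_mem hx hy), card_golayPt, card_empty]; decide +kernel)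
  have a2 : x ∉ o ∧ y ∉ o := by simpa using disjoint_iff_inter_eq_empty.2 a1
  have a3 : ∀ g ∈ fixingSubgroup M24 (o : Set GolayPt), ∀ z ∈ o, ∀ v : Finset GolayPt, z ∈ g • v ↔ z ∈ v :=
    fun g hg z hz v => by rw [← inv_smul_mem_iff, (mem_fixingSubgroup_iff _).1 (inv_mem hg) z hz]
  obtain ⟨g, g1, g2⟩ := fix_oct_trans ho a2.1 a2.2
  have a4 : y ∈ s ∆ (g • s) := mem_symmDiff.2 (.inr ⟨g2 ▸ smul_mem_smul_finset hx, hy⟩)
  have a5 : W (s ∆ (g • s)) ∧ Disjoint o (s ∆ (g • s)) :=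
    ⟨h1 _ _ hs (h2 g s hs), disjoint_left.2 fun z hz => by simp [mem_symmDiff, a3 g g1 z hz]⟩
  generalize s ∆ (g • s) = u at a4 a5
  have : Fact (Nat.Prime 2) := ⟨Nat.prime_two⟩
  obtain ⟨v, ⟨⟨v1, v2⟩, v3⟩, v4⟩ := Pm.exists_fixed_of_not_dvd (p := 2)
    (IsPGroup.of_card (n := 4) (card_fix_octad ho)) ({v | W v ∧ Disjoint o v} \ {∅})
    (fun g hg v hv => ⟨⟨h2 g v hv.1.1, disjoint_left.2 fun z hz => mt (a3 g hg z hz v).1
      (disjoint_left.1 hv.1.2 hz)⟩, by simpa using hv.2⟩) (by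
      have b1 := Set.ncard_diff_singleton_add_one (s := {v | W v ∧ Disjoint o v}) (a := ∅)
        ⟨by simpa using h1 s s hs hs, disjoint_empty_right _⟩
      have b2 := Set.ncard_inter_add_ncard_diff_eq_ncard {v | W v ∧ Disjoint o v} {v | y ∈ v}
      have b3 : ∀ v, W v ∧ Disjoint o v → W (v ∆ u) ∧ Disjoint o (v ∆ u) := fun v hv =>
        ⟨h1 _ _ hv.1 a5.1, (hv.2.sup_right a5.2).mono_right symmDiff_le_sup⟩
      have := Set.ncard_congr (s := {v | W v ∧ Disjoint o v} ∩ {v | y ∈ v})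
        (t := {v | W v ∧ Disjoint o v} \ {v | y ∈ v}) (fun v _ => v ∆ u)
        (fun v hv => ⟨b3 v hv.1, by simp [mem_symmDiff, a4, show y ∈ v from hv.2]⟩)
        (fun _ _ _ _ e => symmDiff_left_injective u e) fun v hv =>
        ⟨v ∆ u, ⟨b3 v hv.1, mem_symmDiff.2 (.inr ⟨a4, hv.2⟩)⟩, by simp⟩
      omega)
  obtain rfl : v = oᶜ := (subset_compl_iff_disjoint_left.2 v2).antisymm fun z hz => by
    obtain ⟨w, hw⟩ := nonempty_iff_ne_empty.2 v3
    obtain ⟨g, g1, g2⟩ := fix_oct_trans ho (fun h => disjoint_left.1 v2 h hw) (mem_compl.1 hz)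
    exact v4 g g1 ▸ g2 ▸ smul_mem_smul_finset hw
  have b1 : ∀ o ∈ octads, W oᶜ := fun o' ho' => by
    obtain ⟨g, rfl⟩ := M24_octad ho ho'
    exact smul_finset_compl g o ▸ h2 g _ v1
  refine fun c => gol_gSets.ind (by simpa using h1 s s hs hs) fun s _ o ho hs => h1 _ _ hs ?_
  obtain ⟨r, r1, r2⟩ := exists_subset_card_eq (show 4 ≤ #o from ho.2 ▸ by omega)
  obtain ⟨k, k1, k2⟩ := exists_inter octads_steiner (by omega) (.inr ho) r1
    (by rw [r2, ho.2, card_golayPt]; decide +kernel)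
  have := card_symmDiff_add o k
  convert h1 _ _ (b1 k k1) (b1 (o ∆ k) ⟨symmDiff_mem_gSets ho.1 k1.1, by rw [k2, ho.2, k1.2] at this; omega⟩) using 1
  ext; simp only [mem_symmDiff, mem_compl]; tauto

theorem even_le (h1 : ∀ s t, W s → W t → W (s ∆ t)) (h2 : ∀ (g : M24) s, W s → W (g • s))
    (h3 : ∀ c ∈ gSets, W c) {s : Finset GolayPt} (hs : W s) (h0 : s ∉ gSets) (t : Finset GolayPt) (ht : Even #t) :
    W t := by
  obtain ⟨c, c1, c2⟩ := gol_gSets.cover s
  have a1 := h1 _ _ hs (h3 c c1)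
  obtain ⟨x, hx⟩ : (s ∆ c).Nonempty := nonempty_iff_ne_empty.2 fun e => h0 (symmDiff_eq_bot.1 e ▸ c1)
  generalize s ∆ c = v at *
  obtain ⟨y, -, hy⟩ := exists_mem_notMem_of_card_lt_card (s := v) (t := univ) (by rw [card_univ, card_golayPt]; omega)
  have a2 : ∀ u v, W u → #u ≤ 5 → #v = #u → W v := fun u v a b c => by
    obtain ⟨g, rfl⟩ : v ∈ orbit M24 u := orbit_subset_eq b ▸ c
    exact h2 g u a
  have a3 : W {x, y} := by
    convert h1 _ _ a1 (a2 v (insert y (v.erase x)) a1 (by omega) (by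
      rw [card_insert_of_notMem (by simp [hy]), card_erase_add_one hx])) using 1
    ext; simp only [mem_symmDiff, mem_insert, mem_erase, mem_singleton]; grind
  induction' hn : #t using Nat.strong_induction_on with n ih generalizing t
  rcases eq_or_ne t ∅ with rfl | e
  · exact h3 _ empty_mem_gSets
  obtain ⟨u, u1, u2⟩ := exists_subset_card_eq (show 2 ≤ #t by
    have := card_eq_zero.not.2 e; obtain ⟨r, ht⟩ := ht; omega)
  have := card_symmDiff_add t u
  rw [inter_eq_right.2 u1] at this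
  simpa using h1 _ _ (ih _ (by omega) (t ∆ u) (by rw [Nat.even_iff] at *; omega) rfl)
    (a2 _ u a3 (card_le_two.trans (by omega)) (by rw [u2, card_pair (ne_of_mem_of_not_mem hx hy)]))

theorem sum_eq_zero_iff (w : GolayPt → ZMod 2) : ∑ p, w p = 0 ↔ Even #(support₂ w) := by
  have := dot_eq w fun _ => 1
  simp only [mul_one, sup_one, inter_univ] at this
  rw [this, ZMod.natCast_eq_zero_iff_even]

theorem inv_sub (W : Submodule (ZMod 2) (GolayPt → ZMod 2))
    (hW : ∀ σ ∈ M24, ∀ w ∈ W, (fun p => w (σ.symm p)) ∈ W) :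
    W = ⊥ ∨ W = Submodule.span (ZMod 2) {fun _ => (1 : ZMod 2)} ∨ W = golayCode ∨
      (W : Set (GolayPt → ZMod 2)) = {w | ∑ p, w p = 0} ∨ W = ⊤ := by
  have h1 : ∀ s t, s ∈ supports (W : Set (GolayPt → ZMod 2)) → t ∈ supports (W : Set (GolayPt → ZMod 2)) →
      s ∆ t ∈ supports (W : Set (GolayPt → ZMod 2)) := by
    rintro _ _ ⟨v, hv, rfl⟩ ⟨w, hw, rfl⟩
    exact ⟨_, add_mem hv hw, sup_add v w⟩
  have h2 : ∀ (g : M24) s, s ∈ supports (W : Set (GolayPt → ZMod 2)) →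
      g • s ∈ supports (W : Set (GolayPt → ZMod 2)) := by
    rintro g _ ⟨v, hv, rfl⟩
    exact ⟨_, hW g.1 g.2 v hv, sup_perm g.1 v⟩
  by_cases a : ∀ w ∈ W, w = 0 ∨ w = fun _ => 1
  · by_cases b : (fun _ => 1) ∈ W
    · refine .inr (.inl (le_antisymm (fun w hw => ?_) ((Submodule.span_singleton_le_iff_mem _ _).2 b)))
      rcases a w hw with rfl | rfl
      exacts [zero_mem _, Submodule.mem_span_singleton_self _]
    · exact .inl (eq_bot_iff.2 fun w hw => (a w hw).resolve_right fun e => b (e ▸ hw))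
  push Not at a
  obtain ⟨w, a1, a2, a3⟩ := a
  have h3 := code_le h1 h2 (St.sup_mem.2 a1) (mt sup_eq_empty.1 a2) (sup_one ▸ support_injective.ne a3)
  by_cases b : W ≤ golayCode
  · exact .inr (.inr (.inl (b.antisymm fun w hw => St.sup_mem.1 (h3 _ (St.sup_mem.2 hw)))))
  obtain ⟨u, b1, b2⟩ := SetLike.not_le_iff_exists.1 b
  have h4 : ∀ w, ∑ p, w p = 0 → w ∈ W := fun w hw => St.sup_mem.1
    (even_le h1 h2 h3 (St.sup_mem.2 b1) (mt St.sup_mem.1 b2) _ ((sum_eq_zero_iff w).1 hw))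
  by_cases c : ∀ w ∈ W, ∑ p, w p = 0
  · exact .inr (.inr (.inr (.inl (Set.ext fun w => ⟨c w, h4 w⟩))))
  push Not at c
  obtain ⟨v, c1, c2⟩ := c
  refine .inr (.inr (.inr (.inr (eq_top_iff.2 fun w _ => by_contra fun e => e ?_))))
  simpa using W.add_mem (h4 (w - v) (by
    have := mt (h4 w) e
    simp only [Pi.sub_apply, sum_sub_distrib]
    generalize ∑ p, w p = a, ∑ p, v p = b at *
    revert a b; decide)) c1

theorem moves {K : Subgroup M24} {S : List ℕ} (hS : ∀ p ∈ S, InK gpt 24 K (H16.get 5 p))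
    (h : allB2 64 64 (fun i => ifB (allL S fun p => isCode (Nat.xor (imgS p (i <<< 12)) (i <<< 12)))
      (Nat.beq i 0) true) = true) (k : M24) {w : Finset GolayPt} (hw : w ∉ gSets) :
    ∃ g ∈ K, ((k * g * k⁻¹) • w) ∆ w ∉ gSets := by
  obtain ⟨a, ha, e⟩ := exists_toSet (k⁻¹ • w)
  obtain rfl := inv_smul_eq_iff.1 e.symm
  have h1 := toSet_mem_of_isCode ((syn_eq_iff a _).1 (syn_shift (syn a)).symm)
  have h2 := allB2_iff.1 h _ (syn_lt ha)
  by_contra! H
  rw [ifB_eq, if_pos (allL_iff.2 fun p hp => ?_), Nat.beq_eq, syn_eq_zero] at h2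
  · exact hw (M24_smul_mem_gSets k (toSet_mem_of_isCode h2))
  obtain ⟨g, g1, g2⟩ := hS p hp
  have h3 := H g g1
  rw [mul_smul, inv_smul_smul, mul_smul, ← show k • ((g • toSet a) ∆ toSet a) = (k • g • toSet a) ∆ (k • toSet a)
    from smul_xor k _ _, M24_smul_mem_gSets_iff] at h3
  rw [Nat.xor_eq, ← toSet_mem_iff (Nat.xor_lt_two_pow (imgS_lt (fun i hi => (g2 i hi).1) _)
    (by have := syn_lt ha; rw [Nat.shiftLeft_eq]; omega)), toSet_xor, ← g2.smul_toSetS]
  rw [toSet_xor] at h1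
  generalize toSet (syn a <<< 12) = v, toSet a = u at h1 h3 ⊢
  have h4 := symmDiff_mem_gSets h3 (symmDiff_mem_gSets (M24_smul_mem_gSets g h1) h1)
  rw [show g • (u ∆ v) = (g • u) ∆ (g • v) from smul_xor g _ _] at h4
  convert h4 using 1
  ext; simp only [mem_symmDiff]; tauto

theorem exists_move {u w : Finset GolayPt} (hu : u ∈ gSets) (hw : w ∉ gSets) :
    ∃ g : M24, g • u = u ∧ (g • w) ∆ w ∉ gSets := by
  have h1 : ∀ o ∈ octads, ∃ g : M24, g • o = o ∧ (g • w) ∆ w ∉ gSets := fun o ho => by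
    obtain ⟨k, rfl⟩ := M24_octad oct0_mem ho
    obtain ⟨g, a, b⟩ := moves koG_inK (by decide +kernel) k hw
    exact ⟨_, cj k a, b⟩
  rcases card_of_mem_gSets hu with e | e | e | e | e
  · exact (h1 _ oct0_mem).imp fun g h => ⟨by simp [card_eq_zero.1 e], h.2⟩
  · exact h1 u ⟨hu, e⟩
  · obtain ⟨k, rfl⟩ := M24_dodecad sqD_mem ⟨hu, e⟩
    obtain ⟨g, a, b⟩ := moves k12G_inK (by decide +kernel) k hw
    exact ⟨_, cj k a, b⟩
  · exact (h1 uᶜ ⟨compl_mem_gSets hu, by rw [card_compl, card_golayPt, e]⟩).imp fun g h =>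
      ⟨compl_injective (smul_finset_compl g u ▸ h.1), h.2⟩
  · exact (h1 _ oct0_mem).imp fun g h => ⟨by simp [eq_univ_of_card u (e.trans card_golayPt.symm)], h.2⟩

theorem ncard_even (v : Finset GolayPt) {m : ℕ} (h : #v = pc24 m) (h5 : #v ≤ 5) :
    {s | s ∈ gSets ∧ (#s = 8 ∨ #s = 16) ∧ Even #(v ∩ s)}.ncard =
      codeCnt fun a => ifB (tb 65792 (pc24 a)) (tb 85 (pc24 (Nat.land m a))) false := by
  obtain ⟨g, rfl⟩ : v ∈ orbit M24 (toSet m) := by
    rw [orbit_subset_eq (by rw [card_toSet]; omega)]; exact h.trans (card_toSet m).symm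
  rw [← ncard_gSets_filter (Q := fun s => (#s = 8 ∨ #s = 16) ∧ Even #(toSet m ∩ s))]
  · exact ncard_transfer g fun s => by simp only [M24_smul_mem_gSets_iff, card_smul_finset, H16.card_smul_inter]
  intro a _
  have h1 := card_le_card (inter_subset_left (s₁ := toSet m) (s₂ := toSet a))
  have h2 := card_le_univ (toSet a)
  rw [card_smul_finset] at h5
  rw [ifB_eq, ← card_toSet, ← card_inter_toSet, card_golayPt] at *
  generalize #(toSet m ∩ toSet a) = i, #(toSet a) = j at *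
  have : ∀ j ≤ 24, ∀ i ≤ 5, (j = 8 ∨ j = 16) ∧ Even i ↔ (if tb 65792 j = true then tb 85 i else false) = true := by
    decide +kernel
  exact this j h2 i (by omega)

theorem pair4 {γ : Type*} [DecidableEq γ] {A B C D : Finset γ} (a : #A = 2) (b : #B = 2) (c : #C = 2) (d : #D = 2)
    (e : #(A ∩ B) = 1) (f : #(A ∩ C) = 1) (g : #(A ∩ D) = 1) (h : #(B ∩ C) = 1) (i : #(B ∩ D) = 1)
    (j : #(C ∩ D) = 1) : A ∩ B ⊆ C := by
  have k : ∀ {a b : γ} {B : Finset γ}, a ≠ b → #({a, b} ∩ B) = 1 → (a ∈ B ↔ b ∉ B) := fun {a b B} h e => by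
    by_cases a ∈ B <;> by_cases b ∈ B <;> simp_all
  obtain ⟨a1, a2, a', rfl⟩ := card_eq_two.1 a
  obtain ⟨b1, b2, b', rfl⟩ := card_eq_two.1 b
  obtain ⟨c1, c2, c', rfl⟩ := card_eq_two.1 c
  obtain ⟨d1, d2, d', rfl⟩ := card_eq_two.1 d
  replace e := k a' e; replace f := k a' f; replace g := k a' g
  replace h := k b' h; replace i := k b' i; replace j := k c' j
  clear k a b c d
  simp only [mem_inter, mem_insert, mem_singleton, subset_iff] at *
  grind

theorem exists_ne4 (p q r s : GolayPt) : ∃ v, p ≠ v ∧ q ≠ v ∧ r ≠ v ∧ s ≠ v := by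
  obtain ⟨v, -, h⟩ := exists_mem_notMem_of_card_lt_card (s := {p, q, r, s}) (t := univ)
    (card_le_four.trans_lt (by decide))
  exact ⟨v, by grind⟩

end Cfsg.Agent.H2.St
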