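import Mathlib
import Cfsg.Agent.H25.MetaP
import Cfsg.Agent.H25.SmallP
import Cfsg.Agent.H9.MaxClass
import Cfsg.Agent.S0112

/-!
Automorphisms of order `p` of metacyclic `p`-groups without cyclic subgroup of index `p`.
-/

set_option autoImplicit false
set_option linter.dupNamespace false

namespace Cfsg.Agent.H2.MetaA

open Subgroup Cfsg.Agent.H25
open scoped Pointwise commutatorElement

variable {L : Type*} [Group L] {p : ℕ} [hp : Fact p.Prime]

section coords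
variable (hp2 : p ≠ 2) (C : MCE p L)
include hp2

theorem smul_ker {u : ℤ × ℤ} (h : C.E u = 1) (s : ℤ) : C.E (s • u) = 1 := by
  obtain ⟨k, hk⟩ := C.exists_pow hp.out hp2 u s
  rw [← hk, h, one_pow]

theorem add_ker {u : ℤ × ℤ} (h : C.E u = 1) (u' : ℤ × ℤ) : C.E (u' + u) = C.E u' := by
  obtain ⟨t, ht⟩ := C.E_add u' u
  rw [ht, smul_ker hp2 C h, mul_one]

theorem eq_iff (u u' : ℤ × ℤ) : C.E u = C.E u' ↔ C.E (u - u') = 1 := by
  refine ⟨fun h => ?_, fun h => by rw [← add_ker hp2 C h u', add_sub_cancel]⟩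
  obtain ⟨t₀, ht₀⟩ := C.exists_inv u'
  have h1 := C.mul u' (t₀ • (u - u'))
  rw [smul_smul, C.E_congr ht₀, one_smul, add_sub_cancel, h, mul_eq_left] at h1
  have h2 := smul_ker hp2 C h1 (1 + C.d * u'.2)
  have h3 := C.E_congr ht₀ 0 (u - u')
  rw [zero_add, zero_add, one_smul] at h3
  rwa [smul_smul, h3] at h2

theorem exists_pow' (v : ℤ × ℤ) (s : ℤ) (α : ℕ) :
    ∃ k : ℕ, C.E v ^ k = C.E (s • v) ∧ (p ^ α ∣ k ↔ (p : ℤ) ^ α ∣ s) := by
  obtain ⟨k, hk⟩ := exists_gs_modEq hp.out hp2 (C.M + α) (C.dvd_rho v) s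
  refine ⟨k, ?_, ?_⟩
  · have := C.E_congr (hk.of_dvd (pow_dvd_pow _ (Nat.le_add_right _ _))) 0 v
    rw [C.pow_E]; simpa using this
  · rw [← pow_dvd_gs_iff hp.out hp2 α k (C.dvd_rho v)]
    exact (hk.of_dvd (pow_dvd_pow _ (Nat.le_add_left _ _))).dvd_iff

theorem smul_eq_one_iff {v : ℤ × ℤ} {α : ℕ} (h : orderOf (C.E v) = p ^ α) (s : ℤ) :
    C.E (s • v) = 1 ↔ (p : ℤ) ^ α ∣ s := by
  obtain ⟨k, h1, h2⟩ := exists_pow' hp2 C v s α
  rw [← h1, ← h2, ← orderOf_dvd_iff_pow_eq_one, h]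

theorem lin_eq_one_iff {v w : ℤ × ℤ} {α β : ℕ} (hv : orderOf (C.E v) = p ^ α)
    (hw : orderOf (C.E w) = p ^ β) (h : zpowers (C.E v) ⊓ zpowers (C.E w) = ⊥) (s t : ℤ) :
    C.E (s • v + t • w) = 1 ↔ (p : ℤ) ^ α ∣ s ∧ (p : ℤ) ^ β ∣ t := by
  rw [← smul_eq_one_iff hp2 C hv, ← smul_eq_one_iff hp2 C hw]
  refine ⟨fun h1 => ?_, fun ⟨h1, h2⟩ => by rw [add_ker hp2 C h2, h1]⟩
  obtain ⟨t', ht'⟩ := C.E_add (s • v) (t • w)
  obtain ⟨i, hi⟩ := C.exists_pow hp.out hp2 v s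
  obtain ⟨j, hj⟩ := C.exists_pow hp.out hp2 w (t' * t)
  rw [h1, smul_smul, ← hj, eq_comm, mul_eq_one_iff_eq_inv] at ht'
  have h2 : C.E (s • v) = 1 := by
    rw [← mem_bot, ← h]
    refine mem_inf.2 ⟨?_, ?_⟩
    · rw [← hi]; exact pow_mem (mem_zpowers _) _
    · rw [ht']; exact inv_mem (pow_mem (mem_zpowers _) _)
  exact ⟨h2, by rw [← add_ker hp2 C h2, add_comm, h1]⟩

end coords

/-- coordinates on the elements of order dividing `p ^ 2` -/
theorem exists_coords [Finite L] (hp2 : p ≠ 2) (hL : IsPGroup p L) (hmc : IsMetacyclic L)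
    (hnc : ∀ C : Subgroup L, IsCyclic C → C.index ≠ p) [Nontrivial L] :
    p ^ 4 ∣ Nat.card L ∧ ∃ (G : ℤ × ℤ → L) (μ : ℤ × ℤ → ℤ),
      (∀ u u', G u * G u' = G (u + (1 + p * μ u) • u')) ∧ (∀ u, (p : ℤ) ∣ μ ((p : ℤ) • u)) ∧
      (∀ u u', G u = G u' ↔ (p : ℤ) ^ 2 ∣ u.1 - u'.1 ∧ (p : ℤ) ^ 2 ∣ u.2 - u'.2) ∧
      (∀ g, g ^ p ^ 2 = 1 ↔ ∃ u, g = G u) ∧ (∀ u, G u ^ p = G ((p : ℤ) • u)) ∧ G 0 = 1 := by
  have hcyc : ¬ IsCyclic L := fun h => by
    obtain ⟨m, hm⟩ := IsPGroup.iff_card.1 hL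
    have hm0 : m ≠ 0 := by
      rintro rfl
      exact (Finite.one_lt_card (α := L)).ne' (by rw [hm, pow_zero])
    obtain ⟨m, rfl⟩ := Nat.exists_eq_succ_of_ne_zero hm0
    obtain ⟨K, hK⟩ := Sylow.exists_subgroup_card_pow_prime p (G := L) (n := m)
      (by rw [hm]; exact pow_dvd_pow _ (Nat.le_succ m))
    refine hnc K inferInstance ?_
    have := K.card_mul_index
    rw [hK, hm, pow_succ] at this
    exact Nat.eq_of_mul_eq_mul_left (pow_pos hp.out.pos m) this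
  obtain ⟨C⟩ := nonempty_mce hp2 hL hmc
  obtain ⟨x, y, hxy, hgen⟩ := meta_exists_cyclic_prod hp2 hL hmc
  obtain ⟨v, rfl⟩ := C.surj x
  obtain ⟨w, rfl⟩ := C.surj y
  obtain ⟨α, hα⟩ := (IsPGroup.iff_orderOf.1 hL) (C.E v)
  obtain ⟨β, hβ⟩ := (IsPGroup.iff_orderOf.1 hL) (C.E w)
  have hc : IsComplement' (zpowers (C.E v)) (zpowers (C.E w)) :=
    isComplement'_of_disjoint_and_mul_eq_univ (disjoint_iff.2 hxy) (Set.eq_univ_of_forall fun g => by
      obtain ⟨i, j, rfl⟩ := hgen g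
      exact Set.mul_mem_mul (pow_mem (mem_zpowers _) _) (pow_mem (mem_zpowers _) _))
  have h2 : ∀ (z : L) (γ : ℕ), (zpowers z).index = p ^ γ → 2 ≤ γ := fun z γ h => by
    by_contra h3
    have : γ = 0 ∨ γ = 1 := by omega
    rcases this with rfl | rfl
    · rw [pow_zero, index_eq_one] at h
      exact hcyc ⟨⟨z, fun g => by change g ∈ zpowers z; rw [h]; trivial⟩⟩
    · exact hnc _ inferInstance (by rw [h, pow_one])
  have hα2 := h2 _ α (by rw [hc.index_eq_card, Nat.card_zpowers, hα])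
  have hβ2 := h2 _ β (by rw [hc.symm.index_eq_card, Nat.card_zpowers, hβ])
  obtain ⟨α, rfl⟩ := Nat.exists_eq_add_of_le' hα2
  obtain ⟨β, rfl⟩ := Nat.exists_eq_add_of_le' hβ2
  have hp0 : (p : ℤ) ≠ 0 := by exact_mod_cast hp.out.ne_zero
  obtain ⟨d, hd⟩ := C.pd
  set T : ℤ × ℤ → ℤ × ℤ := fun u => ((p : ℤ) ^ α * u.1) • v + ((p : ℤ) ^ β * u.2) • w with hT
  have hTa : ∀ u u', T (u + u') = T u + T u' := fun u u' => by
    simp only [hT, Prod.fst_add, Prod.snd_add]; module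
  have hTs : ∀ (s : ℤ) u, T (s • u) = s • T u := fun s u => by
    simp only [hT, Prod.smul_fst, Prod.smul_snd, smul_eq_mul]; module
  have hTk : ∀ u u', C.E (T u) = C.E (T u') ↔
      (p : ℤ) ^ 2 ∣ u.1 - u'.1 ∧ (p : ℤ) ^ 2 ∣ u.2 - u'.2 := fun u u' => by
    have : T u - T u' = ((p : ℤ) ^ α * (u.1 - u'.1)) • v + ((p : ℤ) ^ β * (u.2 - u'.2)) • w := by
      simp only [hT]; module
    rw [eq_iff hp2, this, lin_eq_one_iff hp2 C hα hβ hxy, pow_add, pow_add,
      mul_dvd_mul_iff_left (pow_ne_zero _ hp0), mul_dvd_mul_iff_left (pow_ne_zero _ hp0)]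
  have hgs : ∀ u : ℤ × ℤ, ∃ c : ℤ, C.E u ^ p = C.E ((p * (1 + p * c)) • u) := fun u => by
    obtain ⟨c, hc⟩ := gs_prime (hp.out.odd_of_ne_two hp2) (C.dvd_rho u)
    exact ⟨c, by rw [C.pow_E, hc]⟩
  refine ⟨?_, fun u => C.E (T u), fun u => d * (T u).2, fun u u' => ?_, fun u => ?_, hTk,
    fun g => ⟨fun h => ?_, ?_⟩, fun u => ?_, ?_⟩
  · rw [← hc.card_mul_card, Nat.card_zpowers, Nat.card_zpowers, hα, hβ, ← pow_add]
    exact pow_dvd_pow _ (by omega)
  · simp only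
    rw [C.mul, hTa, hTs, hd, mul_assoc]
  · simp only
    rw [hTs, Prod.smul_snd, smul_eq_mul]
    exact Dvd.dvd.mul_left (dvd_mul_right _ _) _
  · obtain ⟨s, t, rfl⟩ := (C.mem_prod_iff hp.out hp2 v w g).1 (hgen g)
    obtain ⟨c, hc⟩ := hgs (s • v + t • w)
    obtain ⟨c', hc'⟩ := hgs ((p * (1 + p * c) : ℤ) • (s • v + t • w))
    rw [sq, pow_mul, hc, hc', smul_smul, smul_add, smul_smul, smul_smul,
      lin_eq_one_iff hp2 C hα hβ hxy] at h
    have h3 : ∀ (γ : ℕ) (s : ℤ), (p : ℤ) ^ (γ + 2) ∣ p * (1 + p * c') * (p * (1 + p * c)) * s →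
        (p : ℤ) ^ γ ∣ s := fun γ s h => by
      rw [show (p : ℤ) * (1 + p * c') * (p * (1 + p * c)) * s =
        ((1 + p * c') * (1 + p * c) * s) * p ^ 2 by ring, pow_add,
        mul_dvd_mul_iff_right (pow_ne_zero _ hp0)] at h
      refine IsCoprime.dvd_of_dvd_mul_left (IsCoprime.pow_left ?_) h
      exact isCoprime_of_dvd_sub_one ⟨c + c' + p * c * c', by ring⟩
    obtain ⟨i, rfl⟩ := h3 _ _ h.1
    obtain ⟨j, rfl⟩ := h3 _ _ h.2
    exact ⟨(i, j), rfl⟩
  · rintro ⟨u, rfl⟩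
    obtain ⟨c, hc⟩ := hgs (T u)
    obtain ⟨c', hc'⟩ := hgs ((p * (1 + p * c) : ℤ) • T u)
    have h0 : C.E (T 0) = 1 := by simp [hT, C.E_zero]
    rw [sq, pow_mul, hc, hc', ← hTs, ← hTs, ← h0, hTk]
    simp only [Prod.smul_fst, Prod.smul_snd, smul_eq_mul, Prod.fst_zero, Prod.snd_zero, sub_zero]
    exact ⟨⟨(1 + p * c') * (1 + p * c) * u.1, by ring⟩, ⟨(1 + p * c') * (1 + p * c) * u.2, by ring⟩⟩
  · obtain ⟨c, hc⟩ := hgs (T u)
    simp only
    rw [hc, ← hTs, hTk]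
    simp only [Prod.smul_fst, Prod.smul_snd, smul_eq_mul]
    exact ⟨⟨c * u.1, by ring⟩, ⟨c * u.2, by ring⟩⟩
  · simp [hT, C.E_zero]

/-- the structure of the first two omega subgroups -/
structure Om (p : ℕ) {L : Type*} [Group L] (W K : Subgroup L) : Prop where
  memW : ∀ g, g ∈ W ↔ g ^ p = 1
  memK : ∀ g, g ∈ K ↔ g ^ p ^ 2 = 1
  card : Nat.card W = p ^ 2
  hom : ∀ a ∈ K, ∀ b ∈ K, (a * b) ^ p = a ^ p * b ^ p
  cen : ∀ w ∈ W, ∀ k ∈ K, w * k = k * w
  root : ∀ w ∈ W, ∃ k ∈ K, k ^ p = w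

theorem exists_om [Finite L] (hp2 : p ≠ 2) (hL : IsPGroup p L) (hmc : IsMetacyclic L)
    (hnc : ∀ C : Subgroup L, IsCyclic C → C.index ≠ p) [Nontrivial L] :
    p ^ 4 ∣ Nat.card L ∧ ∃ W K : Subgroup L, Om p W K := by
  obtain ⟨h0, G, μ, h1, h2, h3, h4, h5, h6⟩ := exists_coords hp2 hL hmc hnc
  have hp0 : (p : ℤ) ≠ 0 := by exact_mod_cast hp.out.ne_zero
  have hW : ∀ g : L, g ^ p = 1 ↔ ∃ u, g = G ((p : ℤ) • u) := fun g => by
    refine ⟨fun h => ?_, ?_⟩
    · obtain ⟨u, rfl⟩ := (h4 g).1 (by rw [sq, pow_mul, h, one_pow])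
      rw [h5, ← h6, h3] at h
      simp only [Prod.smul_fst, Prod.smul_snd, smul_eq_mul, Prod.fst_zero, Prod.snd_zero,
        sub_zero, sq, mul_dvd_mul_iff_left hp0] at h
      obtain ⟨⟨i, hi⟩, ⟨j, hj⟩⟩ := h
      exact ⟨(i, j), by rw [Prod.smul_mk, smul_eq_mul, smul_eq_mul, ← hi, ← hj]⟩
    · rintro ⟨u, rfl⟩
      rw [← h5, ← pow_mul, ← sq, h4]
      exact ⟨u, rfl⟩
  have hhom : ∀ a b : L, a ^ p ^ 2 = 1 → b ^ p ^ 2 = 1 → (a * b) ^ p = a ^ p * b ^ p := by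
    intro a b ha hb
    obtain ⟨u, rfl⟩ := (h4 a).1 ha
    obtain ⟨u', rfl⟩ := (h4 b).1 hb
    obtain ⟨c, hc⟩ := h2 u
    rw [h1, h5, h5, h5, h1, h3, hc]
    simp only [Prod.smul_fst, Prod.smul_snd, smul_eq_mul, Prod.fst_add, Prod.snd_add]
    exact ⟨⟨(μ u - p * c) * u'.1, by ring⟩, ⟨(μ u - p * c) * u'.2, by ring⟩⟩
  let K : Subgroup L :=
    { carrier := {g | g ^ p ^ 2 = 1}
      one_mem' := one_pow _
      mul_mem' := fun {a b} ha hb => by
        obtain ⟨u, rfl⟩ := (h4 a).1 ha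
        obtain ⟨u', rfl⟩ := (h4 b).1 hb
        exact (h4 _).2 ⟨_, h1 u u'⟩
      inv_mem' := fun {a} ha => by
        change a⁻¹ ^ p ^ 2 = 1
        rw [inv_pow, show a ^ p ^ 2 = 1 from ha, inv_one] }
  let W : Subgroup L :=
    { carrier := {g | g ^ p = 1}
      one_mem' := one_pow _
      mul_mem' := fun {a b} ha hb => by
        change (a * b) ^ p = 1
        rw [hhom a b (by rw [sq, pow_mul, show a ^ p = 1 from ha, one_pow])
          (by rw [sq, pow_mul, show b ^ p = 1 from hb, one_pow]), show a ^ p = 1 from ha,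
          show b ^ p = 1 from hb, one_mul]
      inv_mem' := fun {a} ha => by
        change a⁻¹ ^ p = 1
        rw [inv_pow, show a ^ p = 1 from ha, inv_one] }
  refine ⟨h0, W, K, fun g => Iff.rfl, fun g => Iff.rfl, ?_, fun a ha b hb => hhom a b ha hb,
    fun w hw k hk => ?_,
    fun w hw => ?_⟩
  · let f : ZMod p × ZMod p → W := fun z =>
      ⟨G ((p : ℤ) • ((z.1.val : ℤ), (z.2.val : ℤ))), (hW _).2 ⟨_, rfl⟩⟩
    have h7 : ∀ u u' : ℤ × ℤ, G ((p : ℤ) • u) = G ((p : ℤ) • u') ↔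
        (u.1 : ZMod p) = u'.1 ∧ (u.2 : ZMod p) = u'.2 := fun u u' => by
      rw [h3]
      simp only [Prod.smul_fst, Prod.smul_snd, smul_eq_mul, ← mul_sub, sq,
        mul_dvd_mul_iff_left hp0]
      rw [eq_comm, eq_comm (a := (u.2 : ZMod p)), ZMod.intCast_eq_intCast_iff_dvd_sub,
        ZMod.intCast_eq_intCast_iff_dvd_sub]
    have hf : Function.Bijective f := ⟨fun z z' h => by
        have := (h7 _ _).1 (congrArg Subtype.val h)
        simp only [Int.cast_natCast, ZMod.natCast_zmod_val] at this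
        exact Prod.ext this.1 this.2,
      fun w => by
        obtain ⟨u, hu⟩ := (hW w).1 w.2
        refine ⟨((u.1 : ZMod p), (u.2 : ZMod p)), Subtype.ext ?_⟩
        rw [hu]
        exact (h7 _ _).2 (by simp)⟩
    rw [← Nat.card_eq_of_bijective f hf, Nat.card_prod, Nat.card_zmod, sq]
  · obtain ⟨u, rfl⟩ := (hW w).1 hw
    obtain ⟨u', rfl⟩ := (h4 k).1 hk
    obtain ⟨c, hc⟩ := h2 u
    rw [h1, h1, h3, hc]
    simp only [Prod.smul_fst, Prod.smul_snd, smul_eq_mul, Prod.fst_add, Prod.snd_add]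
    exact ⟨⟨c * u'.1 - μ u' * u.1, by ring⟩, ⟨c * u'.2 - μ u' * u.2, by ring⟩⟩
  · obtain ⟨u, rfl⟩ := (hW w).1 hw
    exact ⟨G u, (h4 _).2 ⟨u, rfl⟩, h5 u⟩

section aut
variable [Finite L] {W K : Subgroup L} (h : Om p W K) {a : MulAut L} (ha : a ^ p = 1)

omit hp [Finite L] in
include h in
theorem Om.le : W ≤ K := fun w hw => (h.memK w).2 (by rw [sq, pow_mul, (h.memW w).1 hw, one_pow])

omit hp [Finite L] in
include h in
theorem Om.mapW (a : MulAut L) {w : L} (hw : w ∈ W) : a w ∈ W :=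
  (h.memW _).2 (by rw [← map_pow, (h.memW w).1 hw, map_one])

omit hp [Finite L] in
include h in
theorem Om.mapK (a : MulAut L) {w : L} (hw : w ∈ K) : a w ∈ K :=
  (h.memK _).2 (by rw [← map_pow, (h.memK w).1 hw, map_one])

include ha in
theorem exists_fix (V : Subgroup L) (hV : p ∣ Nat.card V) (hinv : ∀ v ∈ V, a v ∈ V) :
    ∃ v ∈ V, v ≠ 1 ∧ a v = v := by
  classical
  haveI := Fintype.ofFinite V
  have h1 : ∀ (n : ℕ), ∀ v ∈ V, (a ^ n) v ∈ V := fun n => by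
    induction n with
    | zero => exact fun v hv => hv
    | succ n ih => exact fun v hv => by rw [pow_succ, MulAut.mul_apply]; exact ih _ (hinv v hv)
  let σ : Equiv.Perm V := Equiv.Perm.subtypePerm (MulAut.toPerm L a) fun x => ⟨fun hx => by
    have := h1 (p - 1) _ hx
    change (a ^ (p - 1)) (a x) ∈ V at this
    rwa [← MulAut.mul_apply, ← pow_succ, Nat.sub_add_cancel hp.out.one_lt.le, ha] at this,
    hinv x⟩
  have h2 : σ ^ p ^ 1 = 1 := by
    ext x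
    rw [pow_one, Equiv.Perm.subtypePerm_pow, Equiv.Perm.subtypePerm_apply]
    change (MulAut.toPerm L a ^ p) x = x
    rw [← map_pow, ha, map_one]
    rfl
  obtain ⟨b, hb, hb1⟩ := Equiv.Perm.exists_fixed_point_of_prime'
    (by rwa [← Nat.card_eq_fintype_card]) h2 (a := 1) (Subtype.ext (map_one a))
  exact ⟨b, b.2, fun e => hb1 (Subtype.ext e), congrArg Subtype.val hb⟩

include h ha in
theorem fixW {w : L} (hw : w ∈ W) (hw' : a w ≠ w) :
    ∃ W₀ : Subgroup L, Nat.card W₀ = p ∧ (∀ x, x ∈ W₀ ↔ x ∈ W ∧ a x = x) ∧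
      ∀ x ∈ W, x⁻¹ * a x ∈ W₀ := by
  let δ : W →* L := MonoidHom.mk' (fun x => (x : L)⁻¹ * a x) fun x y => by
    simp only [coe_mul, mul_inv_rev, map_mul]
    have h1 := h.cen _ (inv_mem y.2) _ (h.le (mul_mem (inv_mem x.2) (h.mapW a x.2)))
    calc (y : L)⁻¹ * (x : L)⁻¹ * (a x * a y) = ((y : L)⁻¹ * ((x : L)⁻¹ * a x)) * a y := by group
      _ = _ := by rw [h1]; group
  have hk : ∀ x : W, x ∈ δ.ker ↔ a x = x := fun x => by
    rw [MonoidHom.mem_ker]
    change (x : L)⁻¹ * a x = 1 ↔ _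
    rw [inv_mul_eq_one, eq_comm]
  have h1 : Nat.card δ.ker * Nat.card δ.range = p ^ 2 := by
    rw [← h.card, ← index_ker, card_mul_index]
  have h2 : Nat.card δ.ker = p := by
    obtain ⟨i, hi, h3⟩ := (Nat.dvd_prime_pow hp.out).1 (Dvd.intro _ h1)
    have : i = 0 ∨ i = 1 ∨ i = 2 := by omega
    rcases this with rfl | rfl | rfl
    · obtain ⟨v, hv, hv1, hv2⟩ := exists_fix ha W (by rw [h.card]; exact dvd_pow_self _ two_ne_zero)
        fun v hv => h.mapW a hv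
      rw [pow_zero, card_eq_one] at h3
      have := (hk ⟨v, hv⟩).2 hv2
      rw [h3, mem_bot] at this
      exact absurd (congrArg Subtype.val this) hv1
    · rw [h3, pow_one]
    · rw [← h.card, card_eq_iff_eq_top] at h3
      exact absurd ((hk ⟨w, hw⟩).1 (h3 ▸ mem_top _)) hw'
  have h3 : Nat.card δ.range = p := by
    rw [h2, sq] at h1
    exact Nat.eq_of_mul_eq_mul_left hp.out.pos h1
  have h4 : ∀ x, x ∈ δ.ker.map W.subtype ↔ x ∈ W ∧ a x = x := fun x =>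
    ⟨by rintro ⟨y, hy, rfl⟩; exact ⟨y.2, (hk y).1 hy⟩, fun hx => ⟨⟨x, hx.1⟩, (hk _).2 hx.2, rfl⟩⟩
  have h5 : Nat.card (δ.ker.map W.subtype) = p := by rw [card_subtype, h2]
  refine ⟨δ.ker.map W.subtype, h5, h4, fun x hx => ?_⟩
  obtain ⟨v, hv, hv1, hv2⟩ := exists_fix ha δ.range (h3 ▸ dvd_rfl) (by
    rintro _ ⟨y, rfl⟩
    exact ⟨⟨a y, h.mapW a y.2⟩, by
      change (a y)⁻¹ * a (a y) = a ((y : L)⁻¹ * a y)
      rw [map_mul, map_inv]⟩)
  have h6 : v ∈ δ.ker.map W.subtype := (h4 v).2 ⟨by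
    obtain ⟨y, rfl⟩ := hv
    exact mul_mem (inv_mem y.2) (h.mapW a y.2), hv2⟩
  have h7 : zpowers v = δ.range := by
    haveI : Fact (Nat.card δ.range).Prime := ⟨h3.symm ▸ hp.out⟩
    refine eq_of_le_of_card_ge (zpowers_le.2 hv) ?_
    have h8 := card_dvd_of_le (zpowers_le.2 hv)
    rw [h3] at h8 ⊢
    rcases (Nat.dvd_prime hp.out).1 h8 with h9 | h9
    · rw [card_eq_one, zpowers_eq_bot] at h9; exact absurd h9 hv1
    · exact h9.ge
  exact (h7 ▸ zpowers_le.2 h6 : δ.range ≤ _) ⟨⟨x, hx⟩, rfl⟩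

omit hp [Finite L] in
theorem iter {y u u₁ u₂ : L} (a : MulAut L) (h0 : a y = y * u) (h1 : a u = u * u₁)
    (h2 : a u₁ = u₁ * u₂) (h3 : a u₂ = u₂) (c1 : Commute u u₁) (c2 : Commute u u₂)
    (c3 : Commute u₁ u₂) (i : ℕ) :
    (a ^ i) y = y * u ^ i * u₁ ^ (i.choose 2) * u₂ ^ (i.choose 3) := by
  induction i with
  | zero => simp
  | succ i ih =>
    rw [pow_succ', MulAut.mul_apply, ih, map_mul, map_mul, map_mul, map_pow, map_pow, map_pow,
      h0, h1, h2, h3, c1.mul_pow, c3.mul_pow, Nat.choose_succ_succ' i 1, Nat.choose_succ_succ' i 2,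
      Nat.choose_one_right, pow_add u₁, pow_add u₂, pow_succ']
    simp only [mul_assoc]

include h ha in
theorem forward (hp2 : p ≠ 2) (hL : IsPGroup p L) {w : L} (hw : w ∈ W) (hw' : a w ≠ w) :
    p = 3 ∧ Nat.card ((a : L →* L).eqLocus (MonoidHom.id L)) = p := by
  obtain ⟨W₀, h1, h2, h3⟩ := fixW h ha hw hw'
  obtain ⟨y, hy, rfl⟩ := h.root w hw
  have hinv : ∀ k ∈ K, (k⁻¹ * a k) ^ p = (k ^ p)⁻¹ * a (k ^ p) := fun k hk => by
    rw [h.hom _ (inv_mem hk) _ (h.mapK a hk), inv_pow, map_pow]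
  set u := y⁻¹ * a y with hu
  have huK : u ∈ K := mul_mem (inv_mem hy) (h.mapK a hy)
  have hz : u ^ p ∈ W₀ := by rw [hu, hinv y hy]; exact h3 _ hw
  have hz1 : u ^ p ≠ 1 := by
    rw [hu, hinv y hy, ne_eq, inv_mul_eq_one]
    exact fun e => hw' e.symm
  set u₁ := u⁻¹ * a u with hu₁
  have hu₁W : u₁ ∈ W := by
    rw [h.memW, hu₁, hinv u huK, ((h2 _).1 hz).2, inv_mul_cancel]
  set u₂ := u₁⁻¹ * a u₁ with hu₂
  have hu₂W : u₂ ∈ W₀ := h3 _ hu₁W
  have h4 := iter a (y := y) (u := u) (u₁ := u₁) (u₂ := u₂) (by rw [hu]; group)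
    (by rw [hu₁]; group) (by rw [hu₂]; group) ((h2 _).1 hu₂W).2 (h.cen _ hu₁W _ huK).symm
    (h.cen _ ((h2 _).1 hu₂W).1 _ huK).symm (h.cen _ hu₁W _ (h.le ((h2 _).1 hu₂W).1)) p
  obtain ⟨c, hc⟩ := hp.out.dvd_choose_self two_ne_zero (lt_of_le_of_ne hp.out.two_le hp2.symm)
  rw [ha, MulAut.one_apply, hc, pow_mul, (h.memW _).1 hu₁W, one_pow, mul_one, mul_assoc,
    left_eq_mul] at h4
  have h5 : p = 3 := by
    by_contra h6
    have h7 := hp.out.two_le
    obtain ⟨c', hc'⟩ := hp.out.dvd_choose_self three_ne_zero (by omega : 3 < p)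
    rw [hc', pow_mul, (h.memW _).1 ((h2 _).1 hu₂W).1, one_pow, mul_one] at h4
    exact hz1 h4
  have h6 : u₂ ≠ 1 := fun e => hz1 (by rwa [e, one_pow, mul_one] at h4)
  refine ⟨h5, ?_⟩
  rw [← h1]
  congr 2
  ext c
  rw [h2]
  refine ⟨fun hc => ⟨?_, hc⟩, fun hc => hc.2⟩
  have hc' : a c = c := hc
  by_contra h7
  rw [h.memW] at h7
  obtain ⟨n, hn⟩ := (IsPGroup.iff_orderOf.1 hL) c
  have hn2 : 2 ≤ n := by
    by_contra h8
    refine h7 (orderOf_dvd_iff_pow_eq_one.1 ?_)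
    rw [hn]
    exact (pow_dvd_pow p (by omega : n ≤ 1)).trans (by rw [pow_one])
  obtain ⟨n, rfl⟩ := Nat.exists_eq_add_of_le' hn2
  set e := c ^ p ^ n with he
  have heK : e ∈ K := by rw [h.memK, he, ← pow_mul, ← pow_add, ← hn, pow_orderOf_eq_one]
  have hea : a e = e := by rw [he, map_pow, hc']
  have he1 : e ^ p ≠ 1 := fun h8 => by
    rw [he, ← pow_mul, ← pow_succ, ← orderOf_dvd_iff_pow_eq_one, hn,
      Nat.pow_dvd_pow_iff_le_right hp.out.one_lt] at h8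
    omega
  have he2 : e ^ p ∈ W₀ := (h2 _).2 ⟨by rw [h.memW, ← pow_mul, ← sq]; exact (h.memK e).1 heK,
    by rw [map_pow, hea]⟩
  have h8 : zpowers (e ^ p) = W₀ := by
    refine eq_of_le_of_card_ge (zpowers_le.2 he2) ?_
    have h8 := card_dvd_of_le (zpowers_le.2 he2)
    rw [h1] at h8 ⊢
    rcases (Nat.dvd_prime hp.out).1 h8 with h9 | h9
    · rw [card_eq_one, zpowers_eq_bot] at h9; exact absurd h9 he1
    · exact h9.ge
  obtain ⟨k, hk⟩ : u ^ p ∈ zpowers (e ^ p) := h8 ▸ hz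
  simp only at hk
  have h9 : (e ^ k)⁻¹ * u ∈ W := by
    rw [h.memW, h.hom _ (inv_mem (zpow_mem heK k)) _ huK, ← hk, inv_pow, ← zpow_natCast,
      ← zpow_natCast, ← zpow_mul, ← zpow_mul, mul_comm, inv_mul_cancel]
  have h10 := h3 _ h9
  have h11 : ((e ^ k)⁻¹ * u)⁻¹ * a ((e ^ k)⁻¹ * u) = u₁ := by
    rw [map_mul, map_inv, map_zpow, hea, hu₁]; group
  rw [h11] at h10
  exact h6 (by rw [hu₂, ((h2 _).1 h10).2, inv_mul_cancel])

end aut

section semi
variable (a : MulAut L)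

omit hp in
theorem normal_inl (H : Subgroup L) (hH : ∀ φ : MulAut L, ∀ x ∈ H, φ x ∈ H) :
    (H.map (SemidirectProduct.inl : L →* L ⋊[(zpowers a).subtype] (zpowers a))).Normal := ⟨by
  rintro _ ⟨x, hx, rfl⟩ g
  refine ⟨MulAut.conj g.left ((g.right : MulAut L) x), hH _ _ (hH _ _ hx), ?_⟩
  ext
  · simp [mul_assoc]
  · simp⟩

variable [Finite L]

theorem class_of_card {m : ℕ} (hm : Nat.card L = p ^ m) (ha : orderOf a = p)
    (h : Nat.card ((a : L →* L).eqLocus (MonoidHom.id L)) = p) :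
    Group.nilpotencyClass (L ⋊[(zpowers a).subtype] (zpowers a)) = m := by
  haveI : Finite (L ⋊[(zpowers a).subtype] (zpowers a)) :=
    Finite.of_equiv _ SemidirectProduct.equivProd.symm
  set s : L ⋊[(zpowers a).subtype] (zpowers a) := SemidirectProduct.inr ⟨a, mem_zpowers a⟩ with hs
  have h1 : ∀ g : L ⋊[(zpowers a).subtype] (zpowers a),
      g ∈ centralizer ({s} : Set _) ↔ a g.left = g.left := fun g => by
    rw [mem_centralizer_singleton_iff, SemidirectProduct.ext_iff]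
    obtain ⟨k, hk⟩ := g.right.2
    have h2 : (g * s).right = (s * g).right := by
      apply Subtype.ext
      simp only [hs, SemidirectProduct.mul_right, SemidirectProduct.right_inr, coe_mul, ← hk]
      exact (Commute.refl a).zpow_left k
    simp only [h2, and_true]
    simp [hs, eq_comm]
  have h2 : Nat.card (centralizer ({s} : Set _)) = p ^ 2 := by
    let e : centralizer ({s} : Set _) ≃
        ((a : L →* L).eqLocus (MonoidHom.id L)) × zpowers a :=
      { toFun := fun g => (⟨g.1.left, (h1 _).1 g.2⟩, g.1.right)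
        invFun := fun z => ⟨⟨z.1.1, z.2⟩, (h1 _).2 z.1.2⟩
        left_inv := fun _ => rfl
        right_inv := fun _ => rfl }
    rw [Nat.card_congr e, Nat.card_prod, h, Nat.card_zpowers, ha, sq]
  refine S0112.result (m + 1) (by rw [SemidirectProduct.card, hm, Nat.card_zpowers, ha, pow_succ])
    _ h2 (le_antisymm (centralizer_le (Set.singleton_subset_iff.2
      (mem_centralizer_singleton_iff.2 rfl))) fun x hx y hy => ?_)
  exact congrArg Subtype.val
    ((IsPGroup.commGroupOfCardEqPrimeSq h2).mul_comm ⟨y, hy⟩ ⟨x, hx⟩)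

theorem backward (hp2 : p ≠ 2) (hL : IsPGroup p L) (hmc : IsMetacyclic L) {W K : Subgroup L}
    (h : Om p W K) {m : ℕ} (hm : Nat.card L = p ^ m) (hm4 : 4 ≤ m) (ha : orderOf a = p)
    (hc : Group.nilpotencyClass (L ⋊[(zpowers a).subtype] (zpowers a)) = m) :
    ∃ w ∈ W, a w ≠ w := by
  haveI : Finite (L ⋊[(zpowers a).subtype] (zpowers a)) :=
    Finite.of_equiv _ SemidirectProduct.equivProd.symm
  have hcard : Nat.card (L ⋊[(zpowers a).subtype] (zpowers a)) = p ^ (m + 1) := by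
    rw [SemidirectProduct.card, hm, Nat.card_zpowers, ha, pow_succ]
  have M := H9.MaxClass.of_class hcard hc (by omega)
  have hlcs : ∀ (H : Subgroup L) (i : ℕ), (∀ φ : MulAut L, ∀ x ∈ H, φ x ∈ H) →
      Nat.card H = p ^ i → i < m →
      H.map (SemidirectProduct.inl : L →* L ⋊[(zpowers a).subtype] (zpowers a)) =
        (⊤ : Subgroup _).lowerCentralSeries (m - i) := fun H i h1 h2 h3 => by
    haveI := normal_inl a H h1
    have h4 := (H.map
      (SemidirectProduct.inl : L →* L ⋊[(zpowers a).subtype] (zpowers a))).card_mul_index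
    rw [card_map_of_injective SemidirectProduct.inl_injective, h2, hcard,
      show m + 1 = i + (m + 1 - i) by omega, pow_add] at h4
    rw [M.eq_lcs_of_index _ (r := m + 1 - i) (by omega)
      (Nat.eq_of_mul_eq_mul_left (pow_pos hp.out.pos i) h4)]
    congr 1
    omega
  obtain ⟨n, hn⟩ := IsPGroup.iff_card.1 (hL.to_subgroup (_root_.commutator L))
  have hn1 : n ≤ 1 := by
    by_contra h1
    haveI : Nontrivial L := Finite.one_lt_card_iff_nontrivial.1 (by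
      rw [hm]; exact Nat.one_lt_pow (by omega) hp.out.one_lt)
    haveI := hL.isNilpotent
    have h2 : n < m := by
      have := H1.card_lt_of_ne_top (Group.IsSolvable.commutator_lt_top_of_nontrivial L).ne
      rwa [hn, hm, Nat.pow_lt_pow_iff_right hp.out.one_lt] at this
    have h3 := hlcs _ n (fun φ x hx => by
      have := (characteristic_iff_le_comap.1
        (inferInstance : (_root_.commutator L).Characteristic)) φ hx
      exact this) hn h2
    have h4 := hlcs W 2 (fun φ x hx => h.mapW φ hx) h.card (by omega)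
    have h5 : W ≤ _root_.commutator L := by
      rw [← map_le_map_iff_of_injective (SemidirectProduct.inl_injective
        (φ := (zpowers a).subtype)), h3, h4]
      exact Subgroup.lowerCentralSeries_antitone _ (by omega)
    obtain ⟨C⟩ := nonempty_mce hp2 hL hmc
    rw [C.commutator_eq] at h5
    haveI := isCyclic_of_le h5
    obtain ⟨g, hg⟩ := IsCyclic.exists_ofOrder_eq_natCard (α := W)
    have h6 : orderOf g ∣ p := by
      rw [← orderOf_coe]; exact orderOf_dvd_of_pow_eq_one ((h.memW _).1 g.2)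
    rw [hg, h.card] at h6
    have h7 := Nat.le_of_dvd hp.out.pos h6
    have := hp.out.two_le
    nlinarith
  have h1 : W ≤ center L := fun w hw => by
    obtain ⟨k, -, rfl⟩ := h.root w hw
    rw [← meta_mho_eq_center hp2 hL hmc hn]
    have : n = 0 ∨ n = 1 := by omega
    rcases this with rfl | rfl
    · exact subset_closure ⟨k ^ p, by simp⟩
    · exact subset_closure ⟨k, by simp⟩
  by_contra h2
  push Not at h2
  have h3 : W.map (SemidirectProduct.inl : L →* L ⋊[(zpowers a).subtype] (zpowers a)) ≤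
      center _ := by
    rintro _ ⟨w, hw, rfl⟩
    rw [mem_center_iff]
    intro g
    obtain ⟨k, hk⟩ := g.right.2
    have h4 : (g.right : MulAut L) w = w := by
      rw [← hk]
      exact MulAction.mem_stabilizer_iff.1
        (zpow_mem (MulAction.mem_stabilizer_iff.2 (h2 w hw) : a ∈ MulAction.stabilizer _ w) k)
    ext
    · simp [h4, mem_center_iff.1 (h1 hw) g.left]
    · simp
  have h4 := (card_le_of_le h3).trans (card_center_maxClass M)
  rw [card_map_of_injective SemidirectProduct.inl_injective, h.card] at h4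
  have := hp.out.two_le
  nlinarith

theorem main (hp2 : p ≠ 2) (hL : IsPGroup p L) (hmc : IsMetacyclic L)
    (hnc : ∀ C : Subgroup L, IsCyclic C → C.index ≠ p) (ha : orderOf a = p) (m : ℕ)
    (hm : Nat.card L = p ^ m) : (∃ x : L, orderOf x = p ∧ a x ≠ x) ↔
      (p = 3 ∧ Group.nilpotencyClass (L ⋊[(zpowers a).subtype] (zpowers a)) = m) := by
  haveI : Nontrivial L := by
    by_contra h
    rw [not_nontrivial_iff_subsingleton] at h
    have : a = 1 := MulEquiv.ext fun x => Subsingleton.elim _ _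
    rw [this, orderOf_one] at ha
    exact hp.out.one_lt.ne ha
  obtain ⟨h0, W, K, h⟩ := exists_om hp2 hL hmc hnc
  have ha' : a ^ p = 1 := by rw [← ha, pow_orderOf_eq_one]
  constructor
  · rintro ⟨x, hx, hx'⟩
    obtain ⟨h1, h2⟩ := forward h ha' hp2 hL ((h.memW x).2 (by rw [← hx, pow_orderOf_eq_one])) hx'
    exact ⟨h1, class_of_card a hm ha h2⟩
  · rintro ⟨-, h1⟩
    rw [hm, Nat.pow_dvd_pow_iff_le_right hp.out.one_lt] at h0
    obtain ⟨w, hw, hw'⟩ := backward a hp2 hL hmc h hm h0 ha h1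
    exact ⟨w, orderOf_eq_prime ((h.memW w).1 hw) (fun e => hw' (by rw [e, map_one])), hw'⟩

end semi

end Cfsg.Agent.H2.MetaA
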