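import Cfsg.Agent.H9.Four
import Cfsg.Agent.H11.TwoGp
import Cfsg.Agent.H11.OddAct
import Cfsg.Agent.H11.MC2
import Cfsg.Agent.H2.Basic
import Cfsg.Agent.H9.PSolv

/-! 2-groups without non-cyclic abelian subgroups of order 8. -/

namespace Cfsg.Agent.H2.N8
open Subgroup H11 H9K
open scoped Pointwise commutatorElement

variable {G : Type*} [Group G]

/-- no non-cyclic abelian subgroup of order 8 -/
def N8 (Y : Subgroup G) : Prop :=
  ¬ ∃ A : Subgroup G, A ≤ Y ∧ IsMulCommutative A ∧ ¬ IsCyclic A ∧ Nat.card A = 8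

theorem N8.mono {Y Z : Subgroup G} (h : N8 Y) (hZ : Z ≤ Y) : N8 Z :=
  fun ⟨A, h1, h2⟩ => h ⟨A, h1.trans hZ, h2⟩

theorem Four.not_isCyclic {V A : Subgroup G} (hV : Four V) (h : V ≤ A) : ¬ IsCyclic A := fun hc =>
  haveI := hV.klein
  IsKleinFour.not_isCyclic (G := V) (isCyclic_of_le h)

theorem N8.mem [Finite G] {Y V : Subgroup G} (h : N8 Y) (hY : IsPGroup 2 Y) (hV : Four V) (hVY : V ≤ Y) {y : G}
    (hy : y ∈ Y) (hc : y ∈ centralizer (V : Set G)) : y ∈ V := by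
  by_contra hn
  obtain ⟨j, h1, h2⟩ := H3.exists_pow_not_mem_pow_mem (p := 2) hn (by
    obtain ⟨k, hk⟩ := hY ⟨y, hy⟩
    exact ⟨k, by rw [show y ^ 2 ^ k = 1 from congrArg Subtype.val hk]; exact one_mem _⟩)
  refine h ⟨V ⊔ zpowers (y ^ 2 ^ j), sup_le hVY (zpowers_le.2 (pow_mem hy _)),
    H3.isMulCommutative_sup_zpowers hV.isEA.1 (pow_mem hc _), Four.not_isCyclic hV le_sup_left, ?_⟩
  rw [H3.card_sup_zpowers (centralizer_le_normalizer _ (pow_mem hc _)) h1 h2, hV.card]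

theorem N8.four_of_comm [Finite G] {Y : Subgroup G} (h : N8 Y) (hY : IsPGroup 2 Y)
    (hc : ∀ a ∈ Y, ∀ b ∈ Y, a * b = b * a) (hn : ¬ IsCyclic Y) : Four Y := by
  obtain ⟨V, hVY, hV⟩ := exists_klein_of_not_isCyclic hY hc hn
  have hV' : Four V := ⟨(isKleinFour_iff.1 hV).1, (isKleinFour_iff.1 hV).2⟩
  rwa [le_antisymm hVY fun y hy => h.mem hY hV' hVY hy fun v hv => hc v (hVY hv) y hy] at hV'

/-- the quaternion group of order 8 with involution `z` -/
structure Q8 (M : Subgroup G) (z : G) : Prop where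
  card : Nat.card M = 8
  mem : z ∈ M
  ord : orderOf z = 2
  sq : ∀ m ∈ M, m = 1 ∨ m = z ∨ m * m = z
  equiv : Nonempty (M ≃* QuaternionGroup 2)

theorem fix_or_q8 {Y : Subgroup G} {n : ℕ} {e f : ZMod (2 ^ n)} {X Y' : ZMod (2 ^ n) → G} (h : MC Y n e f X Y')
    {ψ : G → G} (hψ : OddAct Y ψ) : (∀ y ∈ Y, ψ y = y) ∨ Q8 Y (X (hh n)) := by
  obtain ⟨a, ha | ha⟩ := (h.mem _).1 (hψ.mem _ (h.X_mem 1))
  · left
    have h1 : ψ (X 1) = X 1 := hψ.fix_of_zpowers (h.X_mem 1) (k := n)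
      (orderOf_dvd_iff_pow_eq_one.1 h.orderOf_X_one.dvd) (ha ▸ h.X_mem_zpowers_one a)
    have h2 : ∀ b, ψ (X b) = X b := fun b => hψ.fix_zpowers (h.X_mem 1) h1 (h.X_mem_zpowers_one b)
    intro y hy
    obtain ⟨b, rfl | rfl⟩ := (h.mem _).1 hy
    · exact h2 b
    · obtain ⟨c, hc | hc⟩ := (h.mem _).1 (hψ.mem _ hy)
      · exact absurd (hψ.inj hy (h.X_mem c) (hc.trans (h2 c).symm)) (h.Y_ne_X b c)
      · refine hψ.fix_step h.isPGroup hy ?_
        rw [hc, h.Y_inv, h.YY, h2]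
  · right
    have h1 := hψ.orderOf_eq (h.X_mem 1)
    rw [ha, h.orderOf_X_one] at h1
    have h2 := h.two_le
    have h3 : orderOf (Y' a) = 4 := (h.orderOf_Y a).resolve_left fun e => by
      have : 2 ^ 2 ≤ 2 ^ n := Nat.pow_le_pow_right two_pos h2
      omega
    obtain rfl : n = 2 := Nat.pow_right_injective le_rfl (h1.symm.trans h3)
    obtain rfl : e = 0 := h.he.resolve_right fun h => absurd h.1 (by norm_num)
    have h4 := h.orderOf_Y_four.1 h3
    rw [zero_mul, add_zero] at h4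
    subst h4
    refine ⟨h.card, h.X_mem _, h.orderOf_z, fun m hm => ?_, ?_⟩
    · obtain ⟨b, rfl | rfl⟩ := (h.mem _).1 hm
      · rw [h.XX, h.X_eq_one, h.X_inj, h.X_inj]
        clear hm; revert b; decide
      · rw [h.Y_sq]; simp
    · have := h.nonempty_quaternion (j := 1) le_rfl (k := 0) (by simp) (by simp)
      rwa [MC.fr_self, ← h.eq_closure rfl] at this

theorem N8.four_or_q8 [Finite G] {Y : Subgroup G} (h : N8 Y) (hY : IsPGroup 2 Y) {g : G}
    (hg : g ∈ normalizer (Y : Set G)) (ho : Odd (orderOf g)) (hc : g ∉ centralizer (Y : Set G)) :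
    Four Y ∨ ∃ z, Q8 Y z := by
  have hψ := oddAct_conj hg ho
  have key : ∀ {n : ℕ} {e f : ZMod (2 ^ n)} {X Y' : ZMod (2 ^ n) → G}, MC Y n e f X Y' → ∃ z, Q8 Y z :=
    fun h => ⟨_, (fix_or_q8 h hψ).resolve_left fun h1 => hc fun y hy =>
      (mul_inv_eq_iff_eq_mul.1 (h1 y hy)).symm⟩
  by_cases hk : ∀ V : Subgroup Y, V.Normal → ¬ IsKleinFour V
  · right
    rcases isCyclic_or_MC_of_no_normal_klein hY hk with h1 | ⟨n, e, f, X, Y', h1⟩
    · obtain ⟨a, rfl⟩ := (Subgroup.isCyclic_iff_exists_zpowers_eq_top Y).1 h1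
      obtain ⟨k, hk⟩ := hY ⟨a, mem_zpowers a⟩
      have h2 := hψ.fix_of_zpowers (mem_zpowers a) (congrArg Subtype.val hk) (hψ.mem a (mem_zpowers a))
      exact absurd (fun y hy => (mul_inv_eq_iff_eq_mul.1 (hψ.fix_zpowers (mem_zpowers a) h2 hy)).symm) hc
    · obtain ⟨X, Y', h2⟩ := h1.of_equiv (MulEquiv.refl Y)
      exact key h2
  push Not at hk
  obtain ⟨V0, hV0, hk⟩ := hk
  have hV1 := isKleinFour_iff.1 (isKleinFour_map_subtype hk)
  set V := V0.map Y.subtype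
  have hV : Four V := ⟨hV1.1, hV1.2⟩
  have hVY : V ≤ Y := map_subtype_le _
  have hN : Y ≤ normalizer (V : Set G) := fun y hy => H3.mem_normalizer_of_conj_mem (by
    rintro _ ⟨v, hv, rfl⟩
    exact ⟨_, hV0.conj_mem v hv ⟨y, hy⟩, rfl⟩)
  by_cases hYV : Y ≤ V
  · exact Or.inl (le_antisymm hVY hYV ▸ hV)
  right
  obtain ⟨t, ht, htV⟩ := SetLike.not_le_iff_exists.1 hYV
  have htC : t ∉ centralizer (V : Set G) := fun e => htV (h.mem hY hV hVY ht e)
  have ht2 := hV.sq_mem_of_isPGroup hN hY ht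
  obtain ⟨z, hz, hz1, -, h1, h2⟩ := hV.exists_fix (hN ht) htC ht2
  obtain ⟨v, hv, hv1, hvz⟩ := klein_exists_other hV.klein z
  have h3 := h2 v hv fun e => (h1 v hv e).elim hv1 hvz
  have hvv := hV.sq v hv
  obtain ⟨c, hcY, hc1, hc2⟩ : ∃ c ∈ Y, c * c = z ∧ c * v * c⁻¹ * v⁻¹ = z := by
    rcases h1 _ (h.mem hY hV hVY (mul_mem ht ht) ht2) (mul_assoc t t t).symm with e | e
    · refine ⟨t * v, mul_mem ht (hVY hv), ?_, ?_⟩
      · calc t * v * (t * v) = t * v * t⁻¹ * v⁻¹ * (v * (t * t) * v) := by group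
          _ = z := by rw [h3, e, mul_one, hvv, mul_one]
      · rw [← h3]; group
    · exact ⟨t, ht, e, h3⟩
  have hzz := hV.sq z hz
  have hc4 : orderOf c = 2 ^ 2 := orderOf_eq_prime_pow (by rwa [pow_one, pow_two, hc1])
    (by rw [show 2 ^ (1 + 1) = 2 * 2 from rfl, pow_mul, pow_two c, hc1, pow_two, hzz])
  refine key (MC.of_gens le_rfl hc4 (Or.inl rfl) (Or.inl rfl) (y := v) ?_ (by rw [hvv]; simp) (fun e => hz1 ?_)
    hcY (hVY hv) ?_)
  · have e1 : v * c⁻¹ * v⁻¹ = c := by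
      calc v * c⁻¹ * v⁻¹ = c⁻¹ * (c * v * c⁻¹ * v⁻¹) := by group
        _ = c := by rw [hc2, ← hc1]; group
    calc v * c * v⁻¹ = (v * c⁻¹ * v⁻¹)⁻¹ := by group
      _ = c⁻¹ * (z * z) := by rw [e1, hzz, mul_one]
      _ = c ^ 3 := by rw [← hc1, pow_succ, pow_two]; group
  · obtain ⟨k, rfl⟩ := e
    rw [← hc2]; group
  · have h4 := hV.relIndex_eq_two hN (H24.pGrpMod_of_isPGroup hY _) fun e => htC (e ht)
    rw [← inf_relIndex_right, show centralizer (V : Set G) ⊓ Y = V from le_antisymm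
      (fun y hy => h.mem hY hV hVY hy.2 hy.1) (le_inf hV.le_centralizer hVY)] at h4
    rw [H3.card_eq_card_mul_relIndex hVY, hV.card, h4]; rfl

namespace Q8
variable {M : Subgroup G} {z : G} (h : Q8 M z)
include h

theorem zz : z * z = 1 := mul_self_of_orderOf_two h.ord

theorem ne_one : z ≠ 1 := ne_one_of_orderOf_two h.ord

theorem comm {m : G} (hm : m ∈ M) : m * z = z * m := by
  rcases h.sq m hm with rfl | rfl | e
  · simp
  · rfl
  · rw [← e, mul_assoc]

theorem eq_of_sq {m : G} (hm : m ∈ M) (h1 : m * m = 1) : m = 1 ∨ m = z :=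
  (h.sq m hm).imp_right fun e => e.resolve_right fun e => h.ne_one (e.symm.trans h1)

theorem conj_z {g : G} (hg : g ∈ normalizer (M : Set G)) : g * z * g⁻¹ = z :=
  (h.eq_of_sq ((mem_normalizer_iff.1 hg z).1 h.mem) (by
    rw [conj_mul, h.zz]; simp)).resolve_left (by simpa using h.ne_one)

theorem mem_zp {m : G} : m ∈ zpowers z ↔ m = 1 ∨ m = z := by
  constructor
  · intro hm
    exact h.eq_of_sq (zpowers_le.2 h.mem hm) (by
      rw [← pow_two, ← orderOf_dvd_iff_pow_eq_one, ← h.ord]; exact orderOf_dvd_of_mem_zpowers hm)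
  · rintro (rfl | rfl)
    exacts [one_mem _, mem_zpowers _]

theorem card_zp : Nat.card (zpowers z) = 2 := by rw [Nat.card_zpowers, h.ord]

theorem sq_mem {m : G} (hm : m ∈ M) : m * m ∈ zpowers z := by
  rcases h.sq m hm with rfl | rfl | e
  · simp
  · exact mul_mem (mem_zpowers _) (mem_zpowers _)
  · exact e ▸ mem_zpowers _

theorem gens [Finite G] {i : G} (hi : i ∈ M) (hiz : i ∉ zpowers z) : ∃ j ∈ M, i * i = z ∧ j * j = z ∧ j * i * j⁻¹ = i * z ∧
    i * j * i⁻¹ = j * z ∧ M = zpowers i ⊔ zpowers j := by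
  have h0 : ∀ m ∈ M, m ∉ zpowers z → m * m = z := fun m hm e =>
    ((h.sq m hm).resolve_left fun e' => e (h.mem_zp.2 (Or.inl e'))).resolve_left fun e' => e (h.mem_zp.2 (Or.inr e'))
  have h1 := h0 i hi hiz
  have h2 : orderOf i = 2 ^ 2 := orderOf_eq_prime_pow (by rw [pow_one, pow_two, h1]; exact h.ne_one)
    (by rw [show 2 ^ (1 + 1) = 2 * 2 from rfl, pow_mul, pow_two i, h1, pow_two, h.zz])
  obtain ⟨j, hj, hji⟩ : ∃ j ∈ M, j ∉ zpowers i := by
    by_contra hc
    push Not at hc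
    have := card_dvd_of_le (show M ≤ zpowers i from hc)
    rw [h.card, Nat.card_zpowers, h2] at this
    exact absurd this (by norm_num)
  have hzi : zpowers z ≤ zpowers i := zpowers_le.2 (h1 ▸ mul_mem (mem_zpowers i) (mem_zpowers i))
  have h3 := h0 j hj fun e => hji (hzi e)
  have h4 := h0 (j * i) (mul_mem hj hi) fun e => hji ((mul_mem_cancel_right (mem_zpowers i)).1 (hzi e))
  have h5 : j * i * j⁻¹ = i * z := by
    calc j * i * j⁻¹ = (j * i * (j * i)) * i⁻¹ * (j * j)⁻¹ := by group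
      _ = (i * i) * i⁻¹ * z⁻¹ := by rw [h4, h3, h1]
      _ = i * z := by rw [inv_eq_of_orderOf_two h.ord]; group
  refine ⟨j, hj, h1, h3, h5, ?_, ?_⟩
  · calc i * j * i⁻¹ = i * (j * i * j⁻¹)⁻¹ * j := by group
      _ = j * z := by rw [h5, mul_inv_rev, inv_eq_of_orderOf_two h.ord, ← mul_assoc, h.comm hi, h.comm hj]; group
  · symm
    refine eq_of_le_of_card_ge (sup_le (zpowers_le.2 hi) (zpowers_le.2 hj)) ?_
    have h6 : j ∈ normalizer (zpowers i : Set G) := H3.mem_normalizer_of_conj_mem (by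
      rintro _ ⟨k, rfl⟩
      rw [← conj_zpow, h5]
      exact zpow_mem (mul_mem (mem_zpowers i) (hzi (mem_zpowers z))) k)
    rw [H3.card_sup_zpowers (p := 2) h6 hji (by rw [pow_two, h3]; exact hzi (mem_zpowers z)), Nat.card_zpowers, h2,
      h.card]
    rfl

theorem exists_notMem : ∃ i ∈ M, i ∉ zpowers z := by
  by_contra hc
  push Not at hc
  have := card_dvd_of_le (show M ≤ zpowers z from hc)
  rw [h.card, h.card_zp] at this
  exact absurd this (by norm_num)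

theorem inner {g i j : G} (hi : i ∈ M) (hj : j ∈ M) (h1 : j * i * j⁻¹ = i * z) (h2 : i * j * i⁻¹ = j * z)
    (hM : M = zpowers i ⊔ zpowers j)
    (hgi : g * i * g⁻¹ * i⁻¹ ∈ zpowers z) (hgj : g * j * g⁻¹ * j⁻¹ ∈ zpowers z) :
    g ∈ M ⊔ centralizer (M : Set G) := by
  have key : ∀ m ∈ M, g * i * g⁻¹ = m * i * m⁻¹ → g * j * g⁻¹ = m * j * m⁻¹ → g ∈ M ⊔ centralizer (M : Set G) := by
    intro m hm a1 a2
    have : m⁻¹ * g ∈ centralizer (M : Set G) := by
      rw [← zpowers_le, le_centralizer_iff, hM]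
      refine sup_le ?_ ?_ <;> rw [zpowers_le, mem_centralizer_zpowers_iff]
      · calc m⁻¹ * g * i = m⁻¹ * (g * i * g⁻¹) * g := by group
          _ = _ := by rw [a1]; group
      · calc m⁻¹ * g * j = m⁻¹ * (g * j * g⁻¹) * g := by group
          _ = _ := by rw [a2]; group
    simpa using mul_mem (mem_sup_left hm) (mem_sup_right this)
  rcases h.mem_zp.1 hgi with a1 | a1 <;> rcases h.mem_zp.1 hgj with a2 | a2 <;>
    rw [mul_inv_eq_iff_eq_mul] at a1 a2
  · exact key 1 (one_mem _) (by simpa using a1) (by simpa using a2)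
  · exact key i hi (by simpa using a1) (by rw [a2, h2, h.comm hj])
  · exact key j hj (by rw [a1, h1, h.comm hi]) (by simpa using a2)
  · refine key (i * j) (mul_mem hi hj) ?_ ?_
    · calc g * i * g⁻¹ = i * (i * z) * i⁻¹ := by rw [a1, mul_assoc, h.comm hi, mul_inv_cancel_right, h.comm hi]
        _ = _ := by rw [← h1]; group
    · rw [a2, ← h.comm hj, ← h2]; group

theorem four_map [(zpowers z).Normal] : Four (M.map (QuotientGroup.mk' (zpowers z))) := by
  refine ⟨?_, ?_⟩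
  · have h1 := H3.card_eq_card_mul_relIndex (zpowers_le.2 h.mem)
    rw [h.card, h.card_zp, H9.relIndex_eq_card_map_mk'] at h1
    omega
  · rintro _ ⟨m, hm, rfl⟩
    rw [← map_mul]
    exact (QuotientGroup.eq_one_iff _).2 (h.sq_mem hm)

theorem normal [M.Normal] : (zpowers z).Normal := ⟨fun m hm g => by
  rcases h.mem_zp.1 hm with rfl | rfl
  · simp
  · rw [h.conj_z (le_normalizer_of_normal (mem_top g))]; exact mem_zpowers _⟩

theorem mem_of_cent [Finite G] [(zpowers z).Normal] {g : G}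
    (hc : QuotientGroup.mk' (zpowers z) g ∈
      centralizer ((M.map (QuotientGroup.mk' (zpowers z)) : Subgroup _) : Set (G ⧸ zpowers z))) :
    g ∈ M ⊔ centralizer (M : Set G) := by
  obtain ⟨i, hi, hiz⟩ := h.exists_notMem
  obtain ⟨j, hj, -, -, h1, h2, h3⟩ := h.gens hi hiz
  have key : ∀ m ∈ M, g * m * g⁻¹ * m⁻¹ ∈ zpowers z := fun m hm => by
    rw [← QuotientGroup.eq_one_iff]
    have := hc _ (mem_map_of_mem _ hm)
    simp only [QuotientGroup.mk'_apply] at this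
    simp only [QuotientGroup.mk_mul, QuotientGroup.mk_inv, ← this]
    group
  exact h.inner hi hj h1 h2 h3 (key i hi) (key j hj)

end Q8

end Cfsg.Agent.H2.N8
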