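import Cfsg.Agent.H2.N8
import Cfsg.Agent.H9.Stab
import Cfsg.Agent.H3.Action
import Cfsg.Agent.S0095

/-! Minimal 2-groups with operators containing a non-cyclic abelian subgroup of order 8. -/

namespace Cfsg.Agent.H2.N8
open Subgroup H11 H9K
open scoped Pointwise commutatorElement

variable {G : Type*} [Group G] [Finite G]

theorem special_of {p : ℕ} [Fact p.Prime] {X D : Subgroup G} (hX : IsPGroup p X) (h1 : ⁅X, X⁆ = D)
    (h2 : ∀ x ∈ X, x ^ p ∈ D) (h3 : X ⊓ centralizer (X : Set G) = D) :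
    IsSpecial p X ∧ Nat.card (center X) = Nat.card D := by
  have hi := map_injective X.subtype_injective
  refine ⟨⟨hX, hi ?_, hi ?_⟩, ?_⟩
  · rw [H24.map_subtype_center, h3]
    exact le_antisymm (H3.frattiniOf_le h1.le h2) (h1 ▸ H3.commutator_le_frattiniOf hX)
  · rw [H24.map_subtype_center, h3, map_subtype_commutator, h1]
  · rw [← h3, ← H24.map_subtype_center, card_map_of_injective X.subtype_injective]

theorem cent_le_comm {P A : Subgroup G} [P.Normal] (hcop : (Nat.card A).Coprime (Nat.card P)) (h : ⁅P, A⁆ = P) :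
    P ⊓ centralizer (A : Set G) ≤ ⁅P, P⁆ := fun x ⟨hx, hx'⟩ => by
  haveI : IsMulCommutative (P.map (QuotientGroup.mk' ⁅P, P⁆)) := isMulCommutative_of_forall (by
    rintro _ ⟨u, hu, rfl⟩ _ ⟨v, hv, rfl⟩
    rw [← commutatorElement_eq_one_iff_mul_comm, ← map_commutatorElement]
    exact (QuotientGroup.eq_one_iff _).2 (commutator_mem_commutator hu hv))
  haveI := Normal.map ‹P.Normal› _ (QuotientGroup.mk'_surjective ⁅P, P⁆)
  have h1 := H1.inf_centralizer_inf_commutator_eq_bot (A := A.map (QuotientGroup.mk' ⁅P, P⁆))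
    (V := P.map (QuotientGroup.mk' ⁅P, P⁆)) le_normalizer_of_normal
    ((hcop.coprime_dvd_left (card_map_dvd _ _)).coprime_dvd_right (card_map_dvd _ _))
  rw [← map_commutator, h] at h1
  have h2 : QuotientGroup.mk' ⁅P, P⁆ x ∈ (⊥ : Subgroup _) := h1 ▸ ⟨⟨mem_map_of_mem _ hx, by
    rintro _ ⟨u, hu, rfl⟩
    rw [← map_mul, ← map_mul, hx' u hu]⟩, mem_map_of_mem _ hx⟩
  exact (QuotientGroup.eq_one_iff _).1 h2

theorem Q8.cent {M : Subgroup G} {z : G} (h : Q8 M z) : M ⊓ centralizer (M : Set G) ≤ zpowers z := fun w hw => by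
  by_contra hc
  obtain ⟨j, hj, -, -, h1, -⟩ := h.gens hw.1 hc
  rw [hw.2 j hj, mul_inv_cancel_right] at h1
  exact h.ne_one (by simpa using h1)

theorem card_inf_ge {A T C : Subgroup G} (hA : Nat.card A = 8) (h : C.relIndex A ∣ 2) (hC : C ≤ T) :
    4 ≤ Nat.card (T ⊓ A : Subgroup G) := by
  have h1 := H3.card_eq_card_inf_mul_relIndex T A
  have h2 := Nat.le_of_dvd two_pos ((relIndex_dvd_of_le_left A hC).trans h)
  have := Nat.mul_le_mul_left (Nat.card (T ⊓ A : Subgroup G)) h2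
  omega

theorem not_four_core {T A : Subgroup G} [T.Normal] (hC : centralizer (T : Set G) ≤ T) (hT : Four T)
    [IsMulCommutative A] (hA : Nat.card A = 8) : False := by
  have h1 := card_inf_ge hA (hT.relIndex_dvd_two le_normalizer_of_normal
    (H24.pGrpMod_of_isPGroup (IsPGroup.of_card (n := 3) hA) _)) hC
  have h2 : T ≤ A := inf_eq_left.1 (eq_of_le_of_card_ge inf_le_left (hT.card ▸ h1))
  have h3 := card_dvd_of_le (show A ≤ T from fun a ha => hC fun t ht => mul_comm_of_mem (h2 ht) ha)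
  rw [hA, hT.card] at h3
  exact absurd h3 (by norm_num)

theorem not_q8_core {T A : Subgroup G} [T.Normal] (hC : centralizer (T : Set G) ≤ T) {z : G} (hT : Q8 T z)
    [IsMulCommutative A] (hA : Nat.card A = 8) (hc : ¬ IsCyclic A) : False := by
  haveI := hT.normal
  have hA2 : IsPGroup 2 A := IsPGroup.of_card (n := 3) hA
  haveI := Normal.map ‹T.Normal› _ (QuotientGroup.mk'_surjective (zpowers z))
  have h0 := hT.four_map.relIndex_dvd_two (P := A.map (QuotientGroup.mk' (zpowers z))) le_normalizer_of_normal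
    (H24.pGrpMod_of_isPGroup (hA2.map _) _)
  rw [← relIndex_comap] at h0
  have h1 := card_inf_ge hA h0 (T := T) fun g hg => sup_le le_rfl hC (hT.mem_of_cent hg)
  obtain ⟨i, hi, hiz⟩ : ∃ i ∈ T ⊓ A, i ∉ zpowers z := by
    by_contra hc
    push Not at hc
    have := card_le_of_le (show T ⊓ A ≤ zpowers z from hc)
    rw [hT.card_zp] at this
    omega
  obtain ⟨V, hVA, hV⟩ := exists_klein_of_not_isCyclic hA2 (fun a ha b hb => mul_comm_of_mem ha hb) hc
  obtain ⟨v, hv, hv1, hvz⟩ := klein_exists_other hV z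
  have hvv := klein_sq hV hv
  obtain ⟨j, hj, hii, -, h2, h3, h4⟩ := hT.gens hi.1 hiz
  have hvi : v * i = i * v := mul_comm_of_mem (hVA hv) hi.2
  have hvz' := hT.conj_z (le_normalizer_of_normal (mem_top v))
  refine (hT.eq_of_sq (sup_le le_rfl hC (hT.mem_of_cent (g := v) ?_)) hvv).elim hv1 hvz
  by_contra h5
  set π := QuotientGroup.mk' (zpowers z)
  obtain ⟨w, -, -, -, a1, a2⟩ := hT.four_map.exists_fix (le_normalizer_of_normal (mem_top _)) h5
    (by rw [← map_mul, hvv, map_one]; exact one_mem _)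
  have a3 : π i = w := (a1 _ (mem_map_of_mem π hi.1) (by rw [← map_mul, hvi, map_mul])).resolve_left
    fun e => hiz ((QuotientGroup.eq_one_iff _).1 e)
  have a0 : ∀ u, u ∈ zpowers z → u * i = i * u := fun u hu => by
    rcases hT.mem_zp.1 hu with rfl | rfl
    · simp
    · exact (hT.comm hi.1).symm
  have a4 : ¬ j * i = i * j := fun e => by
    rw [e, mul_inv_cancel_right] at h2
    exact hT.ne_one (by simpa using h2)
  have a5 := a2 _ (mem_map_of_mem π hj) fun e => by
    rcases a1 _ (mem_map_of_mem π hj) e with e | e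
    · exact a4 (a0 j ((QuotientGroup.eq_one_iff _).1 e))
    · have := a0 _ (QuotientGroup.eq.1 (a3.trans e.symm))
      exact a4 (by
        calc j * i = i * (i⁻¹ * j * i) := by group
          _ = _ := by rw [this]; group)
  rw [← a3, ← map_inv, ← map_inv, ← map_mul, ← map_mul, ← map_mul] at a5
  have a6 := QuotientGroup.eq.1 a5.symm
  set c := v * j * v⁻¹ * j⁻¹ with hcd
  have h10 : v * c * v⁻¹ = c⁻¹ := by
    calc v * c * v⁻¹ = (v * v) * j * (v * v)⁻¹ * v * j⁻¹ * v⁻¹ := by rw [hcd]; group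
      _ = c⁻¹ := by rw [hvv, hcd]; group
  have hvi' : v * i * v⁻¹ = i := mul_inv_eq_iff_eq_mul.2 hvi
  rcases hT.mem_zp.1 a6 with e | e
  · rw [← inv_mul_eq_one.1 e, hvi', eq_inv_iff_mul_eq_one, hii] at h10
    exact hT.ne_one h10
  · rw [inv_mul_eq_iff_eq_mul.1 e, ← conj_mul, hvi', hvz', eq_inv_iff_mul_eq_one, mul_assoc, ← mul_assoc z,
      ← hT.comm hi.1, mul_assoc, hT.zz, mul_one, hii] at h10
    exact hT.ne_one h10

theorem struct {X H : Subgroup G} [X.Normal] (hX : IsPGroup 2 X) (hH : Odd (Nat.card H)) (htop : X ⊔ H = ⊤)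
    (hmin : ∀ Y < X, H ≤ normalizer (Y : Set G) → N8 Y) (h8 : ¬ N8 X) (hHX : ¬ H ≤ centralizer (X : Set G))
    (hna : ¬ IsMulCommutative X) : (IsExtraspecial 2 X ∧ 32 ≤ Nat.card X) ∨
      (∃ (X₀ : Subgroup G) (k : ℕ), X₀ ≤ X ∧ X₀.relIndex X = 2 ∧ Nonempty (X₀ ≃* QuaternionGroup (2 ^ (k + 1))) ∧
        X₀ ⊔ (X ⊓ centralizer (X₀ : Set G)) = X) ∨ (IsSpecial 2 X ∧ Nat.card (center X) = 4) := by
  have hZ : X ⊓ centralizer (X : Set G) < X := lt_of_le_of_ne inf_le_left fun e =>
    hna (isMulCommutative_of_forall fun a ha b hb => (inf_eq_left.1 e hb) a ha)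
  have hZc : ∀ a ∈ X ⊓ centralizer (X : Set G), ∀ b ∈ X ⊓ centralizer (X : Set G), a * b = b * a :=
    fun a ha b hb => hb.2 a ha.1
  have hD0 : ⁅X, X⁆ ≠ ⊥ := fun e => hZ.ne (inf_eq_left.2 (commutator_eq_bot_iff_le_centralizer.1 e))
  have hZ8 := hmin _ hZ le_normalizer_of_normal
  by_cases hm : ∀ C < X, H ≤ normalizer (C : Set G) → H ≤ centralizer (C : Set G)
  · have h : H3.MinAct 2 X H := ⟨hX, Nat.coprime_two_right.2 hH, le_normalizer_of_normal, hHX, hm⟩
    have h1 := cent_le_comm h.coprime_card h.commutator_eq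
    have h2 : X ⊓ centralizer (X : Set G) = ⁅X, X⁆ := le_antisymm
      ((le_inf inf_le_left (le_centralizer_iff.1 (hm _ hZ le_normalizer_of_normal))).trans h1)
      (le_inf (commutator_le_self _) (commutator_le.2 fun x hx y hy => (h.commutator_mem hx hy).1))
    obtain ⟨h3, h4⟩ := special_of hX rfl (fun x hx => h1 ⟨pow_mem hx 2, (h.pow_mem hx).2⟩) h2
    by_cases hc : IsCyclic (X ⊓ centralizer (X : Set G) : Subgroup G)
    · left
      obtain ⟨a, ha⟩ := (Subgroup.isCyclic_iff_exists_zpowers_eq_top _).1 hc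
      have h5 : ⁅X, X⁆ ≤ om1 _ hZc := commutator_le.2 fun x hx y hy => mem_om1.2
        ⟨h2 ▸ commutator_mem_commutator hx hy, by rw [← pow_two]; exact h.commutator_pow hx hy⟩
      rw [h2] at ha
      have h6 : IsExtraspecial 2 X := ⟨h3, by
        rw [h4, ← ha, Nat.card_zpowers]
        refine orderOf_two_of (fun e => hD0 ?_) (mem_om1.1 (h5 (ha ▸ mem_zpowers a))).2
        rw [← ha, e, zpowers_one_eq_bot]⟩
      refine ⟨h6, ?_⟩
      obtain ⟨n, hn, hn'⟩ := S0095.result h6
      by_cases h7 : n = 1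
      · subst h7
        refine absurd (fun ⟨A, a1, a2, _, a4⟩ => hna ?_) h8
        rwa [← eq_of_le_of_card_ge a1 (by rw [a4, hn']; rfl)]
      · exact hn' ▸ Nat.pow_le_pow_right two_pos (by omega : 5 ≤ 2 * n + 1)
    · exact Or.inr (Or.inr ⟨h3, by rw [h4, ← h2]; exact (hZ8.four_of_comm (hX.to_le hZ.le) hZc hc).card⟩)
  push Not at hm
  obtain ⟨M, ⟨hMX, hHM, hMc⟩, hmax'⟩ := (wellFounded_gt (α := Subgroup G)).has_min
    {C | C < X ∧ H ≤ normalizer (C : Set G) ∧ ¬ H ≤ centralizer (C : Set G)} hm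
  have hmax : ∀ Y, M ≤ Y → Y ≤ X → H ≤ normalizer (Y : Set G) → Y = M ∨ Y = X := fun Y h1 h2 h3 => by
    by_contra hc
    push Not at hc
    exact hmax' Y ⟨lt_of_le_of_ne h2 hc.2, h3, fun e => hMc (e.trans (centralizer_le h1))⟩
      (lt_of_le_of_ne h1 hc.1.symm)
  have hXM : X ≤ normalizer (M : Set G) := inf_eq_left.1 ((hmax _ (le_inf hMX.le le_normalizer) inf_le_left
    (H1.le_normalizer_inf le_normalizer_of_normal (hHM.trans le_normalizer))).resolve_left
      (H3.lt_inf_normalizer_of_lt hX hMX).ne')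
  haveI : M.Normal := normal_of_sup_eq_top hXM hHM htop
  have hF : (frattini X).map X.subtype ≤ M := by
    rcases hmax (M ⊔ (frattini X).map X.subtype) le_sup_left (sup_le hMX.le (map_subtype_le _))
      le_normalizer_of_normal with e | e
    · exact e ▸ le_sup_right
    · exact absurd (H3.frattiniOf_nongenerating hMX.le e.ge) hMX.ne
  have hD : ⁅X, X⁆ ≤ M := (H3.commutator_le_frattiniOf hX).trans hF
  have hsq : ∀ x ∈ X, x ^ 2 ∈ M := fun x hx => hF (H3.pow_mem_frattiniOf hX hx)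
  obtain ⟨g, hg, hgc⟩ := SetLike.not_le_iff_exists.1 hMc
  have hgo := odd_orderOf_of_odd_card hH hg
  rcases (hmin M hMX hHM).four_or_q8 (hX.to_le hMX.le) (hHM hg) hgo hgc with hM | ⟨z, hM⟩
  · right; right
    have h1 := H9K.Four.sq_not_mem_of_odd hgo hgc
    have h2 := hM.le_centralizer_of_normalizes' hXM hX (hHM hg) h1 (le_normalizer_of_normal (mem_top g))
    have h3 := (hmax _ (le_inf hMX.le (le_centralizer_iff.1 h2)) inf_le_left le_normalizer_of_normal).resolve_right
      hZ.ne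
    have h4 := (hM.eq_bot_or_eq (hHM hg) h1 hD (le_normalizer_of_normal (mem_top g))).resolve_left hD0
    obtain ⟨h5, h6⟩ := special_of hX h4 hsq h3
    exact ⟨h5, h6.trans hM.card⟩
  haveI := hM.normal
  set π := QuotientGroup.mk' (zpowers z)
  haveI := Normal.map ‹M.Normal› _ (QuotientGroup.mk'_surjective (zpowers z))
  haveI := Normal.map ‹X.Normal› _ (QuotientGroup.mk'_surjective (zpowers z))
  have h1 : π g ∉ centralizer ((M.map π : Subgroup _) : Set (G ⧸ zpowers z)) := fun e => hgc (zpowers_le.1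
    (H1.le_centralizer_of_commutator_le (N := zpowers z)
      (by rw [hM.card_zp, Nat.card_zpowers]; exact Nat.coprime_two_right.2 hgo)
      (H9.commutator_zpowers_le_of_mem_centralizer_map e) (zpowers_le.2 (zpowers_le_centralizer_iff.1
        (zpowers_le.2 (mem_centralizer_zpowers_iff.2 (mul_inv_eq_iff_eq_mul.1 (hM.conj_z (hHM hg)))))))))
  have h2 := hM.four_map.le_centralizer_of_normalizes' le_normalizer_of_normal (hX.map π)
    (le_normalizer_of_normal (mem_top _)) (H9K.Four.sq_not_mem_of_odd (hgo.of_dvd_nat (orderOf_map_dvd π g)) h1)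
    (le_normalizer_of_normal (mem_top _))
  have h3 : M ⊔ (X ⊓ centralizer (M : Set G)) = X := by
    rw [inf_comm, ← H1.sup_inf_of_le_normalizer le_normalizer_of_normal hMX.le]
    exact inf_eq_right.2 fun x hx => hM.mem_of_cent (h2 (mem_map_of_mem π hx))
  by_cases h4 : M.relIndex X = 2
  · exact Or.inr (Or.inl ⟨M, 0, hMX.le, h4, hM.equiv, h3⟩)
  left
  have h5 : 32 ≤ Nat.card X := by
    obtain ⟨n, hn⟩ := hX.exists_card_eq
    have a1 := H3.card_eq_card_mul_relIndex hMX.le
    have a2 : M.relIndex X ≠ 1 := fun e => hMX.not_ge (relIndex_eq_one.1 e)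
    obtain ⟨k, -, hk⟩ := (Nat.dvd_prime_pow Nat.prime_two).1 (hn ▸ Dvd.intro_left _ a1.symm)
    rw [a1, hM.card, hk]
    rw [hk] at a2 h4
    have : 2 ≤ k := by
      by_contra hc
      obtain rfl | rfl : k = 0 ∨ k = 1 := by omega
      exacts [a2 rfl, h4 rfl]
    exact Nat.mul_le_mul_left 8 (Nat.pow_le_pow_right two_pos this)
  have h6 : ∀ x ∈ X, x ^ 2 ∈ zpowers z := fun x hx => by
    obtain ⟨m, hm, c, hc, rfl⟩ := mem_sup_of_normal_left.1 (h3.ge hx)
    rw [(show Commute m c from hc.2 m hm).mul_pow]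
    exact mul_mem (pow_two m ▸ hM.sq_mem hm) (hM.cent ⟨hsq c hc.1, pow_mem hc.2 2⟩)
  have h7 : ⁅X, X⁆ = zpowers z := by
    refine le_antisymm (commutator_le.2 fun x hx y hy => (QuotientGroup.eq_one_iff _).1 ?_) (zpowers_le.2 ?_)
    · change π _ = 1
      rw [map_commutatorElement, commutatorElement_eq_one_iff_mul_comm]
      refine comm_of_sq_eq_one (V := X.map π) ?_ (mem_map_of_mem π hx) (mem_map_of_mem π hy)
      rintro _ ⟨u, hu, rfl⟩
      rw [← map_mul, ← pow_two]
      exact (QuotientGroup.eq_one_iff _).2 (h6 u hu)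
    · obtain ⟨i, hi, hiz⟩ := hM.exists_notMem
      obtain ⟨j, hj, -, -, -, a1, -⟩ := hM.gens hi hiz
      have a2 := commutator_mem_commutator (hMX.le hi) (hMX.le hj)
      rwa [commutatorElement_def, a1, hM.comm hj, mul_inv_cancel_right] at a2
  have h9 : zpowers z ≤ X ⊓ centralizer (X : Set G) := zpowers_le.2 ⟨hMX.le hM.mem, fun x hx =>
    mul_inv_eq_iff_eq_mul.1 (hM.conj_z (hXM hx))⟩
  have h10 : X ⊓ centralizer (X : Set G) = zpowers z := by
    refine le_antisymm ?_ h9
    rcases hmax (M ⊔ (X ⊓ centralizer (X : Set G))) le_sup_left (sup_le hMX.le inf_le_left)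
      le_normalizer_of_normal with e | e
    · exact (le_inf (e ▸ le_sup_right) (inf_le_right.trans (centralizer_le hMX.le))).trans hM.cent
    · exfalso
      have a1 : Nat.card (X ⊓ centralizer (X : Set G) : Subgroup G) ≤ 4 := by
        by_cases hc : IsCyclic (X ⊓ centralizer (X : Set G) : Subgroup G)
        · obtain ⟨a, ha⟩ := (Subgroup.isCyclic_iff_exists_zpowers_eq_top _).1 hc
          rw [← ha, Nat.card_zpowers]
          refine Nat.le_of_dvd (by norm_num) (orderOf_dvd_of_pow_eq_one ?_)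
          have := orderOf_dvd_of_mem_zpowers (h6 a (ha ▸ mem_zpowers a : a ∈ X ⊓ _).1)
          rwa [hM.ord, orderOf_dvd_iff_pow_eq_one, ← pow_mul] at this
        · exact (hZ8.four_of_comm (hX.to_le hZ.le) hZc hc).card.le
      have a2 := H3.card_sup_mul_card_inf (H := M) (N := X ⊓ centralizer (X : Set G)) le_normalizer_of_normal
      have a3 := card_le_of_le (le_inf (zpowers_le.2 hM.mem) h9)
      rw [e, hM.card] at a2
      rw [hM.card_zp] at a3
      nlinarith
  obtain ⟨h11, h12⟩ := special_of hX h7 h6 h10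
  exact ⟨⟨h11, h12.trans hM.card_zp⟩, h5⟩

end Cfsg.Agent.H2.N8
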