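import Mathlib
import Cfsg.Agent.H2.Basic
import Cfsg.Agent.H1.Cores

/-! Normal bases for finite groups acting on semilocal rings with trivial inertia; free modules
for Frobenius complements. -/

set_option autoImplicit false

namespace Cfsg.Agent.H2.NB
open Finset MulAction
open scoped Pointwise commutatorElement

theorem exists_field {G K : Type*} [Group G] [Fintype G] [Field K] [MulSemiringAction G K]
    [FaithfulSMul G K] :
    ∃ β : K, ∀ c : G → K, (∀ τ, ∑ σ, c σ * (σ * τ) • β = 0) → ∀ σ, c σ = 0 := by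
  let b := IsGalois.normalBasis (FixedPoints.subfield G K) K
  refine ⟨b 1, fun c hc => ?_⟩
  have h1 : ∑ σ, c σ • (MulSemiringAction.toAlgHom (FixedPoints.subfield G K) K σ).toLinearMap
      = 0 := by
    refine b.ext fun e => ?_
    obtain ⟨τ, rfl⟩ := FixedPoints.toAlgAut_surjective G K e
    rw [IsGalois.normalBasis_apply, LinearMap.zero_apply, ← hc τ, LinearMap.sum_apply]
    exact sum_congr rfl fun σ _ => by rw [mul_smul]; rfl
  have h2 := (linearIndependent_algHom_toLinearMap (FixedPoints.subfield G K) K K).comp _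
    (FixedPoints.toAlgHom_bijective G K).1
  exact Fintype.linearIndependent_iff.1 h2 c h1

theorem exists_mod {H R : Type*} [Group H] [Fintype H] [CommRing R] [MulSemiringAction H R]
    (m : Ideal R) [m.IsMaximal] (hin : ∀ h : H, h ≠ 1 → ∃ r : R, h • r - r ∉ m) :
    ∃ β : R, ∀ α : R, α - β ∈ m → (∀ t : H, t • m ≠ m → α ∈ t • m) →
      ∀ c : H → R, (∀ h, ∑ g, c g * (g * h) • α ∈ m) → ∀ g, c g ∈ m := by
  classical
  letI := Ideal.Quotient.field m
  let φ := Ideal.Quotient.stabilizerHom m (m.under ℤ) H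
  letI : MulSemiringAction (stabilizer H m) (R ⧸ m) := MulSemiringAction.compHom _ φ
  have hφ : ∀ (g : stabilizer H m) (r : R), g • (r : R ⧸ m) = ((g : H) • r : R) := fun g r => rfl
  haveI : FaithfulSMul (stabilizer H m) (R ⧸ m) := ⟨fun {a b} h => by
    by_contra hab
    obtain ⟨r, hr⟩ := hin ((b : H)⁻¹ * a) fun e => hab (Subtype.ext (inv_mul_eq_one.1 e).symm)
    refine hr (Ideal.Quotient.eq.1 ?_)
    have := congrArg (b⁻¹ • ·) (h r)
    simp only [← mul_smul, inv_mul_cancel, one_smul] at this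
    exact this⟩
  obtain ⟨β, hβ⟩ := exists_field (G := stabilizer H m) (K := R ⧸ m)
  obtain ⟨β, rfl⟩ := Ideal.Quotient.mk_surjective β
  refine ⟨β, fun α h1 h2 c hc g => ?_⟩
  have := hβ (fun σ => (c (σ * g) : R ⧸ m)) (fun τ => ?_) 1
  · simpa [Ideal.Quotient.eq_zero_iff_mem] using this
  have h3 := Ideal.Quotient.eq_zero_iff_mem.2 (hc (g⁻¹ * τ))
  rw [← Equiv.sum_comp (Equiv.mulRight g), map_sum,
    ← sum_subset (subset_univ (univ.filter (· ∈ stabilizer H m))), sum_subtype (p := (· ∈ stabilizer H m))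
    (F := inferInstance) _ (by simp)] at h3
  · rw [← h3, ← Ideal.Quotient.eq.2 h1]
    refine sum_congr rfl fun σ _ => ?_
    simp only [Equiv.coe_mulRight, mul_assoc, mul_inv_cancel_left, map_mul]
    rfl
  · intro σ _ hσ
    simp only [Equiv.coe_mulRight, mul_assoc, mul_inv_cancel_left]
    rw [Ideal.Quotient.eq_zero_iff_mem]
    refine m.mul_mem_left _ (Ideal.mem_inv_pointwise_smul_iff.1 (h2 _ fun e => hσ ?_))
    have : σ * τ ∈ stabilizer H m := by simpa using inv_mem (show _ ∈ stabilizer H m from e)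
    simpa using mul_mem this (inv_mem τ.2)

theorem exists_ring {H R : Type*} [Group H] [Fintype H] [DecidableEq H] [CommRing R]
    [MulSemiringAction H R] [Finite (MaximalSpectrum R)]
    (hin : ∀ m : Ideal R, m.IsMaximal → ∀ h : H, h ≠ 1 → ∃ r : R, h • r - r ∉ m) :
    ∃ α : R, IsUnit (Matrix.of fun g h : H => (g * h) • α) := by
  classical
  have hmax : ∀ (t : H) (m : Ideal R), m.IsMaximal → (t • m).IsMaximal := fun t m hm =>
    Ideal.IsMaximal.map_bijective (MulSemiringAction.toRingHom H R t) (MulAction.bijective t) hm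
  choose β hβ using fun m : MaximalSpectrum R => exists_mod m.1 (hin m.1 m.2)
  let rep : Ideal R → Ideal R := fun m => (Quotient.mk (orbitRel H (Ideal R)) m).out
  have hrep : ∀ m, ∃ t : H, m = t • rep m := fun m => by
    obtain ⟨t, ht⟩ : m ∈ orbit H (rep m) :=
      orbitRel_apply.1 (Quotient.exact (Quotient.out_eq (Quotient.mk (orbitRel H (Ideal R)) m)).symm)
    exact ⟨t, ht.symm⟩
  have hrep' : ∀ (t : H) m, rep (t • m) = rep m := fun t m =>
    congrArg Quotient.out (Quotient.sound (orbitRel_apply.2 (mem_orbit m t)))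
  obtain ⟨α, hα⟩ := Ideal.exists_forall_sub_mem_ideal (I := fun m : MaximalSpectrum R => m.1)
    (fun a b hab => Ideal.isCoprime_iff_sup_eq.2 (a.2.coprime_of_ne b.2 fun e =>
      hab (MaximalSpectrum.ext e))) fun m => if rep m.1 = m.1 then β m else 0
  refine ⟨α, (Matrix.isUnit_iff_isUnit_det _).2 (by_contra fun hn => ?_)⟩
  obtain ⟨m, hm, hd⟩ := exists_max_ideal_of_mem_nonunits hn
  obtain ⟨t, ht⟩ := hrep m
  have hm0 : (rep m).IsMaximal := by
    have := hmax t⁻¹ m hm
    rwa [ht, inv_smul_smul] at this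
  have e0 : rep (rep m) = rep m := by
    conv_rhs => rw [ht, hrep']
  have k := hβ ⟨rep m, hm0⟩ α (by simpa [e0] using hα ⟨rep m, hm0⟩) (fun s hs => by
    have := hα ⟨s • rep m, hmax s _ hm0⟩
    simp only [hrep', e0] at this
    rwa [if_neg hs.symm, sub_zero] at this)
  letI := Ideal.Quotient.field m
  rw [← Ideal.Quotient.eq_zero_iff_mem, RingHom.map_det, ← Matrix.exists_vecMul_eq_zero_iff] at hd
  obtain ⟨c, hc0, hc⟩ := hd
  choose c' hc' using fun g => Ideal.Quotient.mk_surjective (c g)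
  refine hc0 (funext fun g => ?_)
  have := k (fun g => t⁻¹ • c' (t * g)) (fun h => ?_) (t⁻¹ * g)
  · rw [← hc', Pi.zero_apply, Ideal.Quotient.eq_zero_iff_mem, ht,
      Ideal.mem_pointwise_smul_iff_inv_smul_mem]
    simpa using this
  have h1 : ∑ g, c' g * (g * h) • α ∈ m := by
    rw [← Ideal.Quotient.eq_zero_iff_mem, ← Pi.zero_apply (M := fun _ : H => R ⧸ m) h, ← hc]
    simp [Matrix.vecMul, dotProduct, hc']
  rw [ht, Ideal.mem_pointwise_smul_iff_inv_smul_mem, ← Equiv.sum_comp (Equiv.mulLeft t),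
    smul_sum] at h1
  simpa [← mul_smul, mul_assoc] using h1

theorem free_of_unit {H R V : Type*} [Group H] [Fintype H] [DecidableEq H] [CommRing R]
    [MulSemiringAction H R] [AddCommGroup V] [Module R V] [DistribMulAction H V]
    (hs : ∀ (h : H) (r : R) (v : V), h • r • v = (h • r) • h • v) {α : R}
    (hα : IsUnit (Matrix.of fun g h : H => (g * h) • α)) :
    (∀ x : H → V, (∀ (g : H) h, g • x h = x h) → ∑ h, h • α • x h = 0 → ∀ h, x h = 0) ∧
      ∀ v : V, ∃ x : H → V, (∀ (g : H) h, g • x h = x h) ∧ ∑ h, h • α • x h = v := by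
  obtain ⟨⟨M, N, h1, h2⟩, hM⟩ := hα
  have hM' : ∀ g h, M g h = (g * h) • α := fun g h => congrFun (congrFun hM g) h
  have k : ∀ (P Q : Matrix H H R) (x : H → V) (g : H),
      ∑ h, (P * Q) g h • x h = ∑ t, P g t • ∑ h, Q t h • x h := fun P Q x g => by
    simp only [Matrix.mul_apply, sum_smul, smul_sum, mul_smul]
    exact sum_comm
  have k1 : ∀ (x : H → V) (g : H), ∑ h, (1 : Matrix H H R) g h • x h = x g := fun x g => by
    simp [Matrix.one_apply]
  have inj : ∀ x : H → V, (∀ g, ∑ h, M g h • x h = 0) → ∀ h, x h = 0 := fun x hx g => by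
    rw [← k1 x g, ← h2, k]
    simp [hx]
  have k2 : ∀ (x : H → V) (t g : H), t • ∑ h, M g h • x h = ∑ h, M (t * g) h • t • x h :=
    fun x t g => by simp only [smul_sum, hs, hM', ← mul_smul, mul_assoc]
  refine ⟨fun x hx h0 => inj x fun g => ?_, fun v => ?_⟩
  · have := k2 x g 1
    simp only [hx, mul_one] at this
    rw [← this, ← smul_zero g, ← h0]
    simp only [hM', one_mul, hs, hx]
  · let x : H → V := fun h => ∑ g, N h g • g • v
    have hx : ∀ g, ∑ h, M g h • x h = g • v := fun g => by rw [← k, h1, k1 fun g => g • v]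
    have hf : ∀ (t : H) h, t • x h = x h := fun t h => by
      refine sub_eq_zero.1 (inj (fun h => t • x h - x h) (fun g => ?_) h)
      have := k2 x t (t⁻¹ * g)
      rw [hx, mul_inv_cancel_left, ← mul_smul, mul_inv_cancel_left] at this
      simp only [smul_sub, sum_sub_distrib, ← this, hx, sub_self]
    refine ⟨x, hf, ?_⟩
    have := hx 1
    simp only [hM', one_mul, one_smul] at this
    simp only [hs, hf, this]

universe u
variable {k A : Type*} [Field k] [Group A]

/-- `V` is a free module for `H`. -/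
def Free {V : Type*} [AddCommGroup V] [Module k V] (ρ : Representation k A V) (H : Subgroup A)
    [Fintype H] : Prop :=
  ∃ W : Submodule k V, (∀ w : H → V, (∀ h, w h ∈ W) → ∑ h : H, ρ h (w h) = 0 → ∀ h, w h = 0) ∧
    ∀ v, ∃ w : H → V, (∀ h, w h ∈ W) ∧ ∑ h : H, ρ h (w h) = v

theorem free_ab {V : Type*} [AddCommGroup V] [Module k V] [FiniteDimensional k V]
    (ρ : Representation k A V) (H : Subgroup A) [Fintype H] (Z : Subgroup A) [hZ : Z.Normal]
    [Fintype Z] (hc : ∀ a ∈ Z, ∀ b ∈ Z, ρ a * ρ b = ρ b * ρ a) (hk : (Nat.card Z : k) ≠ 0)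
    (hr : ∀ h ∈ H, h ≠ 1 → ∀ z ∈ Z, h * z = z * h → z = 1) (h0 : ∑ z : Z, ρ z = 0) :
    Free ρ H := by
  classical
  let C := Subalgebra.centralizer k (ρ '' (Z : Set A))
  let R := Subalgebra.centralizer k (C : Set (Module.End k V))
  have hZR : ∀ z ∈ Z, ρ z ∈ R := fun z hz c hc' => (hc' _ ⟨z, hz, rfl⟩).symm
  have hZC : ∀ z ∈ Z, ρ z ∈ C := by rintro z hz _ ⟨y, hy, rfl⟩; exact hc y hy z hz
  have hRC : R ≤ C := by rintro r hr _ ⟨z, hz, rfl⟩; exact hr _ (hZC z hz)
  letI : CommRing R := { (inferInstance : Ring R) with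
    mul_comm := fun a b => Subtype.ext (b.2 _ (hRC a.2)) }
  have e1 : ∀ a : A, ρ a * ρ a⁻¹ = 1 := fun a => by rw [← map_mul, mul_inv_cancel, map_one]
  have e2 : ∀ a : A, ρ a⁻¹ * ρ a = 1 := fun a => by rw [← map_mul, inv_mul_cancel, map_one]
  have hC : ∀ a : A, ∀ c ∈ C, ρ a * c * ρ a⁻¹ ∈ C := by
    rintro a c hc' _ ⟨z, hz, rfl⟩
    have := hc' _ ⟨_, hZ.conj_mem z hz a⁻¹, rfl⟩
    rw [inv_inv, map_mul, map_mul] at this
    calc _ = ρ a * (ρ a⁻¹ * ρ z * ρ a * c) * ρ a⁻¹ := by
          simp only [← mul_assoc, e1, one_mul]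
      _ = _ := by rw [this]; simp only [mul_assoc, e1, mul_one]
  have hR : ∀ a : A, ∀ r ∈ R, ρ a * r * ρ a⁻¹ ∈ R := by
    intro a r hr c hc'
    have := hr _ (hC a⁻¹ c hc')
    rw [inv_inv] at this
    calc _ = ρ a * (ρ a⁻¹ * c * ρ a * r) * ρ a⁻¹ := by
          simp only [← mul_assoc, e1, one_mul]
      _ = _ := by rw [this]; simp only [mul_assoc, e1, mul_one]
  letI : MulSemiringAction H R :=
    { smul := fun h r => ⟨ρ h * r * ρ (h : A)⁻¹, hR h r r.2⟩
      one_smul := fun r => Subtype.ext (by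
        change ρ 1 * _ * ρ 1⁻¹ = _
        simp)
      mul_smul := fun a b r => Subtype.ext (by
        change ρ (a * b) * _ * ρ (a * b : A)⁻¹ = ρ a * (ρ b * _ * ρ (b : A)⁻¹) * ρ (a : A)⁻¹
        simp only [mul_inv_rev, map_mul, mul_assoc])
      smul_zero := fun a => Subtype.ext (by
        change ρ a * 0 * _ = 0
        simp)
      smul_add := fun a r s => Subtype.ext (by
        change ρ a * (r + s) * _ = ρ a * r * _ + ρ a * s * _
        rw [mul_add, add_mul])
      smul_one := fun a => Subtype.ext (by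
        change ρ a * 1 * _ = 1
        rw [mul_one, e1])
      smul_mul := fun a r s => Subtype.ext (by
        change ρ a * (r * s) * _ = ρ a * r * ρ (a : A)⁻¹ * (ρ a * s * _)
        simp only [mul_assoc]
        rw [← mul_assoc (ρ (a : A)⁻¹), e2, one_mul]) }
  letI : DistribMulAction H V := DistribMulAction.compHom V (ρ.comp H.subtype)
  haveI : IsArtinianRing R := IsArtinianRing.of_finite k R
  obtain ⟨α, hα⟩ := exists_ring (H := H) (R := R) fun m hm h h1 => by
    by_contra hn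
    push Not at hn
    let ι : Z → R := fun z => ⟨ρ z, hZR z z.2⟩
    let f : Z → Z := fun z => ⟨h * z * (h : A)⁻¹ * (z : A)⁻¹, mul_mem (hZ.conj_mem _ z.2 h) (inv_mem z.2)⟩
    have hf : Function.Injective f := fun a b e => by
      have e' : (h : A) * a * (h : A)⁻¹ * (a : A)⁻¹ = h * b * (h : A)⁻¹ * (b : A)⁻¹ :=
        congrArg Subtype.val e
      have := hr h h.2 (fun e => h1 (Subtype.ext e)) ((b : A)⁻¹ * a) (mul_mem (inv_mem b.2) a.2) (by
        calc _ = (h * (b : A)⁻¹ * (h : A)⁻¹) * (h * a * (h : A)⁻¹ * (a : A)⁻¹) * a * h := by group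
          _ = _ := by rw [e']; group)
      exact Subtype.ext (inv_mul_eq_one.1 this).symm
    have h2 : ∀ z, ι z - 1 ∈ m := fun z => by
      obtain ⟨y, rfl⟩ := Finite.surjective_of_injective hf z
      have := m.mul_mem_right (ι y⁻¹) (hn (ι y))
      convert this using 1
      refine Subtype.ext ?_
      change ρ (_ * _ * _ * _) - 1 = (ρ h * ρ y * ρ (h : A)⁻¹ - ρ y) * ρ (y : A)⁻¹
      rw [sub_mul, e1]; simp only [map_mul]
    have h3 := m.sum_mem (t := univ) fun z _ => h2 z
    have h4 : ∑ z, ι z = 0 := Subtype.ext (by rw [AddSubmonoidClass.coe_finset_sum]; exact h0)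
    rw [sum_sub_distrib, h4, zero_sub, neg_mem_iff, sum_const, card_univ, nsmul_one,
      ← Nat.card_eq_fintype_card, ← map_natCast (algebraMap k R)] at h3
    exact hm.ne_top (m.eq_top_of_isUnit_mem h3 ((IsUnit.mk0 _ hk).map _))
  obtain ⟨a1, a2⟩ := free_of_unit (V := V) (fun h r v => by
    change ρ h ((r : Module.End k V) v) = (ρ h * r * ρ (h : A)⁻¹) (ρ h v)
    rw [Module.End.mul_apply, ← Module.End.mul_apply (ρ (h : A)⁻¹), e2]; rfl) hα
  refine ⟨(⨅ g : H, LinearMap.eqLocus (ρ g) LinearMap.id).map (α : Module.End k V),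
    fun w hw e => ?_, fun v => ?_⟩
  · choose x hx hx' using hw
    intro h
    rw [← hx', a1 x (fun g h => (Submodule.mem_iInf _).1 (hx h) g) (by simp only [← hx'] at e; exact e),
      map_zero]
  · obtain ⟨x, hx, e⟩ := a2 v
    exact ⟨fun h => α • x h, fun h => ⟨x h, (Submodule.mem_iInf _).2 fun g => hx g h, rfl⟩, e⟩

theorem Free.sum {V : Type*} [AddCommGroup V] [Module k V] {ρ : Representation k A V}
    {H : Subgroup A} [Fintype H] {U U' : Submodule k V} (hU : ∀ g, U ≤ U.comap (ρ g))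
    (hU' : ∀ g, U' ≤ U'.comap (ρ g)) (hc : IsCompl U U') (h : Free (ρ.subrepresentation U hU) H)
    (h' : Free (ρ.subrepresentation U' hU') H) : Free ρ H := by
  obtain ⟨W, a1, a2⟩ := h
  obtain ⟨W', b1, b2⟩ := h'
  refine ⟨W.map U.subtype ⊔ W'.map U'.subtype, fun w hw e => ?_, fun v => ?_⟩
  · simp only [Submodule.mem_sup, Submodule.mem_map] at hw
    choose y hy y' hy' e' using hw
    choose x hx hxy using hy
    choose x' hx' hxy' using hy'
    have k : ((∑ h : H, ρ.subrepresentation U hU h (x h) : U) : V) +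
        (∑ h : H, ρ.subrepresentation U' hU' h (x' h) : U') = 0 := by
      rw [← e, Submodule.coe_sum, Submodule.coe_sum, ← sum_add_distrib]
      refine sum_congr rfl fun h _ => ?_
      rw [← e', ← hxy, ← hxy', map_add]; rfl
    have k1 := (Submodule.disjoint_iff_add_eq_zero.1 hc.disjoint) (Subtype.coe_prop _)
      (Subtype.coe_prop _) k
    intro h
    rw [← e', ← hxy, ← hxy', a1 x hx (Subtype.ext k1.1), b1 x' hx' (Subtype.ext k1.2)]; simp
  · obtain ⟨u, hu, u', hu', rfl⟩ := Submodule.mem_sup.1 (hc.sup_eq_top.ge (Submodule.mem_top (x := v)))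
    obtain ⟨x, hx, e⟩ := a2 ⟨u, hu⟩
    obtain ⟨x', hx', e'⟩ := b2 ⟨u', hu'⟩
    refine ⟨fun h => x h + x' h, fun h => Submodule.add_mem_sup ⟨_, hx h, rfl⟩ ⟨_, hx' h, rfl⟩, ?_⟩
    have a := congrArg Subtype.val e
    have b := congrArg Subtype.val e'
    rw [Submodule.coe_sum] at a b
    simp only [map_add, sum_add_distrib]
    exact congrArg₂ (· + ·) a b

theorem free_nil [Finite A] (H : Subgroup A) [Fintype H] (F : Subgroup A) [hF : F.Normal]
    (hn : Group.IsNilpotent F) (hk : (Nat.card F : k) ≠ 0)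
    (hr : ∀ h ∈ H, h ≠ 1 → ∀ z ∈ F, h * z = z * h → z = 1) (n : ℕ) :
    ∀ (V : Type u) [AddCommGroup V] [Module k V] [FiniteDimensional k V]
    (ρ : Representation k A V), Module.finrank k V = n → (∀ v, (∀ f ∈ F, ρ f v = v) → v = 0) →
    Free ρ H := by
  induction n using Nat.strong_induction_on with
  | _ n ih =>
  intro V _ _ _ ρ hV h0
  classical
  by_cases hker : F ≤ ρ.ker
  · have : ∀ v : V, v = 0 := fun v => h0 v fun f hf => by rw [hker hf]; rfl
    exact ⟨⊥, fun w _ _ h => this _, fun v => ⟨0, fun _ => zero_mem _, by rw [this v, this (∑ _, _)]⟩⟩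
  have hex : ∃ i, F.lowerCentralSeries i ≤ ρ.ker := by
    obtain ⟨i, hi⟩ := (Subgroup.isNilpotent_iff_lowerCentralSeries F).1 hn
    exact ⟨i, hi ▸ bot_le⟩
  obtain ⟨i, hi⟩ := Nat.exists_eq_succ_of_ne_zero (n := Nat.find hex) fun e =>
    hker (by simpa [e] using Nat.find_spec hex)
  have h1 := Nat.find_spec hex
  have h2 := Nat.find_min hex (m := i) (by omega)
  rw [hi] at h1
  have hZn : ∀ j, (F.lowerCentralSeries j).Normal := fun j => by
    induction j with
    | zero => exact hF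
    | succ j ih => exact Subgroup.commutator_normal _ _
  set Z := F.lowerCentralSeries i
  have hZ := hZn i
  have hZF : Z ≤ F := F.lowerCentralSeries_antitone i.zero_le
  have := Fintype.ofFinite Z
  have hkZ : (Nat.card Z : k) ≠ 0 := fun e => hk (by
    obtain ⟨c, hc⟩ := Subgroup.card_dvd_of_le hZF
    rw [hc, Nat.cast_mul, e, zero_mul])
  set π := ∑ z : Z, ρ z
  have p1 : ∀ g, ρ g * π = π * ρ g := fun g => by
    rw [mul_sum, sum_mul, ← (MulAut.conjNormal g (H := Z)).toEquiv.sum_comp fun z => ρ z * ρ g]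
    exact sum_congr rfl fun z _ => by simp [← map_mul]
  have p2 : ∀ z ∈ Z, ρ z * π = π := fun z hz => by
    rw [mul_sum]
    exact (sum_congr rfl fun z _ => by simp [← map_mul]).trans
      (Equiv.sum_comp (Equiv.mulLeft (⟨z, hz⟩ : Z)) fun z : Z => ρ z)
  have p3 : ∀ v, π (π v) = (Nat.card Z : k) • π v := fun v => by
    rw [LinearMap.sum_apply _ _ (π v), sum_congr rfl fun (z : Z) _ =>
      show ρ z (π v) = π v from LinearMap.congr_fun (p2 z z.2) v]
    simp [Nat.cast_smul_eq_nsmul]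
  have hU : ∀ g, LinearMap.range π ≤ (LinearMap.range π).comap (ρ g) := by
    rintro g _ ⟨v, rfl⟩
    exact ⟨ρ g v, (LinearMap.congr_fun (p1 g) v).symm⟩
  have hU' : ∀ g, LinearMap.ker π ≤ (LinearMap.ker π).comap (ρ g) := fun g v hv => by
    have := LinearMap.congr_fun (p1 g) v
    simp only [Module.End.mul_apply, LinearMap.mem_ker.1 hv, map_zero] at this
    exact this.symm
  refine Free.sum hU hU' ⟨Submodule.disjoint_def.2 ?_, codisjoint_iff.2 (eq_top_iff.2 fun v _ => ?_)⟩
    (ih _ ?_ _ _ rfl fun v hv => Subtype.ext (h0 _ fun f hf => congrArg Subtype.val (hv f hf)))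
    (free_ab _ H Z (fun a ha b hb => ?_) hkZ (fun h hh h1 z hz => hr h hh h1 z (hZF hz)) ?_)
  · rintro _ ⟨v, rfl⟩ hv
    exact (smul_eq_zero.1 ((p3 v).symm.trans hv)).resolve_left hkZ
  · rw [← add_sub_cancel (π ((Nat.card Z : k)⁻¹ • v)) v]
    refine Submodule.add_mem_sup ⟨_, rfl⟩ ?_
    rw [LinearMap.mem_ker, map_sub, p3, map_smul, smul_inv_smul₀ hkZ, sub_self]
  · rw [← hV]
    refine Submodule.finrank_lt fun e => h2 fun z hz => LinearMap.ext fun v => ?_
    obtain ⟨u, rfl⟩ := LinearMap.range_eq_top.1 e v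
    exact LinearMap.congr_fun (p2 z hz) u
  · have : ρ ⁅a, b⁆ = 1 := h1 (Subgroup.commutator_mem_commutator ha (hZF hb))
    have e : ρ (a * b) = ρ (b * a) := by
      rw [show a * b = ⁅a, b⁆ * (b * a) by group, map_mul, this, one_mul]
    rw [← map_mul, ← map_mul]
    exact LinearMap.ext fun v => Subtype.ext (LinearMap.congr_fun e v)
  · refine LinearMap.ext fun v => Subtype.ext ?_
    rw [LinearMap.sum_apply, Submodule.coe_sum]
    exact (LinearMap.sum_apply univ (fun z : Z => ρ z) (v : V)).symm.trans v.2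

/-- A finite `p`-group has a non-zero fixed vector in characteristic `p`. -/
theorem exists_fixed {V : Type*} [AddCommGroup V] [Module k V] (ρ : Representation k A V)
    {p : ℕ} [hp : Fact p.Prime] [CharP k p] (P : Subgroup A) [Finite P] (hP : IsPGroup p P)
    (U : Submodule k V) (hU : ∀ g ∈ P, ∀ v ∈ U, ρ g v ∈ U) {v : V} (hv : v ∈ U) (h0 : v ≠ 0) :
    ∃ u ∈ U, u ≠ 0 ∧ ∀ g ∈ P, ρ g u = u := by
  letI : Algebra (ZMod p) k := ZMod.algebra k p
  letI : Module (ZMod p) V := Module.compHom V (algebraMap (ZMod p) k)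
  let T := Submodule.span (ZMod p) (Set.range fun g : P => ρ g v)
  haveI : Module.Finite (ZMod p) T := Module.Finite.span_of_finite _ (Set.finite_range _)
  haveI : Finite T := Module.finite_of_finite (ZMod p)
  have hT : ∀ g : P, ∀ t ∈ T, ρ g t ∈ T ∧ t ∈ U := fun g t ht => by
    induction ht using Submodule.span_induction with
    | mem _ h =>
      obtain ⟨a, rfl⟩ := h
      exact ⟨Submodule.subset_span ⟨g * a, by simp⟩, hU a a.2 v hv⟩
    | zero => simp
    | add a b _ _ ha hb => rw [map_add]; exact ⟨add_mem ha.1 hb.1, add_mem ha.2 hb.2⟩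
    | smul c a _ ha =>
      exact ⟨(map_smul (ρ g) (algebraMap (ZMod p) k c) a).symm ▸ T.smul_mem c ha.1,
        U.smul_mem (algebraMap (ZMod p) k c) ha.2⟩
  letI : MulAction P T :=
    { smul := fun g t => ⟨ρ g t, (hT g t t.2).1⟩
      one_smul := fun t => Subtype.ext (by change ρ 1 _ = _; simp)
      mul_smul := fun a b t => Subtype.ext (by change ρ (a * b) _ = ρ a (ρ b _); simp) }
  have hv' : v ∈ T := Submodule.subset_span ⟨1, by simp⟩
  haveI : Nontrivial T := ⟨⟨⟨v, hv'⟩, 0, fun e => h0 (congrArg Subtype.val e)⟩⟩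
  obtain ⟨u, hu, hu0⟩ := hP.exists_fixed_point_of_prime_dvd_card_of_fixed_point T (a := 0) (by
    rw [Module.natCard_eq_pow_finrank (K := ZMod p), Nat.card_zmod]
    exact dvd_pow_self p Module.finrank_pos.ne') fun g => Subtype.ext (map_zero (ρ g))
  exact ⟨u, (hT 1 u u.2).2, fun e => hu0 (Subtype.ext e.symm),
    fun g hg => congrArg Subtype.val (hu ⟨g, hg⟩)⟩

end Cfsg.Agent.H2.NB
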