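import Mathlib
import Cfsg.Agent.H2.St2

/-! The projective plane of order 4: uniqueness, quadrangles, hyperovals. -/

namespace Cfsg.Agent.H2.St

open Cfsg Finset H16
open scoped Classical

/-- number of `r`-sets below `n` passing a test -/
noncomputable def subC (f : ℕ → Bool) (n : ℕ) : ℕ → ℕ → ℕ :=
  Nat.rec (fun r a => ifB (Nat.beq r 0) (ifB (f a) 1 0) 0)
    (fun i ih r a => ifB (Nat.beq r 0) (ifB (f a) 1 0)
      (Nat.add (ih r a) (force (Nat.lor a (bit i)) (ih (Nat.pred r))))) n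

theorem subC_eq {f : ℕ → Bool} {P : Finset ℕ → Prop}
    (hP : ∀ c u, (∀ j, c.testBit j = true ↔ j ∈ u) → (f c = true ↔ P u)) (n : ℕ) : ∀ r a A,
    (∀ j, a.testBit j = true ↔ j ∈ A) → subC f n r a = #{u ∈ powersetCard r (range n) | P (u ∪ A)} := by
  have h0 : ∀ s a A, (∀ j, a.testBit j = true ↔ j ∈ A) →
      ifB (f a) 1 0 = #{u ∈ powersetCard 0 s | P (u ∪ A)} := fun s a A h => by
    rw [ifB_eq, powersetCard_zero, filter_singleton, empty_union, if_congr (hP a A h) rfl rfl]
    split_ifs <;> rfl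
  induction n with
  | zero =>
    intro r a A hA
    refine (ifB_eq _ _ _).trans ?_
    cases r with
    | zero => exact h0 _ a A hA
    | succ r => rw [powersetCard_eq_empty.2 (by simp)]; rfl
  | succ n ih =>
    intro r a A hA
    refine (ifB_eq _ _ _).trans ?_
    cases r with
    | zero => exact h0 _ a A hA
    | succ r =>
      have h : ∀ u ∈ powersetCard r (range n), n ∉ u := fun u hu h => by simpa using (mem_powersetCard.1 hu).1 h
      rw [if_neg (by simp), range_add_one, powersetCard_succ_insert notMem_range_self, filter_union,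
        card_union_of_disjoint, filter_image, card_image_of_injOn, force_eq, ← ih _ _ _ hA]
      · simp only [insert_union, ← union_insert]
        exact congrArg _ (ih _ _ _ fun j => by simp [Nat.lor_eq, testBit_bit, hA, or_comm])
      · exact fun u hu v hv e => by
          rw [← erase_insert (h u (mem_filter.1 hu).1), e, erase_insert (h v (mem_filter.1 hv).1)]
      · refine disjoint_left.2 fun u hu hu' => ?_
        obtain ⟨v, -, rfl⟩ := mem_image.1 (mem_filter.1 hu').1
        simpa using (mem_powersetCard.1 (mem_filter.1 hu).1).1 (mem_insert_self n v)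

theorem exists_fs {n : ℕ} (s : Finset (Fin n)) : ∃ m < 2 ^ n, fs n m = s := by
  induction s using Finset.induction_on with
  | empty => exact ⟨0, Nat.two_pow_pos _, fs_zero⟩
  | insert p s _ ih =>
    obtain ⟨m, hm, rfl⟩ := ih
    exact ⟨bit p ||| m, Nat.or_lt_two_pow ((bit_eq _).trans_lt (Nat.pow_lt_pow_right one_lt_two p.2)) hm,
      by ext; simp [testBit_bit, Fin.val_inj]⟩

theorem ncard_subC {n r : ℕ} {f : ℕ → Bool} {Q : Finset (Fin n) → Prop}
    (h : ∀ m < 2 ^ n, f m = true ↔ Q (fs n m)) : {s | #s = r ∧ Q s}.ncard = subC f n r 0 := by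
  rw [subC_eq (P := fun u => ∃ c, (∀ j, c.testBit j = true ↔ j ∈ u) ∧ f c = true) (fun c u hc =>
    ⟨fun h => ⟨c, hc, h⟩, fun ⟨d, hd, h⟩ => Nat.eq_of_testBit_eq (x := d) (y := c)
      (fun j => Bool.eq_iff_iff.2 ((hd j).trans (hc j).symm)) ▸ h⟩) n r 0 ∅ (by simp), ← Set.ncard_coe_finset,
    ← Set.ncard_image_of_injective _ (map_injective Fin.valEmbedding)]
  have h1 : ∀ m < 2 ^ n, ∀ j, m.testBit j = true ↔ j ∈ (fs n m).map Fin.valEmbedding := fun m hm j =>
    ⟨fun hj => mem_map.2 ⟨⟨j, lt_of_testBit hm hj⟩, mem_fs.2 hj, rfl⟩, fun hj => by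
      obtain ⟨i, hi, rfl⟩ := mem_map.1 hj
      exact mem_fs.1 hi⟩
  congr 1; ext u
  simp only [Set.mem_image, Set.mem_setOf_eq, coe_filter, mem_powersetCard, union_empty]
  constructor
  · rintro ⟨s, ⟨h2, h3⟩, rfl⟩
    obtain ⟨m, hm, rfl⟩ := exists_fs s
    exact ⟨⟨fun j hj => mem_range.2 (lt_of_testBit hm ((h1 m hm j).2 hj)), by rwa [card_map]⟩, m, h1 m hm,
      (h m hm).2 h3⟩
  · rintro ⟨⟨h2, h3⟩, m, h4, h5⟩
    have hm : m < 2 ^ n := lt_two_pow_of_bits fun j hj => mem_range.1 (h2 ((h4 j).1 hj))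
    obtain rfl : u = (fs n m).map Fin.valEmbedding := Finset.ext fun j => (h4 j).symm.trans (h1 m hm j)
    exact ⟨_, ⟨by rwa [card_map] at h3, (h m hm).1 h5⟩, rfl⟩

noncomputable def p21a : Pr := ⟨21, 2, 5, 0, false, fun _ => true, okI 34, p21.gens⟩
noncomputable def p21b : Pr := ⟨21, 2, 5, 4, false, okI 7 15, okI 34, p21.gens⟩

def c21a : T := (.br 3 [98, 131, 164, 197, 230, 263, 296, 329, 362, 395, 428, 461, 494, 527, 560, 593, 626, 659] (.cons 31 (.br 33 [230, 263, 296, 329, 362, 395, 428,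
  461, 494, 527, 560, 593, 626, 659] (.cons 481 (.br 34 [329, 362, 395, 428, 461, 494, 527, 560, 593, 626, 659] (.cons 3618 (.br 68 [329, 362, 428, 461,
  494, 527, 560, 593, 626, 659] (.cons 12868 (.br 1025 [428, 494, 527, 560, 593, 626, 659] (.cons 54273 (.br 66 [494, 560, 593, 626, 659] (.cons 213058
  (.br 1028 [263, 560, 626, 659] (.cons 328836 (.br 1088 [131] (.cons 1573960 (.br 513 [659] (.cons 918017 (.br 2049 [] (.cons 1124353 (.br 130 []
  (.cons 565378 (.br 258 [] (.cons 1315074 (.br 36 [] (.cons 1212452 (.br 260 [] (.cons 542980 (.br 40 [] (.cons 286760 (.br 136 [] (.cons 137352 (.br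
  264 [] (.cons 99080 (.br 48 [] (.cons 593968 (.br 80 [] (.cons 297040 (.br 144 [] (.cons 1065616 (.br 272 [] (.cons 140560 (.leaf
  24809994732359251193627652166688 0) .nil)) .nil)) .nil)) .nil)) .nil)) .nil)) .nil)) .nil)) .nil)) .nil)) .nil)) .nil)) .nil)) .nil)) .nil)) .nil))
  .nil)) .nil)) .nil)) .nil)) .nil))

def c21b : T := (.br 3 [164, 197, 230, 263, 296, 329, 362, 395, 428, 461, 494, 527, 560, 593, 626, 659] (.cons 115 (.br 5 [263, 296, 329, 362, 395, 428, 461, 494,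
  527, 560, 593, 626, 659] (.cons 901 (.br 9 [362, 395, 428, 461, 494, 527, 560, 593, 626, 659] (.cons 7177 (.br 6 [362, 395, 461, 494, 527, 560, 593,
  626, 659] (.cons 25606 (.br 8200 [164, 197, 263, 296, 527, 560, 593, 626, 659] (.cons 41112 (.br 10 [296, 560, 593, 626, 659] (.cons 196874 (.br 20
  [395, 560, 626, 659] (.cons 329748 (.br 12 [197] (.cons 1572908 (.br 8193 [659] (.cons 925697 (.br 16385 [] (.cons 1163265 (.br 130 [] (.cons 1314946
  (.br 514 [] (.cons 559618 (.br 68 [] (.cons 168004 (.br 72 [] (.cons 279112 (.br 272 [] (.cons 545040 (.br 528 [] (.cons 1181200 (.br 160 [] (.cons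
  149664 (.br 288 [] (.cons 296224 (.br 544 [] (.cons 78368 (.br 192 [] (.cons 591040 (.br 320 [] (.cons 1059136 (.leaf 15660462077120001049821170468896
  0) .nil)) .nil)) .nil)) .nil)) .nil)) .nil)) .nil)) .nil)) .nil)) .nil)) .nil)) .nil)) .nil)) .nil)) .nil)) .nil)) .nil)) .nil)) .nil)) .nil)) .nil))

theorem ok21a : p21a.Ok (IsSteinerSystem 2 5) :=
  ⟨by decide, fun _ π _ => steiner_tr π, fun _ => cov_of, nofun, fun _ _ _ _ _ => rfl,
    fun _ h => okI_steiner (by decide) h (by decide) (by decide +kernel)⟩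

theorem ok21b : p21b.Ok fun B => IsSteinerSystem 2 5 B ∧ ∀ l ∈ B, #(fs 21 15 ∩ l) ≤ 2 := by
  refine ⟨by decide, fun B (π : Equiv.Perm (Fin 21)) h hB => ⟨steiner_tr π hB.1, fun (l : Finset (Fin 21)) hl => ?_⟩,
    fun _ h => cov_of h.1, nofun, fun _ h a _ ha => okI_of (n := 21) (by decide) (by decide) ?_,
    fun _ h => okI_steiner (by decide) h.1 (by decide) (by decide +kernel)⟩
  · have : (fs 21 15).map π.toEmbedding = fs 21 15 := eq_of_subset_of_card_le (fun i hi => by
      obtain ⟨j, hj, rfl⟩ := mem_map.1 hi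
      exact (h j (lt_of_testBit (n := 4) (by decide) (mem_fs.1 hj))).symm ▸ hj) (card_map _).ge
    rw [← map_inter_card π, this]
    exact hB.2 _ hl
  · have : #(fs 21 15 ∩ fs 21 a) ≤ 2 := h.2 _ ha
    generalize #(fs 21 15 ∩ fs 21 a) = i at *
    interval_cases i <;> rfl

variable {α : Type*} [Fintype α] [DecidableEq α] {B : Set (Finset α)}

omit [DecidableEq α] in
theorem lab21a (hα : Fintype.card α = 21) (hB : IsSteinerSystem 2 5 B) : Lab (fam 21 p21.gens) B (Fin.elim0 ·) :=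
  ok21a.strong c21a (by decide +kernel) (by decide) (by decide +kernel) hα hB _ (fun i => i.elim0)
    fun e _ => steiner_tr e hB

theorem lab21b (hα : Fintype.card α = 21) (hB : IsSteinerSystem 2 5 B) {S : Finset α} (hS : #S = 4)
    (h : ∀ l ∈ B, #(l ∩ S) ≤ 2) :
    ∃ e : Fin 21 ≃ α, (fs 21 15).map e.toEmbedding = S ∧ tr e B = fam 21 p21.gens := by
  let x := (Finset.equivFinOfCardEq hS).symm
  have h1 : ∀ e : Fin 21 ≃ α, (∀ i : Fin 21, ∀ h : i < 4, e i = x ⟨i, h⟩) → (fs 21 15).map e.toEmbedding = S :=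
    fun e he => eq_of_subset_of_card_le (fun i hi => by
      obtain ⟨j, hj, rfl⟩ := mem_map.1 hi
      exact (he j (lt_of_testBit (n := 4) (by decide) (mem_fs.1 hj))).symm ▸ (x _).2) (by rw [card_map, hS]; decide)
  exact (ok21b.strong c21b (by decide +kernel) (by decide) (by decide +kernel) hα hB (fun i => x i)
    (Subtype.val_injective.comp x.injective) fun (e : Fin 21 ≃ α) he =>
      ⟨steiner_tr e hB, fun (l : Finset (Fin 21)) hl => by
        rw [← map_inter_card e, inter_comm, h1 e he]; exact h _ hl⟩).imp fun e he => ⟨h1 e he.1, he.2⟩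

/-- independence test -/
noncomputable def indB (m : ℕ) : Bool := allL p21.gens fun g => Nat.ble (pc24 (Nat.land m g)) 2

theorem indB_iff {e : Fin 21 ≃ α} (he : tr e B = fam 21 p21.gens) {m : ℕ} (hm : m < 2 ^ 21) :
    indB m = true ↔ ∀ l ∈ B, #(l ∩ (fs 21 m).map e.toEmbedding) ≤ 2 := by
  have h1 : ∀ g, #((fs 21 g).map e.toEmbedding ∩ (fs 21 m).map e.toEmbedding) = pc24 (Nat.land m g) := fun g => by
    rw [map_inter_card, inter_comm, ← fs_and, card_fs (by decide) (Nat.and_le_left.trans_lt hm)]; rfl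
  simp only [indB, allL_iff, Nat.ble_eq, ← h1]
  refine ⟨fun h l hl => ?_, fun h g hg => h _ (mem_tr.1 (he ▸ ⟨g, hg, rfl⟩))⟩
  obtain ⟨g, hg, e'⟩ : l.map e.symm.toEmbedding ∈ fam 21 p21.gens := he ▸ mem_tr.2 (by rwa [map_symm_map])
  rw [← map_symm_map e l, ← e']
  exact h g hg

theorem ncard_ind (hα : Fintype.card α = 21) (hB : IsSteinerSystem 2 5 B) (r : ℕ) :
    {S : Finset α | #S = r ∧ ∀ l ∈ B, #(l ∩ S) ≤ 2}.ncard = subC indB 21 r 0 := by
  obtain ⟨e, -, he⟩ := lab21a hα hB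
  rw [← ncard_subC (Q := fun s => ∀ l ∈ B, #(l ∩ s.map e.toEmbedding) ≤ 2) fun m hm => indB_iff he hm,
    ← Set.ncard_image_of_injective _ (map_injective e.toEmbedding)]
  congr 1; ext S
  exact ⟨fun h => ⟨S.map e.symm.toEmbedding, by simpa only [Set.mem_setOf_eq, map_symm_map, card_map] using h,
    map_symm_map e S⟩, by rintro ⟨S, h, rfl⟩; simpa only [Set.mem_setOf_eq, card_map] using h⟩

end Cfsg.Agent.H2.St
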