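/-
2-groups without normal elementary abelian subgroups of order 8, with odd operator groups (1).
-/
import Cfsg.Agent.H11.T3U
import Cfsg.Agent.H11.OddAct
import Cfsg.Agent.H3.PGroup1

set_option autoImplicit false
set_option linter.style.haveILetI false

namespace Cfsg.Agent.H2.Scn

open Subgroup H4 H11
open scoped commutatorElement

structure Sc (X : Type*) [Group X] (A : Subgroup (MulAut X)) : Prop where
  pg : IsPGroup 2 X
  e4 : ∀ E : Subgroup X, E.Normal → (∀ x ∈ E, x * x = 1) → Nat.card E ≤ 4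
  odd : ∀ φ ∈ A, Odd (orderOf φ)
  gen : closure {g : X | ∃ φ ∈ A, ∃ x : X, g = x⁻¹ * φ x} = ⊤

variable {X : Type*} [Group X] {A : Subgroup (MulAut X)}

theorem omc {z : X} (hz : z ∈ Om X) (g : X) : g * z = z * g := mem_center_iff.1 hz.1 g

theorem om_map {z : X} (hz : z ∈ Om X) (φ : MulAut X) : φ z ∈ Om X :=
  ⟨mem_center_iff.2 fun g => by
    obtain ⟨g, rfl⟩ := φ.surjective g
    rw [← map_mul, ← map_mul, omc hz], by rw [← map_mul, hz.2, map_one]⟩

theorem om_inv {z : X} (hz : z ∈ Om X) : z⁻¹ = z := inv_eq_of_mul_eq_one_right hz.2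

theorem om_conj {z : X} (hz : z ∈ Om X) (g : X) : g * z * g⁻¹ = z := by
  rw [omc hz g, mul_inv_cancel_right]

theorem om_normal : (Om X).Normal := ⟨fun n hn g => by rw [om_conj hn]; exact hn⟩

theorem fix_of_sq {φ : MulAut X} (ho : Odd (orderOf φ)) {x : X} (h : φ (φ x) = x) : φ x = x :=
  apply_eq_of_coprime (Nat.coprime_two_right.2 ho) (by rw [pow_orderOf_eq_one]; rfl)
    (by rw [sq]; exact h)

theorem cml (x y z : X) : ⁅x * y, z⁆ = x * ⁅y, z⁆ * x⁻¹ * ⁅x, z⁆ := by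
  simp only [commutatorElement_def]; group

theorem cmr (x y z : X) : ⁅x, y * z⁆ = ⁅x, y⁆ * (y * ⁅x, z⁆ * y⁻¹) := by
  simp only [commutatorElement_def]; group

theorem cm_inv (x y : X) : ⁅x, y⁆ = ⁅y, x⁆⁻¹ := by
  simp only [commutatorElement_def]; group

/-- if `x * x` is central, `x` inverts `[x, g]`. -/
theorem inverts {x : X} (hx : x * x ∈ center X) (g : X) : x * ⁅x, g⁆ * x⁻¹ = ⁅x, g⁆⁻¹ := by
  calc x * ⁅x, g⁆ * x⁻¹ = (x * x * g) * x⁻¹ * g⁻¹ * x⁻¹ := by rw [commutatorElement_def]; group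
    _ = _ := by rw [← mem_center_iff.1 hx g, commutatorElement_def]; group

theorem cm_cent {B : Subgroup X} [hB : B.Normal] {x y : X} (hx : ∀ b ∈ B, ⁅x, b⁆ ∈ center X)
    (hy : ∀ b ∈ B, ⁅y, b⁆ ∈ center X) : ⁅x, y⁆ ∈ centralizer (B : Set X) := by
  have key : ∀ b ∈ B, x * y * b * (x * y)⁻¹ = y * x * b * (y * x)⁻¹ := fun b hb => by
    have h1 := mem_center_iff.1 (hx b hb)
    have h2 := mem_center_iff.1 (hy b hb)
    have e1 : ⁅x * y, b⁆ = ⁅y * x, b⁆ := by
      rw [cml, cml, h2 x, h1 y, mul_inv_cancel_right, mul_inv_cancel_right, h1]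
    have e : ∀ g : X, g * b * g⁻¹ = ⁅g, b⁆ * b := fun g => by rw [commutatorElement_def]; group
    rw [e, e, e1]
  refine mem_centralizer_iff.2 fun b hb => ?_
  have := key _ (hB.conj_mem b hb (y * x)⁻¹)
  calc b * ⁅x, y⁆ = (y * x * ((y * x)⁻¹ * b * (y * x)⁻¹⁻¹) * (y * x)⁻¹) * ⁅x, y⁆ := by group
    _ = _ := by rw [← this, commutatorElement_def]; group

theorem Cyc.fp (h4 : Nat.card (Om X) = 4) {κ : MulAut X} {u v : X} (c : Cyc κ u v) {z : X}
    (hz : z ∈ Om X) (h : κ z = z) : z = 1 := by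
  have hk : IsKleinFour (Om X) := isKleinFour_iff.2 ⟨h4, fun _ e => e.2⟩
  rcases (klein_mem_iff hk c.hu c.hv c.u1 c.v1 c.ne).1 hz with e | e | e | e
  · exact e
  · rw [e, c.ku] at h; exact absurd h.symm c.ne
  · rw [e, c.kv] at h; exact absurd (mul_eq_right.1 h) c.u1
  · rw [e, c.kuv] at h; exact absurd (left_eq_mul.1 h) c.v1

theorem cyc_of_ne (h4 : Nat.card (Om X) = 4) {κ : MulAut X} (ho : Odd (orderOf κ)) {u : X}
    (hu : u ∈ Om X) (hne : κ u ≠ u) : Cyc κ u (κ u) := by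
  have hk : IsKleinFour (Om X) := isKleinFour_iff.2 ⟨h4, fun _ e => e.2⟩
  have u1 : u ≠ 1 := fun e => hne (by rw [e, map_one])
  have v1 : κ u ≠ 1 := fun e => u1 (κ.injective (e.trans (map_one κ).symm))
  refine ⟨hu, om_map hu κ, u1, v1, hne.symm, rfl, ?_⟩
  rcases (klein_mem_iff hk hu (om_map hu κ) u1 v1 hne.symm).1 (om_map (om_map hu κ) κ) with
    e | e | e | e
  · exact absurd (κ.injective (e.trans (map_one κ).symm)) v1
  · exact absurd (fix_of_sq ho e) hne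
  · exact absurd (κ.injective e) hne
  · exact e

theorem fix_all (h4 : Nat.card (Om X) = 4) {ψ : MulAut X} (ho : Odd (orderOf ψ)) {u : X}
    (hu : u ∈ Om X) (u1 : u ≠ 1) (h : ψ u = u) {z : X} (hz : z ∈ Om X) : ψ z = z := by
  by_contra hne
  exact u1 (Cyc.fp h4 (cyc_of_ne h4 ho hz hne) hu h)

namespace Sc

variable (h : Sc X A)
include h

theorem eq_top {H : Subgroup X} (hH : ∀ φ ∈ A, ∀ x, x⁻¹ * φ x ∈ H) : H = ⊤ := by
  rw [eq_top_iff, ← h.gen, closure_le]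
  rintro _ ⟨φ, hφ, x, rfl⟩
  exact hH φ hφ x

theorem triv (f : X → X) (hm : ∀ x y, f (x * y) = f x * f y) (hi : ∀ φ ∈ A, ∀ x, f (φ x) = f x)
    (x : X) : f x = 1 := by
  have := h.eq_top (H := (MonoidHom.mk' f hm).ker) fun φ hφ x => by
    rw [MonoidHom.mem_ker, map_mul, map_inv]
    exact inv_mul_eq_one.2 (hi φ hφ x).symm
  exact (MonoidHom.mem_ker (f := MonoidHom.mk' f hm)).1 (this ▸ mem_top x)

theorem idx [Finite X] {H : Subgroup X} (h2 : H.index ≤ 2) (hH : ∀ φ ∈ A, ∀ x ∈ H, φ x ∈ H) :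
    H = ⊤ := by
  have h0 : H.index ≠ 0 := index_ne_zero_of_finite
  rcases (show H.index = 1 ∨ H.index = 2 by omega) with e | e
  · exact index_eq_one.1 e
  refine h.eq_top fun φ hφ x => (mul_mem_iff_of_index_two e).2 ?_
  rw [inv_mem_iff]
  exact ⟨hH φ hφ x, fun e => by simpa using hH φ⁻¹ (inv_mem hφ) _ e⟩

theorem mem_om [Finite X] (h4 : Nat.card (Om X) = 4) {t : X} (ht : t * t = 1)
    (hc : ∀ g : X, ⁅g, t⁆ ∈ Om X) : t ∈ Om X := by
  by_contra hn
  haveI : Fact (Nat.Prime 2) := ⟨Nat.prime_two⟩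
  haveI := om_normal (X := X)
  have h1 : t ∈ normalizer (Om X : Set X) := by rw [normalizer_eq_top]; trivial
  have h2 := H3.card_sup_zpowers (p := 2) h1 hn (by rw [sq, ht]; exact one_mem _)
  have := h.e4 _ (H3.normal_sup_zpowers hc) fun x hx => by
    obtain ⟨n, hn, k, rfl⟩ := (H3.mem_sup_zpowers_iff h1).1 hx
    calc n * t ^ k * (n * t ^ k) = n * (t ^ k * n) * t ^ k := by group
      _ = (n * n) * (t * t) ^ k := by
        rw [omc hn, (Commute.refl t).mul_zpow]; group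
      _ = 1 := by rw [hn.2, ht, one_zpow, mul_one]
  omega

theorem om_of_ab [Finite X] (h4 : Nat.card (Om X) = 4) {B : Subgroup X} [hB : B.Normal] (hab : Ab B)
    (hO : Om X ≤ B) {b : X} (hb : b ∈ B) (h2 : b * b = 1) : b ∈ Om X := by
  let E : Subgroup X :=
    { carrier := {x | x ∈ B ∧ x * x = 1}
      mul_mem' := by
        rintro x y ⟨hx, x2⟩ ⟨hy, y2⟩
        refine ⟨mul_mem hx hy, ?_⟩
        calc x * y * (x * y) = x * (y * x) * y := by group
          _ = (x * x) * (y * y) := by rw [hab y hy x hx]; group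
          _ = 1 := by rw [x2, y2, mul_one]
      one_mem' := ⟨one_mem _, mul_one 1⟩
      inv_mem' := by
        rintro x ⟨hx, x2⟩
        exact ⟨inv_mem hx, by rw [← mul_inv_rev, x2, inv_one]⟩ }
  have hn : E.Normal := ⟨fun n hn g => ⟨hB.conj_mem n hn.1 g, by
    calc g * n * g⁻¹ * (g * n * g⁻¹) = g * (n * n) * g⁻¹ := by group
      _ = 1 := by rw [hn.2]; group⟩⟩
  have := h.e4 E hn fun x hx => hx.2
  have e : Om X = E := eq_of_le_of_card_ge (fun x hx => ⟨hO hx, hx.2⟩) (by omega)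
  exact e ▸ (⟨hb, h2⟩ : b ∈ E)

end Sc

end Cfsg.Agent.H2.Scn
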