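/-
2-groups without normal elementary abelian subgroups of order 8, with odd operator groups (2).
-/
import Cfsg.Agent.H2.Scn1

set_option autoImplicit false
set_option linter.style.haveILetI false

namespace Cfsg.Agent.H2.Scn

open Subgroup H4 H11
open scoped commutatorElement

variable {X : Type*} [Group X] {A : Subgroup (MulAut X)}

theorem cm_om (x : X) {z : X} (hz : z ∈ Om X) : ⁅x, z⁆ = 1 :=
  commutatorElement_eq_one_iff_mul_comm.2 (omc hz x)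

structure AbC (A : Subgroup (MulAut X)) (B : Subgroup X) (κ : MulAut X) : Prop where
  sc : Sc X A
  h4 : Nat.card (Om X) = 4
  hκ : κ ∈ A
  fp : ∀ z ∈ Om X, κ z = z → z = 1
  nB : B.Normal
  ab : Ab B
  om : Om X ≤ B
  inv : ∀ φ ∈ A, ∀ b ∈ B, φ b ∈ B
  cen : centralizer (B : Set X) ≤ B

namespace AbC

variable {B : Subgroup X} {κ : MulAut X} (h : AbC A B κ)

def W : Subgroup X where
  carrier := {w | w ∈ B ∧ w * w ∈ Om X}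
  mul_mem' := by
    rintro x y ⟨hx, x2⟩ ⟨hy, y2⟩
    refine ⟨mul_mem hx hy, ?_⟩
    rw [show x * y * (x * y) = x * (y * x) * y by group, h.ab y hy x hx,
      show x * (x * y) * y = (x * x) * (y * y) by group]
    exact mul_mem x2 y2
  one_mem' := ⟨one_mem _, by rw [mul_one]; exact one_mem _⟩
  inv_mem' := by
    rintro x ⟨hx, x2⟩
    exact ⟨inv_mem hx, by rw [← mul_inv_rev]; exact inv_mem x2⟩

include h

theorem W_normal : h.W.Normal := ⟨fun n hn g => ⟨h.nB.conj_mem n hn.1 g, by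
  rw [show g * n * g⁻¹ * (g * n * g⁻¹) = g * (n * n) * g⁻¹ by group, om_conj hn.2]; exact hn.2⟩⟩

theorem W_map {φ : MulAut X} (hφ : φ ∈ A) {w : X} (hw : w ∈ h.W) : φ w ∈ h.W :=
  ⟨h.inv φ hφ w hw.1, by rw [← map_mul]; exact om_map hw.2 φ⟩

theorem om_W {z : X} (hz : z ∈ Om X) : z ∈ h.W := ⟨h.om hz, by rw [hz.2]; exact one_mem _⟩

theorem cmB (x : X) {b : X} (hb : b ∈ B) : ⁅x, b⁆ ∈ B :=
  mul_mem (h.nB.conj_mem b hb x) (inv_mem hb)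

theorem cm_sq (x : X) {b : X} (hb : b ∈ B) : ⁅x, b⁆ * ⁅x, b⁆ = ⁅x, b * b⁆ := by
  rw [cmr, h.ab b hb _ (h.cmB x hb), mul_inv_cancel_right]

theorem sq_mul {a b : X} (ha : a ∈ B) (hb : b ∈ B) : a * b * (a * b) = a * a * (b * b) := by
  rw [show a * b * (a * b) = a * (b * a) * b by group, h.ab b hb a ha]; group

theorem tr {z : X} (hz : z ∈ Om X) : κ (κ z) = z * κ z := by
  by_cases e : κ z = z
  · rw [h.fp z hz e]; simp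
  · exact (cyc_of_ne h.h4 (h.sc.odd κ h.hκ) hz e).kv

theorem cube {z : X} (hz : z ∈ Om X) : κ (κ (κ z)) = z := by
  rw [h.tr (om_map hz κ), h.tr hz, omc (om_map hz κ) z, ← mul_assoc, (om_map hz κ).2, one_mul]

theorem cases {u z : X} (hu : u ∈ Om X) (u1 : u ≠ 1) (hz : z ∈ Om X) :
    z = 1 ∨ z = u ∨ z = κ u ∨ z = κ (κ u) := by
  have c := cyc_of_ne h.h4 (h.sc.odd κ h.hκ) hu fun e => u1 (h.fp u hu e)
  rw [c.kv]
  exact (klein_mem_iff (isKleinFour_iff.2 ⟨h.h4, fun _ e => e.2⟩) c.hu c.hv c.u1 c.v1 c.ne).1 hz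

variable [Finite X]

theorem omB {b : X} (hb : b ∈ B) (h2 : b * b = 1) : b ∈ Om X :=
  haveI := h.nB
  h.sc.om_of_ab h.h4 h.ab h.om hb h2

theorem f1 (x : X) {w : X} (hw : w ∈ h.W) : ⁅x, w⁆ ∈ Om X :=
  h.omB (h.cmB x hw.1) (by rw [h.cm_sq x hw.1, cm_om x hw.2])

theorem f2 (x y : X) {w : X} (hw : w ∈ h.W) : ⁅x * y, w⁆ = ⁅x, w⁆ * ⁅y, w⁆ := by
  rw [cml, om_conj (h.f1 y hw), omc (h.f1 x hw)]

theorem f3 (x w : X) {w' : X} (hw : w' ∈ h.W) : ⁅x, w * w'⁆ = ⁅x, w⁆ * ⁅x, w'⁆ := by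
  rw [cmr, om_conj (h.f1 x hw)]

theorem f4 (x : X) {w w' : X} (hw : w ∈ h.W) (hw' : w' ∈ h.W) (e : w * w = w' * w') :
    ⁅x, w⁆ = ⁅x, w'⁆ := by
  have hz : w⁻¹ * w' ∈ Om X := h.omB (mul_mem (inv_mem hw.1) hw'.1) (by
    rw [h.sq_mul (inv_mem hw.1) hw'.1, ← e]; group)
  rw [show w' = w * (w⁻¹ * w') by group, h.f3 x w (h.om_W hz), cm_om x hz, mul_one]

theorem f5 {ψ : MulAut X} (hψ : ψ ∈ A) (hf : ∀ z ∈ Om X, ψ z = z) (x : X) {w : X} (hw : w ∈ h.W) :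
    ⁅ψ x, w⁆ = ⁅x, w⁆ := by
  rw [← hf _ (h.f1 x hw), map_commutatorElement]
  exact h.f4 _ hw (h.W_map hψ hw) (by rw [← map_mul, hf _ hw.2])

theorem norm {a : X} (ha : a ∈ h.W) (a1 : a * a ≠ 1) (x : X) :
    ⁅x, a⁆ * ⁅κ x, a⁆ * ⁅κ (κ x), a⁆ = 1 := by
  have hκ := h.hκ
  have k3 : ∀ x, ⁅κ (κ (κ x)), a⁆ = ⁅x, a⁆ := fun x =>
    h.f5 (ψ := κ * κ * κ) (mul_mem (mul_mem hκ hκ) hκ) (fun z hz => h.cube hz) x ha
  let N : X → X := fun x => ⁅x, a⁆ * ⁅κ x, a⁆ * ⁅κ (κ x), a⁆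
  have n1 : ∀ x, N (κ x) = N x := fun x => by
    simp only [N]; rw [k3, omc (h.f1 x ha), mul_assoc]
  have n2 : ∀ ψ ∈ A, ψ (a * a) = a * a → ∀ x, N (ψ x) = N x := fun ψ hψ e x => by
    have hf : ∀ z ∈ Om X, ψ z = z := fun z hz => fix_all h.h4 (h.sc.odd ψ hψ) ha.2 a1 e hz
    have e1 := h.f5 (ψ := κ * ψ * κ⁻¹) (mul_mem (mul_mem hκ hψ) (inv_mem hκ)) (fun z hz => by
      simp only [MulAut.mul_apply]; rw [hf _ (om_map hz _)]; simp) (κ x) ha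
    have e2 := h.f5 (ψ := κ * κ * ψ * κ⁻¹ * κ⁻¹)
      (mul_mem (mul_mem (mul_mem (mul_mem hκ hκ) hψ) (inv_mem hκ)) (inv_mem hκ)) (fun z hz => by
      simp only [MulAut.mul_apply]; rw [hf _ (om_map (om_map hz _) _)]; simp) (κ (κ x)) ha
    simp only [MulAut.mul_apply, MulAut.inv_apply_self] at e1 e2
    simp only [N]; rw [h.f5 hψ hf x ha, e1, e2]
  refine h.sc.triv N (fun x y => ?_) (fun φ hφ x => ?_) x
  · simp only [N, map_mul]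
    rw [h.f2 _ _ ha, h.f2 _ _ ha, h.f2 _ _ ha]
    have c1 := omc (h.f1 y ha)
    have c2 := omc (h.f1 (κ y) ha)
    calc _ = ⁅x, a⁆ * (⁅y, a⁆ * ⁅κ x, a⁆) * (⁅κ y, a⁆ * ⁅κ (κ x), a⁆) * ⁅κ (κ y), a⁆ := by group
      _ = ⁅x, a⁆ * ⁅κ x, a⁆ * (⁅y, a⁆ * ⁅κ (κ x), a⁆) * ⁅κ y, a⁆ * ⁅κ (κ y), a⁆ := by
        rw [← c1, ← c2]; group
      _ = _ := by rw [← c1]; group
  rcases h.cases ha.2 a1 (om_map ha.2 φ) with e | e | e | e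
  · exact absurd (φ.injective (e.trans (map_one φ).symm)) a1
  · exact n2 φ hφ e x
  · rw [← n2 (κ⁻¹ * φ) (mul_mem (inv_mem hκ) hφ) (by rw [MulAut.mul_apply, e]; simp) x, ← n1 ((κ⁻¹ * φ) x)]
    simp
  · rw [← n2 (κ⁻¹ * κ⁻¹ * φ) (mul_mem (mul_mem (inv_mem hκ) (inv_mem hκ)) hφ)
      (by simp only [MulAut.mul_apply]; rw [e]; simp) x, ← n1 ((κ⁻¹ * κ⁻¹ * φ) x),
      ← n1 (κ ((κ⁻¹ * κ⁻¹ * φ) x))]
    simp

theorem key {a : X} (ha : a ∈ h.W) (a1 : a * a ≠ 1) (x : X) :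
    ⁅x, κ a⁆ = κ (κ ⁅x, a⁆) ∧ ⁅x, κ (κ a)⁆ = κ ⁅x, a⁆ ∧ ⁅κ x, a⁆ = κ (κ ⁅x, a⁆) := by
  have h1 := h.W_map h.hκ ha
  have h2 := h.W_map h.hκ h1
  have h3 := h.W_map h.hκ h2
  have e3 : ∀ y, ⁅y, a⁆ = ⁅y, κ (κ (κ a))⁆ := fun y =>
    h.f4 y ha h3 (by rw [← map_mul, ← map_mul, ← map_mul, h.cube ha.2])
  have e1 : ⁅κ x, a⁆ = κ ⁅x, κ (κ a)⁆ := by rw [e3, map_commutatorElement]
  have e2 : ⁅κ (κ x), a⁆ = κ (κ ⁅x, κ a⁆) := by rw [e3, map_commutatorElement, map_commutatorElement]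
  have n := h.norm ha a1 x
  have m : ⁅x, a⁆ * ⁅x, κ a⁆ * ⁅x, κ (κ a)⁆ = 1 := by
    rw [← h.f3 x a h1, ← h.f3 x _ h2]
    refine cm_om x (h.omB (mul_mem (mul_mem ha.1 h1.1) h2.1) ?_)
    rw [h.sq_mul (mul_mem ha.1 h1.1) h2.1, h.sq_mul ha.1 h1.1, ← map_mul, ← map_mul, ← map_mul,
      h.tr ha.2]
    exact (mul_mem ha.2 (om_map ha.2 κ)).2
  have hp := h.f1 x h1
  have hq := h.f1 x h2
  rw [e1, e2, h.tr hp] at n
  rw [e1]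
  generalize ⁅x, κ a⁆ = p at *
  generalize ⁅x, κ (κ a)⁆ = q at *
  generalize ⁅x, a⁆ = y at *
  have e4 : p * q = p * (κ q * κ p) := by
    have : y * (p * q) = y * (κ q * (p * κ p)) := by rw [← mul_assoc, m, ← mul_assoc, n]
    rw [mul_left_cancel this, ← mul_assoc, omc hp (κ q), mul_assoc]
  have e5 : p = κ q := κ.injective (by
    rw [h.tr hq]
    nth_rewrite 1 [mul_left_cancel e4]
    rw [omc (om_map hp κ) (κ q), mul_assoc, (om_map hq κ).2, mul_one])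
  have e6 : y = κ (κ q) := by
    rw [h.tr hq, ← e5, omc hp q, ← om_inv (mul_mem hp hq), eq_inv_iff_mul_eq_one, ← mul_assoc, m]
  rw [e6, h.cube hq, e5]
  exact ⟨rfl, rfl, rfl⟩

theorem key2 {a : X} (ha : a ∈ h.W) (a1 : a * a ≠ 1) (x : X) {w : X} (hw : w ∈ h.W) :
    (⁅x, a⁆ = 1 → ⁅x, w⁆ = 1) ∧ (⁅x, w⁆ = ⁅x, a⁆ → ⁅x, a⁆ = 1 ∨ w * w = a * a) := by
  obtain ⟨k1, k2, -⟩ := h.key ha a1 x
  have h1 := h.W_map h.hκ ha
  have hy := h.f1 x ha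
  rcases h.cases ha.2 a1 hw.2 with e | e | e | e
  · rw [cm_om x (h.omB hw.1 e)]
    exact ⟨fun _ => rfl, fun e => Or.inl e.symm⟩
  · rw [h.f4 x hw ha e]
    exact ⟨id, fun _ => Or.inr e⟩
  · rw [h.f4 x hw h1 (by rw [e, map_mul]), k1]
    exact ⟨fun e => by simp [e], fun e => Or.inl (h.fp _ hy (fix_of_sq (h.sc.odd κ h.hκ) e))⟩
  · rw [h.f4 x hw (h.W_map h.hκ h1) (by rw [e, map_mul, map_mul]), k2]
    exact ⟨fun e => by simp [e], fun e => Or.inl (h.fp _ hy e)⟩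

end AbC

end Cfsg.Agent.H2.Scn
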