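/-
2-groups without normal elementary abelian subgroups of order 8, with odd operator groups (3).
-/
import Cfsg.Agent.H2.Scn2

set_option autoImplicit false
set_option linter.style.haveILetI false

namespace Cfsg.Agent.H2.Scn

open Subgroup H4 H11
open scoped commutatorElement

variable {X : Type*} [Group X] [Finite X] {A : Subgroup (MulAut X)}

theorem invol_inverts {t : X} (ht : t * t = 1) (g : X) : t * ⁅t, g⁆ * t⁻¹ = ⁅t, g⁆⁻¹ :=
  inverts (by rw [ht]; exact one_mem _) g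

namespace AbC

variable {B : Subgroup X} {κ : MulAut X} (h : AbC A B κ)
include h

theorem l2 {x g : X} (hx : ∀ w ∈ h.W, x * w = w * x) (x2 : x * x ∈ Om X) (hg : ⁅x, g⁆ ∈ B) :
    ⁅x, g⁆ ∈ Om X := by
  haveI : Fact (Nat.Prime 2) := ⟨Nat.prime_two⟩
  by_contra hn
  obtain ⟨k, hk⟩ := h.sc.pg ⁅x, g⁆
  obtain ⟨j, h1, h2⟩ := H3.exists_pow_not_mem_pow_mem (p := 2) hn ⟨k, by rw [hk]; exact one_mem _⟩
  have hd : ⁅x, g⁆ ^ 2 ^ j ∈ h.W := ⟨pow_mem hg _, by rw [← sq]; exact h2⟩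
  have e := congrArg (· ^ 2 ^ j) (inverts x2.1 g)
  simp only [conj_pow, inv_pow] at e
  rw [hx _ hd, mul_inv_cancel_right, eq_inv_iff_mul_eq_one] at e
  exact h1 (h.omB hd.1 e)

def S1 : Subgroup X where
  carrier := {x | (∀ w ∈ h.W, x * w = w * x) ∧ x * x ∈ Om X}
  mul_mem' := by
    rintro x y ⟨hx, x2⟩ ⟨hy, y2⟩
    refine ⟨fun w hw => by rw [mul_assoc, hy w hw, ← mul_assoc, hx w hw, mul_assoc], ?_⟩
    haveI := h.nB
    have hc := h.l2 hx x2 (h.cen (cm_cent (fun b hb => (h.l2 hx x2 (h.cmB x hb)).1)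
      fun b hb => (h.l2 hy y2 (h.cmB y hb)).1))
    rw [show x * y * (x * y) = x * ⁅x, y⁆⁻¹ * x * (y * y) by rw [commutatorElement_def]; group,
      omc (inv_mem hc) x, mul_assoc _ x x]
    exact mul_mem (mul_mem (inv_mem hc) x2) y2
  one_mem' := ⟨fun w _ => by rw [one_mul, mul_one], by rw [mul_one]; exact one_mem _⟩
  inv_mem' := by
    rintro x ⟨hx, x2⟩
    exact ⟨fun w hw => (show Commute x w from hx w hw).inv_left.eq, by
      rw [← mul_inv_rev]; exact inv_mem x2⟩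

theorem alp {a : X} (ha : a ∈ h.W) (a1 : a * a ≠ 1) {t : X} (ht : t * t = 1)
    (hc : ∀ w ∈ h.W, t * w = w * t) : t ∈ Om X := by
  haveI : Fact (Nat.Prime 2) := ⟨Nat.prime_two⟩
  haveI := h.W_normal
  haveI : h.S1.Normal := ⟨fun n hn g => ⟨fun w hw => by
    have := hn.1 _ (h.W_normal.conj_mem w hw g⁻¹)
    calc g * n * g⁻¹ * w = g * (n * (g⁻¹ * w * g⁻¹⁻¹)) * g⁻¹ := by group
      _ = _ := by rw [this]; group, by
    rw [show g * n * g⁻¹ * (g * n * g⁻¹) = g * (n * n) * g⁻¹ by group, om_conj hn.2]; exact hn.2⟩⟩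
  suffices hs : h.S1 ≤ h.W from h.omB (hs ⟨hc, by rw [ht]; exact one_mem _⟩).1 ht
  by_contra hn
  obtain ⟨x, hx, hxW, -, hg⟩ := H3.exists_central_mod (p := 2) h.sc.pg hn
  obtain ⟨w, hw, e⟩ : ∃ w ∈ h.W, x * x = w * w := by
    rcases h.cases ha.2 a1 hx.2 with e | e | e | e
    · exact ⟨1, one_mem _, by rw [e, mul_one]⟩
    · exact ⟨a, ha, e⟩
    · exact ⟨_, h.W_map h.hκ ha, by rw [e, map_mul]⟩
    · exact ⟨_, h.W_map h.hκ (h.W_map h.hκ ha), by rw [e, map_mul, map_mul]⟩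
  have hs : x * w⁻¹ ∈ h.S1 := mul_mem hx (inv_mem ⟨fun w' hw' => h.ab w hw.1 w' hw'.1, hw.2⟩)
  have s2 : x * w⁻¹ * (x * w⁻¹) = 1 := by
    rw [show x * w⁻¹ * (x * w⁻¹) = x * (w⁻¹ * x) * w⁻¹ by group, ← hx.1 _ (inv_mem hw),
      show x * (x * w⁻¹) * w⁻¹ = x * x * (w * w)⁻¹ by group, e, mul_inv_cancel]
  have := h.sc.mem_om h.h4 s2 fun g => by
    rw [cm_inv]
    refine inv_mem (h.l2 hs.1 hs.2 ?_)
    rw [cm_inv, cmr]
    exact inv_mem (mul_mem (hg g).1 (h.nB.conj_mem _ (h.cmB g (inv_mem hw.1)) x))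
  exact hxW (by simpa using mul_mem (h.om_W this) hw)

theorem big {b t : X} (hb : b ∈ B) (ha : b * b ∈ h.W) (a1 : b * b * (b * b) ≠ 1) (ht : t * t = 1)
    (hy : ⁅t, b * b⁆ ≠ 1) : ⁅t, b * b⁆ = b * b * (b * b) := by
  have hc : ⁅t, b⁆ ∈ h.W := ⟨h.cmB t hb, by rw [h.cm_sq t hb]; exact h.f1 t ha⟩
  have e : ⁅t, ⁅t, b⁆⁆ = ⁅t, b * b⁆ := by
    rw [commutatorElement_def t ⁅t, b⁆, invol_inverts ht, ← mul_inv_rev, h.cm_sq t hb,
      om_inv (h.f1 t ha)]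
  rw [← ((h.key2 ha a1 t hc).2 e).resolve_left hy, h.cm_sq t hb]

theorem small (hB : ∀ b ∈ B, b * b ∈ Om X) {a : X} (ha : a ∈ h.W) (a1 : a * a ≠ 1) {t : X}
    (hy : ⁅t, a⁆ ≠ 1) (g : X) : ⁅g, t⁆ ∈ Om X := by
  haveI := om_normal (X := X)
  have hW : ∀ b ∈ B, b ∈ h.W := fun b hb => ⟨hb, hB b hb⟩
  have k0 : ∀ x, ⁅x, a⁆ = 1 → x ∈ B := fun x hx => h.cen (mem_centralizer_iff.2 fun b hb =>
    (commutatorElement_eq_one_iff_mul_comm.1 ((h.key2 ha a1 x (hW b hb)).1 hx)).symm)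
  let f : X →* X := MonoidHom.mk' (fun x => ⁅x, a⁆) fun x y => h.f2 x y ha
  have k1 : ∀ x y : X, ⁅x, a⁆ = ⁅y, a⁆ → ∃ w ∈ B, x = y * w := fun x y e =>
    ⟨y⁻¹ * x, k0 _ (by
      change f _ = 1
      rw [map_mul, map_inv]; exact inv_mul_eq_one.2 e.symm), by group⟩
  have k2 : ∀ x y : X, ⁅x, y⁆ ∈ B := fun x y => k0 _ (by
    change f _ = 1
    rw [map_commutatorElement]; exact cm_om _ (h.f1 y ha))
  have k3 : ∀ x, ∀ w ∈ B, ⁅w, x⁆ ∈ Om X := fun x w hw => by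
    rw [cm_inv]; exact inv_mem (h.f1 x (hW w hw))
  have hτ := h.f1 t ha
  have e1 := (h.key ha a1 t).2.2
  have e2 : ⁅t * κ t, a⁆ = κ ⁅t, a⁆ := by
    rw [h.f2 _ _ ha, e1, h.tr hτ, ← mul_assoc, hτ.2, one_mul]
  have e3 : ⁅κ (κ t), a⁆ = ⁅t * κ t, a⁆ := by rw [(h.key ha a1 _).2.2, e1, h.cube (om_map hτ κ), e2]
  have hc : ⁅κ t, t⁆ ∈ Om X := by
    obtain ⟨w, hw, e⟩ := k1 _ _ e3
    refine h.omB (k2 _ _) (h.fp _ (hB _ (k2 _ _)) ?_)
    have hz := k3 (κ t) w hw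
    have : κ ⁅κ t, t⁆ = ⁅w, κ t⁆ * ⁅κ t, t⁆⁻¹ := by
      rw [map_commutatorElement, e, cml, om_conj hz, cml, commutatorElement_self, ← cm_inv]; group
    rw [map_mul, this, h.sq_mul (h.om hz) (inv_mem (k2 _ _)), hz.2, one_mul, ← mul_inv_rev,
      om_inv (hB _ (k2 _ _))]
  have k4 : ∀ y, ⁅y, t⁆ ∈ Om X → ⁅g, a⁆ = ⁅y, a⁆ → ⁅g, t⁆ ∈ Om X := fun y hy e => by
    obtain ⟨w, hw, rfl⟩ := k1 _ _ e
    rw [cml, om_conj (k3 t w hw)]
    exact mul_mem (k3 t w hw) hy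
  rcases h.cases hτ hy (h.f1 g ha) with e | e | e | e
  · exact k3 t g (k0 g e)
  · exact k4 t (by rw [commutatorElement_self]; exact one_mem _) e
  · refine k4 (t * κ t) ?_ (e.trans e2.symm)
    rw [cml, om_conj hc, commutatorElement_self, mul_one]; exact hc
  · exact k4 _ hc (e.trans e1.symm)

theorem main (hna : ¬ Ab (⊤ : Subgroup X)) {t : X} (ht : t * t = 1) : t ∈ Om X := by
  haveI : Fact (Nat.Prime 2) := ⟨Nat.prime_two⟩
  have hex : ∀ {N : Subgroup X} {b : X}, b ∉ N → ∃ j, b ^ 2 ^ j ∉ N ∧ (b ^ 2 ^ j) ^ 2 ∈ N :=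
    fun {N b} hb => by
      obtain ⟨k, hk⟩ := h.sc.pg b
      exact H3.exists_pow_not_mem_pow_mem (p := 2) hb ⟨k, by rw [hk]; exact one_mem _⟩
  have fin : ∀ a ∈ h.W, a * a ≠ 1 → ⁅t, a⁆ = 1 → t ∈ Om X := fun a ha a1 e =>
    h.alp ha a1 ht fun w hw => commutatorElement_eq_one_iff_mul_comm.1 ((h.key2 ha a1 t hw).1 e)
  by_cases hB : ∀ b ∈ B, b * b ∈ Om X
  · obtain ⟨a, ha, a1⟩ : ∃ a ∈ B, a * a ≠ 1 := by
      by_contra! hn
      have : ∀ x, x ∈ B := fun x => h.cen (mem_centralizer_iff.2 fun b hb =>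
        (omc (h.omB hb (hn b hb)) x).symm)
      exact hna fun x _ y _ => h.ab x (this x) y (this y)
    by_cases e : ⁅t, a⁆ = 1
    · exact fin a ⟨ha, hB a ha⟩ a1 e
    · exact h.sc.mem_om h.h4 ht (h.small hB ⟨ha, hB a ha⟩ a1 e)
  push Not at hB
  obtain ⟨b0, hb0, h0⟩ := hB
  obtain ⟨j, h1, h2⟩ := hex (N := h.W) (b := b0) fun e => h0 e.2
  have hb : b0 ^ 2 ^ j ∈ B := pow_mem hb0 _
  rw [sq] at h2
  generalize b0 ^ 2 ^ j = b at *
  have a1 : b * b * (b * b) ≠ 1 := fun e => h1 ⟨hb, h.omB h2.1 e⟩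
  refine fin _ h2 a1 (by_contra fun e => ?_)
  have e1 := h.big hb h2 a1 ht e
  have e2 := (h.key h2 a1 t).1
  have h3 := h.W_map h.hκ h2
  rw [e1, map_mul κ b b] at e2
  rw [map_mul] at h3
  have n1 : ∀ {x : X}, x ≠ 1 → κ x ≠ 1 := fun hx e => hx (κ.injective (e.trans (map_one κ).symm))
  have e3 := h.big (h.inv κ h.hκ b hb) h3 (by rw [← map_mul, ← map_mul]; exact n1 a1) ht
    (by rw [e2]; exact n1 (n1 a1))
  rw [e2, ← map_mul, ← map_mul] at e3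
  exact a1 (h.fp _ h2.2 (κ.injective e3))

end AbC

theorem Sc.t3 (h : Sc X A) (h4 : Nat.card (Om X) = 4) (hna : ¬ Ab (⊤ : Subgroup X)) {κ : MulAut X}
    (hκ : κ ∈ A) {u v : X} (c : Cyc κ u v) : T3 X := by
  haveI : Fact (Nat.Prime 2) := ⟨Nat.prime_two⟩
  refine ⟨h.pg, fun t ht => (?_ : t ∈ Om X).1, h4⟩
  obtain ⟨H, h0, -, h2, h3⟩ := S0093.result h.pg
  have hO : Om X ≤ H := fun z hz => h3 (mem_centralizer_iff.2 fun y _ => omc hz y)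
  have hinv : ∀ φ : MulAut X, ∀ x ∈ H, φ x ∈ H := fun φ x hx =>
    characteristic_iff_le_comap.1 h0 φ hx
  by_cases hab : Ab H
  · exact AbC.main ⟨h, h4, hκ, fun z hz => Cyc.fp h4 c hz, inferInstance, hab, hO,
      fun φ _ => hinv φ, h3⟩ hna ht
  have hZ : ∀ z ∈ H ⊓ centralizer (H : Set X), z * z = 1 → z ∈ Om X := fun z hz =>
    h.om_of_ab h4 (B := H ⊓ centralizer (H : Set X)) (fun a ha b hb => mem_centralizer_iff.1 hb.2 a ha.1)
      (fun z hz => ⟨hO hz, mem_centralizer_iff.2 fun y _ => omc hz y⟩) hz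
  have hc : ∀ (g : X), ∀ s ∈ H, ⁅s, g⁆ ∈ H ⊓ centralizer (H : Set X) := fun g s hs =>
    h2 (commutator_mem_commutator hs (mem_top g))
  have hs : ∀ s : H, s * s = 1 → (s : X) ∈ Om X := fun s s2 => by
    have s2' : (s : X) * s = 1 := congrArg Subtype.val s2
    refine h.mem_om h4 s2' fun g => ?_
    rw [cm_inv]
    refine inv_mem (hZ _ (hc g s s.2) ?_)
    have := invol_inverts s2' g
    rwa [mem_centralizer_iff.1 (hc g s s.2).2 s s.2, mul_inv_cancel_right,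
      eq_inv_iff_mul_eq_one] at this
  have hm : ∀ s : H, (s : X) ∈ Om X → s ∈ Om H := fun s e =>
    ⟨mem_center_iff.2 fun g => Subtype.ext (omc e g), Subtype.ext e.2⟩
  have t3 : T3 H := ⟨h.pg.to_subgroup H, fun s s2 => (hm s (hs s s2)).1, by
    rw [← h4, show Om H = (Om X).subgroupOf H from Subgroup.ext fun s => ⟨fun e => hs s e.2, hm s⟩]
    exact Nat.card_congr (subgroupOfEquivOfLe hO).toEquiv⟩
  obtain ⟨ρ, -, hρ⟩ := t3.exists_hs (κ := MulAut.characteristic H κ) (u := ⟨u, hO c.hu⟩)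
    (v := ⟨v, hO c.hv⟩) ⟨hm _ c.hu, hm _ c.hv, fun e => c.u1 (congrArg Subtype.val e),
      fun e => c.v1 (congrArg Subtype.val e), fun e => c.ne (congrArg Subtype.val e),
      Subtype.ext c.ku, Subtype.ext c.kv⟩
  have hcen := hρ.center_eq fun e => hab fun a ha b hb =>
    congrArg Subtype.val (e ⟨a, ha⟩ trivial ⟨b, hb⟩ trivial)
  have hZ2 : ∀ z ∈ H ⊓ centralizer (H : Set X), z ∈ Om X := fun z hz =>
    hs ⟨z, hz.1⟩ (show (⟨z, hz.1⟩ : H) ∈ Om H from hcen ▸ mem_center_iff.2 fun g =>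
      Subtype.ext (mem_centralizer_iff.1 hz.2 g g.2)).2
  have k : ∀ x : X, ∀ b ∈ H, ⁅x, b⁆ ∈ center X := fun x b hb => by
    rw [cm_inv]; exact inv_mem (hZ2 _ (hc x b hb)).1
  exact h.mem_om h4 ht fun g => hZ2 _ ⟨h3 (cm_cent (k g) (k t)), cm_cent (k g) (k t)⟩

end Cfsg.Agent.H2.Scn
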