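/-
2-groups without normal elementary abelian subgroups of order 8, with odd operator groups (4).
-/
import Cfsg.Agent.H2.Scn3
import Cfsg.Agent.H26.ES3
import Cfsg.Agent.H13.Two
import Cfsg.Agent.H1.Quaternion
import Cfsg.Agent.S0119

set_option autoImplicit false
set_option linter.style.haveILetI false

namespace Cfsg.Agent.H2.Scn

open Subgroup H4 H11 Module
open scoped commutatorElement

variable {X : Type*} [Group X] [Finite X] {A : Subgroup (MulAut X)}

theorem inv_count : Nat.card {x : X // orderOf x = 2} + 1 = Nat.card {x : X // x ^ 2 = 1} := by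
  haveI : Fact (Nat.Prime 2) := ⟨Nat.prime_two⟩
  have e : {x : X | x ^ 2 = 1} = insert 1 {x : X | orderOf x = 2} := Set.ext fun x => by
    by_cases hx : x = 1
    · simp [hx]
    · simp only [Set.mem_setOf_eq, Set.mem_insert_iff, hx, false_or]
      exact ⟨fun e => orderOf_eq_prime e hx, fun e => e ▸ pow_orderOf_eq_one x⟩
  change {x : X | orderOf x = 2}.ncard + 1 = {x : X | x ^ 2 = 1}.ncard
  rw [e, Set.ncard_insert_of_notMem (by simp)]

theorem t3_count (h : T3 X) : Nat.card {x : X // orderOf x = 2} = 3 ∧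
    ∀ x : X, orderOf x = 2 → x ∈ center X := by
  refine ⟨?_, fun x hx => h.cen x (by rw [← sq, ← hx, pow_orderOf_eq_one])⟩
  have := inv_count (X := X)
  rw [show Nat.card {x : X // x ^ 2 = 1} = 4 from h.card ▸ Nat.card_congr
    (Equiv.subtypeEquivRight fun x => by rw [h.mem_Om, sq])] at this
  omega

namespace Sc

variable (h : Sc X A)
include h

theorem extra (hE : IsExtraspecial 2 X) (hna : ¬ IsMulCommutative X) :
    Nonempty (X ≃* QuaternionGroup 2) ∨
      (Nat.card X = 32 ∧ Nat.card {x : X // orderOf x = 2} = 11) := by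
  classical
  haveI : Fact (Nat.Prime 2) := ⟨Nat.prime_two⟩
  obtain ⟨n, c, hc⟩ := H26.exists_ES_of_isExtraspecial hE
  obtain ⟨m, hm⟩ := hc.exists_finrank
  have hcard := c.card_eq_pow
  have hs : ∀ W : Submodule (ZMod 2) (Fin n → ZMod 2), (∀ w ∈ W, c.Q w = 0) → finrank (ZMod 2) W ≤ 1 :=
    fun W hW => by
      have := h.e4 (c.up W) (H3.normal_of_forall_commutator_mem (c.Z_le_up W) fun g x _ =>
        c.commutator_le (commutator_mem_commutator (mem_top g) (mem_top x))) fun x hx => by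
          rw [← sq]; exact (c.isElementaryAbelian_up.2 hW).2 x hx
      rw [c.card_up_eq_pow] at this
      by_contra hn
      have : 2 ^ 3 ≤ 2 ^ (finrank (ZMod 2) W + 1) := Nat.pow_le_pow_right (by norm_num) (by omega)
      omega
  have := c.nontrivial_of_isExtraspecial hE
  have m0 : 0 < finrank (ZMod 2) (Fin n → ZMod 2) := finrank_pos
  obtain ⟨k, rfl⟩ : ∃ k, m = k + 1 := ⟨m - 1, by omega⟩
  obtain ⟨W, hW1, hW2⟩ := hc.exists_singular hm
  have hk := hs W hW2
  obtain ⟨z1, z2, -⟩ := (c.nd_Q_iff.2 hc).nz_two (by omega) hm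
  have h2 := c.card_sq_eq_one
  have h3 := inv_count (X := X)
  rw [hm] at hcard
  obtain rfl | rfl : k = 0 ∨ k = 1 := by omega
  · left
    by_cases hp : H13.IsPlus c.Q
    · exfalso
      have e1 : {x : X | x ^ 2 = 1}.ncard = 6 := by
        change Nat.card {x : X // x ^ 2 = 1} = 6
        rw [h2, z1 hp]; norm_num
      have e2 := Set.ncard_add_ncard_compl {x : X | x ^ 2 = 1}
      rw [e1, hcard] at e2
      obtain ⟨y, hy⟩ := Set.nonempty_of_ncard_ne_zero (s := {x : X | x ^ 2 = 1}ᶜ) (by omega)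
      have hy' : y ^ 2 ≠ 1 := hy
      have e3 : ({y, y⁻¹} : Set X) = {x : X | x ^ 2 = 1}ᶜ := Set.eq_of_subset_of_ncard_le (by
        rintro x (rfl | rfl)
        · exact hy
        · simpa using hy') (by
        rw [Set.ncard_pair fun e => hy' (by rw [sq]; exact mul_eq_one_iff_eq_inv.2 e)]; omega)
      have hy4 : orderOf y = 4 := orderOf_eq_prime_pow (p := 2) (n := 1) (by simpa using hy') (by
        rw [show 2 ^ (1 + 1) = 2 * 2 by norm_num, pow_mul, c.sq_eq y, c.ζ_pow_p])
      have hi := (zpowers y).card_mul_index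
      rw [Nat.card_zpowers, hy4, hcard] at hi
      have ht := h.idx (H := zpowers y) (by omega) fun φ _ x hx => by
        obtain ⟨k, rfl⟩ := hx
        rw [map_zpow]
        refine zpow_mem ?_ k
        have : φ y ∈ ({y, y⁻¹} : Set X) := by
          rw [e3]
          intro e
          exact hy' (φ.injective (by rw [map_pow, map_one]; exact e))
        rcases this with e | e <;> rw [e]
        · exact mem_zpowers y
        · exact inv_mem (mem_zpowers y)
      rw [ht, index_top] at hi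
      omega
    · have e1 := z2 hp
      have e2 : Nat.card {x : X // orderOf x = 2} = 1 := by norm_num at e1; omega
      haveI := (Nat.card_eq_one_iff_unique.1 e2).1
      rcases H1.isCyclic_or_quaternion h.pg fun x y hx hy => by
        by_cases y1 : y = 1
        · rw [y1]; exact one_mem _
        · rw [show y = x from congrArg Subtype.val (Subsingleton.elim
            (⟨y, orderOf_eq_prime hy y1⟩ : {x : X // orderOf x = 2}) ⟨x, hx⟩)]
          exact mem_zpowers x
        with e | ⟨-, j, hj, ⟨e⟩⟩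
      · exact absurd IsCyclic.commutative hna
      · have := Nat.card_congr e.toEquiv
        rw [hcard, Nat.card_eq_fintype_card, QuaternionGroup.card] at this
        obtain rfl : j = 1 := Nat.pow_right_injective (le_refl 2) (show 2 ^ j = 2 ^ 1 by omega)
        exact ⟨e⟩
  · right
    have hp : ¬ H13.IsPlus c.Q := fun hp => by
      obtain ⟨E, h1, h2⟩ := (hc.isPlus_iff hm).1 hp
      obtain ⟨W, h3, h4⟩ := c.exists_elem_iff.1 ⟨E, h1, h2.ge⟩
      have := hs W h4
      omega
    have e1 := z2 hp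
    norm_num at e1 hcard
    exact ⟨hcard, by omega⟩

theorem special (hs : IsSpecial 2 X) (hf : ∀ g : X, g ∈ center X ↔ ∀ a ∈ A, a g = g)
    (hO : center X = Om X) (h4 : Nat.card (Om X) = 4) : T3 X ∧ Nat.card X = 64 := by
  haveI : Fact (Nat.Prime 2) := ⟨Nat.prime_two⟩
  have hcm : commutator X = Om X := hs.2.2.trans hO
  have t3 : T3 X := ⟨h.pg, fun t ht => (h.mem_om h4 ht fun g =>
    hcm ▸ commutator_mem_commutator (mem_top g) (mem_top t)).1, h4⟩
  refine ⟨t3, ?_⟩
  have hsq : ∀ x ∈ (⊤ : Subgroup X), x * x ∈ Om X := fun x _ => by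
    rw [← sq, ← hO, ← hs.2.1]; exact H3.pow_mem_frattini h.pg x
  have n4 : ∀ z ∈ Om X, z ≠ 1 → (sqS ⊤ z).ncard ≠ 4 := fun z hz z1 e => by
    obtain ⟨x, -, hx⟩ := Set.nonempty_of_ncard_ne_zero (s := sqS ⊤ z) (by omega)
    have e1 : (fun c => x * c) '' (Om X : Set X) = sqS ⊤ z := Set.eq_of_subset_of_ncard_le (by
      rintro _ ⟨c, hc, rfl⟩
      refine ⟨trivial, ?_⟩
      change x * c * (x * c) = z
      rw [show x * c * (x * c) = x * (c * x) * c by group, ← omc hc x,
        show x * (x * c) * c = x * x * (c * c) by group, hc.2, mul_one, hx]) (by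
      rw [Set.ncard_image_of_injective _ (mul_right_injective x), e]
      exact h4.ge)
    have : x ∈ Om X := hO ▸ (hf x).2 fun φ hφ => by
      obtain ⟨c, hc, e2⟩ : φ x ∈ (fun c => x * c) '' (Om X : Set X) :=
        e1 ▸ ⟨trivial, by rw [← map_mul, hx, (hf z).1 hz.1 φ hφ]⟩
      refine fix_of_sq (h.odd φ hφ) ?_
      dsimp only at e2
      rw [← e2, map_mul, ← e2, (hf c).1 hc.1 φ hφ, mul_assoc, hc.2, mul_one]
    exact z1 (hx.symm.trans this.2)
  have n0 : ∀ a ∈ Om X, ∀ b ∈ Om X, a ≠ 1 → b ≠ 1 → a ≠ b → (sqS ⊤ b).ncard = 0 →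
      (sqS ⊤ (a * b)).ncard ≠ 0 := fun a ha b hb a1 b1 ab e1 e2 => by
    rw [Set.ncard_eq_zero] at e1 e2
    have : commutator X ≤ zpowers a := commutator_le.2 fun x _ y _ =>
      commutator_mem_of_sq (U := ⊤) (fun u _ => by
        rcases (klein_mem_iff t3.klein ha hb a1 b1 ab).1 (hsq u trivial) with e | e | e | e
        · rw [e]; exact one_mem _
        · rw [e]; exact mem_zpowers a
        · exact absurd (show u ∈ sqS ⊤ b from ⟨trivial, e⟩) (by rw [e1]; exact id)
        · exact absurd (show u ∈ sqS ⊤ (a * b) from ⟨trivial, e⟩) (by rw [e2]; exact id))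
        trivial trivial
    have := card_le_of_le (hcm ▸ this)
    rw [h4, Nat.card_zpowers, orderOf_eq_prime (p := 2) (by rw [sq, ha.2]) a1] at this
    omega
  obtain ⟨a, ha, b, hb, a1, b1, ab⟩ := klein_exists_gens t3.klein
  have ab1 : a * b ≠ 1 := fun e => ab (by rw [← om_inv hb]; exact eq_inv_of_mul_eq_one_left e)
  have s := t3.card_eq_sum le_top hsq ha hb a1 b1 ab
  have c1 := n0 a ha b hb a1 b1 ab
  have c2 := n0 b hb a ha b1 a1 ab.symm
  have c3 := n0 _ (mul_mem ha hb) a ha ab1 a1 (fun e => b1 (mul_eq_left.1 e))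
  rw [omc ha b] at c2
  rw [omc ha (a * b), ← mul_assoc, ha.2, one_mul] at c3
  have d1 := t3.four_dvd le_top a
  have d2 := t3.four_dvd le_top b
  have d3 := t3.four_dvd le_top (a * b)
  have f1 := n4 a ha a1
  have f2 := n4 b hb b1
  have f3 := n4 _ (mul_mem ha hb) ab1
  have g1 := fun e => t3.ncard_mod le_top hsq e ha a1
  have g2 := fun e => t3.ncard_mod le_top hsq e hb b1
  have g3 := fun e => t3.ncard_mod le_top hsq e (mul_mem ha hb) ab1
  have := t3.card_cases le_top (t3.card_le le_top hsq)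
  rw [← card_top (G := X)]
  omega

theorem main (hA : Odd (Nat.card A)) (hna : ¬ IsMulCommutative X) : Nonempty (X ≃* QuaternionGroup 2) ∨
      (IsSpecial 2 X ∧ Nat.card X = 64 ∧ Nat.card {x : X // orderOf x = 2} = 3 ∧
        ∀ x : X, orderOf x = 2 → x ∈ center X) ∨
      (IsExtraspecial 2 X ∧ Nat.card X = 32 ∧ Nat.card {x : X // orderOf x = 2} = 11) := by
  haveI : Fact (Nat.Prime 2) := ⟨Nat.prime_two⟩
  have hna' : ¬ Ab (⊤ : Subgroup X) := fun e => hna ⟨⟨fun a b => e a trivial b trivial⟩⟩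
  have hle := h.e4 _ om_normal fun x hx => hx.2
  by_cases hch : ∀ H : Subgroup X, H.Characteristic → IsMulCommutative H → ∀ a ∈ A, ∀ x ∈ H, a x = x
  · obtain ⟨hs, hf⟩ := S0119.result h.pg A (by
      haveI : Finite (MulAut X) := Finite.of_injective _ MulEquiv.toEquiv_injective
      exact Nat.coprime_two_right.2 hA) (by
      rw [← h.gen]; congr 1; ext g
      exact ⟨fun ⟨x, a, ha, e⟩ => ⟨a, ha, x, e⟩, fun ⟨a, ha, x, e⟩ => ⟨x, a, ha, e⟩⟩) hch
    have hO : center X = Om X := le_antisymm (hs.2.2.ge.trans (commutator_le.2 fun x _ y _ => by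
      have hc : ⁅x, y⁆ ∈ center X := hs.2.2 ▸ commutator_mem_commutator (mem_top x) (mem_top y)
      have := inverts (x := x) (by rw [← sq, ← hs.2.1]; exact H3.pow_mem_frattini h.pg x) y
      rw [mem_center_iff.1 hc x, mul_inv_cancel_right, eq_inv_iff_mul_eq_one] at this
      exact ⟨hc, this⟩)) fun x hx => hx.1
    obtain ⟨k, hk⟩ := (h.pg.to_subgroup (Om X)).exists_card_eq
    have : k ≤ 2 := (Nat.pow_le_pow_iff_right one_lt_two).1 (by rw [← hk]; exact hle)
    obtain rfl | rfl | rfl : k = 0 ∨ k = 1 ∨ k = 2 := by omega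
    · refine absurd (fun x _ y _ => commutatorElement_eq_one_iff_mul_comm.1 ?_) hna'
      have := commutator_mem_commutator (mem_top x) (mem_top y)
      rwa [← _root_.commutator_def, hs.2.2, hO, card_eq_one.1 hk, mem_bot] at this
    · have hE : IsExtraspecial 2 X := ⟨hs, hO ▸ hk⟩
      exact (h.extra hE hna).imp_right fun e => Or.inr ⟨hE, e⟩
    · obtain ⟨t3, e⟩ := h.special hs hf hO hk
      exact Or.inr (Or.inl ⟨hs, e, t3_count t3⟩)
  push Not at hch
  obtain ⟨B, hB, hab, κ, hκ, x, hx, hne⟩ := hch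
  have hab' : Ab B := H3.isMulCommutative_iff_mem.1 hab
  have hinv : ∀ φ : MulAut X, ∀ x ∈ B, φ x ∈ B := fun φ x hx =>
    characteristic_iff_le_comap.1 hB φ hx
  obtain ⟨w, hw, w2, hn⟩ : ∃ w ∈ B, w * w = 1 ∧ κ w ≠ w := by
    by_contra! hc
    refine hne (OddAct.fix_of_comm (X := B) (ψ := κ) ⟨hinv κ, fun x _ y _ => map_mul κ x y,
      orderOf κ, h.odd κ hκ, ?_⟩ (h.pg.to_subgroup B) hab' hc hx)
    intro x _
    have : ∀ m : ℕ, (⇑κ)^[m] x = (κ ^ m) x := fun m => by
      induction m with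
      | zero => rfl
      | succ m ih => rw [Function.iterate_succ_apply', ih, pow_succ']; rfl
    rw [this, pow_orderOf_eq_one]; rfl
  let E : Subgroup X :=
    { carrier := {x | x ∈ B ∧ x * x = 1}
      mul_mem' := by
        rintro x y ⟨hx, x2⟩ ⟨hy, y2⟩
        refine ⟨mul_mem hx hy, ?_⟩
        calc x * y * (x * y) = x * (y * x) * y := by group
          _ = (x * x) * (y * y) := by rw [hab' y hy x hx]; group
          _ = 1 := by rw [x2, y2, mul_one]
      one_mem' := ⟨one_mem _, mul_one 1⟩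
      inv_mem' := by
        rintro x ⟨hx, x2⟩
        exact ⟨inv_mem hx, by rw [← mul_inv_rev, x2, inv_one]⟩ }
  have hE : ∀ φ : MulAut X, ∀ x ∈ E, φ x ∈ E := fun φ x hx =>
    ⟨hinv φ x hx.1, by rw [← map_mul, hx.2, map_one]⟩
  haveI hn' : E.Normal := ⟨fun n hn g => hE (MulAut.conj g) n hn⟩
  have w1 : w ≠ 1 := fun e => hn (by rw [e, map_one])
  have o1 : orderOf w = 2 := orderOf_eq_prime (by rw [sq, w2]) w1
  have hk := isKleinFour_iff.1 (isKleinFour_closure o1 ((MulEquiv.orderOf_eq κ w).trans o1) hn.symm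
    (hab' w hw _ (hinv κ w hw)))
  have hle2 : closure {w, κ w} ≤ E := (closure_le E).2 (by
    rintro y (rfl | rfl)
    · exact ⟨hw, w2⟩
    · exact hE κ w ⟨hw, w2⟩)
  have e4 : Nat.card E = 2 ^ 2 := le_antisymm (h.e4 E hn' fun x hx => hx.2)
    (hk.1.ge.trans (card_le_of_le hle2))
  have ht := h.idx (H := centralizer (E : Set X)) (H3.index_centralizer_le h.pg 2 E e4)
    fun φ _ x hx => mem_centralizer_iff.2 fun y hy => by
      have := congrArg φ (mem_centralizer_iff.1 hx _ (hE φ⁻¹ y hy))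
      simpa using this
  have hEO : E ≤ Om X := fun y hy => ⟨mem_center_iff.2 fun g =>
    (mem_centralizer_iff.1 (ht ▸ mem_top g : g ∈ centralizer (E : Set X)) y hy).symm, hy.2⟩
  have h4 : Nat.card (Om X) = 4 := le_antisymm hle (e4.ge.trans (card_le_of_le hEO))
  have c := cyc_of_ne h4 (h.odd κ hκ) (hEO ⟨hw, w2⟩) hn
  have t3 := h.t3 h4 hna' hκ c
  obtain ⟨ρ, -, hρ⟩ := t3.exists_hs c
  obtain ⟨F, _, _, _, hF⟩ := hρ.exists_field
  exact Or.inr (Or.inl ⟨⟨h.pg, (hρ.frattini_eq hna').trans (hρ.center_eq hna').symm,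
    (hρ.commutator_eq hna').trans (hρ.center_eq hna').symm⟩, (exists_coord2 hρ hna' hF).1, t3_count t3⟩)

end Sc

theorem s1904 (hX : IsPGroup 2 X)
    (hscn : ¬ ∃ A : Subgroup X, A.Normal ∧ centralizer (A : Set X) = A ∧
      ∃ E : Subgroup X, E ≤ A ∧ IsElementaryAbelian 2 E ∧ Nat.card E = 8)
    (hA : Odd (Nat.card A)) (hXA : closure {g : X | ∃ φ ∈ A, ∃ x : X, g = x⁻¹ * φ x} = ⊤) :
    Sc X A := by
  haveI : Fact (Nat.Prime 2) := ⟨Nat.prime_two⟩
  refine ⟨hX, fun E hE h2 => ?_, fun φ hφ => hA.of_dvd_nat (A.orderOf_dvd_natCard hφ), hXA⟩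
  by_contra hn
  obtain ⟨k, hk⟩ := (hX.to_subgroup E).exists_card_eq
  have hab : ∀ K ≤ E, IsMulCommutative K := fun K hK =>
    H3.isMulCommutative_iff_mem.2 fun a ha b hb => comm_of_sq_eq_one h2 (hK ha) (hK hb)
  obtain ⟨B, h3, h4, h5, h6⟩ := H3.exists_selfCentralizing_normal_abelian hX E (hab E le_rfl)
  obtain ⟨K, -, h7, h8⟩ := H3.exists_normal_le_card_eq hX E 3 (by
    rw [hk] at hn ⊢
    refine Nat.pow_le_pow_right two_pos (by_contra fun e => hn ?_)
    exact (Nat.pow_le_pow_right two_pos (show k ≤ 2 by omega)).trans (by norm_num))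
  exact hscn ⟨B, h3, le_antisymm h6 (le_centralizer B), K, h7.trans h5,
    ⟨hab K h7, fun a ha => by rw [sq, h2 a (h7 ha)]⟩, h8⟩

end Cfsg.Agent.H2.Scn
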