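import Cfsg.Agent.H12.PSL2Dih
import Cfsg.Agent.H2.Mix2
import Cfsg.Agent.H1.Basic

/-! Solubilizers: general facts and the structure of two-generated solvable subgroups of `SL₂`. -/

namespace Cfsg.Agent.H2.Sol
open Subgroup
open scoped Pointwise commutatorElement

section general
variable {G : Type*} [Group G]

theorem solv_of_le {N A : Subgroup G} (h : N ≤ A) (hA : Group.IsSolvable A) : Group.IsSolvable N :=
  Group.isSolvable_of_isSolvable_injective (Subgroup.inclusion_injective h)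

theorem solv_of_comm {N A : Subgroup G} (h : ⁅N, N⁆ ≤ A) (hA : Group.IsSolvable A) : Group.IsSolvable N := by
  have := solv_of_le (inf_le_left (b := N)) hA
  refine Group.isSolvable_of_ker_le_range (Subgroup.inclusion (inf_le_right (a := A))) Abelianization.of
    fun x hx => ?_
  rw [Abelianization.ker_of] at hx
  exact ⟨⟨x, h (Subgroup.map_subtype_commutator N ▸ ⟨x, hx, rfl⟩), x.2⟩, rfl⟩

theorem solv_of_mul_comm {A : Subgroup G} (h : ∀ a ∈ A, ∀ b ∈ A, a * b = b * a) : Group.IsSolvable A :=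
  Group.isSolvable_of_comm fun a b => Subtype.ext (h a a.2 b b.2)

theorem solv_zpowers (x : G) : Group.IsSolvable (zpowers x) := solv_of_mul_comm (by
  rintro _ ⟨i, rfl⟩ _ ⟨j, rfl⟩
  exact zpow_mul_comm x i j)

/-- the solubilizer -/
def sol (x : G) : Set G := {y | Group.IsSolvable (closure ({x, y} : Set G))}

theorem mem_sol_of_le {x y : G} {H : Subgroup G} (hH : Group.IsSolvable H) (hx : x ∈ H) (hy : y ∈ H) :
    y ∈ sol x := solv_of_le ((closure_le _).2 (by rintro _ (rfl | rfl) <;> assumption)) hH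

theorem left_mem (x y : G) : x ∈ closure ({x, y} : Set G) := subset_closure (by simp)
theorem right_mem (x y : G) : y ∈ closure ({x, y} : Set G) := subset_closure (by simp)

theorem mem_sol_of_mem {a b x y : G} (h : b ∈ sol a) (hx : x ∈ closure ({a, b} : Set G))
    (hy : y ∈ closure ({a, b} : Set G)) : y ∈ sol x := mem_sol_of_le h hx hy

theorem mem_sol_map_iff {H : Type*} [Group H] (f : G →* H) (hk : Group.IsSolvable f.ker) {x y : G} :
    f y ∈ sol (f x) ↔ y ∈ sol x := by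
  have h1 : closure ({f x, f y} : Set H) = (closure ({x, y} : Set G)).map f := by
    rw [MonoidHom.map_closure, Set.image_pair]
  simp only [sol, Set.mem_setOf_eq]
  rw [h1]
  constructor
  · intro h
    haveI := solv_of_le (inf_le_left (b := closure ({x, y} : Set G))) hk
    refine Group.isSolvable_of_ker_le_range (Subgroup.inclusion (inf_le_right (a := f.ker)))
      (f.subgroupMap _) fun a ha => ⟨⟨a, congrArg Subtype.val ha, a.2⟩, rfl⟩
  · intro h
    exact Group.isSolvable_of_surjective (f.subgroupMap_surjective _)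

theorem ncard_sol_conj (x g : G) : (sol (g * x * g⁻¹)).ncard = (sol x).ncard := by
  have h1 : sol (g * x * g⁻¹) = (MulAut.conj g) '' sol x := by
    ext y
    obtain ⟨y, rfl⟩ := (MulAut.conj g).surjective y
    rw [(MulAut.conj g).injective.mem_set_image]
    refine mem_sol_map_iff (MulAut.conj g).toMonoidHom ?_
    rw [(MonoidHom.ker_eq_bot_iff _).2 (MulAut.conj g).injective]
    infer_instance
  rw [h1, Set.ncard_image_of_injective _ (MulAut.conj g).injective]

theorem ncard_sol_quot (x : G) :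
    (sol x).ncard = Nat.card (center G) * (sol (x : G ⧸ center G)).ncard := by
  have h1 : sol x = QuotientGroup.mk ⁻¹' sol (x : G ⧸ center G) := by
    ext y
    refine (mem_sol_map_iff (QuotientGroup.mk' (center G)) ?_).symm
    rw [QuotientGroup.ker_mk']
    exact solv_of_mul_comm fun a _ b hb => mem_center_iff.1 hb a
  rw [h1, ← Nat.card_coe_set_eq, QuotientGroup.card_preimage_mk, Nat.card_coe_set_eq]

theorem mem_sol_of_mk {x y : G} (h : (y : G ⧸ center G) ∈ sol (x : G ⧸ center G)) : y ∈ sol x := by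
  refine (mem_sol_map_iff (QuotientGroup.mk' (center G)) ?_).1 h
  rw [QuotientGroup.ker_mk']
  exact solv_of_mul_comm fun a _ b hb => mem_center_iff.1 hb a

theorem mem_sol_dih {s t : G} (hs : s ^ 2 = 1) (ht : t ^ 2 = 1) : t ∈ sol s :=
  mem_sol_of_le (H1.isSolvable_sup (zpowers_le.2 (Mix.mem_norm_zpowers hs (Or.inr (Mix.inv_mul_invol hs ht))))
    (solv_zpowers _) (solv_zpowers _)) (mem_sup_right (mem_zpowers s)) (by
      have : s⁻¹ * (s * t) ∈ zpowers (s * t) ⊔ zpowers s :=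
        mul_mem (inv_mem (mem_sup_right (mem_zpowers s))) (mem_sup_left (mem_zpowers _))
      simpa using this)

theorem mem_sol_a4 [Finite G] {a b : G} (ha : a ^ 2 = 1) (hb : b ^ 3 = 1) (hab : (a * b) ^ 3 = 1) :
    b ∈ sol a := by
  have h1 : a * (b * a * b⁻¹) * (b * (b * a * b⁻¹) * b⁻¹) = 1 := by
    have : a * (b * a * b⁻¹) * (b * (b * a * b⁻¹) * b⁻¹) = (a * b) ^ 3 * (b ^ 3)⁻¹ := by
      rw [pow_succ, pow_succ, pow_succ, pow_succ, pow_succ, pow_succ]; group
    rw [this, hab, hb]; simp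
  have inv2 : ∀ s : G, s ^ 2 = 1 → s⁻¹ = s := fun s hs => inv_eq_of_mul_eq_one_right (by rw [← pow_two, hs])
  have h2 : (b * a * b⁻¹) ^ 2 = 1 := by rw [conj_pow, ha]; simp
  have h3 : (b * (b * a * b⁻¹) * b⁻¹) ^ 2 = 1 := by rw [conj_pow, h2]; simp
  set a1 := b * a * b⁻¹ with ha1
  have h4 : b * a1 * b⁻¹ = a * a1 := (inv2 _ h3).symm.trans (eq_inv_of_mul_eq_one_left h1).symm
  have h5 : a * a1 = a1 * a := by
    have := inv2 _ h3
    rw [h4, mul_inv_rev, inv2 a ha, inv2 a1 h2] at this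
    exact this.symm
  have hV : Group.IsSolvable (closure ({a, a1} : Set G)) := by
    have : IsMulCommutative (closure ({a, a1} : Set G)) := isMulCommutative_closure (by
      rintro _ (rfl | rfl) _ (rfl | rfl)
      exacts [rfl, h5, h5.symm, rfl])
    exact solv_of_mul_comm fun _ hx _ hy => H2.mul_comm_of_mem hx hy
  have hn : b ∈ normalizer ((closure ({a, a1} : Set G) : Subgroup G) : Set G) :=
    H3.mem_normalizer_of_conj_mem fun y hy => by
      have : (closure ({a, a1} : Set G)).map (MulAut.conj b).toMonoidHom ≤ closure {a, a1} := by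
        rw [MonoidHom.map_closure, closure_le]
        rintro _ ⟨_, rfl | rfl, rfl⟩
        · exact right_mem _ _
        · change b * a1 * b⁻¹ ∈ _
          rw [h4]; exact mul_mem (left_mem _ _) (right_mem _ _)
      exact this ⟨y, hy, rfl⟩
  exact mem_sol_of_le (H1.isSolvable_sup (zpowers_le.2 hn) hV (solv_zpowers b))
    (mem_sup_left (left_mem _ _)) (mem_sup_right (mem_zpowers b))

theorem exists_z [Finite G] {H : Subgroup G} (hH : Group.IsSolvable H) (h1 : H ≠ ⊥) :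
    ∃ z ∈ H, z ≠ 1 ∧ ∀ a ∈ H, ∀ b ∈ H, Commute (a * z * a⁻¹) (b * z * b⁻¹) := by
  haveI := (nontrivial_iff_ne_bot H).2 h1
  obtain ⟨M, hM, hc, -⟩ := H2.exists_isMinNormal_of_isSolvable (G := H)
  obtain ⟨z, hz, hz1⟩ := (bot_or_exists_ne_one M).resolve_left hM.ne_bot
  refine ⟨z, z.2, fun h => hz1 (Subtype.ext h), fun a ha b hb => ?_⟩
  exact congrArg Subtype.val (H2.mul_comm_of_mem (hM.normal.conj_mem z hz ⟨a, ha⟩)
    (hM.normal.conj_mem z hz ⟨b, hb⟩))

end general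

open Matrix MulAction H12
open scoped MatrixGroups

variable {F : Type*} [Field F]

/-- trace -/
abbrev tr (g : SL(2, F)) : F := g.1.trace

theorem tr_eq (g : SL(2, F)) : tr g = g 0 0 + g 1 1 := trace_fin_two _

theorem tr_neg (g : SL(2, F)) : tr (-g) = -tr g := by simp [tr]

theorem tr_one : tr (1 : SL(2, F)) = 2 := by simp [tr]

theorem tr_mul_comm (g h : SL(2, F)) : tr (g * h) = tr (h * g) := trace_mul_comm _ _

theorem mul_ent (g h : SL(2, F)) (i j : Fin 2) : (g * h) i j = g i 0 * h 0 j + g i 1 * h 1 j := by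
  simp [Matrix.mul_apply, Fin.sum_univ_two]

theorem inv_ent (g : SL(2, F)) : g⁻¹ 0 0 = g 1 1 ∧ g⁻¹ 0 1 = -g 0 1 ∧ g⁻¹ 1 0 = -g 1 0 ∧ g⁻¹ 1 1 = g 0 0 := by
  rw [SpecialLinearGroup.SL2_inv_expl]; simp

theorem tr_comm (x y : SL(2, F)) : tr (x⁻¹ * (y * x * y⁻¹)) =
    tr x ^ 2 + tr y ^ 2 + tr (x * y) ^ 2 - tr x * tr y * tr (x * y) - 2 := by
  have h1 := sl2_det x
  have h2 := sl2_det y
  obtain ⟨a1, a2, a3, a4⟩ := inv_ent x
  obtain ⟨b1, b2, b3, b4⟩ := inv_ent y
  simp only [tr_eq, mul_ent, a1, a2, a3, a4, b1, b2, b3, b4]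
  linear_combination ((y 0 0 + y 1 1) ^ 2 - 2 * (y 0 0 * y 1 1 - y 0 1 * y 1 0)) * h1 +
    ((x 0 0 + x 1 1) ^ 2 - 2) * h2

theorem tr_three (x y z : SL(2, F)) : tr (x * y * z) * tr (x * z * y) =
    tr x ^ 2 + tr y ^ 2 + tr z ^ 2 + tr (x * y) ^ 2 + tr (y * z) ^ 2 + tr (x * z) ^ 2
      - tr x * tr y * tr (x * y) - tr y * tr z * tr (y * z) - tr x * tr z * tr (x * z)
      + tr (x * y) * tr (y * z) * tr (x * z) - 4 := by
  have h1 := sl2_det x
  have h2 := sl2_det y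
  have h3 := sl2_det z
  have key : tr (x * y * z) * tr (x * z * y) =
    tr x ^ 2 * (y 0 0 * y 1 1 - y 0 1 * y 1 0) * (z 0 0 * z 1 1 - z 0 1 * z 1 0)
      + tr y ^ 2 * (x 0 0 * x 1 1 - x 0 1 * x 1 0) * (z 0 0 * z 1 1 - z 0 1 * z 1 0)
      + tr z ^ 2 * (x 0 0 * x 1 1 - x 0 1 * x 1 0) * (y 0 0 * y 1 1 - y 0 1 * y 1 0)
      + tr (x * y) ^ 2 * (z 0 0 * z 1 1 - z 0 1 * z 1 0) + tr (y * z) ^ 2 * (x 0 0 * x 1 1 - x 0 1 * x 1 0)
      + tr (x * z) ^ 2 * (y 0 0 * y 1 1 - y 0 1 * y 1 0)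
      - tr x * tr y * tr (x * y) * (z 0 0 * z 1 1 - z 0 1 * z 1 0)
      - tr y * tr z * tr (y * z) * (x 0 0 * x 1 1 - x 0 1 * x 1 0)
      - tr x * tr z * tr (x * z) * (y 0 0 * y 1 1 - y 0 1 * y 1 0)
      + tr (x * y) * tr (y * z) * tr (x * z)
      - 4 * (x 0 0 * x 1 1 - x 0 1 * x 1 0) * (y 0 0 * y 1 1 - y 0 1 * y 1 0)
        * (z 0 0 * z 1 1 - z 0 1 * z 1 0) := by
    simp only [tr_eq, mul_ent]; ring
  rw [key, h1, h2, h3]; ring

theorem smul_inf_iff (g : SL(2, F)) : g • inf F = inf F ↔ g 1 0 = 0 := by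
  rw [← toGL_smul_proj, gl_smul_inf_eq_inf_iff]; rfl

theorem smul_zero_iff (g : SL(2, F)) : g • aff (0 : F) = aff 0 ↔ g 0 1 = 0 := by
  rw [← toGL_smul_proj, gl_smul_aff_eq_aff_iff]
  simp only [mul_zero, zero_add, zero_mul]; rfl

theorem neg_smul_P1 (g : SL(2, F)) (P : P1 F) : (-g) • P = g • P := by
  have h1 : (-1 : SL(2, F)) • (g • P) = g • P := by
    generalize g • P = R
    rcases P1_cases R with rfl | ⟨z, rfl⟩
    · rw [smul_inf_iff]; simp
    · rw [← toGL_smul_proj, gl_smul_aff_eq_aff_iff]; simp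
  rw [← h1, ← mul_smul, neg_one_mul]

theorem solv_stab (P : P1 F) : Group.IsSolvable (stabilizer SL(2, F) P) := by
  have key : Group.IsSolvable (stabilizer SL(2, F) (inf F)) := by
    refine solv_of_comm (A := rootSL (inf F)) (commutator_le.2 fun a ha b hb => ?_)
      (solv_of_mul_comm fun a ha b hb => ?_)
    · have h1 : ⁅a, b⁆ 1 0 = 0 := (smul_inf_iff _).1 (mem_stabilizer_iff.1
        (mul_mem (mul_mem (mul_mem ha hb) (inv_mem ha)) (inv_mem hb)))
      have ha' := (smul_inf_iff _).1 ha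
      have hb' := (smul_inf_iff _).1 hb
      have h2 : ⁅a, b⁆ * (b * a) = a * b := by rw [commutatorElement_def]; group
      have h3 : (⁅a, b⁆ * (b * a)) 0 0 = (a * b) 0 0 := by rw [h2]
      simp only [mul_ent, ha', hb'] at h3
      have h4 := sl2_det a
      have h5 := sl2_det b
      have h6 := sl2_det ⁅a, b⁆
      rw [ha'] at h4
      rw [hb'] at h5
      rw [h1] at h6
      have h7 : ⁅a, b⁆ 0 0 = 1 := by
        linear_combination (a 1 1 * b 1 1) * h3 - (⁅a, b⁆ 0 0 - 1) * (b 0 0 * b 1 1) * h4 -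
          (⁅a, b⁆ 0 0 - 1) * h5
      refine mem_rootSL_inf.2 ⟨⁅a, b⁆ 0 1, ?_⟩
      ext i j
      rw [upper_coe]
      fin_cases i <;> fin_cases j
      · simpa using h7
      · simp
      · simpa using h1
      · rw [h7] at h6; simpa using h6
    · obtain ⟨s, rfl⟩ := mem_rootSL_inf.1 ha
      obtain ⟨t, rfl⟩ := mem_rootSL_inf.1 hb
      rw [← upper_add, ← upper_add, add_comm]
  obtain ⟨g, rfl⟩ := exists_sl_point P
  rw [stabilizer_smul_eq_stabilizer_map_conj]
  exact Group.isSolvable_of_surjective (MonoidHom.subgroupMap_surjective _ _)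

variable [Fintype F]

theorem cent_facts {z : SL(2, F)} (hz : tr z ^ 2 ≠ 4) : ∃ N : ℕ, (N : F) ≠ 0 ∧
    (∀ a, a * z = z * a → a ^ N = 1) ∧ ∀ a b, a * z = z * a → b * z = z * b → a * b = b * a := by
  obtain ⟨N, hN, h1, h2⟩ : ∃ N : ℕ, (N = Fintype.card F - 1 ∨ N = Fintype.card F + 1) ∧ (N : F) ≠ 0 ∧
      z ^ N = 1 := by
    rcases pow_eq_one_of_trace_ne hz with h | h
    · exact ⟨_, Or.inl rfl, natCast_card_sub_one_ne_zero, h⟩
    · exact ⟨_, Or.inr rfl, natCast_card_add_one_ne_zero, h⟩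
  obtain ⟨t, ht, -, hC⟩ := exists_torus hN hz h2
  have h3 : ∀ a, a * z = z * a → a ∈ zpowers t := fun a ha => hC ▸ mem_centralizer_singleton_iff.2 ha
  refine ⟨N, h1, fun a ha => ?_, fun a b ha hb => ?_⟩
  · obtain ⟨k, rfl⟩ := h3 a ha
    simp only
    rw [← _root_.zpow_natCast, ← _root_.zpow_mul, mul_comm, _root_.zpow_mul, _root_.zpow_natCast, ← ht, pow_orderOf_eq_one, _root_.one_zpow]
  · obtain ⟨k, rfl⟩ := h3 a ha
    obtain ⟨l, rfl⟩ := h3 b hb
    exact zpow_mul_comm t k l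

theorem cent_tr {z a : SL(2, F)} (hz : tr z ^ 2 ≠ 4) (h : a * z = z * a) :
    a = 1 ∨ a = -1 ∨ tr a ^ 2 ≠ 4 := by
  obtain ⟨N, h1, h2, -⟩ := cent_facts hz
  exact central_or_trace_ne h1 (Or.inl (h2 a h))

theorem solv_norm {z : SL(2, F)} (hz : tr z ^ 2 ≠ 4) :
    Group.IsSolvable (normalizer (zpowers z : Set SL(2, F))) := by
  obtain ⟨N, -, -, h3⟩ := cent_facts hz
  refine solv_of_comm (A := centralizer {z}) (commutator_le.2 fun a ha b hb => ?_)
    (solv_of_mul_comm fun a ha b hb => h3 a b (mem_centralizer_singleton_iff.1 ha)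
      (mem_centralizer_singleton_iff.1 hb))
  rw [mem_centralizer_singleton_iff, ← mul_inv_eq_iff_eq_mul]
  have ha' := (mem_normalizer_zpowers_iff hz).1 ha
  have hb' := (mem_normalizer_zpowers_iff hz).1 hb
  have h1 : a * b * z * (a * b)⁻¹ = b * a * z * (b * a)⁻¹ := by
    have e1 : a * b * z * (a * b)⁻¹ = a * (b * z * b⁻¹) * a⁻¹ := by group
    have e2 : b * a * z * (b * a)⁻¹ = b * (a * z * a⁻¹) * b⁻¹ := by group
    have e3 : a * z⁻¹ * a⁻¹ = (a * z * a⁻¹)⁻¹ := by group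
    have e4 : b * z⁻¹ * b⁻¹ = (b * z * b⁻¹)⁻¹ := by group
    rw [e1, e2]
    rcases ha' with h | h <;> rcases hb' with h' | h' <;> simp only [h, h', e3, e4, inv_inv]
  have h2 := (mem_normalizer_zpowers_iff hz).1 (inv_mem (mul_mem hb ha))
  have e : ⁅a, b⁆ * z * ⁅a, b⁆⁻¹ = a * b * ((b * a)⁻¹ * z * (b * a)⁻¹⁻¹) * (a * b)⁻¹ := by
    rw [commutatorElement_def]; group
  rw [e]
  rcases h2 with h | h
  · rw [h, h1]
    nth_rewrite 1 [← h]; group
  · have e5 : a * b * z⁻¹ * (a * b)⁻¹ = (a * b * z * (a * b)⁻¹)⁻¹ := by group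
    rw [h, e5, h1]
    have e6 : z = ((b * a)⁻¹ * z * (b * a)⁻¹⁻¹)⁻¹ := by rw [h, inv_inv]
    nth_rewrite 1 [e6]; group

omit [Fintype F] in
theorem tr_of_anti {a b : SL(2, F)} (h2 : (2 : F) ≠ 0) (h : a * b = -(b * a)) : tr b = 0 := by
  have h1 : a * b * a⁻¹ = -b := by rw [h, neg_mul, mul_inv_cancel_right]
  have h3 := sl2_trace_conj b a
  rw [h1] at h3
  have h4 : -tr b = tr b := (tr_neg b).symm.trans h3
  exact (mul_eq_zero.1 (by linear_combination -h4 : 2 * tr b = 0)).resolve_left h2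

theorem exists_root [Finite F] {z : SL(2, F)} (hz : tr z ^ 2 = 4) (h1 : z ≠ 1) (h2 : z ≠ -1) :
    ∃ (P : P1 F) (u : SL(2, F)), u ∈ rootSL P ∧ u ≠ 1 ∧ (z = u ∨ z = -u) := by
  obtain ⟨p, hp⟩ := CharP.exists F
  haveI := Fact.mk (CharP.char_is_prime F p)
  have key : ∀ u : SL(2, F), tr u = 2 → ∃ P, u ∈ rootSL P := fun u hu =>
    exists_mem_rootSL_of_pow p (k := 1) (Subtype.ext (by
      rw [pow_one, sl2_pow_of_trace_eq_two hu]; simp))
  have h3 : (tr z - 2) * (tr z + 2) = 0 := by linear_combination hz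
  rcases mul_eq_zero.1 h3 with h | h
  · obtain ⟨P, hP⟩ := key z (sub_eq_zero.1 h)
    exact ⟨P, z, hP, h1, Or.inl rfl⟩
  · obtain ⟨P, hP⟩ := key (-z) (by rw [tr_neg]; linear_combination -h)
    exact ⟨P, -z, hP, fun h => h2 (neg_eq_iff_eq_neg.1 h), Or.inr (neg_neg z).symm⟩

/-- two-generated solvable subgroups of `SL₂` -/
theorem struct {x y : SL(2, F)} (hx1 : x ≠ 1) (hx2 : x ≠ -1) (h : y ∈ sol x) :
    (∃ P : P1 F, x • P = P ∧ y • P = P) ∨
    (∃ z, tr z ^ 2 ≠ 4 ∧ (x * z * x⁻¹ = z ∨ x * z * x⁻¹ = z⁻¹) ∧ (y * z * y⁻¹ = z ∨ y * z * y⁻¹ = z⁻¹)) ∨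
    ((2 : F) ≠ 0 ∧ ∀ g ∈ closure ({x, y} : Set SL(2, F)), ∃ k : ℤ, tr g ^ 2 = k) := by
  set H := closure ({x, y} : Set SL(2, F)) with hH
  have hs : Group.IsSolvable H := h
  obtain ⟨_, ⟨z, hzH, rfl⟩, hz1, hz⟩ := exists_z (H := H.map (QuotientGroup.mk' (center _)))
    (Group.isSolvable_of_surjective (MonoidHom.subgroupMap_surjective _ _)) (fun h => by
      have h1 : QuotientGroup.mk' (center _) x = 1 := mem_bot.1 (h ▸ mem_map_of_mem _ (left_mem x y))
      exact (psl2_mk_eq_one_iff.1 h1).elim hx1 hx2)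
  have hz' : ∀ a ∈ H, ∀ b ∈ H, (a * z * a⁻¹) * (b * z * b⁻¹) = (b * z * b⁻¹) * (a * z * a⁻¹) ∨
      (a * z * a⁻¹) * (b * z * b⁻¹) = -((b * z * b⁻¹) * (a * z * a⁻¹)) := fun a ha b hb =>
    psl2_mk_eq_mk_iff.1 (hz _ (mem_map_of_mem _ ha) _ (mem_map_of_mem _ hb))
  have hz0 : ∀ a ∈ H, (a * z * a⁻¹) * z = z * (a * z * a⁻¹) ∨ (a * z * a⁻¹) * z = -(z * (a * z * a⁻¹)) :=
    fun a ha => by simpa using hz' a ha 1 H.one_mem
  have hz2 : ¬ (z = 1 ∨ z = -1) := fun h => hz1 (psl2_mk_eq_one_iff.2 h)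
  push Not at hz2
  have hneg : (2 : F) = 0 → ∀ a : SL(2, F), -a = a := fun h2 a => by
    ext i j
    simp only [SpecialLinearGroup.coe_neg, Matrix.neg_apply]
    linear_combination (-a.1 i j) * h2
  by_cases ht : tr z ^ 2 = 4
  · left
    obtain ⟨P, u, hu, hu1, hzu⟩ := exists_root ht hz2.1 hz2.2
    have key : ∀ a ∈ H, a • P = P := by
      intro a ha
      have h1 : (a * z * a⁻¹) * z = z * (a * z * a⁻¹) := by
        refine (hz0 a ha).elim id fun h => ?_
        by_cases h2 : (2 : F) = 0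
        · rwa [hneg h2] at h
        · have h3 := tr_of_anti h2 h
          rw [h3] at ht
          exact absurd (by linear_combination -ht : (2 : F) * 2 = 0) (mul_ne_zero h2 h2)
      have h2 : (a * u * a⁻¹) * u = u * (a * u * a⁻¹) := by
        rcases hzu with rfl | rfl
        · exact h1
        · simpa using h1
      have h3 : a * u * a⁻¹ ∈ rootSL (a • P) := by rw [mem_rootSL_smul]; simpa [mul_assoc] using hu
      have h4 : (a * u * a⁻¹) • P = P := eq_of_mem_rootSL_of_smul_eq hu hu1 (by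
        rw [← mul_smul, ← h2, mul_smul, smul_eq_of_mem_rootSL hu])
      exact (eq_of_mem_rootSL_of_smul_eq h3 (by simpa using hu1) h4).symm
    exact ⟨P, key x (left_mem x y), key y (right_mem x y)⟩
  right
  by_cases hc : ∀ a ∈ H, (a * z * a⁻¹) * z = z * (a * z * a⁻¹)
  · left
    exact ⟨z, ht, eq_or_eq_inv_of_commute ht rfl (hc x (left_mem x y)) (sl2_trace_conj z x),
      eq_or_eq_inv_of_commute ht rfl (hc y (right_mem x y)) (sl2_trace_conj z y)⟩
  right
  push Not at hc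
  obtain ⟨k, hk, hkz⟩ := hc
  have h1 := (hz0 k hk).resolve_left hkz
  have h2 : (2 : F) ≠ 0 := fun h2 => hkz (by rwa [hneg h2] at h1)
  refine ⟨h2, fun g hg => ?_⟩
  set w := k * z * k⁻¹ with hw
  have h4 : ∀ a : SL(2, F), tr a = 0 → tr a ^ 2 ≠ 4 := fun a ha h => by
    rw [ha] at h
    exact absurd (by linear_combination -h : (2 : F) * 2 = 0) (mul_ne_zero h2 h2)
  have tz : tr z = 0 := tr_of_anti h2 h1
  have tw : tr w = 0 := (sl2_trace_conj z k).trans tz
  have tzw : tr (z * w) = 0 := tr_of_anti h2 (a := z) (by rw [mul_assoc, h1]; simp)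
  have key : ∀ a : SL(2, F), tr a = 0 → (g * a * g⁻¹ * a = a * (g * a * g⁻¹) ∨
      g * a * g⁻¹ * a = -(a * (g * a * g⁻¹))) → ∃ m : ℤ, tr g ^ 2 + tr (a * g) ^ 2 = 2 * m := by
    intro a ha h
    have h3 := tr_comm a g
    rw [ha] at h3
    rcases h with h | h
    · rcases eq_or_eq_inv_of_commute (h4 a ha) rfl h (sl2_trace_conj a g) with h5 | h5
      · rw [h5, inv_mul_cancel, tr_one] at h3
        exact ⟨2, by push_cast; linear_combination -h3⟩
      · rw [h5, sl2_mul_self_of_trace ((sl2_trace_inv a).trans ha), tr_neg, tr_one] at h3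
        exact ⟨0, by push_cast; linear_combination -h3⟩
    · rw [tr_of_anti h2 (a := a) (b := a⁻¹ * (g * a * g⁻¹)) (by rw [mul_assoc a⁻¹, h]; simp)] at h3
      exact ⟨1, by push_cast; linear_combination -h3⟩
  have e1 : g * w * g⁻¹ = (g * k) * z * (g * k)⁻¹ := by rw [hw]; group
  have c1 := hz0 g hg
  have c2 := hz' g hg k hk
  have c3 := hz0 (g * k) (mul_mem hg hk)
  have c4 := hz' (g * k) (mul_mem hg hk) k hk
  rw [← e1] at c3 c4
  rw [← hw] at c2 c4
  obtain ⟨m1, hm1⟩ := key z tz c1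
  obtain ⟨m2, hm2⟩ := key w tw c4
  obtain ⟨m3, hm3⟩ := key (z * w) tzw (by
    have e2 : g * (z * w) * g⁻¹ = (g * z * g⁻¹) * (g * w * g⁻¹) := by group
    rw [e2]
    generalize g * z * g⁻¹ = A at c1 c2 ⊢
    generalize g * w * g⁻¹ = B at c3 c4 ⊢
    have e3 : A * B * (z * w) = A * (B * z) * w := by group
    have e4 : ∀ C, A * (z * C) * w = (A * z) * C * w := fun C => by group
    have e5 : ∀ C, z * A * C * w = z * (A * (C * w)) := fun C => by group
    have e6 : ∀ C, z * (A * (w * C)) = z * (A * w) * C := fun C => by group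
    have e7 : z * w * (A * B) = z * (w * A) * B := by group
    rw [e3, e7]
    rcases c1 with c1 | c1 <;> rcases c2 with c2 | c2 <;> rcases c3 with c3 | c3 <;>
      rcases c4 with c4 | c4 <;>
      simp only [c3, mul_neg, neg_mul, e4, c1, e5, c4, e6, c2, neg_neg, true_or, or_true])
  have h5 := tr_three z w g
  have h6 : tr (z * g * w) = -tr (z * w * g) := by
    rw [tr_mul_comm, ← mul_assoc, h1, neg_mul, tr_neg]
  rw [h6, tz, tw, tzw] at h5
  refine ⟨m1 + m2 + m3 - 2, mul_left_cancel₀ h2 ?_⟩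
  push_cast
  linear_combination hm1 + hm2 + hm3 + h5

end Cfsg.Agent.H2.Sol
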