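import Cfsg.Agent.H2.Sol1

/-! Solubilizers in `SL₂(q)`: counting. -/

namespace Cfsg.Agent.H2.Sol
open Subgroup Matrix MulAction H12
open scoped Pointwise MatrixGroups

variable {F : Type*} [Field F]

theorem sl_ext {y z : SL(2, F)} (h1 : y 0 0 = z 0 0) (h2 : y 0 1 = z 0 1) (h3 : y 1 0 = z 1 0)
    (h4 : y 1 1 = z 1 1) : y = z := by
  ext i j
  fin_cases i <;> fin_cases j <;> assumption

theorem ncard_cad (S : Set (F × F × F)) (hS : ∀ s ∈ S, s.1 ≠ 0) :
    {y : SL(2, F) | (y 1 0, y 0 0, y 1 1) ∈ S}.ncard = S.ncard := by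
  refine Set.ncard_congr (fun y _ => (y 1 0, y 0 0, y 1 1)) (fun y hy => hy) (fun y z hy hz h => ?_)
    fun s hs => ?_
  · simp only [Prod.mk.injEq] at h
    obtain ⟨h1, h2, h3⟩ := h
    refine sl_ext h2 (mul_right_cancel₀ (hS _ hz) ?_) h1 h3
    have a1 := sl2_det y
    have a2 := sl2_det z
    rw [h1, h2, h3] at a1
    linear_combination a2 - a1
  · obtain ⟨c, a, d⟩ := s
    have hc : c ≠ 0 := hS _ hs
    exact ⟨mkSL2 a ((a * d - 1) / c) c d (by field_simp; ring), hs, rfl⟩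

theorem ncard_ne_zero [Fintype F] : {c : F | c ≠ 0}.ncard = Fintype.card F - 1 := by
  have : {c : F | c ≠ 0} = {0}ᶜ := by ext; simp
  rw [this, Set.ncard_compl, Set.ncard_singleton, Nat.card_eq_fintype_card]

theorem ncard_ct [Fintype F] (S : Set (F × F)) (hS : ∀ s ∈ S, s.1 ≠ 0) :
    {y : SL(2, F) | (y 1 0, tr y) ∈ S}.ncard = S.ncard * Fintype.card F := by
  have h := ncard_cad {s : F × F × F | (s.1, s.2.1 + s.2.2) ∈ S} fun s hs => hS _ hs
  simp only [Set.mem_setOf_eq, ← tr_eq] at h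
  rw [h, ← Nat.card_eq_fintype_card, ← Set.ncard_univ, ← Set.ncard_prod]
  refine Set.ncard_congr (fun s _ => ((s.1, s.2.1 + s.2.2), s.2.1)) (fun s hs => ⟨hs, trivial⟩)
    (fun s t _ _ h => ?_) fun s hs => ⟨(s.1.1, s.2, s.1.2 - s.2), by simpa using hs.1, by simp⟩
  simp only [Prod.mk.injEq] at h
  obtain ⟨⟨h1, h2⟩, h3⟩ := h
  exact Prod.ext h1 (Prod.ext h3 (by linear_combination h2 - h3))

theorem ncard_borel [Fintype F] :
    {y : SL(2, F) | y 1 0 = 0}.ncard = (Fintype.card F - 1) * Fintype.card F := by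
  rw [← ncard_ne_zero, ← Nat.card_eq_fintype_card, ← Set.ncard_univ, ← Set.ncard_prod]
  refine Set.ncard_congr (fun y _ => (y 0 0, y 0 1)) (fun y hy => ⟨fun h => ?_, trivial⟩)
    (fun y z hy hz h => ?_) fun s hs => ⟨mkSL2 s.1 s.2 0 s.1⁻¹ (by simp [mul_inv_cancel₀ hs.1]), rfl, rfl⟩
  · have a1 := sl2_det y
    have h' : y 0 0 = 0 := h
    have hy' : y 1 0 = 0 := hy
    rw [h', hy'] at a1
    simp at a1
  · simp only [Prod.mk.injEq] at h
    have a1 := sl2_det y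
    have a2 := sl2_det z
    have hy' : y 1 0 = 0 := hy
    have hz' : z 1 0 = 0 := hz
    refine sl_ext h.1 h.2 (hy'.trans hz'.symm) ?_
    rw [hy', h.1] at a1
    rw [hz'] at a2
    linear_combination (z 1 1) * a1 - (y 1 1) * a2

theorem eig_of_fix {x : SL(2, F)} {P : P1 F} (h : x • P = P) : ∃ a, Eig (RingHom.id F) x a := by
  obtain ⟨g, rfl⟩ := exists_sl_point P
  have h1 : (g⁻¹ * x * g⁻¹⁻¹) • inf F = inf F := by
    rw [inv_inv, mul_smul, mul_smul, h, inv_smul_smul]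
  have h2 := sl2_trace_conj x g⁻¹
  set w := g⁻¹ * x * g⁻¹⁻¹
  have h3 := sl2_det w
  rw [(smul_inf_iff w).1 h1, mul_zero, sub_zero] at h3
  refine ⟨w 0 0, left_ne_zero_of_mul_eq_one h3, ?_⟩
  rw [RingHom.id_apply, ← h2, ← eq_inv_of_mul_eq_one_right h3]
  exact tr_eq w

theorem mem_sol_fix {x y : SL(2, F)} {P : P1 F} (hx : x • P = P) (hy : y • P = P) : y ∈ sol x :=
  mem_sol_of_le (solv_stab P) hx hy

variable [Fintype F]

theorem mem_sol_norm {x y : SL(2, F)} (hx : tr x ^ 2 ≠ 4) (hy : y * x * y⁻¹ = x ∨ y * x * y⁻¹ = x⁻¹) :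
    y ∈ sol x :=
  mem_sol_of_le (solv_norm hx) (le_normalizer (mem_zpowers x)) ((mem_normalizer_zpowers_iff hx).2 hy)

theorem ne_pm {x : SL(2, F)} (hx : tr x ^ 2 ≠ 4) : x ≠ 1 ∧ x ≠ -1 := by
  constructor <;> rintro rfl <;> apply hx
  · rw [tr_one]; norm_num
  · rw [tr_neg, tr_one]; norm_num

theorem sol_generic {x y : SL(2, F)} (hx : tr x ^ 2 ≠ 4) (h0 : tr x ≠ 0)
    (hC : (2 : F) ≠ 0 → ∀ k : ℤ, tr x ^ 2 ≠ k) (h : y ∈ sol x) :
    (y * x * y⁻¹ = x ∨ y * x * y⁻¹ = x⁻¹) ∨ ∃ P : P1 F, x • P = P ∧ y • P = P := by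
  rcases struct (ne_pm hx).1 (ne_pm hx).2 h with h | ⟨z, hz, h1, h2⟩ | ⟨h1, h2⟩
  · exact Or.inr h
  · left
    have h3 : x * z = z * x :=
      mul_inv_eq_iff_eq_mul.1 (h1.resolve_right fun h => h0 (trace_eq_zero_of_inverts hz h))
    obtain ⟨N, -, -, h4⟩ := cent_facts hz
    refine eq_or_eq_inv_of_commute hx rfl (h4 _ _ ?_ h3) (sl2_trace_conj x y)
    have h5 := (mem_normalizer_zpowers_iff hz).1 (inv_mem ((mem_normalizer_zpowers_iff hz).2 h2))
    have e1 : y * x * y⁻¹ * z = y * (x * (y⁻¹ * z * y⁻¹⁻¹)) * y⁻¹ := by group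
    have e2 : z * (y * x * y⁻¹) = y * ((y⁻¹ * z * y⁻¹⁻¹) * x) * y⁻¹ := by group
    rw [e1, e2]
    rcases h5 with h | h <;> rw [h]
    · rw [h3]
    · rw [(show Commute x z from h3).inv_right.eq]
  · obtain ⟨k, hk⟩ := h2 x (left_mem x y)
    exact absurd hk (hC h1 k)

theorem no_fix {x : SL(2, F)} (hx : tr x ^ 2 ≠ 4) (h : x ^ (Fintype.card F + 1) = 1) (P : P1 F) :
    x • P ≠ P := fun hP => by
  obtain ⟨a, ha⟩ := eig_of_fix hP
  have h1 := (ha.pow_eq_one_iff hx).1 h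
  rw [pow_succ, FiniteField.pow_card, ← pow_two] at h1
  exact ha.ne_iff'.1 hx h1

theorem card_cent {x : SL(2, F)} (hx : tr x ^ 2 ≠ 4) (h : x ^ (Fintype.card F + 1) = 1) :
    Nat.card (centralizer {x}) = Fintype.card F + 1 := by
  obtain ⟨t, ht, -, hC⟩ := exists_torus (Or.inr rfl) hx h
  rw [hC, Nat.card_zpowers, ht]

theorem ncard_nonsplit {x : SL(2, F)} (hx : tr x ^ 2 ≠ 4) (h0 : tr x ≠ 0)
    (hC : (2 : F) ≠ 0 → ∀ k : ℤ, tr x ^ 2 ≠ k) (h : x ^ (Fintype.card F + 1) = 1) :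
    (sol x).ncard = 2 * (Fintype.card F + 1) := by
  have h1 : sol x = normalizer (zpowers x : Set SL(2, F)) := by
    ext y
    rw [SetLike.mem_coe, mem_normalizer_zpowers_iff hx]
    exact ⟨fun hy => (sol_generic hx h0 hC hy).resolve_right fun ⟨P, hP, _⟩ => no_fix hx h P hP,
      mem_sol_norm hx⟩
  rw [h1, ← Nat.card_coe_set_eq, ← card_cent hx h, ← card_normalizer_zpowers hx]
  rfl

theorem ncard_split {x : SL(2, F)} (hx : tr x ^ 2 ≠ 4) (h0 : tr x ≠ 0)
    (hC : (2 : F) ≠ 0 → ∀ k : ℤ, tr x ^ 2 ≠ k) (h : x ^ (Fintype.card F - 1) = 1) :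
    (sol x).ncard = 2 * Fintype.card F * (Fintype.card F - 1) := by
  obtain ⟨l, hl⟩ := exists_eig (algebraMap F (AlgebraicClosure F)) x
  obtain ⟨a, rfl⟩ := exists_eq_map_of_pow_card (algebraMap F (AlgebraicClosure F))
    (pow_card_eq_of_pow_sub_one ((hl.pow_eq_one_iff hx).1 h)).1
  have ha : a ≠ 0 := fun h => hl.1 (by rw [h, map_zero])
  have ht : tr x = a + a⁻¹ := (algebraMap F (AlgebraicClosure F)).injective (by
    rw [hl.2, map_add, map_inv₀])
  have ha2 : a ≠ a⁻¹ := fun h => hl.ne_iff.1 hx (by rw [← map_inv₀, ← h])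
  set d : SL(2, F) := mkSL2 a 0 0 a⁻¹ (by simp [ha]) with hd
  have d1 : d 0 0 = a := rfl
  have d2 : d 0 1 = 0 := rfl
  have d3 : d 1 0 = 0 := rfl
  have d4 : d 1 1 = a⁻¹ := rfl
  have htd : tr d = tr x := by rw [tr_eq, ht, d1, d4]
  obtain ⟨g, hg⟩ := exists_conj_of_trace_eq hx htd
  rw [← ncard_sol_conj x g, hg]
  rw [← htd] at hx h0 hC
  have h1 : sol d = {y | y 1 0 = 0} ∪
      {y | (y 1 0, y 0 0, y 1 1) ∈ {s : F × F × F | s.1 ≠ 0 ∧ s.2.2 = s.2.1⁻¹}} := by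
    ext y
    have hy := sl2_det y
    simp only [Set.mem_union, Set.mem_setOf_eq]
    constructor
    · intro h
      by_cases hc : y 1 0 = 0
      · exact Or.inl hc
      refine Or.inr ⟨hc, ?_⟩
      rcases sol_generic hx h0 hC h with (h | h) | ⟨P, h1, h2⟩
      · have h1 : (y * d) 1 0 = (d * y) 1 0 := by rw [mul_inv_eq_iff_eq_mul.1 h]
        simp only [mul_ent, d1, d3, d4] at h1
        exact absurd (mul_left_cancel₀ hc (by linear_combination h1)) ha2
      · have h1 : (y * d) 0 0 = (d⁻¹ * y) 0 0 := by rw [mul_inv_eq_iff_eq_mul.1 h]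
        have h2 : (y * d) 1 1 = (d⁻¹ * y) 1 1 := by rw [mul_inv_eq_iff_eq_mul.1 h]
        obtain ⟨e1, e2, e3, e4⟩ := inv_ent d
        simp only [mul_ent, d1, d2, d3, d4, e1, e2, e3, e4] at h1 h2
        have h3 : y 0 0 = 0 := (mul_eq_zero.1 (by linear_combination h1 : y 0 0 * (a - a⁻¹) = 0)).resolve_right
          (sub_ne_zero.2 ha2)
        have h4 : y 1 1 = 0 := (mul_eq_zero.1 (by linear_combination -h2 : y 1 1 * (a - a⁻¹) = 0)).resolve_right
          (sub_ne_zero.2 ha2)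
        rw [h3, h4, _root_.inv_zero]
      · rcases P1_cases P with rfl | ⟨z, rfl⟩
        · exact absurd ((smul_inf_iff y).1 h2) hc
        · rw [← toGL_smul_proj, gl_smul_aff_eq_aff_iff] at h1
          have h3 : a * z + 0 = z * (0 * z + a⁻¹) := h1
          obtain rfl : z = 0 := (mul_eq_zero.1 (by linear_combination h3 : z * (a - a⁻¹) = 0)).resolve_right
            (sub_ne_zero.2 ha2)
          rw [(smul_zero_iff y).1 h2, zero_mul, sub_zero] at hy
          exact eq_inv_of_mul_eq_one_right hy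
    · rintro (h | ⟨h1, h2⟩)
      · exact mem_sol_fix ((smul_inf_iff d).2 d3) ((smul_inf_iff y).2 h)
      · by_cases h3 : y 0 0 = 0
        · rw [h3, _root_.inv_zero] at h2
          refine mem_sol_norm hx (Or.inr (mul_inv_eq_iff_eq_mul.2 ?_))
          obtain ⟨e1, e2, e3, e4⟩ := inv_ent d
          apply sl_ext <;> simp only [mul_ent, d1, d2, d3, d4, e1, e2, e3, e4, h2, h3] <;> ring
        · rw [h2, mul_inv_cancel₀ h3] at hy
          exact mem_sol_fix ((smul_zero_iff d).2 d2) ((smul_zero_iff y).2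
            ((mul_eq_zero.1 (by linear_combination -hy : y 0 1 * y 1 0 = 0)).resolve_right h1))
  have h2 : {s : F × F × F | s.1 ≠ 0 ∧ s.2.2 = s.2.1⁻¹}.ncard = (Fintype.card F - 1) * Fintype.card F := by
    rw [← ncard_ne_zero, ← Nat.card_eq_fintype_card, ← Set.ncard_univ, ← Set.ncard_prod]
    refine Set.ncard_congr (fun s _ => (s.1, s.2.1)) (fun s hs => ⟨hs.1, trivial⟩) (fun s t hs ht h => ?_)
      fun s hs => ⟨(s.1, s.2, s.2⁻¹), ⟨hs.1, rfl⟩, rfl⟩
    simp only [Prod.mk.injEq] at h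
    exact Prod.ext h.1 (Prod.ext h.2 (by rw [hs.2, ht.2, h.2]))
  rw [h1, Set.ncard_union_eq (Set.disjoint_left.2 fun y h1 h2 => h2.1 h1), ncard_borel,
    ncard_cad _ fun s hs => hs.1, h2]
  ring

omit [Fintype F] in
theorem upper_mul_ent (b : F) (y : SL(2, F)) : (upper b * y) 1 0 = y 1 0 ∧ tr (upper b * y) = tr y + b * y 1 0 := by
  have d1 : upper b 0 0 = 1 := rfl
  have d2 : upper b 0 1 = b := rfl
  have d3 : upper b 1 0 = 0 := rfl
  have d4 : upper b 1 1 = 1 := rfl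
  simp only [tr_eq, mul_ent, d1, d2, d3, d4]
  constructor <;> ring

omit [Fintype F] in
theorem tr_upper (b : F) : tr (upper b) = 2 := by
  rw [tr_eq]; exact one_add_one_eq_two

omit [Fintype F] in
theorem exists_conj_upper {P : P1 F} {u : SL(2, F)} (hu : u ∈ rootSL P) (h1 : u ≠ 1) :
    ∃ b : F, b ≠ 0 ∧ (sol u).ncard = (sol (upper b)).ncard := by
  obtain ⟨g, rfl⟩ := exists_sl_point P
  obtain ⟨b, hb⟩ := mem_rootSL_inf.1 (mem_rootSL_smul.1 hu)
  refine ⟨b, fun h => h1 ?_, ?_⟩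
  · rw [h, upper_zero] at hb
    simpa [mul_assoc] using (conj_eq_one_iff (a := g⁻¹) (b := u)).1 (by simpa using hb)
  · rw [← hb, ← ncard_sol_conj u g⁻¹, inv_inv]

theorem struct_upper {b : F} (hb : b ≠ 0) {y : SL(2, F)} (h : y ∈ sol (upper b)) (hc : y 1 0 ≠ 0) :
    ((2 : F) = 0 ∧ (tr y = 0 ∨ tr (upper b * y) = 0)) ∨
      ((2 : F) ≠ 0 ∧ ∀ g ∈ closure ({upper b, y} : Set SL(2, F)), ∃ k : ℤ, tr g ^ 2 = k) := by
  have h1 : upper b ≠ 1 := fun h => hb (upper_injective (h.trans upper_zero.symm))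
  have h2 : upper b ≠ -1 := fun h => hb (by
    have : upper b 0 1 = (-1 : SL(2, F)) 0 1 := by rw [h]
    simpa using this)
  rcases struct h1 h2 h with ⟨P, h3, h4⟩ | ⟨z, hz, h3, h4⟩ | h
  · obtain rfl := eq_of_mem_rootSL_of_smul_eq (mem_rootSL_inf.2 ⟨b, rfl⟩) h1 h3
    exact absurd ((smul_inf_iff y).1 h4) hc
  · left
    have h5 : upper b * z * (upper b)⁻¹ = z⁻¹ := h3.resolve_left fun h => by
      rcases cent_tr hz (mul_inv_eq_iff_eq_mul.1 h) with h | h | h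
      exacts [h1 h, h2 h, h (by rw [tr_upper]; norm_num)]
    refine ⟨(tr_upper b).symm.trans (trace_eq_zero_of_inverts hz h5), ?_⟩
    rcases h4 with h4 | h4
    · refine Or.inr (trace_eq_zero_of_inverts hz ?_)
      rw [← h5]
      nth_rewrite 2 [← h4]
      group
    · exact Or.inl (trace_eq_zero_of_inverts hz h4)
  · exact Or.inr h

theorem ncard_unip_two (h2 : (2 : F) = 0) {b : F} (hb : b ≠ 0) :
    (sol (upper b)).ncard = 3 * Fintype.card F * (Fintype.card F - 1) := by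
  have hsq : ∀ a : SL(2, F), tr a = 0 → a ^ 2 = 1 := fun a ha => by
    rw [pow_two, sl2_mul_self_of_trace ha]
    apply sl_ext <;> simp
    all_goals linear_combination -h2
  have h1 : sol (upper b) = {y | y 1 0 = 0} ∪
      {y | (y 1 0, tr y) ∈ {s : F × F | s.1 ≠ 0 ∧ s.2 = 0} ∪ {s : F × F | s.1 ≠ 0 ∧ s.2 = b * s.1}} := by
    ext y
    simp only [Set.mem_union, Set.mem_setOf_eq]
    constructor
    · intro h
      by_cases hc : y 1 0 = 0
      · exact Or.inl hc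
      rcases struct_upper hb h hc with ⟨-, h | h⟩ | h
      · exact Or.inr (Or.inl ⟨hc, h⟩)
      · rw [(upper_mul_ent b y).2] at h
        exact Or.inr (Or.inr ⟨hc, by linear_combination h - (b * y 1 0) * h2⟩)
      · exact absurd h2 h.1
    · rintro (h | ⟨-, h⟩ | ⟨-, h⟩)
      · exact mem_sol_fix ((smul_inf_iff _).2 rfl) ((smul_inf_iff y).2 h)
      · exact mem_sol_dih (hsq _ ((tr_upper b).trans h2)) (hsq _ h)
      · refine mem_sol_of_mem (mem_sol_dih (hsq _ ((tr_upper b).trans h2)) (hsq (upper b * y) ?_))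
          (left_mem _ _) ?_
        · rw [(upper_mul_ent b y).2, h]; linear_combination (b * y 1 0) * h2
        · simpa using mul_mem (inv_mem (left_mem (upper b) (upper b * y))) (right_mem _ _)
  have h3 : ∀ e : F, {s : F × F | s.1 ≠ 0 ∧ s.2 = e * s.1}.ncard = Fintype.card F - 1 := fun e => by
    rw [← ncard_ne_zero]
    exact Set.ncard_congr (fun s _ => s.1) (fun s hs => hs.1)
      (fun s t hs ht h => Prod.ext h (by rw [hs.2, ht.2, h])) fun s hs => ⟨(s, e * s), ⟨hs, rfl⟩, rfl⟩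
  have h4 := h3 0
  simp only [zero_mul] at h4
  rw [h1, Set.ncard_union_eq (Set.disjoint_left.2 fun y h1 h2 => h2.elim (fun h => h.1 h1) fun h => h.1 h1),
    ncard_borel, ncard_ct _ fun s hs => hs.elim (fun h => h.1) fun h => h.1,
    Set.ncard_union_eq (Set.disjoint_left.2 fun s h1 h2 => mul_ne_zero hb h1.1 (h2.2.symm.trans h1.2)), h3, h4]
  ring

end Cfsg.Agent.H2.Sol
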