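import Cfsg.Agent.H2.Sol2

/-! Solubilizers in `SL₂(q)`, `q` an odd power of `3`. -/

namespace Cfsg.Agent.H2.Sol
open Subgroup Matrix MulAction H12
open scoped Pointwise MatrixGroups

variable {F : Type*} [Field F]

theorem psl_cube {g : SL(2, F)} (h : tr g ^ 2 = 1) : (g : PSL(2, F)) ^ 3 = 1 := by
  have h1 := sl2_det g
  rw [← QuotientGroup.mk_pow, psl2_mk_eq_one_iff, pow_succ, pow_two]
  rw [tr_eq] at h
  have h2 : (g 0 0 + g 1 1 + 1) * (g 0 0 + g 1 1 - 1) = 0 := by linear_combination h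
  rcases mul_eq_zero.1 h2 with h3 | h3
  · left
    apply sl_ext <;> simp only [mul_ent] <;> simp
    · linear_combination (g 0 0) * h - (2 * g 0 0 + g 1 1) * h1 - h3
    · linear_combination (g 0 1) * h - (g 0 1) * h1
    · linear_combination (g 1 0) * h - (g 1 0) * h1
    · linear_combination (g 1 1) * h - (2 * g 1 1 + g 0 0) * h1 - h3
  · right
    apply sl_ext <;> simp only [mul_ent] <;> simp
    · linear_combination (g 0 0) * h - (2 * g 0 0 + g 1 1) * h1 - h3
    · linear_combination (g 0 1) * h - (g 0 1) * h1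
    · linear_combination (g 1 0) * h - (g 1 0) * h1
    · linear_combination (g 1 1) * h - (2 * g 1 1 + g 0 0) * h1 - h3

theorem psl_sq {g : SL(2, F)} (h : tr g = 0) : (g : PSL(2, F)) ^ 2 = 1 := by
  rw [← QuotientGroup.mk_pow, psl2_mk_eq_one_iff, pow_two, sl2_mul_self_of_trace h]
  exact Or.inr rfl

theorem sol_dih {a b : SL(2, F)} (ha : tr a = 0) (hb : tr b = 0) : b ∈ sol a :=
  mem_sol_of_mk (mem_sol_dih (psl_sq ha) (psl_sq hb))

theorem sol_a4 [Finite F] {a b : SL(2, F)} (ha : tr a = 0) (hb : tr b ^ 2 = 1) (hab : tr (a * b) ^ 2 = 1) :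
    b ∈ sol a :=
  mem_sol_of_mk (mem_sol_a4 (psl_sq ha) (psl_cube hb) (psl_cube hab))

theorem sq_cases (h3 : (3 : F) = 0) (hn : ∀ a : F, a ^ 2 ≠ -1) {t : F} {k : ℤ} (h : t ^ 2 = k) :
    t = 0 ∨ t ^ 2 = 1 := by
  obtain ⟨m, rfl | rfl | rfl⟩ : ∃ m, k = 3 * m ∨ k = 3 * m + 1 ∨ k = 3 * m + 2 := ⟨k / 3, by omega⟩
  all_goals push_cast at h
  · exact Or.inl (pow_eq_zero_iff two_ne_zero |>.1 (by linear_combination h + m * h3))
  · exact Or.inr (by linear_combination h + m * h3)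
  · exact absurd (by linear_combination h + (m + 1) * h3) (hn t)

theorem ncard_sq_one (h2 : (2 : F) ≠ 0) : {t : F | t ^ 2 = 1}.ncard = 2 := by
  have : {t : F | t ^ 2 = 1} = {1, -1} := by ext; simp
  rw [this, Set.ncard_pair fun h => h2 (by linear_combination h)]

theorem ncard_three [Finite F] (h2 : (2 : F) ≠ 0) : {t : F | t = 0 ∨ t ^ 2 = 1}.ncard = 3 := by
  have : {t : F | t = 0 ∨ t ^ 2 = 1} = insert 0 {t : F | t ^ 2 = 1} := rfl
  rw [this, Set.ncard_insert_of_notMem (by simp), ncard_sq_one h2]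

variable [Fintype F]

theorem ncard_unip_three (h3 : (3 : F) = 0) (hn : ∀ a : F, a ^ 2 ≠ -1) {b : F} (hb : b ≠ 0) :
    (sol (upper b)).ncard = Fintype.card F * (Fintype.card F + 5) := by
  have h2 : (2 : F) ≠ 0 := fun h => one_ne_zero (by linear_combination h3 - h : (1 : F) = 0)
  have h1 : sol (upper b) = {y | y 1 0 = 0} ∪
      {y | (y 1 0, tr y) ∈ {c : F | (b * c) ^ 2 = 1} ×ˢ {t : F | t = 0 ∨ t ^ 2 = 1}} := by
    ext y
    simp only [Set.mem_union, Set.mem_setOf_eq, Set.mem_prod]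
    constructor
    · intro h
      by_cases hc : y 1 0 = 0
      · exact Or.inl hc
      obtain ⟨-, h⟩ := (struct_upper hb h hc).resolve_left fun h => h2 h.1
      obtain ⟨k, hk⟩ := h y (right_mem _ _)
      obtain ⟨l, hl⟩ := h _ (mul_mem (left_mem _ _) (right_mem _ _))
      have h4 := sq_cases h3 hn hk
      have h5 := sq_cases h3 hn hl
      rw [(upper_mul_ent b y).2] at h5
      refine Or.inr ⟨?_, h4⟩
      have h6 : tr y ^ 3 = tr y := by
        rcases h4 with h | h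
        · rw [h]; simp
        · linear_combination (tr y) * h
      have h7 : (tr y + b * y 1 0) ^ 3 = tr y + b * y 1 0 := by
        rcases h5 with h | h
        · rw [h]; simp
        · linear_combination (tr y + b * y 1 0) * h
      refine mul_left_cancel₀ (mul_ne_zero hb hc) ?_
      linear_combination h7 - h6 - (tr y ^ 2 * (b * y 1 0) + tr y * (b * y 1 0) ^ 2) * h3
    · have key : ∀ w : SL(2, F), (b * w 1 0) ^ 2 = 1 → tr w = 0 → upper b ∈ sol w := fun w h h' =>
        sol_a4 h' (by rw [tr_upper]; linear_combination h3)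
          (by rw [tr_mul_comm, (upper_mul_ent b w).2, h', zero_add, h])
      have key2 : ∀ k : ℕ, (b * y 1 0) ^ 2 = 1 → tr y + k * b * y 1 0 = 0 → y ∈ sol (upper b) := fun k h h' => by
        have e := upper_mul_ent (k * b) y
        refine mem_sol_of_mem (key (upper (k * b) * y) (by rw [e.1, h]) (by rw [e.2, h'])) (right_mem _ _) ?_
        have := mul_mem (inv_mem (pow_mem (right_mem (upper (k * b) * y) (upper b)) k)) (left_mem _ _)
        rwa [upper_pow, inv_mul_cancel_left] at this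
      rintro (h | ⟨h, h' | h'⟩)
      · exact mem_sol_fix ((smul_inf_iff _).2 rfl) ((smul_inf_iff y).2 h)
      · exact key2 0 h (by simpa using h')
      · rcases sq_eq_sq_iff_eq_or_eq_neg.1 (h'.trans h.symm) with h4 | h4
        · exact key2 2 h (by push_cast; linear_combination h4 + (b * y 1 0) * h3)
        · exact key2 1 h (by push_cast; linear_combination h4)
  have h4 : {c : F | (b * c) ^ 2 = 1}.ncard = 2 := by
    refine Eq.trans ?_ (ncard_sq_one h2)
    exact Set.ncard_congr (fun c _ => b * c) (fun s hs => hs) (fun s t _ _ h => mul_left_cancel₀ hb h)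
      fun s hs => ⟨b⁻¹ * s, by simpa [mul_inv_cancel_left₀ hb] using hs, mul_inv_cancel_left₀ hb s⟩
  have h5 : ∀ c : F, (b * c) ^ 2 = 1 → c ≠ 0 := by rintro c h rfl; simp at h
  rw [h1, Set.ncard_union_eq (by exact Set.disjoint_left.2 fun y h1 h2 => h5 _ h2.1 h1),
    ncard_borel, ncard_ct _ fun s hs => h5 _ hs.1, Set.ncard_prod, h4, ncard_three h2]
  obtain ⟨n, hn⟩ : ∃ n, Fintype.card F = n + 1 := Nat.exists_eq_succ_of_ne_zero Fintype.card_ne_zero
  rw [hn, Nat.add_sub_cancel]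
  ring

/-- the standard element of trace zero -/
def J (F : Type*) [Field F] : SL(2, F) := mkSL2 0 1 (-1) 0 (by simp)

omit [Fintype F] in
theorem tr_J : tr (J F) = 0 := by rw [tr_eq]; exact add_zero 0

omit [Fintype F] in
theorem tr_J_mul (y : SL(2, F)) : tr (J F * y) = y 1 0 - y 0 1 := by
  have d1 : J F 0 0 = 0 := rfl
  have d2 : J F 0 1 = 1 := rfl
  have d3 : J F 1 0 = -1 := rfl
  have d4 : J F 1 1 = 0 := rfl
  simp only [tr_eq, mul_ent, d1, d2, d3, d4]
  ring

omit [Fintype F] in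
theorem comm_J_iff (y : SL(2, F)) : y * J F = J F * y ↔ y 1 1 = y 0 0 ∧ y 0 1 = -y 1 0 := by
  have d1 : J F 0 0 = 0 := rfl
  have d2 : J F 0 1 = 1 := rfl
  have d3 : J F 1 0 = -1 := rfl
  have d4 : J F 1 1 = 0 := rfl
  constructor
  · intro h
    have h1 : (y * J F) 0 0 = (J F * y) 0 0 := by rw [h]
    have h2 : (y * J F) 0 1 = (J F * y) 0 1 := by rw [h]
    simp only [mul_ent, d1, d2, d3, d4] at h1 h2
    exact ⟨by linear_combination -h2, by linear_combination -h1⟩
  · rintro ⟨h1, h2⟩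
    apply sl_ext <;> simp only [mul_ent, d1, d2, d3, d4, h1, h2] <;> ring

omit [Fintype F] in
theorem sq_add_sq_eq_zero' (hn : ∀ a : F, a ^ 2 ≠ -1) {u v : F} (h : u ^ 2 + v ^ 2 = 0) : u = 0 ∧ v = 0 := by
  have h1 : v = 0 := by
    by_contra hv
    exact hn (u / v) (by field_simp; linear_combination h)
  rw [h1] at h
  exact ⟨pow_eq_zero_iff two_ne_zero |>.1 (by linear_combination h), h1⟩

theorem J_pow (h2 : (2 : F) ≠ 0) (hn : ∀ a : F, a ^ 2 ≠ -1) :
    tr (J F) ^ 2 ≠ 4 ∧ (∀ P : P1 F, J F • P ≠ P) ∧ J F ^ (Fintype.card F + 1) = 1 := by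
  have h1 : tr (J F) ^ 2 ≠ 4 := fun h => by
    rw [tr_J] at h
    exact absurd (by linear_combination -h : (2 : F) * 2 = 0) (mul_ne_zero h2 h2)
  have h3 : ∀ a, ¬ Eig (RingHom.id F) (J F) a := fun a ha => hn a (by
    have h := ha.2
    have h0 := ha.1
    rw [RingHom.id_apply, show (J F).1.trace = 0 from tr_J] at h
    field_simp at h
    linear_combination -h)
  refine ⟨h1, fun P hP => ?_, (pow_eq_one_of_trace_ne h1).resolve_left fun h => ?_⟩
  · obtain ⟨a, ha⟩ := eig_of_fix hP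
    exact h3 a ha
  · obtain ⟨l, hl⟩ := exists_eig (algebraMap F (AlgebraicClosure F)) (J F)
    obtain ⟨a, rfl⟩ := exists_eq_map_of_pow_card (algebraMap F (AlgebraicClosure F))
      (pow_card_eq_of_pow_sub_one ((hl.pow_eq_one_iff h1).1 h)).1
    exact h3 a ⟨fun h => hl.1 (by rw [h, map_zero]), (algebraMap F (AlgebraicClosure F)).injective (by
      rw [RingHom.id_apply, hl.2, map_add, map_inv₀])⟩

theorem ncard_comm_J (h2 : (2 : F) ≠ 0) (hn : ∀ a : F, a ^ 2 ≠ -1) :
    {y : SL(2, F) | y * J F = J F * y}.ncard = Fintype.card F + 1 := by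
  obtain ⟨h1, -, h3⟩ := J_pow h2 hn
  rw [← card_cent h1 h3, ← Nat.card_coe_set_eq]
  exact Nat.card_congr (Equiv.subtypeEquivRight fun y => mem_centralizer_singleton_iff.symm)

theorem ncard_circle (h2 : (2 : F) ≠ 0) (hn : ∀ a : F, a ^ 2 ≠ -1) {m : F} (hm : m ≠ 0) :
    {s : F × F | s.1 ^ 2 + s.2 ^ 2 = m}.ncard = Fintype.card F + 1 := by
  obtain ⟨u, v, huv⟩ : ∃ u v : F, u ^ 2 + v ^ 2 = m := by
    obtain ⟨a, b, h⟩ := FiniteField.exists_root_sum_quadratic (f := Polynomial.X ^ 2)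
      (g := Polynomial.X ^ 2 - Polynomial.C m) (Polynomial.degree_X_pow 2)
      (Polynomial.degree_X_pow_sub_C two_pos m) (Nat.odd_iff.1 (odd_card_of_two_ne_zero h2))
    simp only [Polynomial.eval_pow, Polynomial.eval_X, Polynomial.eval_sub, Polynomial.eval_C] at h
    exact ⟨a, b, by linear_combination h⟩
  rw [← ncard_comm_J h2 hn]
  symm
  refine Set.ncard_congr (fun y _ => (y 0 0 * u - y 1 0 * v, y 0 0 * v + y 1 0 * u)) (fun y hy => ?_)
    (fun y z hy hz h => ?_) fun s hs => ?_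
  · obtain ⟨h1, h3⟩ := (comm_J_iff y).1 hy
    have h4 := sl2_det y
    rw [h1, h3] at h4
    change _ = m
    linear_combination huv + (u ^ 2 + v ^ 2) * h4
  · obtain ⟨h1, h3⟩ := (comm_J_iff y).1 hy
    obtain ⟨h4, h5⟩ := (comm_J_iff z).1 hz
    simp only [Prod.mk.injEq] at h
    have h6 : y 0 0 = z 0 0 := mul_left_cancel₀ hm (by
      linear_combination u * h.1 + v * h.2 - (y 0 0 - z 0 0) * huv)
    have h7 : y 1 0 = z 1 0 := mul_left_cancel₀ hm (by
      linear_combination u * h.2 - v * h.1 - (y 1 0 - z 1 0) * huv)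
    exact sl_ext h6 (by rw [h3, h5, h7]) h7 (by rw [h1, h4, h6])
  · have hs' : s.1 ^ 2 + s.2 ^ 2 = m := hs
    refine ⟨mkSL2 ((s.1 * u + s.2 * v) / m) (-((s.2 * u - s.1 * v) / m)) ((s.2 * u - s.1 * v) / m)
      ((s.1 * u + s.2 * v) / m) ?_, (comm_J_iff _).2 ⟨rfl, rfl⟩, Prod.ext ?_ ?_⟩
    · field_simp
      linear_combination (u ^ 2 + v ^ 2) * hs' + m * huv
    · change (s.1 * u + s.2 * v) / m * u - (s.2 * u - s.1 * v) / m * v = s.1
      field_simp
      linear_combination s.1 * huv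
    · change (s.1 * u + s.2 * v) / m * v + (s.2 * u - s.1 * v) / m * u = s.2
      field_simp
      linear_combination s.2 * huv

theorem ncard_fib (h3 : (3 : F) = 0) (hn : ∀ a : F, a ^ 2 ≠ -1) {s r : F} (h : s ^ 2 + r ^ 2 ≠ 1) :
    {y : SL(2, F) | (tr y, tr (J F * y)) = (s, r)}.ncard = Fintype.card F + 1 := by
  have h2 : (2 : F) ≠ 0 := fun h => one_ne_zero (by linear_combination h3 - h : (1 : F) = 0)
  rw [← ncard_circle h2 hn (sub_ne_zero.2 h)]
  refine Set.ncard_congr (fun y _ => (y 0 0 + s, y 1 0 + r)) (fun y hy => ?_)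
    (fun y z hy hz h => ?_) fun t ht => ?_
  · simp only [Set.mem_setOf_eq, Prod.mk.injEq, tr_J_mul] at hy ⊢
    rw [tr_eq] at hy
    linear_combination -sl2_det y + (y 0 0) * hy.1 + (y 1 0) * hy.2 + (y 0 0 * s + y 1 0 * r) * h3
  · simp only [Set.mem_setOf_eq, Prod.mk.injEq, tr_J_mul] at hy hz h
    rw [tr_eq] at hy hz
    exact sl_ext (by linear_combination h.1) (by linear_combination h.2 - hy.2 + hz.2)
      (by linear_combination h.2) (by linear_combination hy.1 - hz.1 - h.1)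
  · have ht' : t.1 ^ 2 + t.2 ^ 2 = s ^ 2 + r ^ 2 - 1 := ht
    refine ⟨mkSL2 (t.1 - s) (t.2 - r - r) (t.2 - r) (s - (t.1 - s)) ?_, ?_, Prod.ext ?_ ?_⟩
    · linear_combination -ht' + (t.1 * s - s ^ 2 + t.2 * r - r ^ 2) * h3
    · simp only [Set.mem_setOf_eq, Prod.mk.injEq, tr_J_mul]
      rw [tr_eq]
      exact ⟨add_sub_cancel _ _, sub_sub_cancel _ _⟩
    · exact sub_add_cancel _ _
    · exact sub_add_cancel _ _

theorem ncard_of_fib {α β : Type*} [Finite α] [Finite β] (f : α → β) (S : Set β) (n : ℕ)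
    (h : ∀ b ∈ S, {a | f a = b}.ncard = n) : {a | f a ∈ S}.ncard = S.ncard * n := by
  rw [← Nat.card_coe_set_eq, ← Nat.card_coe_set_eq]
  refine natCard_eq_mul_of_fibers (fun a => ⟨f a.1, a.2⟩) n fun b => ?_
  rw [← h b.1 b.2, ← Nat.card_coe_set_eq]
  exact Nat.card_congr ⟨fun a => ⟨a.1.1, congrArg Subtype.val a.2⟩,
    fun a => ⟨⟨a.1, by have := a.2; simp only [Set.mem_setOf_eq] at this ⊢; rw [this]; exact b.2⟩,
      Subtype.ext a.2⟩, fun _ => rfl, fun _ => rfl⟩

theorem ncard_invol_three (h3 : (3 : F) = 0) (hn : ∀ a : F, a ^ 2 ≠ -1) :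
    (sol (J F)).ncard = 2 * Fintype.card F * (Fintype.card F + 1) := by
  have h2 : (2 : F) ≠ 0 := fun h => one_ne_zero (by linear_combination h3 - h : (1 : F) = 0)
  obtain ⟨j1, j2, -⟩ := J_pow h2 hn
  have hc : ∀ y : SL(2, F), y * J F = J F * y ↔ tr y ^ 2 + tr (J F * y) ^ 2 = 1 := fun y => by
    have h1 := sl2_det y
    rw [comm_J_iff, tr_J_mul, tr_eq]
    constructor
    · rintro ⟨h4, h5⟩
      rw [h4, h5] at h1 ⊢
      linear_combination 4 * h1 + h3
    · intro h
      have := sq_add_sq_eq_zero' hn (u := y 1 1 - y 0 0) (v := y 0 1 + y 1 0) (by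
        linear_combination h - 4 * h1 - h3)
      exact ⟨by linear_combination this.1, by linear_combination this.2⟩
  have h1 : sol (J F) = {y | y * J F = J F * y} ∪ {y | (tr y, tr (J F * y)) ∈
      ({0} ×ˢ {t : F | t ^ 2 = 1}ᶜ ∪ {t : F | t = 0 ∨ t ^ 2 = 1}ᶜ ×ˢ {0}) ∪
        {t : F | t ^ 2 = 1} ×ˢ {t : F | t ^ 2 = 1}} := by
    ext y
    simp only [Set.mem_union, Set.mem_setOf_eq, Set.mem_prod, Set.mem_singleton_iff, Set.mem_compl_iff]
    constructor
    · intro h
      by_cases c1 : y * J F = J F * y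
      · exact Or.inl c1
      right
      have c2 := c1
      rw [hc] at c2
      by_cases c3 : tr y = 0
      · exact Or.inl (Or.inl ⟨c3, fun h => c2 (by rw [c3, h]; ring)⟩)
      by_cases c4 : tr (J F * y) = 0
      · exact Or.inl (Or.inr ⟨fun h => c2 (by rw [c4, h.resolve_left c3]; ring), c4⟩)
      right
      rcases struct (ne_pm j1).1 (ne_pm j1).2 h with ⟨P, h, -⟩ | ⟨z, hz, h4, h5⟩ | ⟨-, h⟩
      · exact absurd h (j2 P)
      · have h6 := h5.resolve_right fun h => c3 (trace_eq_zero_of_inverts hz h)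
        obtain ⟨N, -, -, h7⟩ := cent_facts hz
        rcases h4 with h4 | h4
        · exact absurd (h7 _ _ (mul_inv_eq_iff_eq_mul.1 h6) (mul_inv_eq_iff_eq_mul.1 h4)) c1
        · refine absurd (trace_eq_zero_of_inverts hz ?_) c4
          rw [← h4]
          nth_rewrite 2 [← h6]
          group
      · obtain ⟨k, hk⟩ := h y (right_mem _ _)
        obtain ⟨l, hl⟩ := h _ (mul_mem (left_mem _ _) (right_mem _ _))
        exact ⟨(sq_cases h3 hn hk).resolve_left c3, (sq_cases h3 hn hl).resolve_left c4⟩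
    · rintro (h | (⟨h, -⟩ | ⟨-, h⟩) | ⟨h, h'⟩)
      · exact mem_sol_norm j1 (Or.inl (mul_inv_eq_iff_eq_mul.2 h))
      · exact sol_dih tr_J h
      · refine mem_sol_of_mem (sol_dih tr_J h) (left_mem _ _) ?_
        simpa using mul_mem (inv_mem (left_mem (J F) (J F * y))) (right_mem _ _)
      · exact sol_a4 tr_J h h'
  have h4 : ∀ s ∈ ({0} ×ˢ {t : F | t ^ 2 = 1}ᶜ ∪ {t : F | t = 0 ∨ t ^ 2 = 1}ᶜ ×ˢ {0}) ∪
      {t : F | t ^ 2 = 1} ×ˢ {t : F | t ^ 2 = 1}, s.1 ^ 2 + s.2 ^ 2 ≠ 1 := by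
    rintro ⟨s, r⟩ h h'
    simp only [Set.mem_union, Set.mem_setOf_eq, Set.mem_prod, Set.mem_singleton_iff, Set.mem_compl_iff] at h h'
    rcases h with (⟨rfl, h⟩ | ⟨h, rfl⟩) | ⟨h, h''⟩
    · exact h (by linear_combination h')
    · exact h (Or.inr (by linear_combination h'))
    · exact one_ne_zero (by linear_combination h' - h - h'' : (1 : F) = 0)
  have h5 := Set.ncard_le_card {t : F | t = 0 ∨ t ^ 2 = 1}
  rw [ncard_three h2, Nat.card_eq_fintype_card] at h5
  rw [h1, Set.ncard_union_eq (by exact Set.disjoint_left.2 fun y h1 h2 => h4 _ h2 ((hc y).1 h1)), ncard_comm_J h2 hn,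
    ncard_of_fib (fun y : SL(2, F) => (tr y, tr (J F * y))) _ _ fun s hs => ncard_fib h3 hn (h4 s hs),
    Set.ncard_union_eq, Set.ncard_union_eq, Set.ncard_prod, Set.ncard_prod, Set.ncard_prod,
    Set.ncard_singleton, Set.ncard_compl, Set.ncard_compl, ncard_three h2, ncard_sq_one h2,
    Nat.card_eq_fintype_card]
  · obtain ⟨n, hn⟩ := Nat.exists_eq_add_of_le h5
    rw [hn, show 3 + n - 2 = n + 1 by omega, Nat.add_sub_cancel_left]
    ring
  · exact Set.disjoint_left.2 fun s h h' => h'.1 (Or.inl h.1)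
  · refine Set.disjoint_left.2 fun s h h' => ?_
    rcases h with h | h
    · exact h.2 h'.2
    · exact h.1 (Or.inr h'.1)

end Cfsg.Agent.H2.Sol
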