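import Mathlib
import Cfsg.Agent.H2.Gol2

/-! The graphs on 77 and 100 vertices attached to `S(3,6,22)`. -/

namespace Cfsg.Agent.H2.St

open Cfsg Finset H16 SimpleGraph
open scoped Classical

variable {α β : Type*} [Fintype α] {B : Set (Finset α)} {b c : Finset α}

theorem srg_of {V : Type*} [Fintype V] {G : SimpleGraph V} [DecidableRel G.Adj] {n k l m : ℕ}
    (h1 : Fintype.card V = n) (h2 : ∀ v w, {x | G.Adj v x ∧ G.Adj w x}.ncard =
      if v = w then k else if G.Adj v w then l else m) : G.IsSRGWith n k l m := by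
  have h : ∀ v w, Fintype.card (G.commonNeighbors v w) = _ := fun v w =>
    (Nat.card_eq_fintype_card.symm.trans (Nat.card_coe_set_eq _)).trans (h2 v w)
  refine ⟨h1, fun v => ?_, fun v w e => by rw [h, if_neg e.ne, if_pos e], fun v w e e' => by rw [h, if_neg e, if_neg e']⟩
  have := h2 v v
  simp only [and_self, if_true] at this
  rw [← this, ← card_neighborFinset_eq_degree, ← Set.ncard_coe_finset, coe_neighborFinset]; rfl

theorem ncard_sub (P : Finset α → Prop) : {c : B | P c}.ncard = {c | c ∈ B ∧ P c}.ncard := by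
  rw [← Set.ncard_image_of_injective _ Subtype.val_injective]
  congr 1; ext; simp [and_comm]

theorem n77 (hα : Fintype.card α = 22) (hB : IsSteinerSystem 3 6 B) : B.ncard = 77 := by
  have := steiner_block_count hB
  norm_num [hα, Nat.choose] at this
  omega

theorem ne_of_disj (hB : IsSteinerSystem 3 6 B) (hb : b ∈ B) (h : Disjoint b c) : b ≠ c := by
  rintro rfl
  have := hB.1 b hb
  simp [disjoint_self.1 h] at this

theorem n_disj (hα : Fintype.card α = 22) (hB : IsSteinerSystem 3 6 B) (hb : b ∈ B) (hc : c ∈ B) :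
    {d | d ∈ B ∧ Disjoint b d ∧ Disjoint c d}.ncard = if b = c then 16 else if Disjoint b c then 0 else 4 := by
  rcases eq_or_ne b c with rfl | e
  · have := ncard_inter hB (by omega) (.inr hb) (empty_subset b)
    simp only [hα, hB.1 b hb, ← disjoint_iff_inter_eq_empty, card_empty] at this
    simpa using this.trans (by decide +kernel : _ = 16)
  have h0 := fun i hi => moment hB (by omega) (b ∪ c) (m := 7) (by omega) (i := i) hi
  have h1 : ∀ d ∈ B, d = b ∨ d = c ∨ (#(d ∩ (b ∪ c)) ≤ 4 ∧ #(d ∩ (b ∪ c)) ≠ 1 ∧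
      (Disjoint b c → #(d ∩ (b ∪ c)) ≠ 3)) := fun d hd => or_iff_not_imp_left.2 fun e1 => or_iff_not_imp_left.2 fun e2 => by
    have := inter22 hα hB hd hb e1
    have := inter22 hα hB hd hc e2
    have := card_union_add_card_inter (d ∩ b) (d ∩ c)
    have := card_le_card (inter_subset_left (s₁ := d ∩ b) (s₂ := d ∩ c))
    have := card_le_card (inter_subset_right (s₁ := d ∩ b) (s₂ := d ∩ c))
    rw [inter_union_distrib_left]
    refine ⟨by omega, by omega, fun h => ?_⟩
    rw [card_union_of_disjoint (h.mono inter_subset_right inter_subset_right)]; omega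
  have h2 : ∀ d, d = b ∨ d = c → #(d ∩ (b ∪ c)) = 6 := by
    rintro d (h | h)
    · rw [h, inter_eq_left.2 subset_union_left, hB.1 _ hb]
    · rw [h, inter_eq_left.2 subset_union_right, hB.1 _ hc]
  have h3 : ∀ j, j = 1 ∨ j = 5 ∨ (j = 3 ∧ Disjoint b c) → nb B (b ∪ c) j = 0 := fun j hj => nb_eq_zero fun d hd => by
    have := h1 d hd; have := h2 d; grind
  have h4 : nb B (b ∪ c) 6 = 2 := by
    rw [nb, ← Set.ncard_pair e]
    congr 1; ext d
    have := h1 d; have := h2 d
    simp only [Set.mem_setOf_eq, Set.mem_insert_iff, Set.mem_singleton_iff]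
    grind
  have h5 := card_union_add_card_inter b c
  have a0 := h0 0 (by omega)
  have a1 := h0 1 (by omega)
  have a2 := h0 2 (by omega)
  have a3 := h0 3 (by omega)
  rw [if_neg e, show Set.ncard _ = nb B (b ∪ c) 0 by
    simp [nb, ← disjoint_iff_inter_eq_empty, disjoint_comm]]
  rw [hB.1 b hb, hB.1 c hc] at h5
  split_ifs with h
  · rw [disjoint_iff_inter_eq_empty.1 h, card_empty] at h5
    norm_num [show #(b ∪ c) = 12 from h5, hα, sum_range_succ, lv, Nat.choose, h3, h, h4] at a0 a1 a2
    omega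
  · have := (inter22 hα hB hb hc e).resolve_left (by simpa [disjoint_iff_inter_eq_empty] using h)
    norm_num [show #(b ∪ c) = 10 by omega, hα, sum_range_succ, lv, Nat.choose, h3, h4] at a0 a1 a2 a3
    omega

theorem n_pts (hα : Fintype.card α = 22) (hB : IsSteinerSystem 3 6 B) (x y : α) :
    {d | d ∈ B ∧ x ∈ d ∧ y ∈ d}.ncard = if x = y then 21 else 5 := by
  have := ncard_inter hB (by omega) (w := {x, y}) (.inl (card_le_two.trans (by omega))) subset_rfl
  simp only [inter_eq_left, insert_subset_iff, singleton_subset_iff, hα] at this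
  rw [this]
  split_ifs with h
  · rw [h, pair_eq_singleton, card_singleton]; decide +kernel
  · rw [card_pair h]; decide +kernel

theorem n_pt_disj (hα : Fintype.card α = 22) (hB : IsSteinerSystem 3 6 B) (hb : b ∈ B) (x : α) :
    {d | d ∈ B ∧ x ∈ d ∧ Disjoint b d}.ncard = if x ∈ b then 0 else 6 := by
  split_ifs with h
  · exact (Set.ncard_eq_zero).2 (Set.eq_empty_of_forall_notMem fun d hd => disjoint_left.1 hd.2.2 h hd.2.1)
  have h0 := fun i hi => moment hB (by omega) (insert x b) (m := 7) (by omega) (i := i) hi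
  have h1 : ∀ d ∈ B, (#(d ∩ insert x b) = 1 ↔ x ∈ d ∧ Disjoint b d) ∧ (#(d ∩ insert x b) = 6 ↔ d = b) ∧
      #(d ∩ insert x b) ≠ 4 ∧ #(d ∩ insert x b) ≠ 5 := fun d hd => by
    have := hB.1 b hb
    rcases eq_or_ne d b with rfl | e
    · simp [*]
    have := inter22 hα hB hd hb e
    rw [disjoint_comm, disjoint_iff_inter_eq_empty, ← card_eq_zero]
    by_cases e' : x ∈ d
    · rw [inter_insert_of_mem e', card_insert_of_notMem (by simp [h])]; grind
    · rw [inter_insert_of_notMem e']; grind
  have h4 : nb B (insert x b) 6 = 1 := by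
    rw [nb, ← Set.ncard_singleton b]
    congr 1; ext d
    exact ⟨fun h => (h1 d h.1).2.1.1 h.2, by rintro rfl; exact ⟨hb, (h1 _ hb).2.1.2 rfl⟩⟩
  have a1 := h0 1 (by omega)
  have a2 := h0 2 (by omega)
  have a3 := h0 3 (by omega)
  norm_num [card_insert_of_notMem h, hB.1 b hb, hα, sum_range_succ, lv, Nat.choose, h4,
    nb_eq_zero fun d hd => (h1 d hd).2.2.1, nb_eq_zero fun d hd => (h1 d hd).2.2.2] at a1 a2 a3
  have : {d | d ∈ B ∧ x ∈ d ∧ Disjoint b d}.ncard = nb B (insert x b) 1 :=
    congrArg Set.ncard (Set.ext fun d => and_congr_right fun hd => (h1 d hd).1.symm)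
  omega

theorem adj77 (hB : IsSteinerSystem 3 6 B) (b c : B) : (blockGraph B).Adj b c ↔ Disjoint b.1 c.1 := by
  simpa [blockGraph, disjoint_comm (a := c.1)] using fun h => Subtype.coe_ne_coe.1 (ne_of_disj hB b.2 h)

omit [Fintype α] in
theorem adj_none (x : Option (α ⊕ B)) : (pointBlockGraph B).Adj none x ↔ ∃ a, x = some (.inl a) := by
  rcases x with _ | a | b <;> simp [pointBlockGraph, pointBlockRel]

omit [Fintype α] in
theorem adj_pt (a : α) (x : Option (α ⊕ B)) :
    (pointBlockGraph B).Adj (some (.inl a)) x ↔ x = none ∨ ∃ b : B, x = some (.inr b) ∧ a ∈ b.1 := by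
  rcases x with _ | a | b <;> simp [pointBlockGraph, pointBlockRel]

theorem adj_bl (hB : IsSteinerSystem 3 6 B) (b : B) (x : Option (α ⊕ B)) :
    (pointBlockGraph B).Adj (some (.inr b)) x ↔ (∃ a, x = some (.inl a) ∧ a ∈ b.1) ∨
      ∃ c : B, x = some (.inr c) ∧ Disjoint b.1 c.1 := by
  rcases x with _ | a | c
  · simp [pointBlockGraph, pointBlockRel]
  · simp [pointBlockGraph, pointBlockRel]
  · simpa [pointBlockGraph, pointBlockRel, disjoint_comm (a := c.1)] using
      fun h => Subtype.coe_ne_coe.1 (ne_of_disj hB b.2 h)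

theorem ncard_opt (P : Option (α ⊕ B) → Prop) : {x | P x}.ncard =
    (if P none then 1 else 0) + ({a | P (some (.inl a))}.ncard + {a | P (some (.inr a))}.ncard) := by
  simp only [Set.ncard_eq_toFinset_card', Set.toFinset_setOf, card_filter, Fintype.sum_option, Fintype.sum_sum_type]

theorem pbg_iso [Fintype β] {B' : Set (Finset β)} (hB : IsSteinerSystem 3 6 B) (hB' : IsSteinerSystem 3 6 B')
    (h : SetSystemIso B B') : Nonempty (pointBlockGraph B ≃g pointBlockGraph B') := by
  obtain ⟨e, he⟩ := iso_iff.1 h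
  have he' : ∀ b, b ∈ B ↔ e.finsetCongr b ∈ B' := fun b => by rw [← he]; rfl
  refine ⟨⟨(e.sumCongr (e.finsetCongr.subtypeEquiv he')).optionCongr, ?_⟩⟩
  rintro (_ | a | b) (_ | a' | b') <;>
    simp only [Equiv.optionCongr_apply, Option.map_none, Option.map_some, Equiv.sumCongr_apply, Sum.map_inl,
      Sum.map_inr] <;> simp [adj_none, adj_pt, adj_bl hB, adj_bl hB']

theorem srg_steiner {V : Type*} [Fintype V] {G : SimpleGraph V} [DecidableRel G.Adj] (hG : G.IsSRGWith 100 22 0 6)
    (v : V) : ∃ B : Set (Finset (G.neighborSet v)), Fintype.card (G.neighborSet v) = 22 ∧ IsSteinerSystem 3 6 B ∧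
      Nonempty (pointBlockGraph B ≃g G) := by
  have h0 : Fintype.card (G.neighborSet v) = 22 := (G.card_neighborSet_eq_degree v).trans (hG.regular v)
  have h1 : ∀ x y z, G.Adj x y → G.Adj x z → ¬ G.Adj y z := fun x y z a b c =>
    (Fintype.card_eq_zero_iff.1 (hG.of_adj x y a)).elim ⟨z, b, c⟩
  have h2 : ∀ x y, #{z | G.Adj x z ∧ G.Adj y z} = if x = y then 22 else if G.Adj x y then 0 else 6 := fun x y => by
    have : #{z | G.Adj x z ∧ G.Adj y z} = Fintype.card (G.commonNeighbors x y) := (Fintype.card_subtype _).symm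
    split_ifs with a b
    · rw [← hG.regular x, ← card_neighborFinset_eq_degree]; congr 1; ext; simp [a]
    · rw [this, hG.of_adj x y b]
    · rw [this, hG.of_not_adj a b]
  let D : Finset V := {x | x ≠ v ∧ ¬ G.Adj v x}
  let f : V → Finset (G.neighborSet v) := fun x => {a | G.Adj x a}
  have h3 : #D = 77 := by
    have := card_filter_add_card_filter_not (s := univ) fun x => x ≠ v ∧ ¬ G.Adj v x
    rw [card_univ, hG.card, show ({x | ¬ (x ≠ v ∧ ¬ G.Adj v x)} : Finset V) = insert v (G.neighborFinset v) by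
      ext; simp [or_iff_not_imp_left], card_insert_of_notMem (by simp), card_neighborFinset_eq_degree,
      hG.regular v] at this
    change #D + _ = _ at this
    omega
  have h4 : ∀ x ∈ D, #(f x) = 6 := fun x hx => by
    have := h2 v x
    rw [mem_filter_univ] at hx
    rw [if_neg hx.1.symm, if_neg hx.2] at this
    rw [← this, ← card_map (Function.Embedding.subtype _)]
    congr 1; ext; simp [f, and_comm]
  have h5 : ∀ a b : G.neighborSet v, #{x ∈ D | a ∈ f x ∧ b ∈ f x} = if a = b then 21 else 5 := fun a b => by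
    have := h2 a b
    rw [show ({z | G.Adj a z ∧ G.Adj b z} : Finset V) = insert v {x ∈ D | a ∈ f x ∧ b ∈ f x} by
      ext x
      have := h1 v a x a.2
      have : G.Adj a v := a.2.symm
      have : G.Adj b v := b.2.symm
      simp only [D, f, mem_filter, mem_univ, true_and, mem_insert, G.adj_comm x]
      grind, card_insert_of_notMem (by simp [D]), if_neg (h1 v a b a.2 b.2)] at this
    simp only [Subtype.val_inj] at this
    split_ifs at * <;> omega
  have h6 : ∀ x ∈ D, #{y ∈ D | G.Adj x y} = 16 := fun x hx => by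
    have := h2 x x
    rw [if_pos rfl, show ({z | G.Adj x z ∧ G.Adj x z} : Finset V) =
      (f x).map (Function.Embedding.subtype _) ∪ {y ∈ D | G.Adj x y} by
        ext y
        have : ¬ G.Adj x v := fun h => (mem_filter_univ _ |>.1 hx).2 h.symm
        simp [D, f]
        grind, card_union_of_disjoint (by simp [Finset.disjoint_left, D]; tauto), card_map, h4 x hx] at this
    omega
  have h7 : ∀ x y, G.Adj x y → f x ∩ f y = ∅ := fun x y h => by
    ext a; simpa [f] using h1 x y a h
  have h8 : ∀ x ∈ D, ∀ y ∈ D, x ≠ y → #(f x ∩ f y) = if G.Adj x y then 0 else 2 := fun x hx => by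
    have b1 : ∑ y ∈ D, #(f x ∩ f y) = 126 := by
      simp only [← filter_mem_eq_inter, card_filter]
      rw [sum_comm, sum_congr rfl (g := fun _ => 21), sum_const, h4 x hx, smul_eq_mul]
      exact fun a _ => by simpa only [card_filter, and_self, if_true] using h5 a a
    have b2 : ∑ y ∈ D, #(f x ∩ f y) * #(f x ∩ f y) = 276 := by
      simp only [← filter_mem_eq_inter, card_filter, sum_mul_sum]
      rw [sum_comm, sum_congr rfl (g := fun _ => 46), sum_const, h4 x hx, smul_eq_mul]
      intro a ha
      rw [sum_comm, sum_congr rfl (g := fun b => 5 + if a = b then 16 else 0), sum_add_distrib, sum_ite_eq, if_pos ha,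
        sum_const, h4 x hx, smul_eq_mul]
      intro b _
      have := h5 a b
      simp only [card_filter, ite_and] at this
      simp only [mul_ite, mul_one, mul_zero, ← ite_and, and_comm]
      simp only [ite_and, this]
      split_ifs <;> rfl
    have b3 := (sum_eq_sum_iff_of_le (s := D) (g := fun y => #(f x ∩ f y) * #(f x ∩ f y) + 4)
      (f := fun y => 4 * #(f x ∩ f y) + ((if x = y then 16 else 0) + if G.Adj x y then 4 else 0)) fun y _ => by
        split_ifs with a b c
        · exact absurd b (a ▸ G.loopless.irrefl x)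
        · rw [← a, inter_self, h4 x hx]
        · simp [h7 x y c]
        · nlinarith [sq_nonneg ((#(f x ∩ f y) : ℤ) - 2)]).1 (by
      simp only [sum_add_distrib, ← mul_sum, b1, b2, sum_ite_eq, if_pos hx, ← sum_filter, sum_const, h3, h6 x hx]
      rfl)
    intro y hy e
    have := b3 y hy
    split_ifs at this ⊢ with a
    · simp [h7 x y a]
    · nlinarith
  have h9 : ∀ x ∈ D, ∀ y ∈ D, 3 ≤ #(f x ∩ f y) → x = y := fun x hx y hy h => by_contra fun e => by
    have := h8 x hx y hy e
    split_ifs at this <;> omega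
  have hi : Set.InjOn f D := fun x hx y hy e => h9 x hx y hy (by rw [← e, inter_self, h4 x hx]; omega)
  have hB : IsSteinerSystem 3 6 (f '' D) := isSteiner_of_count (by rintro _ ⟨x, hx, rfl⟩; exact h4 x hx)
    (by rintro _ ⟨x, hx, rfl⟩ _ ⟨y, hy, rfl⟩ h; rw [h9 x hx y hy h])
    (by rw [Set.ncard_image_of_injOn hi, Set.ncard_coe_finset, h3, h0]; rfl)
  let e := (hi.bijOn_image.equiv f).symm
  have he : ∀ b, f (e b) = b := fun b => congrArg Subtype.val (e.symm_apply_apply b)
  have hD : ∀ b, (e b).1 ≠ v ∧ ¬ G.Adj v (e b) := fun b => (mem_filter.1 (mem_coe.1 (e b).2)).2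
  refine ⟨_, h0, hB, ⟨⟨Equiv.ofBijective (fun x => x.elim v (Sum.elim Subtype.val fun b => e b)) ⟨?_, fun x => ?_⟩, ?_⟩⟩⟩
  · rintro (_ | a | b) (_ | a' | b') h <;> simp only [Option.elim, Sum.elim_inl, Sum.elim_inr] at h
    · rfl
    · exact absurd h a'.2.ne
    · exact absurd h (hD b').1.symm
    · exact absurd h a.2.ne'
    · rw [Subtype.ext h]
    · exact absurd (h ▸ a.2) (hD b').2
    · exact absurd h (hD b).1
    · exact absurd (h ▸ a'.2) (hD b).2
    · rw [e.injective (Subtype.ext h)]
  · by_cases a : x = v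
    · exact ⟨none, a.symm⟩
    by_cases b : G.Adj v x
    · exact ⟨some (.inl ⟨x, b⟩), rfl⟩
    · exact ⟨some (.inr (e.symm ⟨x, mem_coe.2 (mem_filter.2 ⟨mem_univ _, a, b⟩)⟩)), by simp⟩
  have k : ∀ a b, G.Adj (e b) a.1 ↔ a ∈ b.1 := fun (a : G.neighborSet v) b => by simp [← he b, f]
  rintro (_ | a | b) (_ | a' | b') <;>
    simp only [Equiv.ofBijective_apply, Option.elim, Sum.elim_inl, Sum.elim_inr, adj_none, adj_pt, adj_bl hB]
  · simp
  · simpa using (show G.Adj v a' from a'.2)
  · simpa using (hD b').2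
  · simpa using (show G.Adj v a from a.2).symm
  · simpa using h1 v a a' a.2 a'.2
  · simp [G.adj_comm a.1, k]
  · simpa [G.adj_comm _ v] using (hD b).2
  · simp [k]
  · simp only [reduceCtorEq, Option.some.injEq, false_and, exists_false, Sum.inr.injEq, exists_eq_left', false_or]
    rw [← he b, ← he b', disjoint_iff_inter_eq_empty]
    refine ⟨h7 _ _, fun h => by_contra fun n => ?_⟩
    have := h8 _ (e b).2 _ (e b').2 fun e' => by
      have := h4 _ (e b).2
      rw [← e', inter_self] at h
      simp [h] at this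
    simp [h, n] at this

end Cfsg.Agent.H2.St
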