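import Mathlib
import Cfsg.Prelude.Def_SporadicCombinatorics
import Cfsg.Agent.H2.St2
import Cfsg.Agent.H16.PermEng

/-! The ternary code of length 12. -/

namespace Cfsg.Agent.H2.TG

open Cfsg Finset H16 St
open scoped Pointwise

local notation "C" => ternaryGolayCode
local notation "S" => ternarySupport

/-- decidable form of membership -/
abbrev W (x : ArrayPt → ZMod 3) : Prop := ∃ s : ZMod 3, (∀ i : Fin 4, ∑ r : ZMod 3, x (i, r) = -s) ∧
  ∀ a b : ZMod 3, x (0, b) + x (1, a) + x (2, a + b) + x (3, a + 2 * b) = s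

theorem mem_iff {x : ArrayPt → ZMod 3} : x ∈ C ↔ W x := by
  refine exists_congr fun s => and_congr_right fun _ => ?_
  simp only [tetracode, Submodule.mem_span_pair, forall_exists_index]
  exact ⟨fun h a b => by simpa [Fin.sum_univ_four, mul_comm] using h _ a b rfl,
    by rintro h _ a b rfl; simpa [Fin.sum_univ_four, mul_comm] using h a b⟩

/-- generator matrix -/
def g (k : Fin 6) (p : ArrayPt) : ZMod 3 := ![![![1, 0, 0], ![0, 0, 1], ![0, 0, 1], ![1, 1, 2]],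
  ![![0, 1, 0], ![0, 0, 1], ![0, 2, 2], ![2, 0, 2]], ![![0, 0, 1], ![0, 0, 1], ![0, 1, 0], ![2, 1, 1]],
  ![![0, 0, 0], ![1, 0, 2], ![0, 2, 1], ![2, 1, 0]], ![![0, 0, 0], ![0, 1, 2], ![0, 1, 2], ![0, 1, 2]],
  ![![0, 0, 0], ![0, 0, 0], ![1, 1, 1], ![2, 2, 2]]] k p.1 p.2

/-- encoding map -/
def w (c : Fin 6 → ZMod 3) (p : ArrayPt) : ZMod 3 := ∑ k, c k * g k p

/-- information positions -/
def I : Fin 6 → ArrayPt := ![(0, 0), (0, 1), (0, 2), (1, 0), (1, 1), (2, 0)]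

theorem w_I (c : Fin 6 → ZMod 3) : w c ∘ I = c := by
  have : ∀ k j, g k (I j) = if k = j then 1 else 0 := by decide +kernel
  ext j; simp [w, this]

theorem w_inj : w.Injective := fun c d h => by rw [← w_I c, h, w_I]

theorem lin (x : Fin 6 → ArrayPt → ZMod 3) (h : ∀ k, W (x k)) (c : Fin 6 → ZMod 3) :
    (fun p => ∑ k, c k * x k p) ∈ C := by
  convert (C).sum_mem fun k (_ : k ∈ univ) => (C).smul_mem (c k) (mem_iff.2 (h k)) using 1
  ext; simp

theorem mem_range {x : ArrayPt → ZMod 3} : x ∈ C ↔ x ∈ Set.range w := by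
  have h0 := lin g (by decide +kernel)
  refine ⟨fun h => ⟨x ∘ I, (sub_eq_zero.1 ?_).symm⟩, by rintro ⟨c, rfl⟩; exact h0 c⟩
  have h1 : (x - w (x ∘ I)) ∘ I = 0 := (sub_eq_zero.2 (w_I _).symm :)
  have h2 := mem_iff.1 ((C).sub_mem h (h0 (x ∘ I)))
  change W (x - w (x ∘ I)) at h2
  generalize x - w (x ∘ I) = y at h1 h2
  have h3 : ∀ a b c d e f : ZMod 3, W (fun p => ![![0, 0, 0], ![0, 0, a], ![0, b, c], ![d, e, f]] p.1 p.2) →
      ∀ p : ArrayPt, ![![0, 0, 0], ![0, 0, a], ![0, b, c], ![d, e, f]] p.1 p.2 = 0 := by decide +kernel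
  have h4 : y = fun p => ![![0, 0, 0], ![0, 0, y (1, 2)], ![0, y (2, 1), y (2, 2)],
      ![y (3, 0), y (3, 1), y (3, 2)]] p.1 p.2 := by
    ext ⟨i, j⟩
    fin_cases i <;> fin_cases j
    exacts [congrFun h1 0, congrFun h1 1, congrFun h1 2, congrFun h1 3, congrFun h1 4, rfl, congrFun h1 5,
      rfl, rfl, rfl, rfl, rfl]
  rw [h4] at h2 ⊢
  exact funext (h3 _ _ _ _ _ _ h2)

theorem ncard_code (P : (ArrayPt → ZMod 3) → Prop) [DecidablePred P] :
    {x | x ∈ C ∧ P x}.ncard = #{c | P (w c)} := by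
  rw [← Set.ncard_coe_finset, ← Set.ncard_image_of_injective _ w_inj]
  congr 1; ext; simp only [mem_range, Set.mem_setOf_eq, Set.mem_image, coe_filter, mem_univ, true_and, Set.mem_range]
  grind

theorem wts : (∀ c, #(S (w c)) = 0 ∨ #(S (w c)) = 6 ∨ #(S (w c)) = 9 ∨ #(S (w c)) = 12) ∧
    #{c | #(S (w c)) = 6} = 264 ∧ #{c | #(S (w c)) = 9} = 440 ∧ #{c | #(S (w c)) = 12} = 24 := by
  decide +kernel

theorem wt {x : ArrayPt → ZMod 3} (h : x ∈ C) : x = 0 ∨ #(S x) = 6 ∨ #(S x) = 9 ∨ #(S x) = 12 := by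
  obtain ⟨c, rfl⟩ := mem_range.1 h
  refine (wts.1 c).imp_left fun h => funext fun p => ?_
  simpa using filter_eq_empty_iff.1 (card_eq_zero.1 h) (mem_univ p)

theorem pm {x y : ArrayPt → ZMod 3} (hx : x ∈ C) (hy : y ∈ C) (h1 : #(S x) = 6) (h2 : #(S y) = 6)
    (h : 5 ≤ #(S x ∩ S y)) : y = x ∨ y = -x := by
  have e : ∀ a b : ZMod 3, (if a + b ≠ 0 then 1 else 0) + (if b - a ≠ 0 then 1 else 0) +
      3 * (if a ≠ 0 ∧ b ≠ 0 then 1 else 0) = 2 * (if a ≠ 0 then 1 else 0) + 2 * if b ≠ 0 then 1 else 0 := by decide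
  have : #(S (x + y)) + #(S (y - x)) + 3 * #(S x ∩ S y) = 2 * #(S x) + 2 * #(S y) := by
    simp only [ternarySupport, ← filter_and, card_filter, mul_sum, ← sum_add_distrib]
    exact sum_congr rfl fun p _ => e _ _
  have a := wt ((C).add_mem hx hy)
  have b := wt ((C).sub_mem hy hx)
  rw [add_eq_zero_iff_neg_eq, eq_comm] at a
  rw [sub_eq_zero] at b
  by_contra! n
  simp only [n, false_or] at a b
  omega

theorem S_neg (x : ArrayPt → ZMod 3) : S (-x) = S x := by simp [ternarySupport]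

/-- the hexads -/
abbrev B : Set (Finset ArrayPt) := {h | ∃ x ∈ C, S x = h ∧ h.card = 6}

theorem ncard_B : B.ncard = 132 := by
  classical
  have h := (ncard_code fun x => #(S x) = 6).trans wts.2.1
  rw [Set.ncard_eq_toFinset_card', card_eq_sum_card_image S, sum_congr rfl (g := fun _ => 2), sum_const] at h
  · rw [← Set.ncard_coe_finset, smul_eq_mul, coe_image, Set.coe_toFinset] at h
    rw [show B = S '' {x | x ∈ C ∧ #(S x) = 6} by ext; simp only [Set.mem_image, Set.mem_setOf_eq]; grind]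
    omega
  · simp only [mem_image, Set.mem_toFinset, Set.mem_setOf_eq]
    rintro _ ⟨x, ⟨hx, h6⟩, rfl⟩
    have e : ∀ a : ZMod 3, a = -a → a = 0 := by decide
    refine (congrArg card ?_).trans (card_pair (a := x) (b := -x) fun n => by
      rw [show x = 0 from funext fun p => e _ (congrFun n p)] at h6; simp [ternarySupport] at h6)
    ext y
    simp only [mem_filter, Set.mem_toFinset, Set.mem_setOf_eq, mem_insert, mem_singleton]
    refine ⟨fun h => pm hx h.1.1 h6 h.1.2 (by rw [h.2, inter_self]; omega), ?_⟩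
    rintro (rfl | rfl) <;> simp [*, S_neg]

theorem steiner : IsSteinerSystem 5 6 B := isSteiner_of_count (fun _ ⟨_, _, _, h⟩ => h) (by
  rintro _ ⟨x, hx, rfl, h1⟩ _ ⟨y, hy, rfl, h2⟩ h
  rcases pm hx hy h1 h2 h with rfl | rfl <;> simp [S_neg]) (by rw [ncard_B]; rfl)

/-- the monomial map preserves the code -/
abbrev Pres (σ : Equiv.Perm ArrayPt) (c : ArrayPt → (ZMod 3)ˣ) : Prop := ∀ x ∈ C, monomialMap σ c x ∈ C

theorem S_mono (σ : Equiv.Perm ArrayPt) (c : ArrayPt → (ZMod 3)ˣ) (x) : S (monomialMap σ c x) = σ • S x := by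
  ext; simp [ternarySupport, monomialMap, smul_eq_map]

theorem const {c : ArrayPt → (ZMod 3)ˣ} (h : Pres 1 c) (p q : ArrayPt) : c p = c q := by
  obtain ⟨s, h1, h2⟩ := exists_superset_card_eq (s := {p, q}) (n := 5) (card_le_two.trans (by omega)) (by decide)
  obtain ⟨_, ⟨⟨x, hx, rfl, h6⟩, h3⟩, -⟩ := steiner.2 s h2
  have h4 := pm hx (h x hx) h6 (by rw [S_mono, one_smul, h6]) (by rw [S_mono, one_smul, inter_self]; omega)
  have h5 : ∀ r ∈ ({p, q} : Finset _), x r ≠ 0 := fun r hr => (mem_filter.1 (h3 (h1 hr))).2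
  have a := h5 p (by simp)
  have b := h5 q (by simp)
  ext
  rcases h4 with h4 | h4
  · exact (mul_eq_right₀ a).1 (congrFun h4 p) |>.trans ((mul_eq_right₀ b).1 (congrFun h4 q)).symm
  · exact (mul_right_cancel₀ a ((congrFun h4 p).trans (neg_one_mul _).symm)).trans
      (mul_right_cancel₀ b ((congrFun h4 q).trans (neg_one_mul _).symm)).symm

theorem Pres.surj {σ c} (h : Pres σ c) {y} (hy : y ∈ C) : ∃ x ∈ C, monomialMap σ c x = y :=
  ((Set.toFinite _).injOn_iff_bijOn_of_mapsTo h).1 (fun x _ y _ e => funext fun p => by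
    simpa [monomialMap] using congrFun e (σ p)) |>.surjOn hy

/-- permutation parts -/
def L : Subgroup (Equiv.Perm ArrayPt) where
  carrier := {σ | ∃ c, Pres σ c}
  one_mem' := ⟨1, fun x hx => by convert hx; exact funext fun _ => one_mul _⟩
  mul_mem' := fun {σ τ} ⟨c, hc⟩ ⟨d, hd⟩ => ⟨c * d ∘ σ.symm, fun x hx => by
    convert hc _ (hd x hx) using 1; ext; simp [monomialMap, mul_assoc, Equiv.Perm.mul_def]⟩
  inv_mem' := fun {σ} ⟨c, hc⟩ => ⟨c⁻¹ ∘ σ, fun y hy => by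
    obtain ⟨x, hx, rfl⟩ := hc.surj hy
    convert hx; ext p
    change ((c (σ p))⁻¹ : (ZMod 3)ˣ) * (c (σ p) * x (σ.symm (σ p))) = _
    rw [Units.inv_mul_cancel_left, σ.symm_apply_apply]⟩

/-- labelling -/
def pt (i : ℕ) : ArrayPt := (Fin.ofNat 4 (i / 3), i)

theorem L_ge : 95040 ≤ Nat.card L := by
  let f (p : ℕ) (x : ArrayPt) := pt (get 4 p (3 * x.1 + x.2.val))
  let c (s : ℕ) (x : ArrayPt) : (ZMod 3)ˣ := if s.testBit (3 * x.1 + x.2.val) then -1 else 1
  let l : List (ℕ × ℕ) := [(6006700130706, 374), (145287628004256, 904), (82624592360976, 3232),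
    (81869462397456, 6), (95285065495056, 4090), (183942805598736, 6)]
  have h : ∀ q ∈ l, (f q.1).Injective ∧ (∀ k, W fun x => c q.2 x * g k (f q.1 x)) ∧
    ∀ i < 12, get 4 q.1 i < 12 ∧ f q.1 (pt i) = pt (get 4 q.1 i) := by decide +kernel
  refine le_of_eq_of_le (b := lbChain 4 12 [0, 1, 2, 3, 4] (l.map Prod.fst)) (by decide +kernel)
    (lbChain_le (pt := pt) (by unfold Inj; decide +kernel) _ (by decide) L ?_)
  simp only [List.mem_map]
  rintro _ ⟨q, hq, rfl⟩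
  obtain ⟨h1, h2, h3⟩ := h q hq
  refine ⟨.ofBijective _ h1.bijective_of_finite, L.inv_mem_iff.1 ⟨c q.2, fun x hx => ?_⟩, h3⟩
  obtain ⟨d, rfl⟩ := mem_range.1 hx
  convert lin _ h2 d using 1
  ext; simp [monomialMap, w, mul_sum, mul_left_comm, Equiv.Perm.inv_def]

theorem L_eq : L = setSystemAut B ∧ Nat.card L = 95040 := by
  have h : L ≤ setSystemAut B := fun σ ⟨c, hc⟩ => mem_aut_of (by
    rintro _ ⟨x, hx, rfl, h6⟩
    exact ⟨_, hc x hx, S_mono _ _ _, by rwa [card_smul_finset]⟩)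
  have h5 := mt_of_lab (by omega) fun x hx => lab12 (by decide) steiner hx
  have := Fintype.ofFinite (setSystemAut B)
  have h1 : Nat.card (setSystemAut B) = 95040 := ((sharp12 (by decide) steiner).card_eq (by decide) h5).trans (by decide)
  have h2 := Subgroup.eq_of_le_of_card_ge h (h1.trans_le L_ge)
  exact ⟨h2, h2 ▸ h1⟩

theorem card_pres : Nat.card {f : Equiv.Perm ArrayPt × (ArrayPt → (ZMod 3)ˣ) // Pres f.1 f.2} = 190080 := by
  choose c hc using fun σ : L => σ.2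
  rw [← Nat.card_eq_of_bijective (fun q : L × (ZMod 3)ˣ => ⟨(q.1, q.2 • c q.1), fun x hx => by
    convert (C).smul_mem q.2 (hc q.1 x hx) using 1; ext; simp [monomialMap, mul_assoc]⟩) ⟨?_, ?_⟩,
    Nat.card_prod, L_eq.2, Nat.card_eq_fintype_card]
  · rfl
  · rintro ⟨σ, u⟩ ⟨τ, v⟩ h
    obtain ⟨h1, h2⟩ := Prod.mk.inj (Subtype.mk.inj h)
    obtain rfl := Subtype.ext h1
    simpa using congrFun h2 0
  · rintro ⟨⟨σ, d⟩, hd⟩
    have := const (c := d / c ⟨σ, d, hd⟩) (fun y hy => by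
      obtain ⟨x, hx, rfl⟩ := (hc ⟨σ, d, hd⟩).surj hy
      convert hd x hx using 1
      ext p
      change ((d p / c _ p : (ZMod 3)ˣ) : ZMod 3) * (c _ p * _) = d p * _
      rw [← mul_assoc, ← Units.val_mul, div_mul_cancel]; rfl) 0
    refine ⟨⟨⟨σ, d, hd⟩, _⟩, Subtype.ext (Prod.ext rfl (funext fun p => (eq_div_iff_mul_eq').1 (this p)))⟩

end Cfsg.Agent.H2.TG
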