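import Cfsg.Agent.BG.S04
import Cfsg.Agent.H26.AutP

/-! Automorphisms of order three with a four-group as commutator space. -/

set_option autoImplicit false

namespace Cfsg.Agent.H2.Th4
open Subgroup

variable {V : Type*} [CommGroup V]

/-- the commutator space `[V, a]` -/
def cm (a : MulAut V) : Subgroup V where
  carrier := {w | ∃ v, w = a v * v⁻¹}
  mul_mem' := by
    rintro _ _ ⟨v, rfl⟩ ⟨u, rfl⟩
    exact ⟨v * u, by rw [map_mul, mul_inv, mul_mul_mul_comm]⟩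
  one_mem' := ⟨1, by simp⟩
  inv_mem' := by
    rintro _ ⟨v, rfl⟩
    exact ⟨v⁻¹, by rw [map_inv, mul_inv]⟩

theorem mem_cm (a : MulAut V) (v : V) : a v * v⁻¹ ∈ cm a := ⟨v, rfl⟩

/-- the automorphisms whose commutator space lies in `U` -/
def K (U : Subgroup V) : Subgroup (MulAut V) where
  carrier := {a | cm a ≤ U}
  mul_mem' := by
    rintro a b ha hb _ ⟨v, rfl⟩
    have := U.mul_mem (ha (mem_cm a (b v))) (hb (mem_cm b v))
    rwa [mul_assoc, inv_mul_cancel_left] at this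
  one_mem' := by rintro _ ⟨v, rfl⟩; simp
  inv_mem' := by
    rintro a ha _ ⟨v, rfl⟩
    have := U.inv_mem (ha (mem_cm a (a⁻¹ v)))
    rw [MulAut.apply_inv_self, mul_inv, inv_inv, mul_comm] at this
    exact this

theorem mem_K {U : Subgroup V} {a : MulAut V} : a ∈ K U ↔ cm a ≤ U := Iff.rfl

theorem K_map {U : Subgroup V} {a : MulAut V} (h : a ∈ K U) {u : V} (hu : u ∈ U) : a u ∈ U := by
  have := U.mul_mem (h (mem_cm a u)) hu
  rwa [inv_mul_cancel_right] at this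

theorem map_cm (h a : MulAut V) {w : V} (hw : w ∈ cm a) : h w ∈ cm (h * a * h⁻¹) := by
  obtain ⟨v, rfl⟩ := hw
  exact ⟨h v, by simp⟩

theorem card_cm_conj (h a : MulAut V) : Nat.card (cm (h * a * h⁻¹)) = Nat.card (cm a) := by
  refine Nat.card_congr ⟨fun w => ⟨h⁻¹ w, by simpa [mul_assoc] using map_cm h⁻¹ _ w.2⟩,
    fun w => ⟨h w, map_cm h a w.2⟩, fun w => by simp, fun w => by simp⟩

theorem exists_res {Y : Type*} [Group Y] (ψ : Y →* MulAut V) (U : Subgroup V)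
    (h : ∀ y, ∀ u ∈ U, ψ y u ∈ U) : ∃ ρ : Y →* MulAut U, ∀ y u, (ρ y u : V) = ψ y u :=
  ⟨MonoidHom.mk' (fun y =>
    { toFun := fun u => ⟨ψ y u, h y u u.2⟩
      invFun := fun u => ⟨ψ y⁻¹ u, h _ u u.2⟩
      left_inv := fun u => Subtype.ext (by simp)
      right_inv := fun u => Subtype.ext (by simp)
      map_mul' := fun u v => Subtype.ext (by simp) }) fun a b => by ext u; simp,
    fun _ _ => rfl⟩

theorem pow_apply_of_fix {a : MulAut V} {v w : V} (h : a v = w * v) (hw : a w = w) (n : ℕ) :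
    (a ^ n) v = w ^ n * v := by
  induction n with
  | zero => simp
  | succ n ih => rw [pow_succ', MulAut.mul_apply, ih, map_mul, map_pow, hw, h, pow_succ, mul_assoc]

variable (hV : ∀ v : V, v ^ 2 = 1)
include hV

theorem fix_eq_one {a : MulAut V} {n : ℕ} (hn : Odd n) (ha : a ^ n = 1) {w : V} (hw : w ∈ cm a)
    (h : a w = w) : w = 1 := by
  obtain ⟨v, hv⟩ := hw
  have h1 := pow_apply_of_fix (v := v) (by rw [hv, inv_mul_cancel_right]) h n
  obtain ⟨m, rfl⟩ := hn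
  rw [ha, pow_succ, pow_mul, hV, one_pow, one_mul] at h1
  exact (mul_right_cancel (b := v) (by rw [one_mul]; exact h1)).symm

theorem eq_one {a : MulAut V} (ha : Odd (orderOf a)) (h : ∀ w ∈ cm a, a w = w) : a = 1 := by
  ext v
  exact mul_inv_eq_one.1 (fix_eq_one hV ha (pow_orderOf_eq_one a) (mem_cm a v) (h _ (mem_cm a v)))

variable [Finite V]

theorem card_pow (U : Subgroup V) : ∃ k, Nat.card U = 2 ^ k :=
  haveI : Fact (Nat.Prime 2) := ⟨Nat.prime_two⟩
  IsPGroup.iff_card.1 fun g => ⟨1, Subtype.ext (by simpa using hV g)⟩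

theorem card_aut {U : Subgroup V} {k : ℕ} (hk : Nat.card U = 2 ^ k) :
    Nat.card (MulAut U) = ∏ i ∈ Finset.range k, (2 ^ k - 2 ^ i) :=
  haveI : Fact (Nat.Prime 2) := ⟨Nat.prime_two⟩
  H26.nonempty_mulAut_equiv_GL' (fun g => Subtype.ext (hV g)) hk |>.elim fun e => by
    rw [Nat.card_congr e.toEquiv, Matrix.card_GL_field, ZMod.card,
      Fin.prod_univ_eq_prod_range (fun i => 2 ^ k - 2 ^ i) k]

theorem card_aut_dvd {U : Subgroup V} (h : Nat.card U ≤ 16) : Nat.card (MulAut U) ∣ 20160 := by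
  obtain ⟨k, hk⟩ := card_pow hV U
  rw [card_aut hV hk]
  have : k ≤ 4 := (Nat.pow_le_pow_iff_right (a := 2) (by norm_num)).1 (by rw [← hk]; exact h)
  interval_cases k <;> simp [Finset.prod_range_succ]

omit hV [Finite V] in
theorem range_card {Y A : Type*} [Group Y] [Group A] [Finite A] {p k n : ℕ} [hp : Fact p.Prime]
    (hY : IsPGroup p Y) (ρ : Y →* A) (hA : Nat.card A ∣ n) (h : ¬ p ^ (k + 1) ∣ n) :
    Nat.card ρ.range ∣ p ^ k := by
  obtain ⟨m, hm⟩ := IsPGroup.iff_card.1 (hY.of_surjective _ ρ.rangeRestrict_surjective)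
  rw [hm]
  refine pow_dvd_pow _ (not_lt.1 fun hk => h ((pow_dvd_pow _ hk).trans ?_))
  rw [← hm]
  exact (card_subgroup_dvd_card _).trans hA

theorem comm3 {Y : Type*} [Group Y] (hY : IsPGroup 3 Y) {U : Subgroup V} (h : Nat.card U ≤ 16)
    (ρ : Y →* MulAut U) (a b : Y) : ρ (a * b * a⁻¹ * b⁻¹) = 1 := by
  haveI : Fact (Nat.Prime 3) := ⟨Nat.prime_three⟩
  have h1 := BG.comm_of_card_dvd_psq (range_card (k := 2) hY ρ (card_aut_dvd hV h) (by norm_num))
  have h2 : ρ a * ρ b = ρ b * ρ a :=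
    congrArg Subtype.val (h1.is_comm.comm (⟨ρ a, a, rfl⟩ : ρ.range) ⟨ρ b, b, rfl⟩)
  simp only [map_mul, map_inv, h2]
  group

omit hV [Finite V] in
theorem not_sq {p : ℕ} (hp : p.Prime) (h5 : 5 ≤ p) : ¬ p ^ (1 + 1) ∣ 20160 := fun h => by
  have h1 : p ≤ 7 := by
    have : p ∣ 2 ^ 6 * 3 ^ 2 * 5 * 7 := (dvd_pow_self p (by norm_num)).trans h
    rw [hp.dvd_mul, hp.dvd_mul, hp.dvd_mul] at this
    rcases this with ((h | h) | h) | h
    · have := Nat.le_of_dvd (by norm_num) (hp.dvd_of_dvd_pow h); omega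
    · have := Nat.le_of_dvd (by norm_num) (hp.dvd_of_dvd_pow h); omega
    · have := Nat.le_of_dvd (by norm_num) h; omega
    · exact Nat.le_of_dvd (by norm_num) h
  interval_cases p <;> first | (norm_num at h; done) | norm_num at hp

omit hV in
theorem odd_of_mem {p : ℕ} [hp : Fact p.Prime] (h2 : p ≠ 2) {P : Subgroup (MulAut V)}
    (hP : IsPGroup p P) {a : MulAut V} (ha : a ∈ P) : Odd (orderOf a) := by
  obtain ⟨k, hk⟩ := IsPGroup.iff_orderOf.1 hP ⟨a, ha⟩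
  rw [← orderOf_coe] at hk
  rw [show orderOf a = p ^ k from hk]
  exact (hp.out.odd_of_ne_two h2).pow

omit hV [Finite V] in
theorem card_sup (A B : Subgroup V) :
    Nat.card (A ⊔ B : Subgroup V) * Nat.card (A ⊓ B : Subgroup V) = Nat.card A * Nat.card B :=
  H1.card_sup_mul_card_inf le_normalizer_of_normal

omit hV in
theorem card_sup_conj {x : MulAut V} (hx : Nat.card (cm x) = 4) (g : MulAut V) :
    Nat.card (cm x ⊔ cm (g * x * g⁻¹) : Subgroup V) ≤ 16 := by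
  have h := card_sup (cm x) (cm (g * x * g⁻¹))
  rw [card_cm_conj, hx] at h
  exact Nat.le_of_dvd (by norm_num) ⟨_, h.symm⟩

/-- the case of a `3`-group -/
theorem caseA {P : Subgroup (MulAut V)} (hP : IsPGroup 3 P) {x f : MulAut V} (hx : x ∈ P)
    (hf : f ∈ P) (h4 : Nat.card (cm x) = 4) (hc : Commute f (f * x * f⁻¹ * x⁻¹)) :
    f * x * f⁻¹ = x := by
  haveI : Fact (Nat.Prime 3) := ⟨Nat.prime_three⟩
  have hx' : f * x * f⁻¹ ∈ P := P.mul_mem (P.mul_mem hf hx) (P.inv_mem hf)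
  have hU := card_sup_conj h4 f
  set U := cm x ⊔ cm (f * x * f⁻¹)
  have k1 : x ∈ K U := le_sup_left (b := cm (f * x * f⁻¹))
  have k2 : f * x * f⁻¹ ∈ K U := le_sup_right (a := cm x)
  have h1 : Commute x (f * x * f⁻¹) := by
    obtain ⟨ρ, hρ⟩ := exists_res (P ⊓ K U).subtype U fun y u hu => K_map y.2.2 hu
    let a : (P ⊓ K U : Subgroup _) := ⟨x, hx, k1⟩
    let b : (P ⊓ K U : Subgroup _) := ⟨f * x * f⁻¹, hx', k2⟩
    have h2 := comm3 hV (hP.to_le inf_le_left) hU ρ a b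
    have h3 := eq_one hV (odd_of_mem (by norm_num) hP (a * b * a⁻¹ * b⁻¹).2.1) fun w hw => by
      have := hρ (a * b * a⁻¹ * b⁻¹) ⟨w, (a * b * a⁻¹ * b⁻¹).2.2 hw⟩
      rw [h2] at this
      exact this.symm
    exact commutatorElement_eq_one_iff_commute.1 h3
  set y := f * x * f⁻¹ * x⁻¹ with hy
  have h2 : Commute x y := h1.mul_right (Commute.refl x).inv_right
  have h3 : cm y ≤ U := (K U).mul_mem k2 ((K U).inv_mem k1)
  obtain ⟨ρ, hρ⟩ := exists_res (P ⊓ centralizer {y}).subtype (cm y) fun g u hu => by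
    have h4 := map_cm g.1 y hu
    rwa [mem_centralizer_singleton_iff.1 g.2.2, mul_inv_cancel_right] at h4
  let a : (P ⊓ centralizer {y} : Subgroup _) := ⟨f, hf, mem_centralizer_singleton_iff.2 hc⟩
  let b : (P ⊓ centralizer {y} : Subgroup _) := ⟨x, hx, mem_centralizer_singleton_iff.2 h2⟩
  have h5 := comm3 hV (hP.to_le inf_le_left) ((card_le_of_le h3).trans hU) ρ a b
  refine mul_inv_eq_one.1 (eq_one hV
    (odd_of_mem (by norm_num) hP (P.mul_mem hx' (P.inv_mem hx))) fun w hw => ?_)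
  have := hρ (a * b * a⁻¹ * b⁻¹) ⟨w, hw⟩
  rw [h5] at this
  exact this.symm

section B
variable {r : ℕ} [hr : Fact r.Prime] (h5 : 5 ≤ r) {R : Subgroup (MulAut V)} (hR : IsPGroup r R)
include h5 hR

theorem small {U : Subgroup V} (hU : Nat.card U ≤ 16) {y z : MulAut V} (hy : y ∈ R) (hz : z ∈ R)
    (hyU : y ∈ K U) (hzU : z ∈ K U) (h1 : y ≠ 1) : z ∈ zpowers y ∧ y ^ r = 1 := by
  obtain ⟨ρ, hρ⟩ := exists_res (R ⊓ K U).subtype U fun y u hu => K_map y.2.2 hu
  have h2 := range_card (k := 1) (hR.to_le (inf_le_left (b := K U))) ρ (card_aut_dvd hV hU)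
    (not_sq hr.out h5)
  have h3 : Function.Injective ρ := (injective_iff_map_eq_one ρ).2 fun a ha => Subtype.ext
    (eq_one hV (odd_of_mem (by omega) hR a.2.1) fun w hw => by
      have := hρ a ⟨w, a.2.2 hw⟩
      rw [ha] at this
      exact this.symm)
  rw [← Nat.card_congr (MonoidHom.ofInjective h3).toEquiv, pow_one] at h2
  have h4 : zpowers y ≤ R ⊓ K U := zpowers_le.2 ⟨hy, hyU⟩
  have h6 : Nat.card (zpowers y) = r :=
    ((Nat.dvd_prime hr.out).1 ((card_dvd_of_le h4).trans h2)).resolve_left fun h =>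
      h1 (zpowers_eq_bot.1 (card_eq_one.1 h))
  have h7 : zpowers y = R ⊓ K U :=
    eq_of_le_of_card_ge h4 (h6.symm ▸ Nat.le_of_dvd hr.out.pos h2)
  exact ⟨h7 ▸ ⟨hz, hzU⟩, by rw [← h6, Nat.card_zpowers, pow_orderOf_eq_one]⟩

variable {x : MulAut V} (hx : x ^ 3 = 1) (h4 : Nat.card (cm x) = 4)
  (hn : ∀ g ∈ R, x * g * x⁻¹ ∈ R)
include hx h4 hn

theorem fact1 {g : MulAut V} (hg : g ∈ R) (h1 : g * x * g⁻¹ * x⁻¹ ≠ 1) :
    cm x ≤ cm (g * x * g⁻¹ * x⁻¹) ∧ Nat.card (cm (g * x * g⁻¹ * x⁻¹)) ≤ 8 := by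
  classical
  have hU := card_sup_conj h4 g
  set U := cm x ⊔ cm (g * x * g⁻¹)
  have k1 : x ∈ K U := le_sup_left (b := cm (g * x * g⁻¹))
  have k2 : g * x * g⁻¹ ∈ K U := le_sup_right (a := cm x)
  set y := g * x * g⁻¹ * x⁻¹ with hy
  have y1 : y ∈ R := by
    have := R.mul_mem hg (hn _ (R.inv_mem hg))
    rwa [← mul_assoc, ← mul_assoc] at this
  have y2 : y ∈ K U := (K U).mul_mem k2 ((K U).inv_mem k1)
  obtain ⟨z1, yr⟩ := small hV h5 hR hU y1 (hn y y1) y2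
    ((K U).mul_mem ((K U).mul_mem k1 y2) ((K U).inv_mem k1)) h1
  have hro : Odd r := hr.out.odd_of_ne_two (by omega)
  have ha : x * y * x⁻¹ ≠ y := fun h => by
    have h2 : Commute y x := (mul_inv_eq_iff_eq_mul.1 h).symm
    have h3 : (y * x) ^ 3 = 1 := by rw [hy, inv_mul_cancel_right, conj_pow, hx]; simp
    rw [h2.mul_pow, hx, mul_one] at h3
    have h6 := Nat.dvd_gcd (orderOf_dvd_of_pow_eq_one h3) (orderOf_dvd_of_pow_eq_one yr)
    rw [(Nat.coprime_primes Nat.prime_three hr.out).2 (by omega), Nat.dvd_one, orderOf_eq_one_iff] at h6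
    exact h1 h6
  have yK : y ∈ K (cm y) := le_refl (cm y)
  have z2 : x * y * x⁻¹ ∈ K (cm y) := zpowers_le.2 yK z1
  have xU : ∀ u ∈ cm y, x u ∈ cm y := fun u hu => z2 (map_cm x y hu)
  refine ⟨?_, ?_⟩
  · have hb : ∃ u ∈ cm y, x u ≠ u := by
      by_contra h
      push Not at h
      refine ha (mul_inv_eq_one.1 (eq_one hV
        (odd_of_mem (by omega) hR (R.mul_mem (hn y y1) (R.inv_mem y1))) fun w hw => ?_))
      have h2 : w ∈ cm y := (K (cm y)).mul_mem z2 ((K _).inv_mem yK) hw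
      have h3 : y⁻¹ w ∈ cm y := K_map ((K _).inv_mem yK) h2
      have h6 : x⁻¹ (y⁻¹ w) = y⁻¹ w := by
        conv_lhs => rw [← h _ h3]
        exact MulAut.inv_apply_self _ _ _
      rw [MulAut.mul_apply, MulAut.mul_apply, MulAut.mul_apply, h6, MulAut.apply_inv_self, h _ h2]
    obtain ⟨u, hu, hxu⟩ := hb
    have w1 : x u * u⁻¹ ≠ 1 := fun h => hxu (mul_inv_eq_one.1 h)
    have w2 : x u * u⁻¹ ∈ cm x ⊓ cm y := ⟨mem_cm x u, (cm y).mul_mem (xU u hu) ((cm y).inv_mem hu)⟩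
    set w := x u * u⁻¹
    have w3 : x w ≠ w := fun h => w1 (fix_eq_one hV (by decide) hx w2.1 h)
    have w4 : x w ∈ cm x ⊓ cm y := ⟨K_map (le_refl (cm x)) w2.1, xU w w2.2⟩
    have w5 : x w ≠ 1 := fun h => w1 ((MulEquiv.map_eq_one_iff x).1 h)
    have c1 : 2 < Nat.card (cm x ⊓ cm y : Subgroup V) := by
      have := Fintype.ofFinite (cm x ⊓ cm y : Subgroup V)
      rw [Nat.card_eq_fintype_card]
      exact Fintype.two_lt_card_iff.2 ⟨⟨w, w2⟩, ⟨x w, w4⟩, 1, fun h => w3 (congrArg Subtype.val h).symm,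
        fun h => w1 (congrArg Subtype.val h), fun h => w5 (congrArg Subtype.val h)⟩
    have c2 := card_dvd_of_le (inf_le_left : cm x ⊓ cm y ≤ cm x)
    rw [h4] at c2
    have c3 := Nat.le_of_dvd (by norm_num) c2
    refine inf_eq_left.1 (eq_of_le_of_card_ge inf_le_left ?_)
    rw [h4]
    generalize Nat.card (cm x ⊓ cm y : Subgroup V) = n at c1 c2 c3
    interval_cases n
    · norm_num at c2
    · rfl
  · obtain ⟨k, hk⟩ := card_pow hV (cm y)
    have c1 : 2 ^ k ≤ 2 ^ 4 := hk ▸ (card_le_of_le y2).trans hU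
    rw [Nat.pow_le_pow_iff_right (by norm_num)] at c1
    by_cases c2 : k ≤ 3
    · rw [hk]; exact Nat.pow_le_pow_right (by norm_num) c2
    obtain rfl : k = 4 := by omega
    exfalso
    have := Fintype.ofFinite (cm y)
    let f : Function.End (cm y) := fun u => ⟨y u, K_map yK u.2⟩
    have f1 : ∀ n (u : cm y), ((f ^ n) u : V) = (y ^ n) u := fun n => by
      induction n with
      | zero => intro u; rfl
      | succ n ih => intro u; rw [pow_succ, pow_succ, MulAut.mul_apply]; exact ih (f u)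
    have f2 := Equiv.Perm.card_fixedPoints_modEq (f := f) (p := r) (n := 1)
      (funext fun u => Subtype.ext (by rw [f1, pow_one, yr]; rfl))
    have f3 : Fintype.card f.fixedPoints = 1 :=
      Fintype.card_eq_one_iff.2 ⟨⟨1, Subtype.ext (map_one y)⟩, fun u => Subtype.ext (Subtype.ext
        (fix_eq_one hV hro yr u.1.2 (congrArg Subtype.val u.2)))⟩
    rw [f3, ← Nat.card_eq_fintype_card, hk] at f2
    have f4 : r ∣ 3 * 5 := (Nat.modEq_iff_dvd' (by norm_num)).1 f2.symm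
    obtain rfl : r = 5 := by
      rcases hr.out.dvd_mul.1 f4 with h | h <;> have := Nat.le_of_dvd (by norm_num) h <;> omega
    obtain ⟨i, hi⟩ := (mem_powers_iff_mem_zpowers.2 z1)
    have hi' : x * y * x⁻¹ = y ^ i := hi.symm
    have e : ∀ n, x ^ n * y * (x ^ n)⁻¹ = y ^ i ^ n := fun n => by
      induction n with
      | zero => simp
      | succ n ih =>
        rw [pow_succ i, mul_comm (i ^ n), pow_mul, ← hi', conj_pow, ← ih, pow_succ']
        group
    have e3 := e 3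
    rw [hx, one_mul, inv_one, mul_one] at e3
    have o : orderOf y = 5 := orderOf_eq_prime yr h1
    have e4 : 1 ≡ i ^ 3 [MOD 5] := by rw [← o, ← pow_eq_pow_iff_modEq, pow_one]; exact e3
    refine ha ?_
    rw [hi', ← pow_one y, ← pow_mul, one_mul, pow_eq_pow_iff_modEq, o]
    unfold Nat.ModEq at e4 ⊢
    rw [Nat.pow_mod] at e4
    have : i % 5 < 5 := Nat.mod_lt _ (by norm_num)
    generalize i % 5 = j at *
    interval_cases j <;> first | rfl | norm_num at e4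

/-- the case of a group of order prime to `6` -/
theorem caseB : ∃ U, cm x ≤ U ∧ Nat.card U ≤ 16 ∧ ∀ g ∈ R, ∀ u ∈ U, g u ∈ U := by
  by_cases h : ∀ g ∈ R, g * x * g⁻¹ * x⁻¹ = 1
  · refine ⟨cm x, le_rfl, by omega, fun g hg u hu => ?_⟩
    have := map_cm g x hu
    rwa [mul_inv_eq_one.1 (h g hg)] at this
  push Not at h
  obtain ⟨g, hg, h1⟩ := h
  obtain ⟨a1, a2⟩ := fact1 hV h5 hR hx h4 hn hg h1
  have hy : ∀ g ∈ R, g * x * g⁻¹ * x⁻¹ ∈ R := fun g hg => by
    have := R.mul_mem hg (hn _ (R.inv_mem hg))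
    rwa [← mul_assoc, ← mul_assoc] at this
  set y := g * x * g⁻¹ * x⁻¹ with hyd
  have key : ∀ k ∈ R, k * x * k⁻¹ * x⁻¹ ∈ K (cm y) := fun k hk => by
    by_cases h2 : k * x * k⁻¹ * x⁻¹ = 1
    · rw [h2]; exact one_mem _
    obtain ⟨b1, b2⟩ := fact1 hV h5 hR hx h4 hn hk h2
    set z := k * x * k⁻¹ * x⁻¹
    have c1 := card_sup (cm y) (cm z)
    have c2 : 4 ≤ Nat.card (cm y ⊓ cm z : Subgroup V) := h4 ▸ card_le_of_le (le_inf a1 b1)
    have c3 : Nat.card (cm y ⊔ cm z : Subgroup V) ≤ 16 := by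
      have := Nat.mul_le_mul a2 b2
      have := Nat.mul_le_mul_left (Nat.card (cm y ⊔ cm z : Subgroup V)) c2
      omega
    exact zpowers_le.2 (show y ∈ K (cm y) from le_refl (cm y)) (small hV h5 hR c3 (hy g hg) (hy k hk)
      (le_sup_left (b := cm z)) (le_sup_right (a := cm y)) h1).1
  refine ⟨cm y, a1, by omega, fun k hk u hu => ?_⟩
  have h2 := (K _).mul_mem (key _ (R.mul_mem hk hg)) ((K _).inv_mem (key k hk))
  refine h2 ?_
  have := map_cm k y hu
  rwa [show k * y * k⁻¹ = k * g * x * (k * g)⁻¹ * x⁻¹ * (k * x * k⁻¹ * x⁻¹)⁻¹ by rw [hyd]; group] at this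

end B

open H20 H21 BG

omit hV [Finite V] in
theorem ker_big {S : Type*} [Group S] [Finite S] (φ : S →* MulAut V) {r : ℕ} [hr : Fact r.Prime]
    {F H : Subgroup S} (hF : IsElem r 3 F H) {U : Subgroup V} [Finite U]
    (h : ∀ g ∈ F, ∀ u ∈ U, φ g u ∈ U) (hU : ¬ r ^ (1 + 1) ∣ Nat.card (MulAut U)) :
    ∃ B ≤ F, ¬ IsCyclic B ∧ ∀ b ∈ B, ∀ u ∈ U, φ b u = u := by
  obtain ⟨ρ, hρ⟩ := exists_res (φ.comp F.subtype) U fun g => h g g.2
  refine ⟨ρ.ker.map F.subtype, map_subtype_le _, fun hc => ?_, ?_⟩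
  · have h1 := (elem_cyclic_iff (elem_of_le hF.elem (map_subtype_le _))).1 hc
    rw [card_map_of_injective F.subtype_injective] at h1
    have h2 := mul_dvd_mul h1 (range_card (k := 1) hF.isPGroup ρ dvd_rfl hU)
    rw [← index_ker, card_mul_index, hF.card, ← pow_succ', Nat.pow_dvd_pow_iff_le_right hr.out.one_lt] at h2
    omega
  · rintro _ ⟨b, hb, rfl⟩ u hu
    have := hρ b ⟨u, hu⟩
    rw [show ρ b = 1 from hb] at this
    exact this.symm

theorem final {S : Type*} [Group S] [Finite S] [hS : Group.IsSolvable S] (φ : S →* MulAut V) {p : ℕ}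
    (hp : p.Prime) (hp2 : p ≠ 2) {E : Subgroup S} (hE : IsElem p 3 E ⊤) {x : S}
    (hx : IsPGroup 3 (zpowers x)) (h3 : φ x ^ 3 = 1) (h4 : Nat.card (cm (φ x)) = 4) :
    ∃ (r : ℕ) (F : Subgroup S), r.Prime ∧ r ≠ 2 ∧ IsElem r 3 F ⊤ ∧
      ∃ B ≤ F, ¬ IsCyclic B ∧ ∀ b ∈ B, ∀ u ∈ cm (φ x), φ b u = u := by
  haveI : Fact (Nat.Prime 3) := ⟨Nat.prime_three⟩
  haveI : Fact p.Prime := ⟨hp⟩
  obtain ⟨H, hH, hxH⟩ := exists_hall_ge (π := {3, p}) (M := ⊤) inferInstance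
    (isPi_of_isPGroup hx (by simp)) le_top
  have hodd : Odd (Nat.card H) := Nat.not_even_iff_odd.1 fun h => by
    rcases Hall.isPi hH 2 Nat.prime_two h.two_dvd with h | h
    · omega
    · exact hp2 h.symm
  by_cases hr : 2 < pRank 3 H
  · obtain ⟨P, hP, hxP⟩ := exists_sylowOf_ge hx hxH
    obtain ⟨F, hF, hn⟩ := p_rank_3_normal_abelem_Sylow hodd hr hP
    have x1 : x ∈ P := hxP (mem_zpowers x)
    refine ⟨3, F, Nat.prime_three, by norm_num, hF.top, ker_big φ hF (fun f hf u hu => ?_) ?_⟩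
    · have h1 : f * x * f⁻¹ * x⁻¹ ∈ F := by
        have := F.mul_mem hf ((mem_normalizer_iff.1 (hn.2 x1) _).1 (F.inv_mem hf))
        rwa [← mul_assoc, ← mul_assoc] at this
      have h2 : Commute f (f * x * f⁻¹ * x⁻¹) := (hF.le_cent h1 f hf)
      have h5 := caseA hV ((Hall.isPGroup hP).map φ) (mem_map_of_mem φ x1)
        (mem_map_of_mem φ (hF.le hf)) h4 (by simpa using h2.map φ)
      have := map_cm (φ f) _ hu
      rwa [h5] at this
    · rw [card_aut hV (k := 2) h4]; decide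
  · have hp3 : p ≠ 3 := by
      rintro rfl
      exact hr (by rw [pRank_hall hH (by simp)]; exact hE.le_pRank)
    have h5 : 5 ≤ p := hp.five_le_of_ne_two_of_ne_three hp2 hp3
    have hR := rank2_min_p_complement (p := 3) inferInstance hodd (not_lt.1 hr) (Or.inl rfl)
    have hn := piCoreOf_normalIn {3}ᶜ H
    set R := piCoreOf {3}ᶜ H
    have hRp : IsPGroup p R := isPi_singleton_iff.1 fun q hq hd =>
      (Hall.isPi hH q hq (hd.trans (card_dvd_of_le hn.1))).resolve_left (Hall.isPi hR q hq hd)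
    obtain ⟨F, hF⟩ := exists_isElem_of_le (p := p) (n := 3) (H := R) (by
      rw [pRank_hall hR hp3, pRank_hall hH (by simp)]; exact hE.le_pRank)
    obtain ⟨U, h6, h7, h8⟩ := caseB hV h5 (hRp.map φ) h3 h4 (by
      rintro _ ⟨g, hg, rfl⟩
      exact ⟨x * g * x⁻¹, (mem_normalizer_iff.1 (hn.2 (hxH (mem_zpowers x))) g).1 hg, by simp⟩)
    obtain ⟨B, h9, h10, h11⟩ := ker_big φ hF (fun g hg => h8 _ (mem_map_of_mem φ (hF.le hg)))
      fun h => not_sq hp h5 (h.trans (card_aut_dvd hV h7))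
    exact ⟨p, F, hp, hp2, hF.top, B, h9, h10, fun b hb u hu => h11 b hb u (h6 hu)⟩

omit hV in
open scoped IsMulCommutative in
theorem main {S : Type*} [Group S] [Finite S]
    [Group.IsSolvable S] (M : Subgroup S) [M.Normal] (hM : Cfsg.IsElementaryAbelian 2 M)
    (p : ℕ) (hp : p.Prime) (hp2 : p ≠ 2) (E : Subgroup S) (hE : Cfsg.IsElementaryAbelian p E)
    (hE3 : Nat.card ↥E = p ^ 3) (Q : Subgroup S) (hQc : IsCyclic ↥Q) (hQ3 : IsPGroup 3 ↥Q)
    (hQ1 : ∀ x ∈ Q, x ^ 3 ∈ Subgroup.centralizer (M : Set S)) (hQM : Nat.card ↥⁅Q, M⁆ = 4) :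
    ∃ (r : ℕ) (F : Subgroup S), r.Prime ∧ r ≠ 2 ∧ Cfsg.IsElementaryAbelian r F ∧ Nat.card ↥F = r ^ 3 ∧
      ¬ IsCyclic ↥(F ⊓ Subgroup.centralizer ((⁅Q, M⁆ : Subgroup S) : Set S)) := by
  have := hM.1
  obtain ⟨x, rfl⟩ := exists_zpowers_of_cyclic hQc
  let φ : S →* MulAut M := MulAut.conjNormal
  have e : ⁅zpowers x, M⁆ = (cm (φ x)).map M.subtype := by
    refine le_antisymm (commutator_le.2 fun q hq m hm => ⟨φ q ⟨m, hm⟩ * ⟨m, hm⟩⁻¹, ?_, rfl⟩) ?_
    · have h1 : zpowers x ≤ (K (cm (φ x))).comap φ := zpowers_le.2 (le_refl (cm (φ x)))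
      exact h1 hq (mem_cm _ _)
    · rintro _ ⟨_, ⟨v, rfl⟩, rfl⟩
      exact commutator_mem_commutator (mem_zpowers x) v.2
  obtain ⟨r, F, h1, h2, h3, B, h4, h5, h6⟩ := final (V := M) (fun v => Subtype.ext (hM.2 v v.2)) φ hp hp2
    ⟨le_top, hE, hE3⟩ hQ3 (by
      rw [← map_pow]
      ext v
      exact mul_inv_eq_iff_eq_mul.2 (hQ1 x (mem_zpowers x) v v.2).symm)
    (by rwa [e, card_map_of_injective M.subtype_injective] at hQM)
  refine ⟨r, F, h1, h2, h3.elem, h3.card, fun h => h5 (isCyclic_of_le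
    (H' := F ⊓ centralizer ((⁅zpowers x, M⁆ : Subgroup S) : Set S)) (le_inf h4 ?_))⟩
  rw [e]
  rintro b hb _ ⟨u, hu, rfl⟩
  exact (mul_inv_eq_iff_eq_mul.1 (congrArg Subtype.val (h6 b hb u hu))).symm

end Cfsg.Agent.H2.Th4
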